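import Cfsg.Agent.Gag.DihNum
import Cfsg.Agent.GW.Num

/-!
# Every proper overgroup of `C(t)` is `2`-nilpotent (`|S| ≥ 16`)

`Big.a0`: for `M ⊇ C(t)` with one class, `GDih.data` for `M` and for `G` have the same `k, a, b`, so
`|G:M| = φ(m)/φ(m')` with `φ(m) = m(m+1)/(m-1)² ∈ [210/256, 306/256]`, hence `|G:M| < 2`.

`GDih.count_two` (port of `two_data`/`count_two` in GW/Num, tools `ccl`, `ncard_pairs`, `fiber` in
GW/NumC): count pairs `(a, b)`, `a ∈ t^M`, `b ∈ v^M`, `v = x s`, by the involution of `⟨ab⟩`.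

`Big.two`: `L = M₀` of index `2` (`exists_index_two`) has one class and Sylow `⟨x², s⟩`;
`O(L ∩ C(t)) = U`, `x² s` is conjugate to `s` under `x`, so `data` for `L` (`k' = k/2`, `a = b = e₁`)
gives `2i(m-1)² = m(m+1)k²e₁²`, `k ∣ m-1`, `i = |M:C(t)| = |L:C_L(t)|`. With
`2i = 2w² + k e₁ w` (from `count_two`, `|W| = w|U₂|`, `|U| = e₂|U₂|`) the quadratic factors:
`2w(m-1) = k e₁(m+1)` (the other root is negative); for `m = 1 + kj`: `wj = e₁(1 + kj/2)`.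
`W = O(M ∩ C(v)) ≤ O(C(v))`, which has order `|U|` and meets `C(t)` in `U₂`, so `w ∣ e₂`.
`w/e₁ = k/2 + 1/j` is `3` (`k = 8`, `j = -1`), `7/2` (`j = -2`, impossible as `w`, `e₁` are odd) or
`≥ 11/3`. In case `w = 3e₁`: `e₂ = 3e₁` or `e₂ ≥ 6 e₁`. All contradict `Big.ratio`.
-/

set_option autoImplicit false
set_option linter.unusedSectionVars false
set_option linter.unusedVariables false

namespace Cfsg.Gag

open Subgroup Cfsg.Agent.FT Cfsg.GW

universe u v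

variable {G : Type u} [Group G] [Finite G] {M K S : Subgroup G} {a b g x s t u v z : G}

theorem phi_bounds {m : ℤ} {k : ℕ} {i E : ℚ} (hk : 8 ∣ k) (h : (2 * k : ℤ) ∣ m - 1) (h1 : m ≠ 1)
    (hE : 0 ≤ E) (e : 2 * i * (m - 1) ^ 2 = m * (m + 1) * E) :
    105 * E ≤ 256 * i ∧ 256 * i ≤ 153 * E := by
  obtain ⟨c, rfl⟩ := hk
  have h16 : (16 : ℤ) ∣ m - 1 := Dvd.dvd.trans ⟨c, by push_cast; ring⟩ h
  have c1 : (17 : ℚ) ≤ m ∨ (m : ℚ) ≤ -15 := by exact_mod_cast (by omega : 17 ≤ m ∨ m ≤ -15)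
  have hp : (0 : ℚ) < (m - 1) ^ 2 := by rcases c1 with c | c <;> nlinarith
  have l1 : 105 * ((m : ℚ) - 1) ^ 2 ≤ 128 * (m * (m + 1)) := by rcases c1 with c | c <;> nlinarith
  have l2 : 128 * ((m : ℚ) * (m + 1)) ≤ 153 * (m - 1) ^ 2 := by rcases c1 with c | c <;> nlinarith
  exact ⟨le_of_mul_le_mul_right (by nlinarith) hp, le_of_mul_le_mul_right (by nlinarith) hp⟩

theorem Big.a0 (h : Big S x s t) (hle : 𝓒[t] ≤ M) (h1 : OneCl M t) : M = ⊤ := by
  have hM' := h.dih.mono (h.dih.le_cent.trans hle) le_top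
  have e0 : M ⊓ 𝓒[t] = 𝓒[t] := inf_eq_right.2 hle
  obtain ⟨m, -, -, k1, k2, -, -, -, -, e1⟩ := hM'.data h.four_dvd h1 rfl rfl rfl rfl
  obtain ⟨m', -, -, k3, k4, -, -, -, -, e2⟩ := h.dih.data h.four_dvd h.one rfl rfl rfl rfl
  rw [e0, mul_assoc (_ * _) (_ ^ 2)] at e1
  rw [top_inf_eq, relIndex_top_right, mul_assoc (_ * _) (_ ^ 2), ← relIndex_mul_index hle] at e2
  have b1 := (phi_bounds h.big k1 k2 (by positivity) e1).1
  have b2 := (phi_bounds h.big k3 k4 (by positivity) e2).2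
  have hi : (0 : ℚ) < (𝓒[t] : Subgroup G).relIndex M := by exact_mod_cast relIndex_pos _ _
  by_contra hM
  have h2 : (2 : ℚ) ≤ M.index := by
    have := index_ne_zero_of_finite (H := M)
    have := mt index_eq_one.1 hM
    exact_mod_cast (by omega : 2 ≤ M.index)
  push_cast at b2
  nlinarith

theorem GDih.invol_ccl (h : GDih M S x s t) (hu : u ∈ M) (h2 : orderOf u = 2) :
    u ∈ ccl M t ∨ u ∈ ccl M s ∨ u ∈ ccl M (x * s) := by
  obtain ⟨g, hg, hle⟩ := h.syl.exists_conj_le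
    (isPElt_iff_isPGroup_zpowers.1 (isPElt_two_of_orderOf h2)) (zpowers_le.2 hu)
  have h3 := map_conj_le_iff.1 hle u (mem_zpowers u)
  rw [← conj_mem_ccl_iff hg, ← conj_mem_ccl_iff hg (t := s), ← conj_mem_ccl_iff hg (t := x * s)]
  by_cases e : g * u * g⁻¹ ∈ zpowers x
  · exact .inl (eq_of_orderOf_eq_two_of_mem_zpowers e h.mem ((orderOf_conj_eq g u).trans h2)
      h.ord ▸ self_mem_ccl)
  · obtain ⟨a, ha, e'⟩ := h.pair.exists_conj_eq h3 e
    have ha' := h.syl.le (h.pair.zpowers_le ha)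
    exact .inr (e'.imp (fun e => ⟨a, ha', e⟩) fun e => ⟨a, ha', e⟩)

theorem GDih.mem_zpowers_mul (h : GDih K S x s t) (hK : K ≤ 𝓒[t]) (ha : a ∈ K) (hb : b ∈ K)
    (ha2 : orderOf a = 2) (hb2 : orderOf b = 2) (ha' : a ≠ t) (hb' : b ≠ t) (hab : a ∉ ccl K b) :
    t ∈ zpowers (a * b) := by
  have a2 := mul_self_of_orderOf_eq_two ha2
  have b2 := mul_self_of_orderOf_eq_two hb2
  have h1 := mul_pPart_mem_ccl a2 b2 (mul_mem ha hb)
  have hd := pPart_mem_zpowers (p := 2) (a * b)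
  obtain ⟨k, hk, hle⟩ := h.syl.exists_conj_le (exists_conj_mul_pPart a2 b2).2.1
    (sup_le (zpowers_le.2 ha) (zpowers_le.2 (pPart_mem (p := 2) (mul_mem ha hb))))
  generalize pPart 2 (a * b) = d at *
  have key : ∀ u, orderOf u = 2 → u ∉ ccl K t → k * u * k⁻¹ ∉ zpowers x := fun u h2 hu e =>
    hu ((conj_mem_ccl_iff hk).1 (eq_of_orderOf_eq_two_of_mem_zpowers e h.mem
      ((orderOf_conj_eq k u).trans h2) h.ord ▸ self_mem_ccl))
  have m1 : a ∈ zpowers a ⊔ zpowers d := mem_sup_left (mem_zpowers a)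
  have h2 := h.pair.mul_mem_of_notMem (map_conj_le_iff.1 hle a m1)
    (key a ha2 fun e => ha' (eq_of_mem_ccl hK e))
    (map_conj_le_iff.1 hle _ (mul_mem m1 (mem_sup_right (mem_zpowers d))))
    (key _ ((orderOf_of_mem_ccl h1).trans hb2) fun e =>
      hb' (eq_of_mem_ccl hK (ccl_trans (ccl_symm h1) e)))
  rw [conj_mul, ← mul_assoc a, a2, one_mul] at h2
  have h3 := h.pair.mem_zpowers_of_ne_one h.syl.pgroup h.mem h.ord h2 fun e =>
    hab (by simpa [conj_eq_one_iff.1 e] using h1)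
  rw [zpowers_conj, mem_map_conj, mul_assoc, ← mem_cent1.1 (hK hk), inv_mul_cancel_left] at h3
  exact zpowers_le.2 hd h3

theorem GDih.fiber (h : GDih (M ⊓ 𝓒[z]) S x s z) (ht : t ∈ M) (hv : v ∈ M) (ht2 : orderOf t = 2)
    (hv2 : orderOf v = 2) (htv : t ∉ ccl M v) (h1 : s ∈ ccl M t) (h2 : x * s ∈ ccl M v) :
    {p ∈ ccl M t ×ˢ ccl M v | z ∈ zpowers (p.1 * p.2)} =
      ccl (M ⊓ 𝓒[z]) s ×ˢ ccl (M ⊓ 𝓒[z]) (x * s) := by
  have dis : ∀ a, a ∈ ccl M t → a ∉ ccl M v := fun a e e' => htv (ccl_trans (ccl_symm e) e')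
  ext ⟨a, b⟩
  constructor
  · rintro ⟨⟨ha, hb⟩, hz⟩
    have a2 := (orderOf_of_mem_ccl ha).trans ht2
    have b2 := (orderOf_of_mem_ccl hb).trans hv2
    have a2' := mul_self_of_orderOf_eq_two a2
    have b2' := mul_self_of_orderOf_eq_two b2
    obtain ⟨c1, c2⟩ := mem_centralizer_of_mem_zpowers_mul a2' b2' h.ord hz
    have key : ∀ w : G, orderOf w = 2 → w ∈ 𝓒[z] → z ∉ zpowers (z * w) := fun w w2 c e => by
      have h3 : z * w * (z * w) = 1 := by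
        rw [mul_assoc, ← mul_assoc w, mem_cent1.1 c, mul_assoc, mul_self_of_orderOf_eq_two w2,
          mul_one, mul_self_of_orderOf_eq_two h.ord]
      by_cases h4 : z * w = 1
      · rw [h4, zpowers_one_eq_bot, mem_bot] at e
        simpa [e] using h.ord
      · rcases eq_one_or_eq_of_mem_zpowers_of_orderOf_two (orderOf_eq_two_of_mul_self h3 h4) e
          with e | e
        · simpa [e] using h.ord
        · simp [left_eq_mul.1 e] at w2
    refine ⟨((h.invol_ccl ⟨mem_of_mem_ccl ht ha, c1⟩ a2).resolve_left fun e => ?_).resolve_right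
      fun e => dis a ha (ccl_trans (ccl_mono inf_le_left e) h2),
      ((h.invol_ccl ⟨mem_of_mem_ccl hv hb, c2⟩ b2).resolve_left fun e => ?_).resolve_left
      fun e => dis b (ccl_trans (ccl_mono inf_le_left e) h1) hb⟩
    · exact key b b2 c2 (eq_of_mem_ccl inf_le_right e ▸ hz)
    · exact key a a2 c1 (mem_cent1.1 c1 ▸ eq_of_mem_ccl inf_le_right e ▸ hz)
  · rintro ⟨ha, hb⟩
    have ha' := ccl_trans (ccl_mono inf_le_left ha) h1
    have hb' := ccl_trans (ccl_mono inf_le_left hb) h2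
    refine ⟨⟨ha', hb'⟩, h.mem_zpowers_mul inf_le_right (mem_of_mem_ccl (h.syl.le h.pair.mem_τ) ha)
      (mem_of_mem_ccl (h.syl.le h.swap.pair.mem_τ) hb) ((orderOf_of_mem_ccl ha').trans ht2)
      ((orderOf_of_mem_ccl hb').trans hv2) (fun e => h.isFour.ne ?_) (fun e => h.swap.isFour.ne ?_)
      fun e => dis a ha' (ccl_trans (ccl_mono inf_le_left e) hb')⟩
    · exact (eq_of_mem_ccl inf_le_right (e ▸ ccl_symm ha)).symm
    · exact (eq_of_mem_ccl inf_le_right (e ▸ ccl_symm hb)).symm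

/-- the centralizer of an outer involution -/
theorem GDih.outer (h : GDih M S x s t) (h2 : ∀ g ∈ M, g * t * g⁻¹ ≠ s) :
    DihOf (M ⊓ 𝓒[s]) (four s t) s t s := by
  have h4 := h.isFour.symm
  have hle : four s t ≤ M ⊓ 𝓒[s] := four_le_iff.2
    ⟨⟨h.syl.le h.s_mem, mem_cent1.2 rfl⟩, h.syl.le h.t_mem', mem_cent1.2 h.isFour.comm⟩
  refine ⟨?_, h4.dihPair, h4.ord_left, .inl rfl⟩
  obtain ⟨P, hP⟩ := exists_sylow 2 (M ⊓ 𝓒[s] : Subgroup G)
  refine hP.of_card_le h4.pgroup hle ?_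
  have hs : s ∈ P := zpowers_le.1 (hP.ge_of_le_norm' (isPElt_iff_isPGroup_zpowers.1
    (isPElt_two_of_orderOf h4.ord_left)) (zpowers_le.2 (hle (left_mem_four s t)))
    ((hP.le.trans inf_le_right).trans (cent1_le_norm_zpowers s)))
  obtain ⟨g, hg, hgP⟩ := h.syl.exists_conj_le hP.pgroup (hP.le.trans inf_le_left)
  have h5 : g * s * g⁻¹ ∉ zpowers x := fun e => h2 g⁻¹ (inv_mem hg) (by
    rw [← h.eq_t e ((orderOf_conj_eq g s).trans h4.ord_left)]; group)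
  have h' := h.of_notMem (map_conj_le_iff.1 hgP s hs) h5
  rw [h4.card, ← h'.isFour.card, ← h'.cent_s, ← card_map_conj (g := g)]
  refine card_le_of_le (le_inf hgP ?_)
  rw [centralizer_singleton_conj]
  exact map_mono (hP.le.trans inf_le_right)

theorem GDih.count_two (h : GDih M S x s t) (h4 : 4 ∣ orderOf x) (h1 : ∃ g ∈ M, g * t * g⁻¹ = s)
    (h2 : ∀ g ∈ M, g * t * g⁻¹ ≠ x * s) :
    4 * (𝓒[t] : Subgroup G).relIndex M * Nat.card 𝐎(M ⊓ 𝓒[t]) =
      4 * (𝓒[t] : Subgroup G).relIndex 𝐎(M ⊓ 𝓒[x * s]) ^ 2 * Nat.card 𝐎(M ⊓ 𝓒[t]) +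
        2 * orderOf x * (𝓒[s] : Subgroup G).relIndex 𝐎(M ⊓ 𝓒[t]) *
          (𝓒[x * s] : Subgroup G).relIndex 𝐎(M ⊓ 𝓒[t]) * Nat.card 𝐎(M ⊓ 𝓒[x * s]) := by
  have h' := h.swap
  have hK := h'.outer h2
  have ht := h.syl.le h.t_mem'
  have hv := h.syl.le h'.s_mem
  have v2 := h'.isFour.ord_right
  have htv : t ∉ ccl M (x * s) := fun e => by
    obtain ⟨g, hg, e⟩ := ccl_symm e
    exact h2 g hg e
  have hall : ∀ u ∈ M, orderOf u = 2 → u ∈ ccl M t ∨ u ∈ ccl M (x * s) := fun u hu u2 =>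
    (h.invol_ccl hu u2).elim .inl fun e => e.imp_left fun e => ccl_trans e h1
  have e0 := ncard_pairs ht hv h.ord v2 htv hall
  have e1 := h.four_mul_relIndex
  have e2 := h'.four_mul_relIndex
  have e3 := hK.four_mul_relIndex
  have e4 := card_inf_mul_relIndex 𝓒[t] M
  have e5 := card_inf_mul_relIndex 𝓒[x * s] M
  have e6 := hK.sdprod.card
  obtain ⟨y, hy, -, -, hy'⟩ := h.exists_x0 h4
  rw [inf_assoc, inf_idem, h'.isFour.symm.card] at e3 e6
  rw [h.card] at e1 e2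
  rw [inf_comm, ← h.sdprod.card, h.card] at e4
  rw [inf_comm, ← e6] at e5
  rw [h.cent.fiber ht hv h.ord v2 htv h1 self_mem_ccl, hK.fiber ht hv h.ord v2 htv self_mem_ccl
    ⟨y, h.syl.le (h.pair.zpowers_le hy), hy'.trans h'.isFour.comm⟩, Set.ncard_prod,
    Set.ncard_prod] at e0
  simp only [ncard_ccl] at e0
  rw [relIndex_cent_mul inf_le_right] at e0
  have hi := relIndex_pos (𝓒[t] : Subgroup G) M
  have hk := orderOf_pos x
  generalize (𝓒[t] : Subgroup G).relIndex M = i at *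
  generalize (𝓒[x * s] : Subgroup G).relIndex M = o at *
  generalize (𝓒[t] : Subgroup G).relIndex 𝐎(M ⊓ 𝓒[x * s]) = w at *
  generalize Nat.card 𝐎(M ⊓ 𝓒[x * s]) = W at *
  generalize Nat.card 𝐎(M ⊓ 𝓒[t]) = U at *
  generalize (𝓒[s] : Subgroup G).relIndex 𝐎(M ⊓ 𝓒[t]) = a at *
  generalize (𝓒[x * s] : Subgroup G).relIndex 𝐎(M ⊓ 𝓒[t]) = b at *
  generalize (𝓒[s] : Subgroup G).relIndex (M ⊓ 𝓒[t]) = A at *
  generalize (𝓒[x * s] : Subgroup G).relIndex (M ⊓ 𝓒[t]) = B at *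
  generalize orderOf x = k at *
  obtain rfl : (𝓒[t] : Subgroup G).relIndex (M ⊓ 𝓒[x * s]) = w := by omega
  generalize (𝓒[t] : Subgroup G).relIndex (M ⊓ 𝓒[x * s]) = w at *
  have e8 : W * 4 * o = U * (2 * k) * i := e5.trans e4.symm
  refine Nat.eq_of_mul_eq_mul_left (Nat.mul_pos (Nat.mul_pos two_pos hk) hi) ?_
  zify at e0 e1 e2 e8 ⊢
  linear_combination 16 * W * e0 - 4 * (i - w ^ 2) * e8 + 4 * i * W * B * e1 +
    2 * k * a * i * W * e2

theorem two_arith' {k i w a b : ℕ} {m : ℤ} (hk : 8 ∣ k) (k0 : 0 < k) (ow : Odd w) (oa : Odd a)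
    (hm : (k : ℤ) ∣ m - 1) (h1 : m ≠ 1) (e1 : 2 * i = 2 * w ^ 2 + k * a * w)
    (e2 : 2 * (i : ℚ) * (m - 1) ^ 2 = m * (m + 1) * k ^ 2 * a ^ 2) (hw : w ∣ b) (b0 : 0 < b)
    (r1 : 3 * b < 11 * a) (r2 : b ≠ 3 * a) : False := by
  have e3 : 2 * (i : ℤ) * (m - 1) ^ 2 = m * (m + 1) * k ^ 2 * a ^ 2 := by exact_mod_cast e2
  have e4 : (2 * w * (m - 1) - (m + 1) * k * a) * (w * (m - 1) + m * k * a) = 0 := by
    zify at e1
    linear_combination e3 - (m - 1) ^ 2 * e1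
  obtain ⟨j, hj⟩ := hm
  obtain rfl : m = 1 + k * j := by linarith
  have j0 : j ≠ 0 := fun e => h1 (by simp [e])
  have k8 : (8 : ℤ) ≤ k := by exact_mod_cast Nat.le_of_dvd k0 hk
  have pw : (0 : ℤ) < w := by exact_mod_cast ow.pos
  have pa : (0 : ℤ) < a := by exact_mod_cast oa.pos
  have wb := Nat.le_of_dvd b0 hw
  have r3 : 3 * (w : ℤ) < 11 * a := by exact_mod_cast (by omega : 3 * w < 11 * a)
  rcases mul_eq_zero.1 e4 with e | e
  · have e5 : 2 * (w : ℤ) * j = (2 + k * j) * a :=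
      mul_left_cancel₀ (show (k : ℤ) ≠ 0 by omega) (by linear_combination e)
    rcases lt_or_gt_of_ne j0 with c | c
    · have ja : j * a ≤ -a := by nlinarith
      rcases (by omega : k = 8 ∨ 16 ≤ k) with rfl | c'
      · push_cast at e5
        rcases (by omega : j = -1 ∨ j = -2 ∨ j ≤ -3) with rfl | rfl | c''
        · obtain rfl : w = 3 * a := by omega
          obtain ⟨c, rfl⟩ := hw
          have := oa.pos
          rcases (by omega : c = 0 ∨ c = 1 ∨ 2 ≤ c) with rfl | rfl | c2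
          · omega
          · omega
          · nlinarith
        · obtain ⟨n, hn⟩ := oa
          omega
        · nlinarith
      · have : (16 : ℤ) ≤ k := by exact_mod_cast c'
        nlinarith
    · nlinarith [mul_pos c pa]
  · have e5 : (w : ℤ) * j + (1 + k * j) * a = 0 :=
      mul_left_cancel₀ (show (k : ℤ) ≠ 0 by omega) (by linear_combination e)
    rcases lt_or_gt_of_ne j0 with c | c
    · nlinarith [mul_pos pw (neg_pos.2 c), mul_pos pa (neg_pos.2 c)]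
    · nlinarith [mul_pos pw c, mul_pos pa c]

theorem Big.two (h : Big S x s t) (hle : 𝓒[t] ≤ M) (h1 : ∃ g ∈ M, g * t * g⁻¹ = s)
    (h2 : ∀ g ∈ M, g * t * g⁻¹ ≠ x * s) : False := by
  have hM' := h.dih.mono (h.dih.le_cent.trans hle) le_top
  have e0 : M ⊓ 𝓒[t] = 𝓒[t] := inf_eq_right.2 hle
  have core : ∀ X : Subgroup G, X ≤ 𝓒[t] → Odd (Nat.card X) → X ≤ 𝐎(𝓒[t]) := fun X hX ho =>
    e0 ▸ hM'.le_core (e0.symm ▸ hX) ho
  have c1 := hM'.count_two h.four_dvd h1 h2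
  rw [e0] at c1
  obtain ⟨j, hj⟩ : Nat.card 𝐎(M ⊓ 𝓒[x * s]) ∣ Nat.card 𝐎(𝓒[t]) := by
    obtain ⟨g, -, e⟩ := h.one _ (mem_top _) h.dih.swap.isFour.ord_right
    have := core (𝐎(M ⊓ 𝓒[x * s]) :^ g⁻¹) (by
      rw [conj_le_iff, inv_inv, ← centralizer_singleton_conj, e]
      exact (piCoreOf_le _).trans inf_le_right) (by rw [card_map_conj]; exact odd_core _)
    simpa only [card_map_conj] using card_dvd_of_le this
  have c3 := card_inf_mul_relIndex 𝓒[t] 𝐎(M ⊓ 𝓒[x * s])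
  have c4 := card_inf_mul_relIndex 𝓒[x * s] 𝐎(𝓒[t])
  have c5 : 𝓒[t] ⊓ 𝐎(M ⊓ 𝓒[x * s]) = 𝓒[x * s] ⊓ 𝐎(𝓒[t]) := by
    have := (hM'.swap.outer h2).le_core (X := 𝓒[x * s] ⊓ 𝐎(𝓒[t])) (le_inf (le_inf
      (inf_le_right.trans ((piCoreOf_le _).trans hle)) inf_le_left) inf_le_left)
      ((odd_core _).of_dvd_nat (card_dvd_of_le inf_le_right))
    rw [inf_assoc, inf_idem] at this
    exact le_antisymm (le_inf (inf_le_right.trans ((piCoreOf_le _).trans inf_le_right))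
      (core _ inf_le_left ((odd_core _).of_dvd_nat (card_dvd_of_le inf_le_right))))
      (le_inf (inf_le_right.trans (piCoreOf_le _)) this)
  obtain ⟨M₀, m1, m2, h₀⟩ := hM'.exists_index_two h.four_dvd h2
  have m3 : M₀ ⊴ M := haveI := normal_of_index_eq_two m2; .of_normal_subgroupOf m1
  have m4 : ∀ g ∈ M, g * g ∈ M₀ := fun g hg => mul_self_mem_of_index_two m2 ⟨g, hg⟩
  have m5 : 𝐎(M₀ ⊓ 𝓒[t]) = 𝐎(𝓒[t]) := le_antisymm (core _ ((piCoreOf_le _).trans inf_le_right)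
    (odd_core _)) (h₀.le_core (le_inf (le_of_coprime_relIndex ((piCoreOf_le _).trans hle) m3.2
      (by rw [m2]; exact Nat.coprime_two_right.2 (odd_core _))) (piCoreOf_le _)) (odd_core _))
  have ox : orderOf x = 2 * orderOf (x * x) := by
    obtain ⟨c, hc⟩ := h.big
    rw [← pow_two, orderOf_pow' x two_ne_zero, hc, show 8 * c = 2 * (4 * c) by ring,
      Nat.gcd_mul_right_left, Nat.mul_div_cancel_left _ two_pos]
  have m6 : (𝓒[t] : Subgroup G).relIndex M₀ = (𝓒[t] : Subgroup G).relIndex M := by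
    have a1 := card_inf_mul_relIndex 𝓒[t] M₀
    have a2 := card_mul_relIndex hle
    have a3 := card_mul_relIndex m1
    rw [inf_comm, ← h₀.sdprod.card, m5, h₀.card] at a1
    rw [← h.dih.sdprod_top.card, h.dih.card, ← a3, m2, ← a1, ox] at a2
    exact Nat.eq_of_mul_eq_mul_left (Nat.mul_pos (Nat.card_pos (α := 𝐎(𝓒[t])))
      (Nat.mul_pos (by norm_num : 0 < 4) (orderOf_pos (x * x)))) (by linarith)
  have cs : x * s * x⁻¹ = x * x * s := by
    have := h.dih.pair.τ_conj (inv_mem (mem_zpowers x))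
    rw [inv_inv] at this
    exact (mul_assoc _ _ _).trans ((congrArg (x * ·) (mul_inv_eq_iff_eq_mul.1 this)).trans
      (mul_assoc _ _ _).symm)
  have xM := hM'.syl.le hM'.x_mem
  have one : OneCl M₀ t := by
    obtain ⟨ρ, hρ, e1, e2⟩ := hM'.exists_rho h1
    have r3 : ρ * ρ * (ρ * ρ) * t * (ρ * ρ * (ρ * ρ))⁻¹ = s := by
      have e3 : ρ * (t * s) * ρ⁻¹ = t := by
        rw [← conj_mul, e1, e2, ← mul_assoc, ← h.dih.isFour.comm.eq, mul_assoc, h.dih.isFour.ss,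
          mul_one]
      calc _ = ρ * (ρ * (ρ * (ρ * t * ρ⁻¹) * ρ⁻¹) * ρ⁻¹) * ρ⁻¹ := by group
        _ = s := by rw [e1, e2, e3, e1]
    have r4 := mul_mem (m4 ρ hρ) (m4 ρ hρ)
    refine h₀.oneCl ⟨_, r4, r3⟩ ⟨_, m3.conj_mem xM r4, ?_⟩
    have : x⁻¹ * t * x = t := by
      rw [mul_assoc, ← mem_cent1.1 (h.dih.le_cent h.dih.x_mem), inv_mul_cancel_left]
    rw [← cs, ← r3]
    nth_rw 2 [← this]
    group
  have m7 : (𝓒[x * x * s] : Subgroup G).relIndex 𝐎(𝓒[t]) =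
      (𝓒[s] : Subgroup G).relIndex 𝐎(𝓒[t]) := by
    rw [← cs, centralizer_singleton_conj]
    nth_rw 1 [← conj_eq_of_mem_norm ((piCoreOf_normalOf _ _).2 (h.dih.le_cent h.dih.x_mem))]
    exact relIndex_map_map_of_injective _ _ (MulAut.conj x).injective
  have h4 : 4 ∣ orderOf (x * x) := by
    have := h.big
    omega
  obtain ⟨m, -, -, k1, k2, -, -, -, -, e2⟩ := h₀.data h4 one rfl m6 (congrArg _ m5)
    ((congrArg _ m5).trans m7)
  obtain ⟨r1, r2⟩ := h.ratio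
  have pB : 0 < Nat.card (𝓒[x * s] ⊓ 𝐎(𝓒[t]) : Subgroup G) := Nat.card_pos
  have pW : 0 < Nat.card 𝐎(M ⊓ 𝓒[x * s]) := Nat.card_pos
  have pb := relIndex_pos (𝓒[x * s] : Subgroup G) 𝐎(𝓒[t])
  rw [c5] at c3
  refine two_arith' (i := (𝓒[t] : Subgroup G).relIndex M) (m := m) h.big (orderOf_pos x)
    (odd_core_relIndex 𝓒[t] (M ⊓ 𝓒[x * s])) (odd_core_relIndex 𝓒[s] 𝓒[t])
    (by rw [ox]; exact_mod_cast k1) k2 ?_ (by rw [e2, ox]; push_cast; ring)
    ⟨j, Nat.eq_of_mul_eq_mul_left pB (by rw [c4, hj, ← c3]; ring)⟩ pb r1 r2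
  rw [← c3, ← c4] at c1
  exact Nat.eq_of_mul_eq_mul_left (Nat.mul_pos (Nat.mul_pos two_pos pB) pb) (by linarith)

theorem Big.caseA (h : Big S x s t) (hM : M ≠ ⊤) (hle : 𝓒[t] ≤ M) : HasNormalPComplement 2 M := by
  have hd := h.dih.mono (h.dih.le_cent.trans hle) le_top
  by_cases h1 : ∃ g ∈ M, g * t * g⁻¹ = s
  · by_cases h2 : ∃ g ∈ M, g * t * g⁻¹ = x * s
    · exact (hM (h.a0 hle (hd.oneCl h1 h2))).elim
    · exact (h.two hle h1 fun g hg e => h2 ⟨g, hg, e⟩).elim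
  · by_cases h2 : ∃ g ∈ M, g * t * g⁻¹ = x * s
    · refine (h.swap.two hle h2 fun g hg e => h1 ⟨x⁻¹ * g, mul_mem (inv_mem (hd.syl.le hd.x_mem)) hg,
        ?_⟩).elim
      have e2 : s * x⁻¹ = x * s := by
        have := h.dih.pair.conj_eq
        calc s * x⁻¹ = (s * x * s⁻¹)⁻¹ * s := by group
          _ = x * s := by rw [this, inv_inv]
      calc x⁻¹ * g * t * (x⁻¹ * g)⁻¹ = x⁻¹ * (g * t * g⁻¹) * x := by group
        _ = x * s * x := by rw [e]; group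
        _ = s := by rw [← e2]; group
    · exact hd.npc_of_not_fused (fun g hg e => h1 ⟨g, hg, e⟩) fun g hg e => h2 ⟨g, hg, e⟩

end Cfsg.Gag
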