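import Cfsg.Agent.GW.Defs
import Cfsg.Agent.Grp.FreeCyc

/-! # Gagola's theorem (S4841): definitions -/

set_option autoImplicit false

namespace Cfsg.Gag

open Subgroup MulAction Cfsg.Agent.FT Cfsg.GW

universe u v

section
variable (p : ℕ) (H : Type u) (V : Type v) [Group H] [AddCommGroup V] [DistribMulAction H V]

/-- the `p'`-elements act without nonzero fixed vectors -/
def Fpf : Prop := ∀ g : H, (orderOf g).Coprime p → g ≠ 1 → ∀ v : V, g • v = v → v = 0

/-- every nonzero vector has a Sylow `p`-subgroup as its stabiliser -/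
def Syl : Prop := ∀ v : V, v ≠ 0 → IsPGroup p (stabilizer H v) ∧ ¬ p ∣ (stabilizer H v).index

/-- a faithful action, transitive on the nonzero vectors, with `p`-groups as stabilisers -/
structure Top : Prop where
  nontriv : Nontrivial V
  faith : ∀ g : H, (∀ v : V, g • v = v) → g = 1
  pgrp : ∀ v : V, v ≠ 0 → IsPGroup p (stabilizer H v)
  trans : ∀ v w : V, v ≠ 0 → w ≠ 0 → ∃ g : H, g • v = w

/-- the fixed vectors of a subgroup -/
def fixV (K : Subgroup H) : AddSubgroup V where
  carrier := {v | ∀ k ∈ K, k • v = v}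
  add_mem' := fun {a b} ha hb k hk => by rw [smul_add, ha k hk, hb k hk]
  zero_mem' := fun k _ => smul_zero k
  neg_mem' := fun {a} ha k hk => by rw [smul_neg, ha k hk]

end

/-- `π : E → X` is the quotient of the perfect group `E` by its unique involution `z`, and `X` is
simple. -/
structure Cov {E : Type u} {X : Type v} [Group E] [Group X] (π : E →* X) (z : E) : Prop where
  surj : Function.Surjective π
  ker : π.ker = zpowers z
  ord : orderOf z = 2
  uniq : ∀ u : E, orderOf u = 2 → u = z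
  perf : commutator E = ⊤
  simple : IsSimpleGroup X

/-- The class of groups: odd Sylow subgroups away from `p` are cyclic and subgroups of order `r r'`
(`r, r'` primes different from `2` and `p`) are abelian. -/
structure Cp (p : ℕ) (X : Type u) [Group X] : Prop where
  cyc : ∀ (r : ℕ) (R : Subgroup X), r.Prime → r ≠ 2 → r ≠ p → IsPGroup r R → IsCyclic R
  pq : ∀ a b : X, (orderOf a).Prime → (orderOf b).Prime → orderOf a ≠ 2 → orderOf a ≠ p →
    orderOf b ≠ 2 → orderOf b ≠ p → a * b * a⁻¹ ∈ zpowers b → Commute a b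

/-- `S = ⟨x, s⟩` is a dihedral Sylow `2`-subgroup of `M` (of any order `≥ 4`), `t` the involution
of `⟨x⟩`. -/
structure GDih {G : Type u} [Group G] (M S : Subgroup G) (x s t : G) : Prop where
  syl : IsSylowOf 2 S M
  pair : IsDihPair S x s
  ord : orderOf t = 2
  mem : t ∈ zpowers x

/-- A nonabelian simple group with a dihedral Sylow `2`-subgroup of order at least `16`. -/
structure Big {G : Type u} [Group G] (S : Subgroup G) (x s t : G) : Prop where
  simple : IsSimpleGroup G
  nonab : ¬ IsMulCommutative G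
  dih : GDih ⊤ S x s t
  big : 8 ∣ orderOf x

/-- the conclusion of Gagola's theorem for `H = G / O_p(G)` -/
def Concl (p : ℕ) (H : Type u) [Group H] : Prop :=
  (∃ (F : Type) (_ : Field F) (_ : Fintype F), (∃ a : ℕ, Fintype.card F = p ^ a) ∧
      2 < Fintype.card F ∧ ∃ S : Subgroup H, S.Normal ∧
        Nonempty (S ≃* Matrix.SpecialLinearGroup (Fin 2) F) ∧ (∃ k : ℕ, S.index = p ^ k) ∧
        (∃ h : H, S ⊔ Subgroup.zpowers h = ⊤) ∧
        Subgroup.centralizer (S : Set H) = (Subgroup.center S).map S.subtype) ∨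
    (p = 3 ∧ ∃ S : Subgroup H, S.Normal ∧ S.index = 2 ∧
        Nonempty (S ≃* Matrix.SpecialLinearGroup (Fin 2) (ZMod 5)) ∧
        Subgroup.centralizer (S : Set H) = (Subgroup.center S).map S.subtype ∧
        ∀ K : Subgroup H, ¬ Subgroup.IsComplement' S K) ∨
    (p = 3 ∧ Nonempty (H ≃* Matrix.SpecialLinearGroup (Fin 2) (ZMod 13))) ∨
    (p = 11 ∧ Nonempty (H ≃* Matrix.SpecialLinearGroup (Fin 2) (ZMod 5))) ∨
    (p = 29 ∧ Nonempty (H ≃* Matrix.SpecialLinearGroup (Fin 2) (ZMod 5) × Multiplicative (ZMod 7))) ∨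
    (p = 59 ∧ Nonempty (H ≃* Matrix.SpecialLinearGroup (Fin 2) (ZMod 5) × Multiplicative (ZMod 29)))

theorem mem_fixV {H : Type u} {V : Type v} [Group H] [AddCommGroup V] [DistribMulAction H V]
    {K : Subgroup H} {v : V} : v ∈ fixV H V K ↔ ∀ k ∈ K, k • v = v := Iff.rfl

end Cfsg.Gag

set_option linter.all false in
theorem Cfsg.Rz.Gag_Defs_0 : True := by
  have := @_root_.Cfsg.Gag.GDih.mk.congr_simp.{0}
  have := @_root_.Cfsg.Gag.Big.mk.congr_simp.{0}
  have := @_root_.Cfsg.Gag.Cp.mk.congr_simp.{0}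
  have := @_root_.Cfsg.Gag.Concl.eq_def.{0}
  have := @_root_.Cfsg.Gag.Concl.eq_1.{0}
  have := @_root_.Cfsg.Gag.Concl.fun_cases
  have := @_root_.Cfsg.Gag.Syl.eq_def.{0, 0}
  have := @_root_.Cfsg.Gag.Syl.eq_1.{0, 0}
  have := @_root_.Cfsg.Gag.Syl.fun_cases
  have := @_root_.Cfsg.Gag.fixV.eq_def.{0, 0}
  have := @_root_.Cfsg.Gag.fixV.eq_1.{0, 0}
  have := @_root_.Cfsg.Gag.fixV.fun_cases
  have := @_root_.Cfsg.Gag.Fpf.eq_def.{0, 0}
  have := @_root_.Cfsg.Gag.Fpf.eq_1.{0, 0}
  have := @_root_.Cfsg.Gag.Fpf.fun_cases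
  have := @_root_.Cfsg.Gag.Cov.mk.congr_simp.{0, 0}
  have := @_root_.Cfsg.Gag.Top.mk.congr_simp.{0, 0}
  trivial
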