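import Cfsg.Agent.Blk.BrSuz
import Cfsg.Agent.Grp.SmallTwo

/-!
# `2`-groups with a unique involution

If `x` is an element of maximal order, every element outside `⟨x⟩` inverts `x` and has square `z`.
-/

set_option autoImplicit false
set_option linter.unusedSectionVars false

namespace Cfsg.Gag

open Subgroup

universe u

variable {G : Type u} [Group G] [Finite G] {P : Subgroup G} {x z : G}

theorem pow_four_eq {M : Type*} [Monoid M] (a : M) : a ^ 4 = a * a * (a * a) := by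
  rw [show 4 = 2 + 2 from rfl, pow_add, sq]

/-- `P` is a `2`-group whose only possible involution is `z`, `x ∈ P` has maximal order. -/
structure UInv (P : Subgroup G) (x z : G) : Prop where
  two : IsPGroup 2 P
  uniq : ∀ v ∈ P, v * v = 1 → v = 1 ∨ v = z
  mem : x ∈ P
  max : ∀ a ∈ P, orderOf a ≤ orderOf x

theorem exists_uinv (hP : IsPGroup 2 P) (hu : ∀ v ∈ P, v * v = 1 → v = 1 ∨ v = z) :
    ∃ x, UInv P x z := by
  obtain ⟨x, hx, hm⟩ := Set.exists_max_image (P : Set G) orderOf (Set.toFinite _) ⟨1, P.one_mem⟩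
  exact ⟨x, hP, hu, hx, hm⟩

namespace UInv

variable (h : UInv P x z)
include h

theorem mono {Q : Subgroup G} (hQ : Q ≤ P) (hx : x ∈ Q) : UInv Q x z :=
  ⟨h.two.to_le hQ, fun v hv => h.uniq v (hQ hv), hx, fun a ha => h.max a (hQ ha)⟩

theorem mem_of_sq {g : G} (hg : g ∈ P) (h2 : g * g = 1) : g ∈ zpowers x := by
  by_cases h1 : g = 1
  · exact h1 ▸ one_mem _
  have hx1 : x ≠ 1 := by
    rintro rfl
    have := h.max g hg
    have h0 := orderOf_pos g
    rw [orderOf_one] at this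
    exact h1 (orderOf_eq_one_iff.1 (le_antisymm this h0))
  obtain ⟨j, hj, hj2⟩ := exists_mem_zpowers_orderOf_two (g := x)
    (not_not.1 fun e => hx1 ((isPElt_of_mem h.two h.mem).eq_one_of_isPRegular e))
  have e1 := (h.uniq j (zpowers_le.2 h.mem hj) (BrSuz.mul_self_of_two hj2)).resolve_left
    (BrSuz.ne_one_of_two hj2)
  rw [(h.uniq g hg h2).resolve_left h1, ← e1]
  exact hj

theorem sq_ne_one {g : G} (hg : g ∈ P) (hn : g ∉ zpowers x) : x * x ≠ 1 := fun e => by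
  refine hn (h.mem_of_sq hg ?_)
  have h1 : orderOf x ≤ 2 := Nat.le_of_dvd two_pos (orderOf_dvd_of_pow_eq_one (by rwa [sq]))
  obtain ⟨k, hk⟩ := isPElt_of_mem h.two hg
  have h2 := (h.max g hg).trans h1
  rw [← sq, ← orderOf_dvd_iff_pow_eq_one, hk]
  rw [hk] at h2
  have : k ≤ 1 := (Nat.pow_le_pow_iff_right (a := 2) one_lt_two).1 (by simpa using h2)
  simpa using pow_dvd_pow 2 this

theorem mem_of_comm {g : G} (hg : g ∈ P) (hc : g * x = x * g) : g ∈ zpowers x := by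
  by_contra hn
  have h' := h.mono (Q := P ⊓ centralizer {x}) inf_le_left
    ⟨h.mem, mem_centralizer_singleton_iff.2 rfl⟩
  obtain ⟨y, hy, -, e⟩ := BrSuz.exists_inv h'.two h'.uniq h'.mem h'.max
    fun hle => hn (hle ⟨hg, mem_centralizer_singleton_iff.2 hc⟩)
  rw [mem_centralizer_singleton_iff.1 hy.2, mul_inv_cancel_right] at e
  exact h.sq_ne_one hg hn (mul_eq_one_iff_eq_inv.2 e)

theorem inv_of_sq_mem {g : G} (hg : g ∈ P) (hN : g ∈ normalizer (zpowers x : Set G))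
    (hn : g ∉ zpowers x) (h2 : g * g ∈ zpowers x) : g * x * g⁻¹ = x⁻¹ := by
  have h' := h.mono (Q := zpowers g ⊔ zpowers x) (sup_le (zpowers_le.2 hg) (zpowers_le.2 h.mem))
    (mem_sup_right (mem_zpowers x))
  obtain ⟨y, hy, hy', e⟩ := BrSuz.exists_inv h'.two h'.uniq h'.mem h'.max
    fun hle => hn (hle (mem_sup_left (mem_zpowers g)))
  obtain ⟨i, hi⟩ := ((mem_zpowers_sup_iff h2 hN).1 hy).resolve_left hy'
  have hi' : x ^ i = g * y := hi
  have e1 : g = x ^ i * y⁻¹ := by rw [hi']; group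
  have e2 : y⁻¹ * x * y = x⁻¹ := by
    have : y * x⁻¹ * y⁻¹ = x := by rw [← conj_inv, e, inv_inv]
    calc y⁻¹ * x * y = y⁻¹ * (y * x⁻¹ * y⁻¹) * y := by rw [this]
      _ = x⁻¹ := by group
  rw [e1]
  calc _ = x ^ i * (y⁻¹ * x * y) * (x ^ i)⁻¹ := by group
    _ = x⁻¹ := by rw [e2]; group

theorem inv_of_mem_normalizer {g : G} (hg : g ∈ P) (hN : g ∈ normalizer (zpowers x : Set G))
    (hn : g ∉ zpowers x) : g * x * g⁻¹ = x⁻¹ := by
  obtain ⟨k, h1, h2⟩ := Nat.exists_not_and_succ_of_not_zero_of_exists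
    (p := fun k => g ^ 2 ^ k ∈ zpowers x) (by simpa)
    ((isPElt_iff_pow_eq_one.1 (isPElt_of_mem h.two hg)).imp fun k hk => hk ▸ one_mem _)
  rw [pow_succ, pow_mul, sq] at h2
  have e := h.inv_of_sq_mem (pow_mem hg _) (pow_mem hN _) h1 h2
  rcases k with _ | k
  · simpa using e
  exfalso
  rw [pow_succ, pow_mul, sq] at e
  have hy := pow_mem hN (2 ^ k)
  generalize g ^ 2 ^ k = y at e hy
  obtain ⟨r, hr⟩ : ∃ r : ℤ, x ^ r = y * x * y⁻¹ := (mem_normalizer_iff.1 hy x).1 (mem_zpowers x)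
  have e3 : x ^ (r * r + 1) = 1 := by
    rw [zpow_add_one, zpow_mul, hr, conj_zpow, hr, ← eq_inv_iff_mul_eq_one, ← e]; group
  obtain ⟨j, hj⟩ := isPElt_of_mem h.two h.mem
  have h4 : ¬ (4 : ℤ) ∣ r * r + 1 := by
    have : r % 4 = 0 ∨ r % 4 = 1 ∨ r % 4 = 2 ∨ r % 4 = 3 := by omega
    rw [Int.dvd_iff_emod_eq_zero, Int.add_emod, Int.mul_emod]
    rcases this with e | e | e | e <;> rw [e] <;> decide
  have h5 := orderOf_dvd_iff_zpow_eq_one.2 e3
  rw [hj] at h5
  refine h.sq_ne_one hg hn ?_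
  rw [← sq, ← orderOf_dvd_iff_pow_eq_one, hj]
  rcases j with _ | _ | j
  · simp
  · simp
  · exact absurd ((Dvd.intro (2 ^ j) (by push_cast; ring)).trans h5) h4

theorem sq_of_inv {g : G} (hg : g ∈ P) (hn : g ∉ zpowers x) (e : g * x * g⁻¹ = x⁻¹) :
    g * g = z := by
  have h1 : g * g ∈ zpowers x := h.mem_of_comm (mul_mem hg hg) (by
    have : g * x⁻¹ * g⁻¹ = x := by rw [← conj_inv, e, inv_inv]
    calc g * g * x = g * (g * x * g⁻¹) * g⁻¹ * (g * g) := by group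
      _ = x * (g * g) := by rw [e, this])
  have h2 := conj_eq_inv_of_mem_zpowers e h1
  refine (h.uniq _ (mul_mem hg hg) ?_).resolve_left fun h0 => hn (h.mem_of_sq hg h0)
  rw [mul_eq_one_iff_eq_inv, ← h2]; group

theorem z_sq {g : G} (hg : g ∈ P) (hn : g ∉ zpowers x) (e : g * x * g⁻¹ = x⁻¹) : z * z = 1 := by
  have h1 : g * g ∈ zpowers x := h.mem_of_comm (mul_mem hg hg) (by
    have : g * x⁻¹ * g⁻¹ = x := by rw [← conj_inv, e, inv_inv]
    calc g * g * x = g * (g * x * g⁻¹) * g⁻¹ * (g * g) := by group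
      _ = x * (g * g) := by rw [e, this])
  have h2 := conj_eq_inv_of_mem_zpowers e h1
  rw [← h.sq_of_inv hg hn e, mul_eq_one_iff_eq_inv, ← h2]; group

/-- Every element outside `⟨x⟩` inverts `x`. -/
theorem inv {g : G} (hg : g ∈ P) (hn : g ∉ zpowers x) : g * x * g⁻¹ = x⁻¹ := by
  by_cases h4 : x ^ 4 = 1
  · have key : ∀ a ∈ P, a ∉ zpowers x → a * a = z := fun a ha hna => by
      refine (h.uniq _ (mul_mem ha ha) ?_).resolve_left fun h0 => hna (h.mem_of_sq ha h0)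
      have h1 : orderOf x ≤ 4 := Nat.le_of_dvd four_pos (orderOf_dvd_of_pow_eq_one h4)
      obtain ⟨k, hk⟩ := isPElt_of_mem h.two ha
      have h2 := (h.max a ha).trans h1
      rw [hk] at h2
      have : k ≤ 2 := (Nat.pow_le_pow_iff_right (a := 2) one_lt_two).1 (by simpa using h2)
      have h3 : a ^ 4 = 1 := by
        rw [← orderOf_dvd_iff_pow_eq_one, hk]; exact pow_dvd_pow 2 this
      rw [← h3, pow_four_eq]
    have e1 := key g hg hn
    have e2 := key (x * g) (mul_mem h.mem hg) fun e => hn ((mul_mem_cancel_left (mem_zpowers x)).1 e)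
    calc g * x * g⁻¹ = x⁻¹ * (x * g * (x * g)) * (g * g)⁻¹ := by group
      _ = x⁻¹ := by rw [e1, e2]; group
  refine h.inv_of_mem_normalizer hg ?_ hn
  by_contra hN
  obtain ⟨a, ha, ha'⟩ := SetLike.exists_of_lt (lt_inf_normalizer_of_isPGroup h.two
    (lt_of_le_of_ne (inf_le_left : P ⊓ normalizer (zpowers x : Set G) ≤ P)
      fun e => hN (e.ge hg).2))
  refine ha' ⟨ha.1, mem_normalizer_of_forall_conj_mem ?_⟩
  have h1 : a * x * a⁻¹ ∈ zpowers x := by
    have h2 := (mem_normalizer_iff.1 ha.2 x).1 ⟨h.mem, le_normalizer (mem_zpowers x)⟩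
    by_contra h3
    have h5 := h.inv_of_mem_normalizer h2.1 h2.2 h3
    have h6 := h.sq_of_inv h2.1 h3 h5
    have h7 := h.z_sq h2.1 h3 h5
    rw [← h6] at h7
    refine h4 ?_
    calc x ^ 4 = a⁻¹ * (a * x * a⁻¹ * (a * x * a⁻¹) * (a * x * a⁻¹ * (a * x * a⁻¹))) * a := by
          rw [pow_four_eq]; group
      _ = 1 := by rw [h7]; group
  rintro _ ⟨i, rfl⟩
  simp only [← conj_zpow]
  exact zpow_mem h1 i

theorem sq {g : G} (hg : g ∈ P) (hn : g ∉ zpowers x) : g * g = z :=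
  h.sq_of_inv hg hn (h.inv hg hn)

theorem pow_four {g : G} (hg : g ∈ P) (hn : g ∉ zpowers x) : g ^ 4 = 1 := by
  rw [← h.z_sq hg hn (h.inv hg hn), ← h.sq hg hn, pow_four_eq]

theorem inv' {g a : G} (hg : g ∈ P) (hn : g ∉ zpowers x) (ha : a ∈ zpowers x) :
    g * a * g⁻¹ = a⁻¹ := conj_eq_inv_of_mem_zpowers (h.inv hg hn) ha

theorem mul_mem' {g g' : G} (hg : g ∈ P) (hn : g ∉ zpowers x) (hg' : g' ∈ P)
    (hn' : g' ∉ zpowers x) : g * g' ∈ zpowers x :=
  h.mem_of_comm (mul_mem hg hg') (by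
    calc g * g' * x = g * (g' * x * g'⁻¹) * g⁻¹ * (g * g') := by group
      _ = x * (g * g') := by rw [h.inv hg' hn', h.inv' hg hn (inv_mem (mem_zpowers x)), inv_inv])

end UInv

end Cfsg.Gag

set_option linter.all false in
theorem Cfsg.Rz.Gag_UInv_0 : True := by
  have := @_root_.Cfsg.Gag.UInv.mk.congr_simp.{0}
  trivial
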