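import Cfsg.Agent.Gag.Defs
import Cfsg.Agent.GW.Basic
import Cfsg.Agent.Gag.UInv

/-!
# Dihedral Sylow `2`-subgroups of arbitrary order (port of `GW/Basic`, `GW/KillG`, `GW/NumC`)

All statements are the analogues of the `DihOf.*` lemmas of the same name; `GDih` has no `cases`
field, only `t ∈ ⟨x⟩`. Most proofs can be copied (`IsDihPair.*` in `Grp/DihSylow` is general).
-/

set_option autoImplicit false
set_option linter.unusedSectionVars false
set_option linter.unusedVariables false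

namespace Cfsg.Gag

open Subgroup Cfsg.Agent.FT Cfsg.GW
open scoped commutatorElement

universe u v

variable {G : Type u} [Group G] [Finite G] {M S : Subgroup G} {x s t : G}

theorem GDih.x_mem (h : GDih M S x s t) : x ∈ S := h.pair.mem_σ

theorem GDih.s_mem (h : GDih M S x s t) : s ∈ S := h.pair.mem_τ

theorem GDih.t_mem' (h : GDih M S x s t) : t ∈ S := h.pair.zpowers_le h.mem

theorem GDih.le_cent (h : GDih M S x s t) : S ≤ 𝓒[t] := h.pair.le_centralizer h.mem h.ord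

theorem GDih.card (h : GDih M S x s t) : Nat.card S = 2 * orderOf x := h.pair.card_eq

theorem GDih.isFour (h : GDih M S x s t) : IsFour t s :=
  ⟨h.ord, orderOf_eq_two_of_mul_self h.pair.mul_self fun e => h.pair.notMem (e ▸ one_mem _),
    (mem_cent1.1 (h.le_cent h.s_mem)).symm, fun e => h.pair.notMem (e ▸ h.mem)⟩

theorem GDih.of_notMem (h : GDih M S x s t) {s' : G} (h1 : s' ∈ S) (h2 : s' ∉ zpowers x) :
    GDih M S x s' t := ⟨h.syl, h.pair.of_notMem h1 h2, h.ord, h.mem⟩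

theorem GDih.swap (h : GDih M S x s t) : GDih M S x (x * s) t :=
  h.of_notMem (mul_mem h.x_mem h.s_mem) (h.pair.mul_τ_notMem (mem_zpowers x))

theorem GDih.mono (h : GDih M S x s t) {K : Subgroup G} (h1 : S ≤ K) (h2 : K ≤ M) :
    GDih K S x s t := ⟨h.syl.of_le h1 h2, h.pair, h.ord, h.mem⟩

theorem GDih.conj (h : GDih M S x s t) (g : G) :
    GDih (M :^ g) (S :^ g) (g * x * g⁻¹) (g * s * g⁻¹) (g * t * g⁻¹) :=
  ⟨h.syl.conj g, dihPair_map h.pair (f := (MulAut.conj g).toMonoidHom) (MulAut.conj g).injective,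
    (orderOf_conj_eq g t).trans h.ord, by
      obtain ⟨k, rfl⟩ := mem_zpowers_iff.1 h.mem
      rw [← conj_zpow]
      exact zpow_mem (mem_zpowers _) k⟩

theorem GDih.four_le (h : GDih M S x s t) : four t s ≤ S := four_le_iff.2 ⟨h.t_mem', h.s_mem⟩

theorem GDih.conj_s (h : GDih M S x s t) {y : G} (hy : y ∈ zpowers x) :
    y * s * y⁻¹ = y * y * s := by
  have := h.pair.τ_conj (inv_mem hy)
  rw [inv_inv] at this
  exact (mul_assoc _ _ _).trans ((congrArg (y * ·) (mul_inv_eq_iff_eq_mul.1 this)).trans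
    (mul_assoc _ _ _).symm)

theorem GDih.conj_t (h : GDih M S x s t) {g : G} (hg : g ∈ S) : g * t * g⁻¹ = t :=
  mul_inv_eq_iff_eq_mul.2 (mem_cent1.1 (h.le_cent hg))

theorem GDih.eq_sup (h : GDih M S x s t) : S = zpowers x ⊔ zpowers s := by
  refine le_antisymm (fun y hy => ?_) (sup_le h.pair.zpowers_le (zpowers_le.2 h.s_mem))
  by_cases hn : y ∈ zpowers x
  · exact mem_sup_left hn
  · obtain ⟨a, ha, rfl⟩ := h.pair.exists_eq_mul hy hn
    exact mul_mem_sup ha (mem_zpowers s)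

theorem GDih.eq_t (h : GDih M S x s t) {u : G} (hu : u ∈ zpowers x) (h2 : orderOf u = 2) :
    u = t := eq_of_orderOf_eq_two_of_mem_zpowers hu h.mem h2 h.ord

theorem GDih.t_mem_zpowers (h : GDih M S x s t) {u : G} (hu : u ∈ zpowers x) (h1 : u ≠ 1) :
    t ∈ zpowers u := h.pair.mem_zpowers_of_ne_one h.syl.pgroup h.mem h.ord hu h1

theorem GDih.sq_mem_der (h : GDih M S x s t) : x * x ∈ ⁅S, S⁆ := by
  have := commutator_mem_commutator h.x_mem h.s_mem
  rwa [commutatorElement_def, h.conj_s (mem_zpowers x), mul_inv_cancel_right] at this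

theorem mul_self_ne_one (h4 : 4 ∣ orderOf x) : x * x ≠ 1 := fun e =>
  absurd (h4.trans (orderOf_dvd_of_pow_eq_one ((pow_two x).trans e))) (by decide)

theorem GDih.t_mem_sq (h : GDih M S x s t) (h4 : 4 ∣ orderOf x) : t ∈ zpowers (x * x) :=
  h.t_mem_zpowers (mul_mem (mem_zpowers x) (mem_zpowers x)) (mul_self_ne_one h4)

/-- the element of order `4` of `⟨x⟩`; it normalises both four-groups -/
theorem GDih.exists_x0 (h : GDih M S x s t) (h4 : 4 ∣ orderOf x) :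
    ∃ y ∈ zpowers x, y * y = t ∧ y * s * y⁻¹ = t * s ∧ y * (x * s) * y⁻¹ = t * (x * s) := by
  obtain ⟨r, hr⟩ := h4
  have hr0 : 0 < r := by have := orderOf_pos x; omega
  have h1 : x ^ r * x ^ r = t := by
    rw [← pow_add]
    refine h.eq_t (pow_mem (mem_zpowers x) _) ?_
    rw [orderOf_pow_of_dvd (by omega) ⟨2, by omega⟩, hr]
    exact Nat.div_eq_of_eq_mul_left (by omega) (by omega)
  have hm := pow_mem (mem_zpowers x) r
  exact ⟨x ^ r, hm, h1, by rw [h.conj_s hm, h1], by rw [h.swap.conj_s hm, h1]⟩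

theorem GDih.cent_s (h : GDih M S x s t) : S ⊓ 𝓒[s] = four t s := by
  have key : ∀ a ∈ zpowers x, a ∈ 𝓒[s] → a ∈ four t s := fun a ha hc => by
    have h1 := h.conj_s ha
    rw [mem_cent1.1 hc, mul_inv_cancel_right, right_eq_mul] at h1
    by_cases h0 : a = 1
    · exact h0 ▸ one_mem _
    · exact h.eq_t ha (orderOf_eq_two_of_mul_self h1 h0) ▸ left_mem_four t s
  refine le_antisymm (fun g hg => ?_) (le_inf h.four_le
    (h.isFour.le_cent.trans (cent_le_cent1 (right_mem_four t s))))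
  by_cases hn : g ∈ zpowers x
  · exact key g hn hg.2
  · obtain ⟨a, ha, rfl⟩ := h.pair.exists_eq_mul hg.1 hn
    exact mul_mem (key a ha ((mul_mem_cancel_right (mem_cent1.2 rfl)).1 hg.2)) (right_mem_four t s)

theorem GDih.dihOf (h : GDih M S x s t) (h8 : ¬ 8 ∣ orderOf x) : DihOf M S x s t := by
  refine ⟨h.syl, h.pair, h.ord, ?_⟩
  obtain ⟨k, hk⟩ := isPElt_of_mem h.syl.pgroup h.x_mem
  have h2 : 2 ∣ orderOf x := h.ord ▸ orderOf_dvd_of_mem_zpowers h.mem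
  rw [hk] at h8 h2
  have h3 : ¬ 3 ≤ k := fun e => h8 (pow_dvd_pow 2 e)
  obtain rfl | rfl | rfl : k = 0 ∨ k = 1 ∨ k = 2 := by omega
  · simp at h2
  · exact Or.inl (h.eq_t (mem_zpowers x) hk)
  · refine Or.inr (h.eq_t (mul_mem (mem_zpowers x) (mem_zpowers x)) ?_)
    rw [← pow_two, orderOf_pow_of_dvd two_ne_zero (by rw [hk]; decide), hk]
    rfl

theorem GDih.isD8 (h : GDih M S x s t) (h8 : ¬ 8 ∣ orderOf x) : IsD8 M := (h.dihOf h8).isD8

theorem GDih.invol_cases (h : GDih M S x s t) {u : G} (hu : u ∈ S) (h2 : orderOf u = 2) :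
    u = t ∨ ∃ a ∈ S, a * s * a⁻¹ = u ∨ a * (x * s) * a⁻¹ = u := by
  by_cases hn : u ∈ zpowers x
  · exact Or.inl (h.eq_t hn h2)
  · obtain ⟨a, ha, e⟩ := h.pair.exists_conj_eq hu hn
    exact Or.inr ⟨a, h.pair.zpowers_le ha, e⟩

/-- Frobenius: a `2`-subgroup with an automorphism of odd order is a four-group. -/
theorem GDih.npc_of_not_fused (h : GDih M S x s t) (h1 : ∀ g ∈ M, g * t * g⁻¹ ≠ s)
    (h2 : ∀ g ∈ M, g * t * g⁻¹ ≠ x * s) : HasNormalPComplement 2 M := by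
  have key : ∀ Q ≤ S, ∀ y ∈ M, ¬ 2 ∣ orderOf y → (∀ z ∈ Q, y * z * y⁻¹ ∈ Q) →
      ∀ z ∈ Q, y * z * y⁻¹ = z := by
    intro Q hQ y hy ho hn z hz
    by_cases ht : t ∈ Q
    · refine h.pair.conj_eq_of_odd h.syl.pgroup h.mem h.ord hQ ho
        (mem_cent1.2 (mul_inv_eq_iff_eq_mul.1 ?_)) hn hz
      rcases h.invol_cases (hQ (hn t ht)) ((orderOf_conj_eq y t).trans h.ord) with e | ⟨a, ha, e⟩
      · exact e
      have hm := mul_mem (inv_mem (h.syl.le ha)) hy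
      have e' : a⁻¹ * y * t * (a⁻¹ * y)⁻¹ = a⁻¹ * (y * t * y⁻¹) * a := by group
      rcases e with e | e
      · exact (h1 _ hm (by rw [e', ← e]; group)).elim
      · exact (h2 _ hm (by rw [e', ← e]; group)).elim
    have h3 : ∀ w ∈ Q, w ∈ zpowers x → w = 1 := fun w hw hw' => by
      by_contra h0
      exact ht (zpowers_le.2 hw (h.t_mem_zpowers hw' h0))
    by_cases h0 : z = 1
    · simp [h0]
    have h4 : z ∉ zpowers x := fun e => h0 (h3 z hz e)
    have h5 := h3 _ (mul_mem (hn z hz) hz) (h.pair.mul_mem_of_notMem (hQ (hn z hz))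
      (fun e => h0 (by simpa using h3 _ (hn z hz) e)) (hQ hz) h4)
    exact mul_right_cancel (h5.trans (h.pair.mul_self_of_notMem (hQ hz) h4).symm)
  refine hasNormalPComplement_of_forall_isPElt fun Q hQ _ q _ hq y hy hyq => ?_
  obtain ⟨c, hc, hcQ⟩ := h.syl.exists_conj_le (hQ.map M.subtype) (map_subtype_le Q)
  have hy2 : IsPRegular 2 (c * y * c⁻¹) :=
    isPRegular_conj_iff.2 (isPRegular_coe_iff.2 (hyq.isPRegular_of_ne hq))
  intro z hz
  have := key _ hcQ _ (mul_mem (mul_mem hc y.2) (inv_mem hc)) hy2 ?_ (c * z * c⁻¹)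
    (conj_mem_map_conj.2 ⟨z, hz, rfl⟩)
  · apply Subtype.ext
    have h2 := congrArg (fun w => c⁻¹ * w * c * y) this
    simpa [mul_assoc] using h2.symm
  · intro w hw
    rw [mem_map_conj] at hw ⊢
    obtain ⟨w', hw', e⟩ := hw
    refine ⟨y * w' * y⁻¹, conj_mem_of_mem_normalizer hy hw', ?_⟩
    simp only [coe_subtype] at e
    simp only [coe_subtype, coe_mul, coe_inv, e]
    group

theorem GDih.cent (h : GDih M S x s t) : GDih (M ⊓ 𝓒[t]) S x s t :=
  h.mono (le_inf h.syl.le h.le_cent) inf_le_left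

theorem GDih.npc_cent (h : GDih M S x s t) :
    HasNormalPComplement 2 (M ⊓ 𝓒[t] : Subgroup G) :=
  h.cent.npc_of_not_fused
    (fun g hg => (mul_inv_eq_iff_eq_mul.2 (mem_cent1.1 hg.2)).trans_ne h.isFour.ne)
    fun g hg => (mul_inv_eq_iff_eq_mul.2 (mem_cent1.1 hg.2)).trans_ne h.swap.isFour.ne

theorem GDih.sdprod (h : GDih M S x s t) : IsSdprod 𝐎(M ⊓ 𝓒[t]) S (M ⊓ 𝓒[t]) :=
  sdprod_of_npc h.npc_cent h.cent.syl

theorem GDih.sdprod_top (h : GDih ⊤ S x s t) : IsSdprod 𝐎(𝓒[t]) S 𝓒[t] := by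
  simpa only [top_inf_eq] using h.sdprod

theorem GDih.le_core (h : GDih M S x s t) {X : Subgroup G} (hX : X ≤ M ⊓ 𝓒[t])
    (ho : Odd (Nat.card X)) : X ≤ 𝐎(M ⊓ 𝓒[t]) := le_core_of_npc h.npc_cent hX ho

theorem GDih.mem_four (h : GDih M S x s t) {z : G} (hz : z ∈ M ⊓ 𝓒[t] ⊓ 𝓒[s]) (hz2 : IsPElt 2 z) :
    z ∈ four t s := by
  have h4 := h.isFour
  obtain ⟨c, hc, hcQ⟩ := h.cent.syl.exists_conj_le (pgroup_sup (isPElt_iff_isPGroup_zpowers.1 hz2)
    h4.pgroup (le_norm_of_le_cent (zpowers_le.2 (cent_four t s ▸ ⟨hz.1.2, hz.2⟩))))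
    (sup_le (zpowers_le.2 hz.1) (h.four_le.trans h.cent.syl.le))
  have e : c * t * c⁻¹ = t := mul_inv_eq_iff_eq_mul.2 (mem_cent1.1 hc.2)
  have h5 := h4.conj c
  rw [e] at h5
  have h1 := h.of_notMem (hcQ (conj_mem_map_conj.2 (mem_sup_right (right_mem_four t s))))
    fun hn => h5.ne (h.eq_t hn h5.ord_right).symm
  have h2 : c * z * c⁻¹ ∈ S ⊓ 𝓒[c * s * c⁻¹] :=
    ⟨hcQ (conj_mem_map_conj.2 (mem_sup_left (mem_zpowers z))), mem_cent1.2 (by
      rw [conj_mul, conj_mul, mem_cent1.1 hz.2])⟩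
  rw [h1.cent_s] at h2
  nth_rewrite 1 [← e] at h2
  rwa [← four_conj, conj_mem_map_conj] at h2

theorem GDih.cent_four (h : GDih M S x s t) :
    IsDprod (𝐎(M ⊓ 𝓒[t]) ⊓ 𝓒[s]) (four t s) (M ⊓ 𝓒(four t s)) := by
  have h0 : 𝐎(M ⊓ 𝓒[t]) ⊓ 𝓒[s] ≤ M ⊓ 𝓒(four t s) := by
    rw [GW.cent_four, ← inf_assoc]
    exact inf_le_inf_right _ (piCoreOf_normalOf _ _).le
  refine ⟨le_antisymm (sup_le h0 (le_inf (h.four_le.trans h.syl.le) h.isFour.le_cent))
    fun y hy => ?_, le_cent_symm (h0.trans inf_le_right), (disjoint_of_coprime_natCard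
      (coprime_of_pgroup_of_not_dvd h.isFour.pgroup (not_dvd_card_of_le (not_dvd_piCoreOf 2 _)
        inf_le_left))).eq_bot⟩
  have h1 : zpowers y ≤ M ⊓ 𝓒[t] ⊓ 𝓒[s] := by
    rw [inf_assoc, ← GW.cent_four]; exact zpowers_le.2 hy
  have h2 := h1 (pPart_mem_zpowers (p := 2) y)
  have h3 := h1 (pPrimePart_mem_zpowers (p := 2) y)
  rw [← pPrimePart_mul_pPart 2 y]
  refine mul_mem_sup ⟨zpowers_le.1 (h.le_core (zpowers_le.2 h3.1) ?_), h3.2⟩
    (h.mem_four h2 (isPElt_pPart 2 y))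
  rw [Nat.card_zpowers]
  exact odd_iff_not_two_dvd.2 (isPRegular_pPrimePart (p := 2) y)

theorem GDih.four_mul_relIndex (h : GDih M S x s t) :
    4 * (𝓒[s] : Subgroup G).relIndex (M ⊓ 𝓒[t]) =
      Nat.card S * (𝓒[s] : Subgroup G).relIndex 𝐎(M ⊓ 𝓒[t]) := by
  have h1 := h.sdprod.card
  have h2 := h.cent_four.card
  have h3 := card_mul_relIndex (inf_le_left : M ⊓ 𝓒[t] ⊓ 𝓒[s] ≤ (M ⊓ 𝓒[t] : Subgroup G))
  have h4 := card_mul_relIndex (inf_le_left : 𝐎(M ⊓ 𝓒[t]) ⊓ 𝓒[s] ≤ (𝐎(M ⊓ 𝓒[t]) : Subgroup G))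
  rw [inf_relIndex_left] at h3 h4
  rw [h.isFour.card, GW.cent_four, ← inf_assoc] at h2
  rw [← h2, ← h1, ← h4] at h3
  exact Nat.eq_of_mul_eq_mul_left (Nat.card_pos (α := (𝐎(M ⊓ 𝓒[t]) ⊓ 𝓒[s] : Subgroup G)))
    (by linarith)

theorem GDih.exists_rho (h : GDih M S x s t) (hs : ∃ g ∈ M, g * t * g⁻¹ = s) :
    ∃ ρ ∈ M, ρ * t * ρ⁻¹ = s ∧ ρ * s * ρ⁻¹ = t * s := by
  by_cases h8 : 8 ∣ orderOf x
  swap
  · exact (h.dihOf h8).exists_rho hs
  have hx : 4 ∣ orderOf x := (by decide : 4 ∣ 8).trans h8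
  obtain ⟨g, hg, e⟩ := hs
  have h4 := h.isFour
  have h1 := h.conj g
  rw [e, conj_eq_of_mem_norm (le_normalizer hg)] at h1
  obtain ⟨c, hc, hcQ⟩ := h1.cent.syl.exists_le_conj h4.pgroup (le_inf (h.four_le.trans h.syl.le)
    (h4.le_cent.trans (cent_le_cent1 (right_mem_four t s))))
  have h2 := h1.conj c
  rw [mul_inv_eq_iff_eq_mul.2 (mem_cent1.1 hc.2), conj_eq_of_mem_norm (le_normalizer hc.1)] at h2
  have h3 := h2.of_notMem (hcQ (left_mem_four t s)) fun hn => h4.ne (h2.eq_t hn h.ord)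
  obtain ⟨y, hy, -, e1, -⟩ := h3.exists_x0 (by rwa [orderOf_conj_eq, orderOf_conj_eq])
  obtain ⟨w, hw, -, e2, -⟩ := h.exists_x0 hx
  have hy' := h3.pair.zpowers_le hy
  have hw' := h.pair.zpowers_le hw
  refine ⟨w * y, mul_mem (h.syl.le hw') (h3.syl.le hy'), ?_, ?_⟩
  · rw [show w * y * t * (w * y)⁻¹ = w * (y * t * y⁻¹) * w⁻¹ by group, e1,
      ← conj_mul, e2, h.conj_t hw', h4.comm.eq, mul_assoc, h4.tt, mul_one]
  · rw [show w * y * s * (w * y)⁻¹ = w * (y * s * y⁻¹) * w⁻¹ by group, h3.conj_t hy', e2]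

theorem GDih.oneCl (h : GDih M S x s t) (h1 : ∃ g ∈ M, g * t * g⁻¹ = s)
    (h2 : ∃ g ∈ M, g * t * g⁻¹ = x * s) : OneCl M t := by
  intro u hu ho
  obtain ⟨c, hc, hcu⟩ := h.syl.exists_conj_le
    (isPElt_iff_isPGroup_zpowers.1 (isPElt_two_of_orderOf ho)) (zpowers_le.2 hu)
  obtain ⟨g, hg, e⟩ : ∃ g ∈ M, g * t * g⁻¹ = c * u * c⁻¹ := by
    rcases h.invol_cases (hcu (conj_mem_map_conj.2 (mem_zpowers u)))
      ((orderOf_conj_eq c u).trans ho) with e | ⟨a, ha, e | e⟩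
    · exact ⟨1, one_mem _, by simp [e]⟩
    · obtain ⟨g, hg, e1⟩ := h1
      exact ⟨a * g, mul_mem (h.syl.le ha) hg, by rw [← e, ← e1]; group⟩
    · obtain ⟨g, hg, e1⟩ := h2
      exact ⟨a * g, mul_mem (h.syl.le ha) hg, by rw [← e, ← e1]; group⟩
  exact ⟨c⁻¹ * g, mul_mem (inv_mem hc) hg, by
    rw [show c⁻¹ * g * t * (c⁻¹ * g)⁻¹ = c⁻¹ * (g * t * g⁻¹) * c by group, e]; group⟩

theorem isDihPair_sup {a b : G} (h1 : b * b = 1) (h2 : b * a * b⁻¹ = a⁻¹) (h3 : b ∉ zpowers a) :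
    IsDihPair (zpowers a ⊔ zpowers b) a b := by
  refine ⟨mem_sup_left (mem_zpowers a), mem_sup_right (mem_zpowers b), h1, h2, h3, fun g hg => ?_⟩
  have hn : zpowers b ≤ 𝓝(zpowers a) := zpowers_le.2 (mem_normalizer_of_forall_conj_mem
    fun u hu => conj_inv_of_mem_zpowers h2 hu ▸ inv_mem hu)
  obtain ⟨u, hu, v, hv, rfl⟩ := (isProd_of_le_norm hn).2.2 g hg
  rcases eq_one_or_of_mul_self h1 hv with rfl | rfl
  · exact Or.inl (by simpa using hu)
  · exact Or.inr (by rwa [mul_assoc, h1, mul_one])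

/-- transfer into `S / ⟨x², s⟩` (focal subgroup or Thompson transfer) -/
theorem GDih.exists_index_two (h : GDih M S x s t) (h4 : 4 ∣ orderOf x)
    (h2 : ∀ g ∈ M, g * t * g⁻¹ ≠ x * s) :
    ∃ M₀, M₀ ≤ M ∧ M₀.relIndex M = 2 ∧
      GDih M₀ (zpowers (x * x) ⊔ zpowers s) (x * x) s t := by
  have hxx := mul_mem (mem_zpowers x) (mem_zpowers x)
  have hp : IsDihPair (zpowers (x * x) ⊔ zpowers s) (x * x) s := isDihPair_sup h.pair.mul_self
    (h.pair.τ_conj hxx) fun e => h.pair.notMem (zpowers_le.2 hxx e)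
  have hle : zpowers (x * x) ⊔ zpowers s ≤ S :=
    sup_le (zpowers_le.2 (h.pair.zpowers_le hxx)) (zpowers_le.2 h.s_mem)
  have hP := h.syl.pgroup.to_le hle
  have h8 : Nat.card S = Nat.card (zpowers (x * x) ⊔ zpowers s : Subgroup G) * 2 := by
    rw [hp.card_eq, h.card, ← pow_two, orderOf_pow_of_dvd two_ne_zero ((by decide : 2 ∣ 4).trans h4)]
    omega
  by_cases h1 : ∀ g ∈ M, g * t * g⁻¹ ≠ s
  · have h3 := sdprod_of_npc (h.npc_of_not_fused h1 h2) h.syl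
    have h5 := h3.mono_right hle
    have hle' : 𝐎(M) ⊔ (zpowers (x * x) ⊔ zpowers s) ≤ M :=
      sup_le h3.le_left (hle.trans h3.le_right)
    refine ⟨_, hle', ?_, ⟨h5.le_right, hP, h5.relIndex_right ▸ not_dvd_piCoreOf 2 M⟩,
      hp, h.ord, h.t_mem_sq h4⟩
    have h6 := card_mul_relIndex hle'
    rw [← h5.card, ← h3.card, h8, mul_assoc] at h6
    exact Nat.eq_of_mul_eq_mul_left Nat.card_pos (Nat.eq_of_mul_eq_mul_left Nat.card_pos h6)
  push Not at h1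
  obtain ⟨g, hg, e⟩ := h1
  have hxs := h.syl.le h.swap.s_mem
  obtain ⟨L, hL, hn⟩ := exists_index_two_of_forall_conj_notMem (M := (zpowers x).subgroupOf M)
    (u := ⟨x * s, hxs⟩) (fun h5 => by
      change 4 ∣ (zpowers x).relIndex M at h5
      rw [← relIndex_mul_relIndex _ _ _ h.pair.zpowers_le h.syl.le, h.pair.relIndex_eq] at h5
      exact h.syl.not_dvd (by omega)) (Subtype.ext h.swap.pair.mul_self) fun c hc =>
    h2 _ (inv_mem c.2) (by
      rw [← h.eq_t hc ((orderOf_conj_eq _ _).trans h.swap.isFour.ord_right)]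
      simp [mul_assoc])
  haveI := normal_of_index_eq_two hL
  have hN := IsNormalOf.map_subtype L
  have hx : zpowers (x * x) ≤ L.map M.subtype :=
    zpowers_le.2 ⟨_, mul_self_mem_of_index_two hL ⟨x, h.syl.le h.x_mem⟩, rfl⟩
  have hV : zpowers (x * x) ⊔ zpowers s ≤ L.map M.subtype :=
    sup_le hx (zpowers_le.2 (e ▸ hN.conj_mem hg (hx (h.t_mem_sq h4))))
  refine ⟨_, hN.le, (relIndex_map_subtype L).trans hL, ?_, hp, h.ord, h.t_mem_sq h4⟩
  have h5 := h.syl.inf_normal hN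
  refine h5.of_card_le hP hV ?_
  have h6 : (S ⊓ L.map M.subtype).relIndex S ≠ 1 := fun e1 => hn
    ((mem_map_iff_mem M.subtype_injective).1 (relIndex_eq_one.1 e1 h.swap.s_mem).2)
  have h7 := card_mul_relIndex (inf_le_left : S ⊓ L.map M.subtype ≤ S)
  have h9 := relIndex_pos (S ⊓ L.map M.subtype) S
  rw [h8] at h7
  exact Nat.le_of_mul_le_mul_right (h7 ▸ Nat.mul_le_mul_left _ (by omega)) two_pos

theorem GDih.norm_zpowers_le (h : GDih ⊤ S x s t) : 𝓝(zpowers x) ≤ 𝓒[t] := fun n hn =>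
  mem_cent1.2 (mul_inv_eq_iff_eq_mul.1 (h.eq_t ((mem_normalizer_iff.1 hn t).1 h.mem)
    (by rw [orderOf_conj_eq, h.ord])))

theorem GDih.norm_le (h : GDih ⊤ S x s t) (h4 : 4 ∣ orderOf x) : 𝓝(S) ≤ 𝓒[t] := fun n hn => by
  refine h.norm_zpowers_le (mem_normalizer_of_forall_conj_mem ?_)
  have h1 : n * x * n⁻¹ ∈ zpowers x := by
    by_contra hc
    have h2 := h.pair.mul_self_of_notMem ((mem_normalizer_iff.1 hn x).1 h.pair.mem_σ) hc
    rw [conj_mul, conj_eq_one_iff] at h2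
    exact mul_self_ne_one h4 h2
  intro a ha
  obtain ⟨k, rfl⟩ := mem_zpowers_iff.1 ha
  rw [← conj_zpow]
  exact zpow_mem h1 k

theorem GDih.relIndex_swap (h : GDih ⊤ S x s t) (hx : 𝐎(𝓒[t]) ≤ 𝓒[x]) :
    (𝓒[x * s] : Subgroup G).relIndex 𝐎(𝓒[t]) = (𝓒[s] : Subgroup G).relIndex 𝐎(𝓒[t]) := by
  rw [← inf_relIndex_left, ← inf_relIndex_left _ 𝓒[s]]
  congr 1
  ext g
  simp only [mem_inf, and_congr_right_iff, mem_cent1]
  intro hg
  rw [← mul_assoc, mem_cent1.1 (hx hg), mul_assoc, mul_assoc, mul_right_inj]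

theorem Big.swap (h : Big S x s t) : Big S x (x * s) t := ⟨h.simple, h.nonab, h.dih.swap, h.big⟩

theorem Big.four_dvd (h : Big S x s t) : 4 ∣ orderOf x := (by decide : 4 ∣ 8).trans h.big

/-- `exists_index_two` for `s` and `x * s` -/
theorem Big.one (h : Big S x s t) : OneCl ⊤ t := by
  haveI := h.simple
  have key : ∀ s, GDih ⊤ S x s t → ∃ g ∈ (⊤ : Subgroup G), g * t * g⁻¹ = x * s := fun s h2 => by
    by_contra! h4
    obtain ⟨M₀, -, hi, h5⟩ := h2.exists_index_two h.four_dvd h4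
    rw [relIndex_top_right] at hi
    rcases (normal_of_index_eq_two hi).eq_bot_or_eq_top with rfl | rfl
    · exact ne_one_of_ord h5.ord (h5.syl.le h5.t_mem')
    · simp at hi
  refine h.dih.oneCl ?_ (key s h.dih)
  simpa using key _ (h.dih.of_notMem (mul_mem (inv_mem h.dih.x_mem) h.dih.s_mem)
    (h.dih.pair.mul_τ_notMem (inv_mem (mem_zpowers x))))

theorem Big.exists_rho (h : Big S x s t) : ∃ ρ : G, ρ * t * ρ⁻¹ = s ∧ ρ * s * ρ⁻¹ = t * s :=
  have ⟨ρ, _, e⟩ := h.dih.exists_rho (h.one s trivial h.dih.isFour.ord_right)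
  ⟨ρ, e⟩

theorem Big.cent_ne_top (h : Big S x s t) : (𝓒[t] : Subgroup G) ≠ ⊤ := fun e => by
  obtain ⟨ρ, e1, -⟩ := h.exists_rho
  rw [mem_cent1.1 (e ▸ mem_top ρ : ρ ∈ 𝓒[t]), mul_inv_cancel_right] at e1
  exact h.dih.isFour.ne e1

/-- A Sylow `2`-subgroup `T` of `E` is not cyclic (`E` is perfect); `BrSuz.exists_inv` (Blk/BrSuz)
and the unique involution give `T = ⟨a, b⟩`, `b a b⁻¹ = a⁻¹`, `b² = z` (cf. `taussky`, `cyc_cases` in
Grp/SmallTwo, or show directly that every element outside `⟨a⟩` inverts `a`). -/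
theorem Cov.exists_gdih {E : Type v} [Group E] [Finite E] {π : E →* G} {z : E} (h : Cov π z) :
    ∃ (S : Subgroup G) (x s t : G), GDih ⊤ S x s t := by
  obtain ⟨T, hT⟩ := exists_sylow 2 (⊤ : Subgroup E)
  obtain ⟨a, ha⟩ := exists_uinv (z := z) hT.pgroup fun v _ hv =>
    or_iff_not_imp_left.2 fun h1 => h.uniq v (orderOf_eq_two_of_mul_self hv h1)
  have hker : ∀ g, π g = 1 → g = 1 ∨ g = z := fun g hg =>
    eq_one_or_of_mul_self (mul_self_of_orderOf_eq_two h.ord) (h.ker ▸ hg : g ∈ zpowers z)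
  obtain ⟨b, hb, hn⟩ : ∃ b ∈ T, b ∉ zpowers a := by
    by_contra! hc
    have h1 := sol_of_npc (npc_of_cyclic hT (le_antisymm (zpowers_le.2 ha.mem) hc ▸ inferInstance))
    haveI : Group.IsSolvable E :=
      Group.isSolvable_of_surjective (f := (⊤ : Subgroup E).subtype) fun g => ⟨⟨g, mem_top g⟩, rfl⟩
    haveI : Nontrivial E := nontrivial_of_ne z 1 (ne_one_of_ord h.ord)
    exact (IsSolvable.commutator_lt_top_of_nontrivial E).ne h.perf
  have hz : z ∈ zpowers a := ha.mem_of_sq (ha.sq hb hn ▸ mul_mem hb hb)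
    (mul_self_of_orderOf_eq_two h.ord)
  have h1 : π a ≠ 1 := fun e => ha.sq_ne_one hb hn (by
    rcases hker a e with rfl | rfl
    exacts [mul_one 1, mul_self_of_orderOf_eq_two h.ord])
  obtain ⟨t, ht, ht2⟩ := exists_mem_zpowers_orderOf_two (g := π a) (not_not.1 fun e =>
    h1 (((isPElt_of_mem hT.pgroup ha.mem).map π).eq_one_of_isPRegular e))
  refine ⟨T.map π, π a, π b, t, ⟨le_top, hT.pgroup.map π, ?_⟩, ⟨mem_map_of_mem π ha.mem,
    mem_map_of_mem π hb, ?_, by rw [← map_inv, ← map_mul, ← map_mul, ha.inv hb hn, map_inv],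
    fun e => hn ?_, ?_⟩, ht2, ht⟩
  · rw [relIndex_top_right]
    exact fun e => hT.not_dvd (relIndex_top_right T ▸ e.trans (index_map_dvd T h.surj))
  · rw [← map_mul, ha.sq hb hn]
    exact MonoidHom.mem_ker.1 (h.ker ▸ mem_zpowers z)
  · obtain ⟨k, hk⟩ := mem_zpowers_iff.1 e
    have hm := zpow_mem (mem_zpowers a) k
    refine (mul_mem_cancel_left (inv_mem hm)).1 ?_
    rcases hker ((a ^ k)⁻¹ * b) (by rw [map_mul, map_inv, map_zpow, hk, inv_mul_cancel]) with e | e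
    exacts [e ▸ one_mem _, e ▸ hz]
  · rintro _ ⟨g, hg, rfl⟩
    rw [← MonoidHom.map_zpowers, ← map_mul]
    by_cases hg' : g ∈ zpowers a
    · exact Or.inl (mem_map_of_mem π hg')
    · exact Or.inr (mem_map_of_mem π (ha.mul_mem' hg hg' hb hn))

theorem Cov.nonab {E : Type v} [Group E] [Finite E] {π : E →* G} {z : E} (h : Cov π z) :
    ¬ IsMulCommutative G := fun hc => by
  haveI := h.simple
  have h1 := congrArg (Subgroup.map π) h.perf
  rw [commutator_def, map_commutator, map_top_of_surjective π h.surj] at h1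
  refine bot_ne_top (α := Subgroup G) (h1 ▸ (commutator_eq_bot_iff_le_centralizer.2 ?_).symm)
  exact fun a _ b _ => hc.is_comm.comm b a

theorem Cov.center_mem {E : Type v} [Group E] {π : E →* G} {z : E} (h : Cov π z) :
    z ∈ center E := mem_center_iff.2 fun g =>
  mul_inv_eq_iff_eq_mul.1 (h.uniq _ (((MulAut.conj g).orderOf_eq z).trans h.ord))

/-- every lift of an involution has order `4` -/
theorem Cov.mul_self {E : Type v} [Group E] [Finite E] {π : E →* G} {z : E} (h : Cov π z) {a : E}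
    (ha : orderOf (π a) = 2) : a * a = z := by
  have h1 : a * a ∈ zpowers z := h.ker ▸ MonoidHom.mem_ker.2
    (by rw [map_mul, mul_self_of_orderOf_eq_two ha])
  refine (eq_one_or_of_mul_self (mul_self_of_orderOf_eq_two h.ord) h1).resolve_left fun e => ?_
  refine ne_one_of_ord ha ?_
  by_cases h0 : a = 1
  · rw [h0, map_one]
  · rw [h.uniq a (orderOf_eq_two_of_mul_self e h0)]
    exact MonoidHom.mem_ker.1 (h.ker ▸ mem_zpowers z)

end Cfsg.Gag
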