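import Cfsg.Agent.Gag.Dih
import Cfsg.Agent.GW.NumC

/-!
# The order formulas for a dihedral Sylow `2`-subgroup of order `N ≥ 8`, one class of involutions

Port of `d8_abs` (GW/NumA) and `d8_data` (GW/NumB). With `S4481`: `θ = 1 + δ₁χ₁ + δ₂χ₂ + δ₃χ₃`
vanishes on elements of odd order, `θ(σ^l) = 2 - 2(-1)^l`; `mᵢ = δᵢχᵢ(1)`. Summing `χᵢ` over `P`
(all involutions are conjugate to `J`) gives the congruences. First formula: `sum_pairs_odd` applied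
to `θ`; second formula: `S4482`.
-/

set_option autoImplicit false
set_option linter.unusedSectionVars false
set_option linter.unusedVariables false

namespace Cfsg.Gag

open Subgroup Cfsg.Agent.FT Cfsg.GW Finset

universe u v

variable {G : Type u} [Group G] [Finite G]

open Classical in
/-- general version of `sum_pairs_four` (compare the proof of `IsDihPair.sum_pairs`) -/
theorem sum_pairs_odd [Fintype G] {P : Subgroup G} {σ τ J : G} (h : IsDihPair P σ τ)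
    (hP : IsPGroup 2 P) (hi : ¬ 2 ∣ P.index) (hJ : J ∈ zpowers (σ * σ)) (hJ2 : orderOf J = 2)
    (hone : ∀ t, orderOf t = 2 → IsConj J t) {θ : G → ℂ} (hθ : IsClassFunction G θ)
    (hθ2 : ∀ g, θ g = θ (pPart 2 g)) {c : ℂ} (h0 : ∀ a ∈ zpowers (σ * σ), θ a = 0)
    (hc : ∀ a ∈ zpowers (σ * σ), θ (σ * a) = c) :
    ∑ x ∈ univ.filter (IsConj J), ∑ y ∈ univ.filter (IsConj J), θ (x * y) =
      (centralizer ({J} : Set G)).index * (2 * c *
        ((centralizer ({J, τ} : Set G)).relIndex (centralizer {J}) *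
          (centralizer ({J, σ * τ} : Set G)).relIndex (centralizer {J}))) := by
  have hJA : zpowers (σ * σ) ≤ zpowers σ := zpowers_le.2 (mul_mem (mem_zpowers σ) (mem_zpowers σ))
  replace hJ := hJA hJ
  have h1 : θ 1 = 0 := h0 1 (one_mem _)
  have hv : ∀ g, ¬ 2 ∣ orderOf g → θ g = 0 := fun g hg => by
    rw [hθ2, pPart_eq_one_iff.2 hg, h1]
  rw [sum_invol_pairs hθ hv hJ2 hone]
  congr 1
  obtain ⟨π, hπ1, hπ2, hπ3, hπ4⟩ := h.exists_proj hP hi hJ hJ2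
  let C := centralizer ({J} : Set G)
  have hPC : P ≤ C := h.le_centralizer hJ hJ2
  let T : Finset C := univ.filter fun s => s * s = 1 ∧ π s ∉ zpowers σ
  have hJC : ∀ x ∈ C, x * J * x⁻¹ = J := fun x hx => by
    rw [mem_centralizer_singleton_iff.1 hx, mul_inv_cancel_right]
  -- the value of `θ` on `C`
  have hθπ : ∀ g : C, θ g = θ (π g) := fun g => by
    obtain ⟨x, -, hx⟩ := hπ4 g
    rw [hθ2, ← hx, hθ]
  have hJπ : ∀ g : C, J ∈ zpowers (g : G) ↔ J ∈ zpowers (π g) := fun g => by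
    obtain ⟨x, hxC, hx⟩ := hπ4 g
    have e := conj_mem_map_conj (g := x) (x := J) (H := zpowers (pPart 2 (g : G)))
    rw [hJC x hxC] at e
    rw [← hx, zpowers_conj, e]
    refine ⟨fun h' => ?_, fun h' => zpowers_le_of_mem (pPart_mem_zpowers 2 _) h'⟩
    obtain ⟨k, hk⟩ := (mem_zpowers_iff_mem_range_orderOf.1 h' : J ∈ _) |> mem_image.1
    have e2 : J = pPart 2 (g : G) ^ k := by
      rw [← pPart_pow, hk.2, pPart_eq_self_iff.2 (isPElt_two_of_orderOf hJ2)]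
    exact e2 ▸ pow_mem (mem_zpowers _) _
  have hπJ : ∀ s : C, s * s = 1 → s ≠ 1 → π s ∈ zpowers σ → π s = J := fun s hs hs1 hsA => by
    refine eq_of_orderOf_eq_two_of_mem_zpowers hsA hJ (orderOf_eq_two_of_mul_self ?_ ?_) hJ2
    · rw [← map_mul, hs, map_one]
    · intro h0
      have h2 : IsPRegular 2 s := isPRegular_coe_iff.1 ((hπ3 s).1 h0)
      exact h2 (by rw [orderOf_eq_two_of_mul_self hs hs1])
  -- reduction to `T`
  have step : (∑ x ∈ univ.filter (IsConj J), ∑ y ∈ univ.filter (IsConj J),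
      if J ∈ zpowers (x * y) then θ (x * y) else 0) = ∑ s ∈ T, ∑ t ∈ T, θ (π s * π t) := by
    rw [← sum_product', ← sum_product', ← sum_filter]
    symm
    refine sum_bij_ne_zero (fun st _ _ => ((st.1 : G), (st.2 : G))) ?_ ?_ ?_ ?_
    · rintro ⟨s, t⟩ hst hne
      simp only [T, mem_product, mem_filter, mem_univ, true_and] at hst ⊢
      obtain ⟨⟨hs, hsA⟩, ht, htA⟩ := hst
      have hs1 : s ≠ 1 := by rintro rfl; exact hsA (by simp)
      have ht1 : t ≠ 1 := by rintro rfl; exact htA (by simp)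
      refine ⟨⟨hone _ ?_, hone _ ?_⟩, ?_⟩
      · rw [Subgroup.orderOf_coe, orderOf_eq_two_of_mul_self hs hs1]
      · rw [Subgroup.orderOf_coe, orderOf_eq_two_of_mul_self ht ht1]
      · rw [← Subgroup.coe_mul, hJπ, map_mul]
        refine h.mem_zpowers_of_ne_one hP hJ hJ2 (h.mul_mem_of_notMem (hπ1 s) hsA (hπ1 t) htA) ?_
        intro h0
        rw [h0, h1] at hne
        exact hne rfl
    · rintro ⟨s, t⟩ _ _ ⟨s', t'⟩ _ _ he
      simp only [Prod.mk.injEq, Subtype.coe_inj] at he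
      exact Prod.ext he.1 he.2
    · rintro ⟨x, y⟩ hxy hne
      simp only [mem_product, mem_filter, mem_univ, true_and] at hxy
      obtain ⟨⟨hx, hy⟩, hJxy⟩ := hxy
      have hx2 : orderOf x = 2 := by
        obtain ⟨c, rfl⟩ := isConj_iff.1 hx; rw [orderOf_conj_eq, hJ2]
      have hy2 : orderOf y = 2 := by
        obtain ⟨c, rfl⟩ := isConj_iff.1 hy; rw [orderOf_conj_eq, hJ2]
      obtain ⟨hxC, hyC⟩ := mem_centralizer_of_mem_zpowers_mul (mul_self_of_orderOf_eq_two hx2)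
        (mul_self_of_orderOf_eq_two hy2) hJ2 hJxy
      let s : C := ⟨x, hxC⟩
      let t : C := ⟨y, hyC⟩
      have hs : s * s = 1 := Subtype.ext (mul_self_of_orderOf_eq_two hx2)
      have ht : t * t = 1 := Subtype.ext (mul_self_of_orderOf_eq_two hy2)
      have hs1 : s ≠ 1 := fun h0 => by
        have : x = 1 := congrArg Subtype.val h0
        simp [this] at hx2
      have ht1 : t ≠ 1 := fun h0 => by
        have : y = 1 := congrArg Subtype.val h0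
        simp [this] at hy2
      have hJst : J ∈ zpowers (π s * π t) := by rw [← map_mul, ← hJπ]; exact hJxy
      have hA : π s * π t ∈ zpowers σ := by
        by_contra hn
        have h2 := h.mul_self_of_notMem (mul_mem (hπ1 s) (hπ1 t)) hn
        have h3 : π s * π t ≠ 1 := fun h0 => hn (h0 ▸ one_mem _)
        rcases eq_one_or_eq_of_mem_zpowers_of_orderOf_two (orderOf_eq_two_of_mul_self h2 h3) hJst
          with h4 | h4
        · simp [h4] at hJ2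
        · exact hn (h4 ▸ hJ)
      have hne' : ¬ (π s ∈ zpowers σ ∧ π t ∈ zpowers σ) := by
        rintro ⟨h2, h3⟩
        rw [hπJ s hs hs1 h2, hπJ t ht ht1 h3, mul_self_of_orderOf_eq_two hJ2, zpowers_one_eq_bot,
          mem_bot] at hJst
        simp [hJst] at hJ2
      refine ⟨(s, t), ?_, ?_, rfl⟩
      · simp only [T, mem_product, mem_filter, mem_univ, true_and]
        exact ⟨⟨hs, fun h2 => hne' ⟨h2, (mul_mem_cancel_left h2).1 hA⟩⟩,
          ht, fun h2 => hne' ⟨(mul_mem_cancel_right h2).1 hA, h2⟩⟩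
      · rw [← map_mul, ← hθπ]; exact hne
    · rintro ⟨s, t⟩ _ _
      rw [← map_mul, ← hθπ]; rfl
  rw [step]
  -- the cardinality of `T`
  let t₁ : C := ⟨τ, hPC h.mem_τ⟩
  let t₂ : C := ⟨σ * τ, hPC (mul_mem h.mem_σ h.mem_τ)⟩
  have ht₁ : π t₁ = τ := hπ2 _ h.mem_τ
  have ht₂ : π t₂ = σ * τ := hπ2 _ (mul_mem h.mem_σ h.mem_τ)
  have hστ := h.mul_τ_notMem (mem_zpowers σ)
  have hconjA : ∀ x ∈ P, ∀ y ∈ P, y ∉ zpowers σ → x * y * x⁻¹ ∉ zpowers σ := by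
    intro x hx y hy hyn h2
    have := h.conj_cases (inv_mem hx) h2
    simp only [inv_inv, mul_assoc, inv_mul_cancel, mul_one, inv_mul_cancel_left] at this
    rcases this with h3 | h3
    · exact hyn (h3 ▸ by simpa [mul_assoc] using h2)
    · exact hyn (h3 ▸ by simpa [mul_assoc] using inv_mem h2)
  have hT : T = univ.filter (IsConj t₁) ∪ univ.filter (IsConj t₂) := by
    ext s
    simp only [T, mem_filter, mem_univ, true_and, mem_union]
    constructor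
    · rintro ⟨hs, hsA⟩
      obtain ⟨x, hxC, hx⟩ := hπ4 s
      have hs2 : IsPElt 2 (s : G) := isPElt_iff_pow_eq_one.2 ⟨1, by
        rw [pow_one, pow_two]; exact congrArg Subtype.val hs⟩
      rw [pPart_eq_self_iff.2 hs2] at hx
      obtain ⟨a, ha, ha'⟩ := h.exists_conj_eq (hπ1 s) hsA
      let y : C := ⟨x, hxC⟩⁻¹ * ⟨a, hPC (h.zpowers_le ha)⟩
      rcases ha' with ha' | ha'
      · refine Or.inl (isConj_iff.2 ⟨y, Subtype.ext ?_⟩)
        simp only [y, t₁, Subgroup.coe_mul, Subgroup.coe_inv, mul_inv_rev, inv_inv]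
        rw [mul_assoc x⁻¹, mul_assoc x⁻¹, ← mul_assoc _ a⁻¹, ha', ← hx]; group
      · refine Or.inr (isConj_iff.2 ⟨y, Subtype.ext ?_⟩)
        simp only [y, t₂, Subgroup.coe_mul, Subgroup.coe_inv, mul_inv_rev, inv_inv]
        rw [mul_assoc x⁻¹, mul_assoc x⁻¹, ← mul_assoc _ a⁻¹, ha', ← hx]; group
    · rintro (hs | hs) <;> obtain ⟨y, rfl⟩ := isConj_iff.1 hs
      · refine ⟨?_, ?_⟩
        · rw [conj_mul, conj_eq_one_iff]; exact Subtype.ext h.mul_self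
        · rw [map_mul, map_mul, map_inv, ht₁]; exact hconjA _ (hπ1 y) _ h.mem_τ h.notMem
      · refine ⟨?_, ?_⟩
        · rw [conj_mul, conj_eq_one_iff]
          exact Subtype.ext (h.mul_self_of_notMem (mul_mem h.mem_σ h.mem_τ) hστ)
        · rw [map_mul, map_mul, map_inv, ht₂]
          exact hconjA _ (hπ1 y) _ (mul_mem h.mem_σ h.mem_τ) hστ
  have hdisj : Disjoint (univ.filter (IsConj t₁)) (univ.filter (IsConj t₂)) := by
    rw [disjoint_filter]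
    intro s _ hs1 hs2
    obtain ⟨y, hy⟩ := isConj_iff.1 (hs1.trans hs2.symm)
    have h2 := congrArg π hy
    rw [map_mul, map_mul, map_inv, ht₁, ht₂] at h2
    have h3 : ∃ a ∈ zpowers σ, a * τ * a⁻¹ = σ * τ := by
      by_cases hyA : π y ∈ zpowers σ
      · exact ⟨_, hyA, h2⟩
      · obtain ⟨a, ha, ha'⟩ := h.exists_eq_mul (hπ1 y) hyA
        refine ⟨a, ha, ?_⟩
        rw [← h2, ha']; group
    obtain ⟨a, ha, ha'⟩ := h3
    have h4 : a * a = σ := by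
      have h5 := h.τ_conj (inv_mem ha)
      rw [inv_inv, mul_inv_eq_iff_eq_mul] at h5
      rw [mul_assoc, h5, ← mul_assoc] at ha'
      exact mul_right_cancel ha'
    obtain ⟨k, rfl⟩ := mem_zpowers_iff.1 ha
    have h5 : σ ^ (2 * k - 1) = 1 := by
      rw [zpow_sub_one, two_mul, zpow_add, h4, mul_inv_cancel]
    have h6 : (2 : ℤ) ∣ 2 * k - 1 := by
      refine dvd_trans ?_ (orderOf_dvd_iff_zpow_eq_one.2 h5)
      exact_mod_cast hJ2 ▸ orderOf_dvd_of_mem_zpowers hJ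
    omega
  have hθJ : ∀ j ∈ zpowers (σ * σ), θ j = 0 ∧ θ (j * σ) = c ∧ θ (j * σ⁻¹) = c := fun j hj =>
    ⟨h0 j hj, by rw [h.comm (hJA hj) (mem_zpowers σ), hc j hj], by
      rw [← hc _ (mul_mem (inv_mem (mem_zpowers _)) hj), h.comm (hJA hj) (inv_mem (mem_zpowers σ))]
      congr 1; group⟩
  have hsq : ∀ a ∈ zpowers σ, a * a ∈ zpowers (σ * σ) := fun a ha => by
    obtain ⟨k, rfl⟩ := mem_zpowers_iff.1 ha
    rw [← (Commute.refl σ).mul_zpow]
    exact zpow_mem (mem_zpowers _) k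
  have hτa : ∀ a ∈ zpowers σ, τ * a = a⁻¹ * τ := fun a ha => by
    rw [← h.τ_conj ha, inv_mul_cancel_right]
  have hcj : ∀ b ∈ zpowers σ, ∀ y ∈ P, ∃ j ∈ zpowers (σ * σ), y * (b * τ) * y⁻¹ = j * (b * τ) := by
    intro b hb y hy
    have e : ∀ a ∈ zpowers σ, ∀ c ∈ zpowers σ, a * (c * τ) * a⁻¹ = a * a * (c * τ) := by
      intro a ha c hc
      rw [mul_assoc, mul_assoc, hτa _ (inv_mem ha), inv_inv, ← mul_assoc c, h.comm hc ha,
        mul_assoc, mul_assoc]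
    by_cases hyA : y ∈ zpowers σ
    · exact ⟨_, hsq y hyA, e y hyA b hb⟩
    · obtain ⟨a, ha, rfl⟩ := h.exists_eq_mul hy hyA
      refine ⟨a * a * (b * b)⁻¹, mul_mem (hsq a ha) (inv_mem (hsq b hb)), ?_⟩
      have e2 : a * τ * (b * τ) * (a * τ)⁻¹ = a * (τ * b) * a⁻¹ := by group
      rw [e2, hτa b hb, e a ha _ (inv_mem hb)]
      group
  have hπT : ∀ (u : C) (b : G), b ∈ zpowers σ → π u = b * τ → ∀ s ∈ univ.filter (IsConj u),
      ∃ j ∈ zpowers (σ * σ), π s = j * (b * τ) := by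
    intro u b hb hu s hs
    obtain ⟨y, rfl⟩ := isConj_iff.1 (mem_filter.1 hs).2
    rw [map_mul, map_mul, map_inv, hu]
    exact hcj b hb _ (hπ1 y)
  have hval : ∀ (u v : C) (b c : G), b ∈ zpowers σ → c ∈ zpowers σ → π u = b * τ → π v = c * τ →
      ∀ z : ℂ, (∀ j ∈ zpowers (σ * σ), θ (j * (b * c⁻¹)) = z) →
      ∑ s ∈ univ.filter (IsConj u), ∑ t ∈ univ.filter (IsConj v), θ (π s * π t) =
        (univ.filter (IsConj u)).card * (univ.filter (IsConj v)).card * z := by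
    intro u v b c hb hc hu hv z hz
    rw [sum_congr rfl (g := fun _ => (univ.filter (IsConj v)).card * z) fun s hs => ?_]
    · simp only [sum_const, nsmul_eq_mul, mul_assoc]
    rw [sum_congr rfl (g := fun _ => z) fun t ht => ?_]
    · simp only [sum_const, nsmul_eq_mul]
    obtain ⟨j, hj, e1⟩ := hπT u b hb hu s hs
    obtain ⟨j', hj', e2⟩ := hπT v c hc hv t ht
    rw [← hz (j * j'⁻¹) (mul_mem hj (inv_mem hj')), e1, e2]
    congr 1
    have e3 := hτa _ (mul_mem (hJA hj') hc)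
    calc j * (b * τ) * (j' * (c * τ)) = j * b * (τ * (j' * c)) * τ := by group
      _ = j * (b * (c⁻¹ * j'⁻¹)) * (τ * τ) := by rw [e3]; group
      _ = j * j'⁻¹ * (b * c⁻¹) := by
        rw [h.mul_self, mul_one, ← mul_assoc b,
          h.comm (mul_mem hb (inv_mem hc)) (inv_mem (hJA hj')), mul_assoc]
  have ht₁' : π t₁ = 1 * τ := by rw [one_mul, ht₁]
  have o := one_mem (zpowers σ)
  have m := mem_zpowers σ
  rw [hT, sum_union hdisj]
  simp only [sum_union hdisj, sum_add_distrib]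
  rw [hval _ _ _ _ o o ht₁' ht₁' 0 (fun j hj => by simpa using (hθJ j hj).1),
    hval _ _ _ _ o m ht₁' ht₂ c (fun j hj => by simpa using (hθJ j hj).2.2),
    hval _ _ _ _ m o ht₂ ht₁' c (fun j hj => by simpa using (hθJ j hj).2.1),
    hval _ _ _ _ m m ht₂ ht₂ 0 (fun j hj => by simpa using (hθJ j hj).1),
    card_filter_isConj, card_filter_isConj, card_conj_centralizer, card_conj_centralizer]
  ring

theorem dih_abs {P : Subgroup G} {σ τ J : G} (h : IsDihPair P σ τ) (hP : IsPGroup 2 P)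
    (hi : ¬ 2 ∣ P.index) (hJ : J ∈ zpowers σ) (hJ2 : orderOf J = 2) (h4 : 4 ∣ orderOf σ)
    (hone : ∀ t, orderOf t = 2 → IsConj J t) : ∃ m₁ m₂ m₃ : ℤ,
    (2 * orderOf σ : ℤ) ∣ m₁ - 1 ∧ m₁ ≠ 1 ∧ (2 * orderOf σ : ℤ) ∣ m₂ + 1 - orderOf σ ∧
    (2 * orderOf σ : ℤ) ∣ m₃ + 1 - orderOf σ ∧ 1 + m₁ + m₂ + m₃ = 0 ∧
    ((centralizer ({J} : Set G)).index : ℚ) * (1 + 1 / m₁ + 1 / m₂ + 1 / m₃) =
      8 * ((centralizer ({J, τ} : Set G)).relIndex (centralizer {J}) : ℚ) *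
        ((centralizer ({J, σ * τ} : Set G)).relIndex (centralizer {J}) : ℚ) ∧
    ((centralizer ({J} : Set G)).index : ℚ) * (m₁ - 1) ^ 2 = 2 * m₁ * (m₁ + 1) *
      (((centralizer ({J, τ} : Set G)).relIndex (centralizer {J}) : ℚ) +
        ((centralizer ({J, σ * τ} : Set G)).relIndex (centralizer {J}) : ℚ)) ^ 2 := by
  classical
  haveI := Fintype.ofFinite G
  obtain ⟨M, hM⟩ := exists_isPModular Nat.prime_two
  have hm := mem_zpowers σ
  have h4' := dih_isFour h hJ hJ2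
  obtain ⟨n, hn⟩ := h.isPElt hP hm
  obtain ⟨n, rfl⟩ : ∃ m, n = m + 2 := ⟨n - 2, by
    have := (Nat.pow_dvd_pow_iff_le_right (k := 2) (l := n) one_lt_two).1 (hn ▸ h4)
    omega⟩
  have hσo : orderOf σ = 2 * 2 ^ (n + 1) := by rw [hn]; ring
  have hqe : Even (2 ^ (n + 1)) := Nat.even_pow.2 ⟨even_two, by omega⟩
  have hq2 : 2 ≤ 2 ^ (n + 1) := Nat.le_self_pow (by omega) 2
  have hJe : σ ^ 2 ^ (n + 1) = J := eq_of_orderOf_eq_two_of_mem_zpowers (pow_mem hm _) hJ (by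
    rw [orderOf_pow_of_dvd (by omega) (hσo ▸ Dvd.intro_left 2 rfl), hσo,
      Nat.mul_div_cancel _ (by omega)]) hJ2
  have hxs := (dih_isFour (h.of_notMem (mul_mem h.mem_σ h.mem_τ) (h.mul_τ_notMem hm)) hJ
    hJ2).ord_right
  obtain ⟨S, hS⟩ := exists_sylow_le_of_not_dvd_index hi
  obtain rfl : P = S := S.is_maximal' hP hS
  have hq := fun χ₁ b1 n1 δ₁ d₁ hv => Agent.S4482.result M hM (n + 3) (by omega) S σ τ h.mem_σ
    h.mem_τ hn h4'.ord_right h.conj_eq (le_antisymm ((closure_le _).2 (by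
      rintro _ (rfl | rfl); exacts [h.mem_σ, h.mem_τ])) fun y hy => by
        have a1 : zpowers σ ≤ closure {σ, τ} := zpowers_le.2 (subset_closure (by simp))
        by_cases hA : y ∈ zpowers σ
        · exact a1 hA
        · obtain ⟨a, ha, rfl⟩ := h.exists_eq_mul hy hA
          exact mul_mem (a1 ha) (subset_closure (by simp)))
    (by rw [show n + 3 - 2 = n + 1 from rfl, hJe]; exact ⟨hone _ h4'.ord_right, hone _ hxs⟩)
    χ₁ b1 n1 δ₁ d₁ hv
  rw [show n + 3 - 2 = n + 1 from rfl, show n + 3 - 1 = n + 2 from rfl, hJe, ← hn, hσo] at hq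
  generalize 2 ^ (n + 1) = q at *
  obtain ⟨-, χ₁, χ₂, χ₃, χ', δ₁, δ₂, δ₃, d₁, d₂, d₃, -, n1, n2, n3, n12, n13, n23, -, hB, hv, hρ⟩ :=
    Agent.S4481.main h hM hP hi hqe (by omega) hσo (isPrimitiveRoot_exp_nat (by omega))
  have b1 : χ₁ ∈ principalBlock M G := by simp [hB]
  have b2 : χ₂ ∈ principalBlock M G := by simp [hB]
  have b3 : χ₃ ∈ principalBlock M G := by simp [hB]
  obtain ⟨q1, q2⟩ := hq χ₁ b1 n1 δ₁ d₁ fun l l0 l4 => (hv l l0 l4).1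
  obtain ⟨t1, t2, t3, -⟩ := hv q (by omega) (by omega)
  rw [hJe] at t1 t2 t3
  rw [pow_succ, hqe.neg_one_pow, one_mul] at t2 t3
  have hcong : ∀ (χ : IrrCharacter G) (a b : ℤ), (∀ l, 0 < l → l < 2 * q →
      χ (σ ^ l) = a + b * (-1) ^ l) → ((2 * (2 * q : ℕ) : ℤ)) ∣
        charDegree χ.1 - (a + b) + (2 * q : ℕ) * (2 * a + b) := by
    intro χ a b ha
    have a1 := (χ.isCharacter.avg_mul (K := ⊥) (A := (S : Subgroup G)) (by simp)).apply_one
    have a2 : ∀ k, χ (σ ^ k * τ) = a + b := fun k => by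
      rw [← χ.isClassFunction.eq_of_isConj (hone _ (dih_isFour (h.of_notMem
        (mul_mem (pow_mem h.mem_σ k) h.mem_τ) (h.mul_τ_notMem (pow_mem hm k))) hJ
          hJ2).ord_right), ← hJe, ha q (by omega) (by omega), hqe.neg_one_pow, mul_one]
    have a3 : ∑ k ∈ range (2 * q), χ (σ ^ k) = charDegree χ.1 - (a + b) + 2 * q * a := by
      have a4 : ∑ k ∈ range (2 * q), ((a : ℂ) + b * (-1) ^ k) = 2 * q * a := by
        rw [sum_add_distrib, ← mul_sum, neg_one_geom_sum, if_pos (even_two_mul q)]; simp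
      obtain ⟨r, hr⟩ : ∃ r, 2 * q = r + 1 := ⟨2 * q - 1, by omega⟩
      rw [← a4, hr, sum_range_succ', sum_range_succ', sum_congr rfl fun k hk =>
        ha (k + 1) (by omega) (by have := mem_range.1 hk; omega), pow_zero, χ.apply_one]
      ring
    simp only [OneMemClass.coe_one, one_mul] at a1
    rw [dih_sum_eq h χ.1, h.card_eq, hσo, sum_add_distrib, a3] at a1
    simp only [a2, sum_const, card_range, nsmul_eq_mul] at a1
    generalize charDegree (G := (⊥ : Subgroup G)) _ = N at a1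
    refine ⟨N, Int.cast_injective (α := ℂ) ?_⟩
    have q0 : (q : ℂ) ≠ 0 := by exact_mod_cast (by omega : q ≠ 0)
    push_cast at a1 ⊢
    field_simp at a1
    linear_combination a1
  have c1 := hcong χ₁ δ₁ 0 fun l l0 l1 => by rw [(hv l l0 l1).1]; simp
  have c2 := hcong χ₂ 0 (-δ₂) fun l l0 l1 => by rw [(hv l l0 l1).2.1]; push_cast; ring
  have c3 := hcong χ₃ 0 (-δ₃) fun l l0 l1 => by rw [(hv l l0 l1).2.2.1]; push_cast; ring
  have i0 : ((centralizer ({J} : Set G)).index : ℂ) ≠ 0 := by exact_mod_cast (index_pos _).ne'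
  set o := IrrCharacter.one G with ho
  let θ : G → ℂ := o.1 + (δ₁ : ℂ) • χ₁.1 + (δ₂ : ℂ) • χ₂.1 + (δ₃ : ℂ) • χ₃.1
  have hθ : ∀ g, θ g = 1 + δ₁ * χ₁ g + δ₂ * χ₂ g + δ₃ * χ₃ g := fun g => rfl
  have hθc : IsClassFunction G θ := ((o.isClassFunction.add (χ₁.isClassFunction.smul _)).add
    (χ₂.isClassFunction.smul _)).add (χ₃.isClassFunction.smul _)
  have hθ0 : ∀ g, ¬ 2 ∣ orderOf g → θ g = 0 := fun g hg => by
    rw [hθ, (hρ g (Nat.odd_iff.2 (Nat.two_dvd_ne_zero.1 hg)) ⟨0, by omega⟩).1]; ring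
  have hθ2 : ∀ g, θ g = θ (pPart 2 g) := fun g => by
    by_cases hg : IsPRegular 2 g
    · rw [hθ0 g hg, pPart_eq_one_iff.2 hg, hθ0 1 (by simp)]
    · rw [hθ, hθ, h.irr_apply_eq_pPart hM hP hi hJ hJ2 hone b1 hg,
        h.irr_apply_eq_pPart hM hP hi hJ hJ2 hone b2 hg,
        h.irr_apply_eq_pPart hM hP hi hJ hJ2 hone b3 hg]
  have dd : ∀ δ : ℤ, δ = 1 ∨ δ = -1 → (δ : ℂ) * δ = 1 := by rintro δ (rfl | rfl) <;> simp
  have hθσ : ∀ l : ℕ, θ (σ ^ l) = 2 - 2 * (-1) ^ l := fun l => by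
    rw [← pow_mod_orderOf, hσo, neg_one_pow_eq_pow_mod_two,
      ← Nat.mod_mod_of_dvd l (dvd_mul_right 2 q), ← neg_one_pow_eq_pow_mod_two]
    have hl := Nat.mod_lt l (by omega : 0 < 2 * q)
    generalize l % (2 * q) = k at hl
    rcases Nat.eq_zero_or_pos k with rfl | hk
    · rw [pow_zero, hθ0 1 (by simp)]; norm_num
    · rw [hθ, (hv k hk hl).1, (hv k hk hl).2.1, (hv k hk hl).2.2.1]
      linear_combination dd _ d₁ - (-1) ^ k * dd _ d₂ - (-1) ^ k * dd _ d₃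
  have hsq : ∀ a ∈ zpowers (σ * σ), ∃ l : ℕ, a = σ ^ (2 * l) := fun a ha => by
    obtain ⟨l, rfl⟩ := (Submonoid.mem_powers_iff _ _).1 (mem_powers_iff_mem_zpowers.2 ha)
    exact ⟨l, by rw [pow_mul, sq]⟩
  have k := sum_pairs_odd h hP hi (by
      obtain ⟨r, rfl⟩ := hqe
      rw [← hJe, ← two_mul, pow_mul, sq]; exact npow_mem_zpowers _ r) hJ2 hone hθc hθ2 (c := 4)
    (fun a ha => by obtain ⟨l, rfl⟩ := hsq a ha; rw [hθσ, pow_mul]; norm_num)
    (fun a ha => by obtain ⟨l, rfl⟩ := hsq a ha; rw [← pow_succ', hθσ, pow_succ, pow_mul]; norm_num)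
  rw [hθc.sum_class_mul_class] at k
  simp only [θ, ip_add_left, ip_smul_left, IrrCharacter.ip_eq, add_mul, mul_ite, ite_mul, mul_one,
    mul_zero, zero_mul, one_mul, sum_add_distrib, sum_ite_eq, mem_univ, if_true] at k
  simp only [ho, IrrCharacter.one_apply, t1, t2, t3, IrrCharacter.apply_one, mul_neg, mul_one,
    neg_mul, neg_neg] at k
  have r1 := hθ0 1 (by simp)
  simp only [hθ, IrrCharacter.apply_one] at r1
  rw [hσo]
  refine ⟨δ₁ * charDegree χ₁.1, δ₂ * charDegree χ₂.1, δ₃ * charDegree χ₃.1, ?_, ?_, ?_, ?_, ?_, ?_,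
    ?_⟩
  · obtain ⟨N, hN⟩ := c1
    rcases d₁ with rfl | rfl
    exacts [⟨N - 1, by linear_combination hN⟩, ⟨-N - 1, by linear_combination -hN⟩]
  · rcases d₁ with rfl | rfl <;> omega
  · obtain ⟨N, hN⟩ := c2
    rcases d₂ with rfl | rfl
    exacts [⟨N, by linear_combination hN⟩, ⟨-N, by linear_combination -hN⟩]
  · obtain ⟨N, hN⟩ := c3
    rcases d₃ with rfl | rfl
    exacts [⟨N, by linear_combination hN⟩, ⟨-N, by linear_combination -hN⟩]
  · apply Int.cast_injective (α := ℂ)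
    push_cast
    linear_combination r1
  · have e : ∀ (δ : ℤ) (d : ℕ), δ = 1 ∨ δ = -1 → (δ : ℂ) * (δ * δ / d) = 1 / (δ * d) := by
      rintro δ d (rfl | rfl) <;> simp [div_eq_mul_inv]
    rw [e _ _ d₁, e _ _ d₂, e _ _ d₃] at k
    apply Rat.cast_injective (α := ℂ)
    push_cast
    apply mul_left_cancel₀ i0
    linear_combination k
  · have hi' := (centralizer ({J} : Set G)).card_mul_index
    have hr1 := card_mul_relIndex (centralizer_le (by simp) :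
      centralizer ({J, τ} : Set G) ≤ centralizer {J})
    have hr2 := card_mul_relIndex (centralizer_le (by simp) :
      centralizer ({J, σ * τ} : Set G) ≤ centralizer {J})
    have p2 : 0 < Nat.card (centralizer ({J, τ} : Set G)) := Nat.card_pos
    have p3 : 0 < Nat.card (centralizer ({J, σ * τ} : Set G)) := Nat.card_pos
    have p4 : 0 < Nat.card (centralizer ({J} : Set G)) := Nat.card_pos
    rw [← hi'] at q2
    generalize (centralizer ({J, τ} : Set G)).relIndex (centralizer ({J} : Set G)) = r₁ at *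
    generalize (centralizer ({J, σ * τ} : Set G)).relIndex (centralizer ({J} : Set G)) = r₂ at *
    generalize Nat.card (centralizer ({J, τ} : Set G)) = e₁ at *
    generalize Nat.card (centralizer ({J, σ * τ} : Set G)) = e₂ at *
    generalize Nat.card (centralizer ({J} : Set G)) = c at *
    have f1 : (r₁ : ℚ) = c / e₁ := by
      rw [← hr1]; push_cast; field_simp
    have f2 : (r₂ : ℚ) = c / e₂ := by
      rw [← hr2]; push_cast; field_simp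
    have c0 : (c : ℚ) ≠ 0 := by positivity
    rw [f1, f2]
    apply mul_left_cancel₀ c0
    push_cast at q2 ⊢
    rcases d₁ with rfl | rfl <;> push_cast at q2 ⊢ <;> linear_combination q2

variable {M S : Subgroup G} {x s t : G}

theorem GDih.pair_sub' (h : GDih M S x s t) :
    IsDihPair (S.subgroupOf M) ⟨x, h.syl.le h.x_mem⟩ ⟨s, h.syl.le h.s_mem⟩ := by
  have e : ∀ y : M, y ∈ zpowers (⟨x, h.syl.le h.x_mem⟩ : M) ↔ (y : G) ∈ zpowers x := fun y => by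
    simp only [mem_zpowers_iff, Subtype.ext_iff, SubgroupClass.coe_zpow]
  exact ⟨h.pair.mem_σ, h.pair.mem_τ, Subtype.ext h.pair.mul_self, Subtype.ext h.pair.conj_eq,
    fun a => h.pair.notMem ((e _).1 a), fun y hy => (h.pair.cases y hy).imp (e _).2 (e _).2⟩

theorem GDih.relIndex_sub' (h : GDih M S x s t) :
    2 * (centralizer ({⟨t, h.syl.le h.t_mem'⟩, ⟨s, h.syl.le h.s_mem⟩} : Set M)).relIndex
      (centralizer {⟨t, h.syl.le h.t_mem'⟩}) =
      orderOf x * (𝓒[s] : Subgroup G).relIndex 𝐎(M ⊓ 𝓒[t]) := by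
  have e : centralizer ({⟨t, h.syl.le h.t_mem'⟩, ⟨s, h.syl.le h.s_mem⟩} : Set M) =
      (𝓒[s] ⊓ 𝓒[t] : Subgroup G).subgroupOf M := by
    ext g
    simp only [mem_subgroupOf, Subgroup.mem_inf, mem_centralizer_iff, Set.mem_insert_iff,
      Set.mem_singleton_iff, forall_eq_or_imp, forall_eq]
    simp only [Subtype.ext_iff, Subgroup.coe_mul, and_comm]
  have a1 := h.four_mul_relIndex
  rw [h.card] at a1
  rw [e, centralizer_singleton_subgroupOf, ← inf_subgroupOf_left (𝓒[t] : Subgroup G) M,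
    relIndex_subgroupOf inf_le_left, ← inf_relIndex_right, inf_assoc, inf_left_comm 𝓒[t],
    inf_idem, inf_relIndex_right]
  linarith

/-- relative version; `k = o(x) = N/2`, `a = e₁`, `b = e₂` -/
theorem GDih.data (h : GDih M S x s t) (h4 : 4 ∣ orderOf x) (h1 : OneCl M t) {k i a b : ℕ}
    (hk : orderOf x = k) (hi : (𝓒[t] : Subgroup G).relIndex M = i)
    (ha : (𝓒[s] : Subgroup G).relIndex 𝐎(M ⊓ 𝓒[t]) = a)
    (hb : (𝓒[x * s] : Subgroup G).relIndex 𝐎(M ⊓ 𝓒[t]) = b) : ∃ m₁ m₂ m₃ : ℤ,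
    (2 * k : ℤ) ∣ m₁ - 1 ∧ m₁ ≠ 1 ∧ (2 * k : ℤ) ∣ m₂ + 1 - k ∧ (2 * k : ℤ) ∣ m₃ + 1 - k ∧
    1 + m₁ + m₂ + m₃ = 0 ∧
    (i : ℚ) * (1 + 1 / m₁ + 1 / m₂ + 1 / m₃) = 2 * k ^ 2 * a * b ∧
    2 * (i : ℚ) * (m₁ - 1) ^ 2 = m₁ * (m₁ + 1) * k ^ 2 * (a + b) ^ 2 := by
  have hx : orderOf (⟨x, h.syl.le h.x_mem⟩ : M) = k := by rw [← Subgroup.orderOf_coe]; exact hk
  obtain ⟨m₁, m₂, m₃, a1, a2, a3, a4, a5, a6, a7⟩ := dih_abs h.pair_sub'
    h.syl.pgroup.comap_subtype h.syl.not_dvd (J := ⟨t, h.syl.le h.t_mem'⟩) (by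
      obtain ⟨j, hj⟩ := h.mem
      exact ⟨j, Subtype.ext hj⟩)
    (by rw [← Subgroup.orderOf_coe]; exact h.ord) (hx ▸ hk ▸ h4) (h1.sub _)
  have b1 := congrArg (Nat.cast (R := ℚ)) h.relIndex_sub'
  have b2 : ((2 * (centralizer ({⟨t, h.syl.le h.t_mem'⟩, ⟨x, h.syl.le h.x_mem⟩ *
      ⟨s, h.syl.le h.s_mem⟩} : Set M)).relIndex (centralizer {⟨t, h.syl.le h.t_mem'⟩}) : ℕ) : ℚ) =
      _ := congrArg (Nat.cast (R := ℚ)) h.swap.relIndex_sub'
  rw [hk, ha] at b1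
  rw [hk, hb] at b2
  rw [hx] at a1 a3 a4
  rw [index_cent_sub, hi] at a6 a7
  push_cast at b1 b2
  generalize ((centralizer ({⟨t, h.syl.le h.t_mem'⟩, ⟨s, h.syl.le h.s_mem⟩} : Set M)).relIndex
    (centralizer {⟨t, h.syl.le h.t_mem'⟩}) : ℚ) = r₁ at *
  generalize ((centralizer ({⟨t, h.syl.le h.t_mem'⟩, ⟨x, h.syl.le h.x_mem⟩ *
      ⟨s, h.syl.le h.s_mem⟩} : Set M)).relIndex (centralizer {⟨t, h.syl.le h.t_mem'⟩}) : ℚ) = r₂ at *
  obtain rfl : r₁ = k * a / 2 := by linear_combination b1 / 2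
  obtain rfl : r₂ = k * b / 2 := by linear_combination b2 / 2
  exact ⟨m₁, m₂, m₃, a1, a2, a3, a4, a5, by linear_combination a6, by linear_combination 2 * a7⟩

theorem key_arith {k i a b : ℕ} {m₁ m₂ m₃ : ℤ} (k0 : 0 < k) (n1 : m₁ ≠ 0) (n2 : m₂ ≠ 0)
    (n3 : m₃ ≠ 0) (hs : 1 + m₁ + m₂ + m₃ = 0)
    (e1 : (i : ℚ) * (1 + 1 / m₁ + 1 / m₂ + 1 / m₃) = 2 * k ^ 2 * a * b)
    (e2 : 2 * (i : ℚ) * (m₁ - 1) ^ 2 = m₁ * (m₁ + 1) * k ^ 2 * (a + b) ^ 2) :
    (m₁ + 1) ^ 2 * (m₂ * m₃ - m₁) * ((a : ℤ) + b) ^ 2 = (m₁ - 1) ^ 2 * (m₂ * m₃) * (4 * a * b) := by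
  have p1 : (m₁ : ℚ) ≠ 0 := by exact_mod_cast n1
  have p2 : (m₂ : ℚ) ≠ 0 := by exact_mod_cast n2
  have p3 : (m₃ : ℚ) ≠ 0 := by exact_mod_cast n3
  have p4 : (k : ℚ) ≠ 0 := by exact_mod_cast k0.ne'
  have hs' : (1 : ℚ) + m₁ + m₂ + m₃ = 0 := by exact_mod_cast hs
  have e3 : (i : ℚ) * ((m₁ + 1) * (m₂ * m₃ - m₁)) = 2 * k ^ 2 * a * b * (m₁ * m₂ * m₃) := by
    rw [← e1]
    field_simp
    linear_combination (-(i : ℚ) * m₁) * hs'
  apply Int.cast_injective (α := ℚ)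
  apply mul_left_cancel₀ (mul_ne_zero p1 (pow_ne_zero 2 p4))
  push_cast
  linear_combination 2 * (m₁ - 1) ^ 2 * e3 - (m₁ + 1) * (m₂ * m₃ - m₁) * e2

theorem case_arith {m₁ m₂ m₃ u P : ℤ} (h1 : m₁ ≠ 1) (r1 : m₁ - 1 = 16 * u)
    (hs : 1 + m₁ + m₂ + m₃ = 0) (g2 : m₂ % 8 = 7 ∧ m₂ ≠ -1) (g3 : m₃ % 8 = 7 ∧ m₃ ≠ -1)
    (hP : P = m₂ * m₃) :
    (0 < P ∧ 3 * ((m₁ - 1) ^ 2 * P) < 4 * ((m₁ + 1) ^ 2 * (P - m₁))) ∨
      (P < 0 ∧ 4 * ((m₁ + 1) ^ 2 * (P - m₁)) < 3 * ((m₁ - 1) ^ 2 * P)) ∨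
      (m₁ = -15 ∧ P ≤ -207 ∧ P ≠ -735) := by
  rcases (by omega : 17 ≤ m₁ ∨ m₁ ≤ -15) with h | h
  · rcases (by omega : (m₂ ≤ -9 ∧ m₃ ≤ -9) ∨ (0 < m₂ ∧ m₃ < 0) ∨ (m₂ < 0 ∧ 0 < m₃)) with
      h' | h' | h'
    · have : 9 * (m₁ - 8) ≤ P := by rw [hP]; nlinarith
      exact .inl ⟨by omega, by nlinarith⟩
    · have : P < 0 := hP ▸ mul_neg_of_pos_of_neg h'.1 h'.2
      exact .inr (.inl ⟨this, by nlinarith⟩)
    · have : P < 0 := hP ▸ mul_neg_of_neg_of_pos h'.1 h'.2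
      exact .inr (.inl ⟨this, by nlinarith⟩)
  · by_cases h' : 0 < m₂ ∧ 0 < m₃
    · have : 0 < P := hP ▸ mul_pos h'.1 h'.2
      have h3 : 3 * (m₁ - 1) ^ 2 < 4 * (m₁ + 1) ^ 2 := by nlinarith
      exact .inl ⟨this, by nlinarith [mul_lt_mul_of_pos_right h3 this, sq_nonneg (m₁ + 1)]⟩
    have h2 : P ≤ 9 * (m₁ - 8) := by
      rcases (by omega : (m₂ ≤ -9 ∧ 8 - m₁ ≤ m₃) ∨ (m₃ ≤ -9 ∧ 8 - m₁ ≤ m₂)) with h' | h' <;>
        rw [hP] <;> nlinarith
    rcases (by omega : m₁ = -15 ∨ m₁ ≤ -31) with h | h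
    · refine .inr (.inr ⟨h, by omega, fun e => ?_⟩)
      obtain rfl : m₃ = 14 - m₂ := by omega
      have : (m₂ - 35) * (m₂ + 21) = 0 := by linear_combination hP - e
      rcases mul_eq_zero.1 this with e | e <;> omega
    · have h3 : 0 < m₁ ^ 2 + 14 * m₁ + 1 := by nlinarith
      have h4 : 9 * (m₁ - 8) * (m₁ ^ 2 + 14 * m₁ + 1) < 4 * m₁ * (m₁ + 1) ^ 2 := by nlinarith
      exact .inr (.inl ⟨by omega, by nlinarith [mul_le_mul_of_nonneg_right h2 h3.le]⟩)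

/-- `φ α (1 + r)² = 4 r` with `φ = m₁(m₁+1)/(m₁-1)²`, `r = b/a`. We have `m₁ ≥ 17` or `m₁ ≤ -31` or
`m₁ = -15`, `m₂, m₃ ≥ 7` or `≤ -9`, `≡ 7 mod 8`. `φα > 3/4` unless `m₁ = -15`, where `φα ≥ 0.71` and
`φα = 3/4` means `m₂ m₃ = -735`, `{m₂, m₃} = {35, -21}`, impossible modulo `8`.
For `r ≥ 11/3`: `4r/(1+r)² ≤ 33/49 < 0.71`; for `r = 3` it is `3/4`. -/
theorem ratio_arith {k i a b : ℕ} {m₁ m₂ m₃ : ℤ} (hk : 8 ∣ k) (k0 : 0 < k) (a0 : 0 < a) (i0 : 0 < i)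
    (r1 : (2 * k : ℤ) ∣ m₁ - 1) (h1 : m₁ ≠ 1) (r2 : (2 * k : ℤ) ∣ m₂ + 1 - k)
    (r3 : (2 * k : ℤ) ∣ m₃ + 1 - k) (hs : 1 + m₁ + m₂ + m₃ = 0)
    (e1 : (i : ℚ) * (1 + 1 / m₁ + 1 / m₂ + 1 / m₃) = 2 * k ^ 2 * a * b)
    (e2 : 2 * (i : ℚ) * (m₁ - 1) ^ 2 = m₁ * (m₁ + 1) * k ^ 2 * (a + b) ^ 2) :
    3 * b < 11 * a ∧ b ≠ 3 * a := by
  obtain ⟨c, rfl⟩ := hk
  obtain ⟨u₁, r1⟩ := (Dvd.intro (c : ℤ) (by push_cast; ring) : (16 : ℤ) ∣ 2 * (8 * c : ℕ)).trans r1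
  have g : ∀ m : ℤ, (2 * (8 * c : ℕ) : ℤ) ∣ m + 1 - (8 * c : ℕ) → m % 8 = 7 ∧ m ≠ -1 := fun m hm => by
    have := (Dvd.intro (2 * c : ℤ) (by push_cast; ring) : (8 : ℤ) ∣ 2 * (8 * c : ℕ)).trans hm
    push_cast at this
    refine ⟨by omega, ?_⟩
    rintro rfl
    have := Int.le_of_dvd (by omega) (dvd_neg.2 hm)
    omega
  have g2 := g _ r2
  have g3 := g _ r3
  have key := key_arith k0 (by omega) (by omega) (by omega) hs e1 e2
  have a0' : (0 : ℤ) < a := by exact_mod_cast a0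
  have b0' : (0 : ℤ) ≤ b := by positivity
  have hA : (0 : ℤ) < ((a : ℤ) + b) ^ 2 := by positivity
  obtain ⟨P, hP⟩ : ∃ P, P = m₂ * m₃ := ⟨_, rfl⟩
  have hT := case_arith h1 r1 hs g2 g3 hP
  rw [← hP] at key
  have bad : 4 * (4 * a * b) ≤ 3 * ((a : ℤ) + b) ^ 2 → m₁ = -15 ∧ P ≤ -207 ∧ P ≠ -735 :=
    fun h34 => by
    rcases hT with ⟨p0, h⟩ | ⟨p0, h⟩ | h
    · have h2 := mul_le_mul_of_nonneg_left h34 (show 0 ≤ (m₁ - 1) ^ 2 * P by positivity)
      have h3 := mul_lt_mul_of_pos_right h hA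
      linarith
    · have h2 := mul_le_mul_of_nonpos_left h34
        (mul_nonpos_of_nonneg_of_nonpos (sq_nonneg (m₁ - 1)) p0.le)
      have h3 := mul_lt_mul_of_pos_right h hA
      linarith
    · exact h
  refine ⟨not_le.1 fun h => ?_, fun h => ?_⟩
  · have h' : 11 * (a : ℤ) ≤ 3 * b := by exact_mod_cast h
    have h49 : 49 * (4 * a * b) ≤ 33 * ((a : ℤ) + b) ^ 2 := by
      linarith [mul_nonneg (sub_nonneg.2 h') (show (0 : ℤ) ≤ 11 * b - 3 * a by omega)]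
    obtain ⟨rfl, p0, -⟩ := bad (by linarith)
    have h2 := mul_le_mul_of_nonpos_left h49 (show P ≤ 0 by omega)
    have h3 := mul_le_mul_of_nonneg_right p0 hA.le
    linarith
  · subst h
    obtain ⟨rfl, -, p1⟩ := bad (by push_cast; linarith)
    refine p1 (mul_left_cancel₀ (a := 64 * (a : ℤ) ^ 2) (by positivity) ?_)
    push_cast at key
    linear_combination key

theorem Big.ratio (h : Big S x s t) :
    3 * (𝓒[x * s] : Subgroup G).relIndex 𝐎(𝓒[t]) < 11 * (𝓒[s] : Subgroup G).relIndex 𝐎(𝓒[t]) ∧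
      (𝓒[x * s] : Subgroup G).relIndex 𝐎(𝓒[t]) ≠ 3 * (𝓒[s] : Subgroup G).relIndex 𝐎(𝓒[t]) := by
  obtain ⟨m₁, m₂, m₃, a1, a2, a3, a4, a5, a6, a7⟩ := h.dih.data h.four_dvd h.one rfl rfl rfl rfl
  rw [top_inf_eq] at a6 a7
  exact ratio_arith h.big (orderOf_pos x) (Nat.pos_of_ne_zero index_ne_zero_of_finite)
    (Nat.pos_of_ne_zero index_ne_zero_of_finite) a1 a2 a3 a4 a5 a6 a7

/-- for `a = b`: `2k²a²/i = α = (m₁-1)²/(m₁(m₁+1)) ≥ 256/306 > 4/5` -/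
theorem Big.alpha (h : Big S x s t) (hx : 𝐎(𝓒[t]) ≤ 𝓒[x]) :
    4 * (𝓒[t] : Subgroup G).index <
      5 * (2 * orderOf x ^ 2 * (𝓒[s] : Subgroup G).relIndex 𝐎(𝓒[t]) ^ 2) := by
  obtain ⟨m₁, m₂, m₃, a1, a2, -, -, -, -, a7⟩ := h.dih.data h.four_dvd h.one rfl rfl rfl rfl
  rw [top_inf_eq, h.dih.relIndex_swap hx, relIndex_top_right] at a7
  obtain ⟨c, hc⟩ := h.big
  obtain ⟨u, hu⟩ := (Dvd.intro (c : ℤ) (by rw [hc]; push_cast; ring) :
    (16 : ℤ) ∣ 2 * (orderOf x : ℕ)).trans a1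
  have i0 : (0 : ℚ) < (𝓒[t] : Subgroup G).index := by exact_mod_cast index_pos _
  have h1 : 4 * (m₁ * (m₁ + 1)) < 5 * (m₁ - 1) ^ 2 ∧ 0 < m₁ * (m₁ + 1) := by
    rcases (by omega : 17 ≤ m₁ ∨ m₁ ≤ -15) with h | h <;> constructor <;> nlinarith
  have h2 : 4 * ((m₁ : ℚ) * (m₁ + 1)) < 5 * (m₁ - 1) ^ 2 := by exact_mod_cast h1.1
  have h3 : (0 : ℚ) < m₁ * (m₁ + 1) := by exact_mod_cast h1.2
  rw [← Nat.cast_lt (α := ℚ)]
  push_cast
  refine lt_of_mul_lt_mul_left (a := (m₁ : ℚ) * (m₁ + 1)) ?_ h3.le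
  nlinarith

end Cfsg.Gag
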