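import Cfsg.Agent.Gag.SelfC

/-!
# Eigenvalues of a cyclic group acting freely

Let `⟨ζ⟩` of order `m` act freely on the nonzero vectors of `V`. The subgroup of `(ℤ/m)ˣ` generated
by `p` and the automorphisms induced by conjugation acts freely on the eigenvalues of `ζ`.
-/

set_option autoImplicit false
set_option linter.unusedSectionVars false

namespace Cfsg.Gag

open Subgroup Polynomial

universe u v

theorem mul_aeval_of_semiconj {R A : Type*} [CommRing R] [Ring A] [Algebra R A] {a f g : A}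
    (h : a * f = g * a) (q : R[X]) : a * aeval f q = aeval g q * a := by
  induction q using Polynomial.induction_on' with
  | add q r hq hr => rw [map_add, map_add, mul_add, add_mul, hq, hr]
  | monomial n c =>
    rw [aeval_monomial, aeval_monomial, ← mul_assoc, ← Algebra.commutes, mul_assoc, mul_assoc,
      (SemiconjBy.pow_right h n).eq]

variable {p : ℕ} [hp : Fact p.Prime] {Γ : Type u} {V : Type v} [Group Γ] [Finite Γ]
  [AddCommGroup V] [DistribMulAction Γ V] [Finite V] [Nontrivial V]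

theorem exists_delta' [Module (ZMod p) V] {ζ : Γ}
    (hf : ∀ g ∈ zpowers ζ, g ≠ 1 → ∀ v : V, g • v = v → v = 0) :
    ∃ Δ : Subgroup (ZMod (orderOf ζ))ˣ, p ^ Nat.card Δ ≤ Nat.card V ∧
      ∀ u : (ZMod (orderOf ζ))ˣ, ((u : ZMod (orderOf ζ)) = p ∨
        ∃ g, g * ζ * g⁻¹ = ζ ^ (u : ZMod (orderOf ζ)).val) → u ∈ Δ := by
  haveI : NeZero (orderOf ζ) := ⟨(orderOf_pos ζ).ne'⟩
  let ρ : Γ →* Module.End (ZMod p) V :=
    { toFun := fun g => (DistribSMul.toAddMonoidHom V g).toZModLinearMap p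
      map_one' := LinearMap.ext fun v => by simp
      map_mul' := fun a b => LinearMap.ext fun v => by simp [mul_smul] }
  have hρ : ∀ g v, ρ g v = g • v := fun g v => by simp [ρ]
  clear_value ρ
  haveI : Module.Finite (ZMod p) V := Module.Finite.of_finite
  set μ := minpoly (ZMod p) (ρ ζ) with hμ
  have hint : IsIntegral (ZMod p) (ρ ζ) := Algebra.IsIntegral.isIntegral _
  have h0 : μ ≠ 0 := minpoly.ne_zero hint
  let k := AlgebraicClosure (ZMod p)
  have hroot : ∀ (l : k), aeval l μ = 0 → ∀ q : (ZMod p)[X], aeval (ρ ζ) q = 0 → aeval l q = 0 :=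
    fun l hl q hq => aeval_eq_zero_of_dvd_aeval_eq_zero (minpoly.dvd _ _ hq) hl
  have hpow : ∀ (l : k), aeval l μ = 0 → l ^ orderOf ζ = 1 := fun l hl => by
    have := hroot l hl (X ^ orderOf ζ - 1) (by
      rw [map_sub, map_pow, aeval_X, map_one, ← map_pow, pow_orderOf_eq_one, map_one, sub_self])
    simpa [sub_eq_zero] using this
  have hmod : ∀ (l : k), aeval l μ = 0 → ∀ n, l ^ ((n : ℕ) : ZMod (orderOf ζ)).val = l ^ n :=
    fun l hl n => by rw [ZMod.val_natCast, ← pow_eq_pow_mod _ (hpow l hl)]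
  have hmul : ∀ (l : k), aeval l μ = 0 → ∀ a b : ZMod (orderOf ζ),
      l ^ (a * b).val = (l ^ a.val) ^ b.val := fun l hl a b => by
    rw [ZMod.val_mul, ← pow_eq_pow_mod _ (hpow l hl), pow_mul]
  let D : Submonoid (ZMod (orderOf ζ))ˣ :=
    { carrier := {u | ∀ l : k, aeval l μ = 0 → aeval (l ^ (u : ZMod (orderOf ζ)).val) μ = 0}
      one_mem' := fun l hl => by
        rw [Units.val_one, ← Nat.cast_one, hmod l hl, pow_one]; exact hl
      mul_mem' := fun {a b} ha hb l hl => by
        rw [Units.val_mul, hmul l hl]; exact hb _ (ha l hl) }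
  let Δ : Subgroup (ZMod (orderOf ζ))ˣ :=
    { D with
      inv_mem' := fun {a} ha => by
        have : a⁻¹ = a ^ (orderOf a - 1) := by
          rw [inv_eq_iff_mul_eq_one, ← pow_succ', Nat.sub_add_cancel (orderOf_pos a),
            pow_orderOf_eq_one]
        exact this ▸ D.pow_mem ha _ }
  refine ⟨Δ, ?_, ?_⟩
  · obtain ⟨l, hl⟩ := IsAlgClosed.exists_aeval_eq_zero k μ (minpoly.degree_pos hint).ne'
    have hord : orderOf l = orderOf ζ := by
      refine Nat.dvd_antisymm (orderOf_dvd_of_pow_eq_one (hpow l hl))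
        (orderOf_dvd_of_pow_eq_one ?_)
      by_contra hne
      obtain ⟨μ', e1⟩ : minpoly (ZMod p) l ∣ μ := minpoly.dvd _ _ hl
      obtain ⟨q, e2⟩ : minpoly (ZMod p) l ∣ X ^ orderOf l - 1 :=
        minpoly.dvd _ _ (by simp [pow_orderOf_eq_one])
      have h1 : aeval (ρ ζ) μ' = 0 := LinearMap.ext fun v => by
        refine hf _ (npow_mem_zpowers ζ _) hne _ ?_
        have h2 : aeval (ρ ζ) ((X ^ orderOf l - 1) * μ') = 0 := by
          rw [e2, mul_comm _ q, mul_assoc, ← e1, map_mul, minpoly.aeval, mul_zero]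
        have h3 := LinearMap.congr_fun h2 v
        rw [map_mul, map_sub, map_pow, aeval_X, map_one, ← map_pow, Module.End.mul_apply,
          LinearMap.sub_apply, LinearMap.zero_apply, sub_eq_zero, hρ] at h3
        exact h3
      have h2 : μ' ≠ 0 := fun e => h0 (by rw [e1, e, mul_zero])
      have h3 := natDegree_le_of_dvd (minpoly.dvd _ _ h1) h2
      have h4 := minpoly.natDegree_pos (A := ZMod p) (Algebra.IsIntegral.isIntegral l)
      rw [← hμ, e1, natDegree_mul (minpoly.ne_zero (Algebra.IsIntegral.isIntegral l)) h2] at h3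
      omega
    have h1 : Nat.card Δ ≤ (μ.rootSet k).ncard := by
      refine Nat.card_le_card_of_injective (fun u : Δ => (⟨l ^ (u.1 : ZMod (orderOf ζ)).val,
        mem_rootSet_of_ne h0 |>.2 (u.2 l hl)⟩ : μ.rootSet k)) fun a b e => ?_
      have e0 : l ^ (a.1 : ZMod (orderOf ζ)).val = l ^ (b.1 : ZMod (orderOf ζ)).val :=
        congrArg Subtype.val e
      exact Subtype.ext (Units.ext (ZMod.val_injective _ (pow_injOn_Iio_orderOf
        ((ZMod.val_lt _).trans_eq hord.symm) ((ZMod.val_lt _).trans_eq hord.symm) e0)))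
    have h2 := natDegree_le_of_dvd (LinearMap.minpoly_dvd_charpoly (ρ ζ))
      (LinearMap.charpoly_monic _).ne_zero
    rw [LinearMap.charpoly_natDegree] at h2
    rw [Module.natCard_eq_pow_finrank (K := ZMod p) (V := V), Nat.card_zmod]
    exact Nat.pow_le_pow_right hp.out.pos (h1.trans ((ncard_rootSet_le μ k).trans h2))
  · rintro u (h | ⟨g, h⟩) l hl
    · rw [h, hmod l hl, ← expand_aeval, ZMod.expand_card, map_pow, hl, zero_pow hp.out.ne_zero]
    · rw [← expand_aeval]
      refine hroot l hl _ ?_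
      have h1 := mul_aeval_of_semiconj (a := ρ g) (f := ρ ζ) (g := ρ (g * ζ * g⁻¹))
        (by rw [← map_mul, ← map_mul, inv_mul_cancel_right]) μ
      rw [minpoly.aeval, mul_zero] at h1
      rw [expand_aeval, ← map_pow, ← h, ← mul_one (aeval _ _), ← map_one ρ, ← mul_inv_cancel g,
        map_mul ρ g, ← mul_assoc, ← h1, zero_mul]

theorem exists_delta (hV : ∀ v : V, p • v = 0) {ζ : Γ}
    (hf : ∀ g ∈ zpowers ζ, g ≠ 1 → ∀ v : V, g • v = v → v = 0) :
    ∃ Δ : Subgroup (ZMod (orderOf ζ))ˣ, p ^ Nat.card Δ ≤ Nat.card V ∧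
      ∀ u : (ZMod (orderOf ζ))ˣ, ((u : ZMod (orderOf ζ)) = p ∨
        ∃ g, g * ζ * g⁻¹ = ζ ^ (u : ZMod (orderOf ζ)).val) → u ∈ Δ :=
  letI := AddCommGroup.zmodModule hV
  exists_delta' hf

/-- An element of order `3` which moves a free abelian group fixes few vectors. -/
theorem card_fix_cube_le {g y : Γ} (hg : g ^ 3 = 1) {Z : Subgroup Γ} [hZ : Z.Normal]
    [IsMulCommutative Z] (hf : ∀ a ∈ Z, a ≠ 1 → ∀ v : V, a • v = v → v = 0) (hy : y ∈ Z)
    (hn : g * y ≠ y * g) : Nat.card (fixV Γ V (zpowers g)) ^ 3 ≤ Nat.card V := by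
  have hc : ∀ a ∈ Z, ∀ b ∈ Z, ∀ v : V, a • b • v = b • a • v := fun a ha b hb v => by
    rw [smul_smul, smul_smul]
    exact congrArg (· • v) (congrArg Subtype.val (mul_comm' (⟨a, ha⟩ : Z) ⟨b, hb⟩))
  have hinj : ∀ a ∈ Z, ∀ b ∈ Z, a ≠ b → ∀ v : V, a • v = b • v → v = 0 := fun a ha b hb h v e =>
    hf (b⁻¹ * a) (mul_mem (inv_mem hb) ha) (fun e' => h (inv_mul_eq_one.1 e').symm) v
      (by rw [mul_smul, e, inv_smul_smul])
  have h1 := hZ.conj_mem y hy g
  have h2 := hZ.conj_mem _ h1 g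
  have n1 : y ≠ g * y * g⁻¹ := fun e => hn (by rw [← mul_inv_eq_iff_eq_mul, ← e])
  have n2 : g * y * g⁻¹ ≠ g * (g * y * g⁻¹) * g⁻¹ := fun e => n1 (by simpa using e)
  have n3 : y ≠ g * (g * y * g⁻¹) * g⁻¹ := fun e => n1 (by
    have : g * y * g⁻¹ = g ^ 3 * y * (g ^ 3)⁻¹ := by
      conv_lhs => rw [e]
      rw [pow_succ, sq]; group
    rw [this, hg]; group)
  let F : fixV Γ V (zpowers g) × fixV Γ V (zpowers g) × fixV Γ V (zpowers g) →+ V :=
    AddMonoidHom.mk' (fun w => w.1 + y • ((w.2.1 : V) + y • (w.2.2 : V))) fun a b => by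
      simp only [Prod.fst_add, Prod.snd_add, AddSubgroup.coe_add, smul_add]; abel
  have hF : Function.Injective F := by
    rw [injective_iff_map_eq_zero]
    rintro ⟨⟨a, ha⟩, ⟨b, hb⟩, ⟨c, hc'⟩⟩ e
    have ha' := ha g (mem_zpowers g)
    have hb' := hb g (mem_zpowers g)
    have hc'' := hc' g (mem_zpowers g)
    have step : ∀ w : Γ, a + w • (b + w • c) = 0 →
        a + (g * w * g⁻¹) • (b + (g * w * g⁻¹) • c) = 0 := fun w h => by
      have := congrArg (g • ·) h
      simp only [smul_add, smul_zero, ha'] at this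
      rw [← this, smul_add, smul_smul, show g * w * g⁻¹ * (g * w * g⁻¹) = g * (w * w) * g⁻¹ by
        group]
      simp only [mul_smul, inv_smul_eq_iff.2 hb'.symm, inv_smul_eq_iff.2 hc''.symm]
    have two : ∀ w ∈ Z, ∀ w' ∈ Z, w ≠ w' → a + w • (b + w • c) = 0 → a + w' • (b + w' • c) = 0 →
        b + w • c + w' • c = 0 := fun w hw w' hw' hne e1 e2 => by
      refine hinj w hw w' hw' hne _ ?_
      have e3 := add_left_cancel (e1.trans e2.symm)
      rw [smul_add w, e3, hc w hw w' hw', add_right_comm b, smul_add w' (b + w' • c)]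
    have e0 : a + y • (b + y • c) = 0 := e
    have e1 := step y e0
    have e2 := step _ e1
    have c0 : c = 0 := hinj _ h1 _ h2 n2 c
      (add_left_cancel ((two y hy _ h1 n1 e0 e1).trans (two y hy _ h2 n3 e0 e2).symm))
    have b0 : b = 0 := by simpa [c0] using two y hy _ h1 n1 e0 e1
    have a0 : a = 0 := by simpa [c0, b0] using e0
    simp [a0, b0, c0]
  have := Nat.card_le_card_of_injective F hF
  rwa [Nat.card_prod, Nat.card_prod, ← sq, ← pow_succ'] at this

end Cfsg.Gag
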