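import Mathlib.Tactic
import Mathlib.Data.Nat.Prime.Basic
import Mathlib.Data.Int.ModEq

/-!
# Arithmetic for the endgames in cross characteristic
-/

set_option autoImplicit false

namespace Cfsg.Gag

set_option synthInstance.maxSize 4096 in
set_option synthInstance.maxHeartbeats 200000 in
theorem arith5_check : ∀ p < 120, ∀ n < 5, ∀ f < 3, ∀ ε < 3, (7 ≤ p ∧ (7 ∣ p → p = 7) ∧ 0 < f ∧
    0 < ε ∧ 2 * f ≤ n ∧ 120 * ε ∣ p ^ n - 1 ∧ 2 * ((p ^ n - 1) / (120 * ε)) ∣ p ^ f - 1 ∧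
    ¬ 2 ∣ (p ^ n - 1) / (120 * ε) ∧ ¬ 3 ∣ (p ^ n - 1) / (120 * ε) ∧
    ¬ 5 ∣ (p ^ n - 1) / (120 * ε)) → ε = 1 ∧ n = 2 ∧ (p = 11 ∨ p = 29 ∨ p = 59) := by
  decide +kernel

theorem arith5 {p n f ε m : ℕ} (hp : p.Prime) (h7 : 7 ≤ p) (hf : 0 < f)
    (hfn : p ^ f * p ^ f ≤ p ^ n) (hε : ε ∣ 2) (h1 : p ^ n - 1 = 120 * ε * m)
    (h2 : 2 * m ∣ p ^ f - 1) (m2 : ¬ 2 ∣ m) (m3 : ¬ 3 ∣ m) (m5 : ¬ 5 ∣ m) :
    ε = 1 ∧ n = 2 ∧ ((p = 11 ∧ m = 1) ∨ (p = 29 ∧ m = 7) ∨ (p = 59 ∧ m = 29)) := by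
  have e0 := Nat.pos_of_dvd_of_pos hε two_pos
  have e2 := Nat.le_of_dvd two_pos hε
  have hQ : p ≤ p ^ f := Nat.le_self_pow hf.ne' p
  have h3 := Nat.le_of_dvd (by omega) h2
  have h4 : 120 * ε * m ≤ 120 * (p ^ f - 1) := by nlinarith
  have h5 : p ^ f < 120 := by
    generalize p ^ f = Q at *
    obtain ⟨Q, rfl⟩ : ∃ Q', Q = Q' + 1 := ⟨Q - 1, by omega⟩
    rw [Nat.add_sub_cancel] at h4
    have : (Q + 1) * (Q + 1) ≤ 120 * Q + 1 := by omega
    nlinarith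
  have h6 : f < 3 := by
    by_contra h
    have := (Nat.pow_le_pow_left h7 3).trans (Nat.pow_le_pow_right hp.pos (not_lt.1 h))
    omega
  have h8 : n < 5 := by
    by_contra h
    have := (Nat.pow_le_pow_left h7 5).trans (Nat.pow_le_pow_right hp.pos (not_lt.1 h))
    omega
  have hm : (p ^ n - 1) / (120 * ε) = m := by
    rw [h1, Nat.mul_div_cancel_left _ (by omega)]
  rw [← pow_add, Nat.pow_le_pow_iff_right hp.one_lt] at hfn
  obtain ⟨rfl, rfl, h9⟩ := arith5_check p (by omega) n h8 f h6 ε (by omega) ⟨h7,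
    fun h => ((Nat.prime_dvd_prime_iff_eq (by norm_num) hp).1 h).symm, hf, e0, by omega,
    ⟨m, h1⟩, hm ▸ h2, hm ▸ m2, hm ▸ m3, hm ▸ m5⟩
  refine ⟨rfl, rfl, ?_⟩
  rcases h9 with rfl | rfl | rfl <;> omega

theorem dvd_three_pow {A : ℤ} {w : ℕ} (hA : 0 < A) (h : A ∣ 3 ^ w) (h3 : ¬ 3 ∣ A) : A = 1 := by
  have h1 : IsCoprime (3 ^ w : ℤ) A :=
    IsCoprime.pow_left ((Int.prime_three.irreducible.coprime_iff_not_dvd).2 h3)
  rcases Int.isUnit_iff.1 (h1.isUnit_of_dvd' h dvd_rfl) with e | e <;> omega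

theorem arith3 {r ε M : ℤ} {b w n : ℕ} (hε : ε = 1 ∨ ε = -1) (hr : 5 ≤ r) (ho : ¬ 2 ∣ r)
    (h3 : 3 ∣ r - ε) (hw : 0 < w) (hn : n ≤ 3 * w)
    (h1 : 2 * (3 ^ n - 1) = r * (r + ε) * (3 ^ w - 1))
    (h2 : r * (r + ε) * (r - ε) = 3 ^ b * M) (hM : M ∣ 3 ^ n - 1) :
    (r = 5 ∧ n = 4) ∨ (r = 13 ∧ n = 6) := by
  have hu : (3 : ℤ) ≤ 3 ^ w := le_self_pow₀ (by norm_num) hw.ne'
  obtain ⟨N, hN⟩ : 2 ∣ r * (r + ε) := Dvd.dvd.mul_left (by omega) r
  have hN1 : 10 ≤ N := by rcases hε with rfl | rfl <;> nlinarith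
  have h4 : 3 ^ n - 1 = N * (3 ^ w - 1) := by
    rw [hN] at h1; linarith
  have hn0 : n ≠ 0 := by
    rintro rfl
    nlinarith
  -- `b ≥ 1`
  obtain ⟨b, rfl⟩ : ∃ b', b = b' + 1 := by
    refine Nat.exists_eq_succ_of_ne_zero fun e => ?_
    rw [e, pow_zero, one_mul] at h2
    have h5 : (3 : ℤ) ∣ 3 ^ n - 1 := (h2 ▸ Dvd.dvd.mul_left h3 _ : 3 ∣ M).trans hM
    have h6 : (3 : ℤ) ∣ 3 ^ n := dvd_pow_self 3 hn0
    omega
  have hc : IsCoprime (3 ^ (b + 1) : ℤ) (r * (r + ε)) := by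
    refine IsCoprime.pow_left ((Int.prime_three.irreducible.coprime_iff_not_dvd).2 fun h => ?_)
    rcases Int.prime_three.dvd_or_dvd h with h | h <;> omega
  have hc2 : IsCoprime (3 ^ (b + 1) : ℤ) 2 := IsCoprime.pow_left ⟨1, -1, by norm_num⟩
  obtain ⟨σ, hσ⟩ : 3 ^ (b + 1) * 2 ∣ r - ε :=
    hc2.mul_dvd (hc.dvd_of_dvd_mul_left ⟨M, h2⟩) (by omega)
  have hy : (0 : ℤ) < 3 ^ b := by positivity
  have hσ0 : 0 < σ := by
    refine pos_of_mul_pos_left (b := 3 ^ (b + 1) * 2) ?_ (by positivity)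
    rw [mul_comm, ← hσ]; omega
  have hM' : M = N * (4 * σ) := by
    refine mul_left_cancel₀ (show (3 ^ (b + 1) : ℤ) ≠ 0 by positivity) ?_
    rw [← h2, hN, hσ]; ring
  rw [hM', h4, mul_dvd_mul_iff_left (by omega)] at hM
  have hN' : N - 1 = 9 * 3 ^ b * σ * (2 * 3 ^ b * σ + ε) := by
    have e1 : r = 3 ^ b * 6 * σ + ε := by rw [pow_succ] at hσ; linarith
    have e2 : ε * ε = 1 := by rcases hε with rfl | rfl <;> norm_num
    rw [e1] at hN
    nlinarith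
  -- `w ∣ n`
  obtain ⟨i, rfl⟩ : w ∣ n := by
    have h5 : (3 ^ w - 1 : ℕ) ∣ 3 ^ n - 1 := by
      rw [← Int.natCast_dvd_natCast, Nat.cast_sub (Nat.one_le_pow _ _ (by norm_num)),
        Nat.cast_sub (Nat.one_le_pow _ _ (by norm_num))]
      push_cast
      exact ⟨N, by rw [h4, mul_comm]⟩
    have h6 := Nat.pow_sub_one_mod_pow_sub_one 3 w n
    rw [Nat.mod_eq_zero_of_dvd h5] at h6
    refine Nat.dvd_of_mod_eq_zero ?_
    by_contra h
    have := Nat.one_lt_pow h (show 1 < 3 by norm_num)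
    omega
  have hi : i ≤ 3 := Nat.le_of_mul_le_mul_left (by rwa [mul_comm 3] at hn) hw
  rw [pow_mul] at h4
  have hb : b = 0 ∨ (3 : ℤ) ∣ 3 ^ b := (eq_or_ne b 0).imp_right (dvd_pow_self 3)
  have hσ1 : σ ∣ 3 ^ w - 1 := (Dvd.intro_left 4 rfl).trans hM
  have hσ2 : σ ∣ N - 1 := ⟨9 * 3 ^ b * (2 * 3 ^ b * σ + ε), by rw [hN']; ring⟩
  have hne : (3 ^ w - 1 : ℤ) ≠ 0 := by omega
  interval_cases i
  · omega
  · nlinarith
  · have e : N - 1 = 3 ^ w := by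
      have : N = 3 ^ w + 1 := mul_right_cancel₀ hne (by rw [← h4]; ring)
      omega
    obtain rfl : σ = 1 := by
      rw [e] at hσ2
      exact Int.eq_one_of_dvd_one hσ0.le (by simpa using dvd_sub hσ2 hσ1)
    rcases hb with rfl | hb
    · rw [e] at hN'
      rcases hε with rfl | rfl
      · norm_num at hN' hM; rw [hN'] at hM; omega
      · norm_num at hN' hσ
        obtain rfl : w = 2 := by
          have : (3 : ℕ) ^ w = 3 ^ 2 := by exact_mod_cast hN'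
          exact Nat.pow_right_injective (by norm_num) this
        left; omega
    · have := dvd_three_pow (A := 2 * 3 ^ b * 1 + ε) (w := w) (by omega)
        ⟨9 * 3 ^ b * 1, by rw [← e, hN']; ring⟩ (by omega)
      omega
  · have e : N - 1 = 3 ^ w * (3 ^ w + 1) := by
      have : N = (3 ^ w) ^ 2 + 3 ^ w + 1 := mul_right_cancel₀ hne (by rw [← h4]; ring)
      rw [this]; ring
    have hσ3 : σ ∣ 2 := by
      rw [e] at hσ2
      have := dvd_sub hσ2 (hσ1.mul_right (3 ^ w + 2))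
      rwa [show (3 ^ w * (3 ^ w + 1) - (3 ^ w - 1) * (3 ^ w + 2) : ℤ) = 2 by ring] at this
    have hσ4 := Int.le_of_dvd two_pos hσ3
    rw [e] at hN'
    rcases hb with rfl | hb
    · have hw2 : w ≤ 2 := by
        by_contra h
        have : (27 : ℤ) ≤ 3 ^ w :=
          (by norm_num : (27 : ℤ) = 3 ^ 3) ▸ pow_le_pow_right₀ (by norm_num) (by omega)
        rcases hε with rfl | rfl <;> interval_cases σ <;> nlinarith
      rcases hε with rfl | rfl <;> interval_cases σ <;> interval_cases w <;> omega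
    · have c1 : IsCoprime (3 ^ w : ℤ) (σ * (2 * 3 ^ b * σ + ε)) := by
        refine IsCoprime.pow_left ((Int.prime_three.irreducible.coprime_iff_not_dvd).2 fun h => ?_)
        rcases Int.prime_three.dvd_or_dvd h with h | h
        · interval_cases σ <;> omega
        · interval_cases σ <;> omega
      have c2 : IsCoprime (3 ^ (b + 2) : ℤ) (3 ^ w + 1) := by
        refine IsCoprime.pow_left ((Int.prime_three.irreducible.coprime_iff_not_dvd).2 fun h => ?_)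
        have := dvd_pow_self (3 : ℤ) hw.ne'
        omega
      have e1 : (3 ^ w : ℤ) * (3 ^ w + 1) = 3 ^ (b + 2) * (σ * (2 * 3 ^ b * σ + ε)) := by
        rw [hN']; ring
      have e2 : (3 ^ w : ℤ) = 3 ^ (b + 2) := Int.dvd_antisymm (by positivity) (by positivity)
        (c1.dvd_of_dvd_mul_right ⟨_, e1.symm⟩) (c2.dvd_of_dvd_mul_right ⟨_, e1⟩)
      rw [← e2, mul_right_inj' (by positivity), e2, pow_add] at e1
      have := Int.le_of_dvd hy hb
      rcases hε with rfl | rfl <;> interval_cases σ <;> omega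

end Cfsg.Gag
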