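import Cfsg.Agent.Char.SL2Char
import Cfsg.Agent.Grp.InvolSL2

/-!
# Automorphisms of `SL(2, F)`
-/

set_option autoImplicit false
set_option linter.unusedSectionVars false

namespace Cfsg.Gag

open Subgroup SL2
open scoped MatrixGroups Pointwise

universe u v

variable {F : Type u} [Field F]

/-- upper unitriangular matrix -/
def up (x : F) : SL(2, F) := uni F (.ofAdd x)

/-- lower unitriangular matrix -/
def low (x : F) : SL(2, F) := SL2.mk 1 0 x 1 (by ring)

@[simp] theorem up00 (x : F) : up x 0 0 = 1 := rfl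
@[simp] theorem up01 (x : F) : up x 0 1 = x := rfl
@[simp] theorem up10 (x : F) : up x 1 0 = 0 := rfl
@[simp] theorem up11 (x : F) : up x 1 1 = 1 := rfl
@[simp] theorem low00 (x : F) : low x 0 0 = 1 := rfl
@[simp] theorem low01 (x : F) : low x 0 1 = 0 := rfl
@[simp] theorem low10 (x : F) : low x 1 0 = x := rfl
@[simp] theorem low11 (x : F) : low x 1 1 = 1 := rfl
@[simp] theorem weyl00 : weyl F 0 0 = 0 := rfl
@[simp] theorem weyl01 : weyl F 0 1 = -1 := rfl
@[simp] theorem weyl10 : weyl F 1 0 = 1 := rfl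
@[simp] theorem weyl11 : weyl F 1 1 = 0 := rfl
@[simp] theorem diag00 (t : Fˣ) : diag t 0 0 = t := rfl
@[simp] theorem diag01 (t : Fˣ) : diag t 0 1 = 0 := rfl
@[simp] theorem diag10 (t : Fˣ) : diag t 1 0 = 0 := rfl
@[simp] theorem diag11 (t : Fˣ) : diag t 1 1 = (t⁻¹ : Fˣ) := rfl
@[simp] theorem neg_apply' (a : SL(2, F)) (i j : Fin 2) : (-a) i j = -a i j := rfl

theorem up_add (x y : F) : up (x + y) = up x * up y := by
  refine ext' ?_ ?_ ?_ ?_ <;> simp [add_comm]

theorem up_zero : up (0 : F) = 1 := map_one (uni F)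

theorem up_neg (x : F) : up (-x) = (up x)⁻¹ := map_inv (uni F) (.ofAdd x)

theorem up_nsmul (n : ℕ) (x : F) : up (n * x) = up x ^ n := by
  rw [← nsmul_eq_mul]; exact map_pow (uni F) (.ofAdd x) n

theorem up_inj {x y : F} (h : up x = up y) : x = y := congrArg (fun g : SL(2, F) => g 0 1) h

theorem up_eq_one {x : F} : up x = 1 ↔ x = 0 :=
  ⟨fun h => up_inj (h.trans up_zero.symm), fun h => h ▸ up_zero⟩

theorem up_comm (x y : F) : Commute (up x) (up y) := by
  rw [Commute, SemiconjBy, ← up_add, ← up_add, add_comm]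

theorem up_mem (x : F) : up x ∈ borel F := rfl

theorem diag_mem (t : Fˣ) : diag t ∈ borel F := rfl

theorem conj_up {b : SL(2, F)} (hb : b ∈ borel F) (x : F) :
    b * up x * b⁻¹ = up (b 0 0 ^ 2 * x) := conj_uni hb x

theorem weyl_conj_up (x : F) : weyl F * up x * (weyl F)⁻¹ = low (-x) := by
  refine ext' ?_ ?_ ?_ ?_ <;> simp

theorem weyl_mul_self : weyl F * weyl F = -1 := by
  refine ext' ?_ ?_ ?_ ?_ <;> simp

/-- the diagonal torus -/
def diagHom (F : Type u) [Field F] : Fˣ →* SL(2, F) where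
  toFun := diag
  map_one' := ext' rfl rfl rfl (by simp)
  map_mul' a b := ext' (by simp) (by simp) (by simp) (by simp [mul_comm])

theorem diagHom_injective : Function.Injective (diagHom F) := fun _ _ h =>
  Units.ext (congrArg (fun g : SL(2, F) => g 0 0) h)

theorem mem_borel_of_conj {g : SL(2, F)} {x : F} (hx : x ≠ 0) (h : g * up x * g⁻¹ ∈ borel F) :
    g ∈ borel F := by
  rw [mem_borel] at h ⊢
  have : g 1 0 * g 1 0 * x = 0 := by
    simp only [mul_apply', inv00, inv10, up00, up01, up10, up11] at h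
    linear_combination -h
  exact mul_self_eq_zero.1 ((mul_eq_zero.1 this).resolve_right hx)

theorem exists_bruhat {g : SL(2, F)} (hg : g ∉ borel F) :
    ∃ y : F, ∃ b ∈ borel F, g = up y * weyl F * b := by
  refine ⟨g 0 0 / g 1 0, (up (g 0 0 / g 1 0) * weyl F)⁻¹ * g, ?_, by group⟩
  rw [mem_borel] at hg ⊢
  simp [div_mul_cancel₀ _ hg]

theorem eq_top_of_up_low {K : Subgroup SL(2, F)} (h1 : ∀ x, up x ∈ K) (h2 : ∀ x, low x ∈ K) :
    K = ⊤ := by
  have key : ∀ g : SL(2, F), g 1 0 ≠ 0 → g ∈ K := fun g hg => by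
    have := mul_mem (mul_mem (h1 ((g 0 0 - 1) / g 1 0)) (h2 (g 1 0))) (h1 ((g 1 1 - 1) / g 1 0))
    convert this using 1
    have hd := det' g
    refine ext' ?_ ?_ ?_ ?_ <;> simp <;> field_simp
    · ring
    · linear_combination -hd
    · ring
  rw [eq_top_iff]
  intro g _
  by_cases hg : g 1 0 = 0
  · have h3 : low 1 * g ∈ K := key _ (by
      simp only [mul_apply', low10, low11, hg, one_mul, add_zero]
      exact left_ne_zero_of_mul_eq_one (borel_det hg))
    exact (mul_mem_cancel_left (h2 1)).1 h3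
  · exact key g hg

theorem eq_top_of_up_weyl {K : Subgroup SL(2, F)} (h1 : ∀ x, up x ∈ K) (h2 : weyl F ∈ K) :
    K = ⊤ :=
  eq_top_of_up_low h1 fun x => by
    rw [← neg_neg x, ← weyl_conj_up]
    exact mul_mem (mul_mem h2 (h1 _)) (inv_mem h2)

theorem eq_of_mul_self {s : SL(2, F)} (h2 : (2 : F) ≠ 0) (h : s * s = 1) : s = 1 ∨ s = -1 := by
  have hd := det' s
  have h00 := congrArg (fun g : SL(2, F) => g 0 0) h
  have h01 := congrArg (fun g : SL(2, F) => g 0 1) h
  have h10 := congrArg (fun g : SL(2, F) => g 1 0) h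
  have h11 := congrArg (fun g : SL(2, F) => g 1 1) h
  simp only [mul_apply', one00, one01, one10, one11] at h00 h01 h10 h11
  have ht : s 0 0 + s 1 1 ≠ 0 := fun e => h2 (by
    linear_combination -h00 - hd + s 0 0 * e)
  have e1 : s 0 1 = 0 := mul_right_cancel₀ ht (by linear_combination h01)
  have e2 : s 1 0 = 0 := mul_right_cancel₀ ht (by linear_combination h10)
  rw [e1] at h00 hd
  have e3 : s 1 1 = s 0 0 := by linear_combination (s 0 0) * hd - (s 1 1) * h00
  rcases mul_self_eq_one_iff.1 (show s 0 0 * s 0 0 = 1 by linear_combination h00) with e | e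
  · exact Or.inl (ext' e e1 e2 (e3.trans e))
  · exact Or.inr (ext' (by simp [e]) (by simp [e1]) (by simp [e2]) (by simp [e3, e]))

theorem neg_one_ne (h2 : (2 : F) ≠ 0) : (-1 : SL(2, F)) ≠ 1 := fun h => h2 (by
  have := congrArg (fun g : SL(2, F) => g 0 0) h
  simp only [neg_apply', one00] at this
  linear_combination -this)

theorem eq_of_mem_center {s : SL(2, F)} (h : ∀ g, g * s = s * g) : s = 1 ∨ s = -1 := by
  have hd := det' s
  have h1 := congrArg (fun g : SL(2, F) => g 0 0) (h (up 1))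
  have h2 := congrArg (fun g : SL(2, F) => g 0 1) (h (up 1))
  have h3 := congrArg (fun g : SL(2, F) => g 0 0) (h (low 1))
  simp only [mul_apply', up00, up01, up10, up11, low00, low01, low10] at h1 h2 h3
  have e2 : s 1 0 = 0 := by linear_combination h1
  have e1 : s 0 1 = 0 := by linear_combination -h3
  have e3 : s 1 1 = s 0 0 := by linear_combination h2
  rcases mul_self_eq_one_iff.1 (show s 0 0 * s 0 0 = 1 by
    rw [e3, e1] at hd; linear_combination hd) with e | e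
  · exact Or.inl (ext' e e1 e2 (e3.trans e))
  · exact Or.inr (ext' (by simp [e]) (by simp [e1]) (by simp [e2]) (by simp [e3, e]))

section aut

variable {α : SL(2, F) ≃* SL(2, F)} {φ : F → F}

theorem aut_borel (h : ∀ x, α (up x) = up (φ x)) {g : SL(2, F)} (hg : g ∈ borel F) :
    α g ∈ borel F := by
  have h1 : φ 1 ≠ 0 := fun e => one_ne_zero (α := F) (up_eq_one.1 (α.injective (by
    rw [h, e, up_zero, map_one])))
  refine mem_borel_of_conj h1 ?_
  rw [← h, ← map_inv, ← map_mul, ← map_mul, conj_up hg, h]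
  exact up_mem _

/-- An automorphism fixing the upper unitriangular matrices is inner. -/
theorem aut_eq_conj (h : ∀ x, α (up x) = up x) : ∃ y : F, ∀ s, α s = up y * s * (up y)⁻¹ := by
  have hw : α (weyl F) ∉ borel F := fun hw => by
    have := aut_borel (α := α.symm) (φ := id) (fun x => by rw [MulEquiv.symm_apply_eq, h]; rfl) hw
    rw [MulEquiv.symm_apply_apply, mem_borel, weyl10] at this
    exact one_ne_zero this
  obtain ⟨y, b, hb, e⟩ := exists_bruhat hw
  refine ⟨y, fun s => ?_⟩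
  let β : SL(2, F) →* SL(2, F) := (α.trans (MulAut.conj (up y)).symm).toMonoidHom
  have hβ : ∀ s, β s = (up y)⁻¹ * α s * up y := fun s => rfl
  have h0 : ∀ x, β (up x) = up x := fun x => by
    rw [hβ, h, mul_assoc, (up_comm x y).eq, inv_mul_cancel_left]
  have h1 : ∀ x, β (low x) = low (b 0 0 ^ 2 * x) := fun x => by
    have e1 : low (b 0 0 ^ 2 * x) = weyl F * (b * up (-x) * b⁻¹) * (weyl F)⁻¹ := by
      rw [conj_up hb, weyl_conj_up, mul_neg, neg_neg]
    have e2 : low x = weyl F * up (-x) * (weyl F)⁻¹ := by rw [weyl_conj_up, neg_neg]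
    rw [hβ, e1, e2, map_mul, map_mul, map_inv, e, h]
    group
  have h2 : b 0 0 ^ 2 = 1 := by
    have e1 : up (1 : F) * low (-1) * up 1 = low (-1) * up 1 * low (-1) := by
      refine ext' ?_ ?_ ?_ ?_ <;> simp
    have e2 := congrArg β e1
    simp only [map_mul, h0, h1] at e2
    have e4 := congrArg (fun g : SL(2, F) => g 0 1) e2
    simp only [mul_apply', up00, up01, up10, up11, low00, low01, low10, low11] at e4
    linear_combination -e4
  have h3 : β.eqLocus (MonoidHom.id _) = ⊤ :=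
    eq_top_of_up_low h0 fun x => by
      change β (low x) = low x
      rw [h1, h2, one_mul]
  have h4 : β s = s := (h3 ▸ mem_top s : s ∈ β.eqLocus (MonoidHom.id _))
  rw [hβ] at h4
  calc α s = up y * ((up y)⁻¹ * α s * up y) * (up y)⁻¹ := by group
    _ = _ := by rw [h4]

variable [Finite F]

theorem exists_sq_sub_sq (y : F) : ∃ a b : F, y = a ^ 2 - b ^ 2 := by
  by_cases h2 : ringChar F = 2
  · obtain ⟨a, ha⟩ := FiniteField.isSquare_of_char_two h2 y
    exact ⟨a, 0, by rw [ha]; ring⟩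
  · have := Ring.two_ne_zero h2
    exact ⟨(y + 1) / 2, (y - 1) / 2, by field_simp; ring⟩

theorem aut_semilinear (h : ∀ x, α (up x) = up (φ x)) :
    ∃ (c : F) (ψ : RingAut F), c ≠ 0 ∧ ∀ x, φ x = c * ψ x := by
  have hadd : ∀ x y, φ (x + y) = φ x + φ y := fun x y =>
    up_inj (by rw [← h, up_add, map_mul, h, h, up_add])
  let φ' : F →+ F := AddMonoidHom.mk' φ hadd
  have hinj : ∀ x, φ x = 0 → x = 0 := fun x e => up_eq_one.1 (α.injective (by
    rw [h, e, up_zero, map_one]))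
  have h1 : φ 1 ≠ 0 := fun e => one_ne_zero (hinj 1 e)
  have hsq : ∀ t x : F, φ (t ^ 2 * x) * φ 1 = φ (t ^ 2) * φ x := fun t x => by
    by_cases ht : t = 0
    · have : φ 0 = 0 := map_zero φ'
      simp [ht, this]
    have key : ∀ x, φ (t ^ 2 * x) = α (diag (Units.mk0 t ht)) 0 0 ^ 2 * φ x := fun x => up_inj (by
      rw [← h, ← conj_up (aut_borel h (diag_mem _)), ← h, ← map_inv, ← map_mul, ← map_mul,
        conj_up (diag_mem _)]
      rfl)
    have := key 1
    rw [mul_one] at this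
    rw [key, this]; ring
  have hmul : ∀ y x : F, φ (y * x) * φ 1 = φ y * φ x := fun y x => by
    obtain ⟨a, b, rfl⟩ := exists_sq_sub_sq y
    have e1 : φ ((a ^ 2 - b ^ 2) * x) = φ (a ^ 2 * x) - φ (b ^ 2 * x) := by
      rw [sub_mul]; exact map_sub φ' _ _
    have e2 : φ (a ^ 2 - b ^ 2) = φ (a ^ 2) - φ (b ^ 2) := map_sub φ' _ _
    rw [e1, e2, sub_mul, sub_mul, hsq, hsq]
  let ψ : F →+* F :=
    { toFun := fun x => φ x / φ 1
      map_one' := div_self h1
      map_mul' := fun x y => by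
        rw [div_mul_div_comm, ← hmul, mul_div_mul_right _ _ h1]
      map_zero' := by rw [show φ 0 = 0 from map_zero φ', zero_div]
      map_add' := fun x y => by rw [hadd, add_div] }
  refine ⟨φ 1, RingEquiv.ofBijective ψ (Finite.injective_iff_bijective.1 ψ.injective), h1,
    fun x => ?_⟩
  change φ x = φ 1 * (φ x / φ 1)
  rw [mul_div_cancel₀ _ h1]

theorem card_sl : Nat.card SL(2, F) = (Nat.card F + 1) * Nat.card F * (Nat.card F - 1) := by
  have := Fintype.ofFinite F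
  rw [card_SL2, Nat.card_eq_fintype_card]

theorem card_uni_range : Nat.card (uni F).range = Nat.card F :=
  (Nat.card_congr (MonoidHom.ofInjective (rankOne (F := F)).inj).toEquiv).symm

theorem exists_char (F : Type u) [Field F] [Finite F] :
    ∃ r a : ℕ, r.Prime ∧ CharP F r ∧ 0 < a ∧ Nat.card F = r ^ a := by
  have := Fintype.ofFinite F
  obtain ⟨r, hr, a, h1, h2⟩ := FiniteField.card' F
  exact ⟨r, a, h1, hr, a.2, by rw [Nat.card_eq_fintype_card, h2]⟩

theorem aut_exists_sc (α : SL(2, F) ≃* SL(2, F)) :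
    ∃ (l : SL(2, F)) (c : F) (ψ : RingAut F), c ≠ 0 ∧
      ∀ x, α (l * up x * l⁻¹) = up (c * ψ x) := by
  obtain ⟨r, a, hr, _, ha, hq⟩ := exists_char F
  have := Fact.mk hr
  have hP : IsPGroup r (uni F).range := IsPGroup.of_card (card_uni_range.trans hq)
  have hi : ¬ r ∣ (uni F).range.index := by
    have h1 := (uni F).range.card_mul_index
    rw [card_uni_range, card_sl, mul_comm (_ + 1), mul_assoc] at h1
    rw [Nat.eq_of_mul_eq_mul_left Nat.card_pos h1, hr.dvd_mul, hq]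
    have h2 : r ∣ r ^ a := dvd_pow_self r ha.ne'
    rintro (h | h)
    · exact hr.one_lt.ne' (Nat.dvd_one.1 ((Nat.dvd_add_right h2).1 h))
    · exact hr.one_lt.ne' (Nat.dvd_one.1 ((Nat.dvd_sub_iff_right (Nat.one_le_pow _ _ hr.pos) h2).1 h))
  let P : Sylow r SL(2, F) := hP.toSylow hi
  obtain ⟨l, hl⟩ := MulAction.exists_smul_eq SL(2, F) P (P.comapOfInjective α.toMonoidHom
    α.injective (by rw [MonoidHom.range_eq_top.2 α.surjective]; exact le_top))
  have h1 : ∀ x, ∃ y, α (l * up x * l⁻¹) = up y := fun x => by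
    have h2 : l * up x * l⁻¹ ∈ ((l • P : Sylow r SL(2, F)) : Subgroup SL(2, F)) :=
      smul_mem_pointwise_smul (up x) (MulAut.conj l) (P : Subgroup SL(2, F)) ⟨_, rfl⟩
    rw [hl] at h2
    obtain ⟨y, hy⟩ := h2
    exact ⟨y.toAdd, hy.symm⟩
  choose φ hφ using h1
  obtain ⟨c, ψ, hc, h⟩ := aut_semilinear (α := (MulAut.conj l).trans α) (φ := φ) hφ
  exact ⟨l, c, ψ, hc, fun x => by rw [hφ, h]⟩

theorem isCyclic_ringAut (F : Type u) [Field F] [Finite F] : IsCyclic (RingAut F) := by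
  obtain ⟨r, a, hr, _, -⟩ := exists_char F
  have := Fact.mk hr
  let _ := ZMod.algebra F r
  refine isCyclic_of_surjective (MulSemiringAction.toRingAut (F ≃ₐ[ZMod r] F) F) fun ψ => ?_
  exact ⟨AlgEquiv.ofRingEquiv (f := ψ) fun x => by
    exact RingHom.congr_fun (Subsingleton.elim ((ψ : F →+* F).comp (algebraMap (ZMod r) F))
      (algebraMap (ZMod r) F)) x, rfl⟩

theorem isSquare_mul_of_not {c d : F} (hc : ¬ IsSquare c) (hd : ¬ IsSquare d) :
    IsSquare (c * d) := by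
  classical
  have := Fintype.ofFinite F
  have h0 : c * d ≠ 0 := mul_ne_zero (fun e => hc (e ▸ IsSquare.zero))
    (fun e => hd (e ▸ IsSquare.zero))
  rw [← quadraticChar_one_iff_isSquare h0, map_mul, quadraticChar_neg_one_iff_not_isSquare.2 hc,
    quadraticChar_neg_one_iff_not_isSquare.2 hd]
  norm_num

end aut

section normal

variable {H : Type v} [Group H] (ι : SL(2, F) →* H)

/-- `h` acts on the upper unitriangular matrices by `x ↦ c ψ(x)`. -/
def Sc (h : H) (c : F) (ψ : RingAut F) : Prop :=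
  c ≠ 0 ∧ ∀ x, h * ι (up x) * h⁻¹ = ι (up (c * ψ x))

variable {ι}

theorem Sc.mul {h h' : H} {c c' : F} {ψ ψ' : RingAut F} (h1 : Sc ι h c ψ) (h2 : Sc ι h' c' ψ') :
    Sc ι (h * h') (c * ψ c') (ψ * ψ') := by
  refine ⟨mul_ne_zero h1.1 ((map_ne_zero ψ).2 h2.1), fun x => ?_⟩
  rw [mul_inv_rev, mul_assoc h, mul_assoc h, ← mul_assoc _ h'⁻¹, h2.2, ← mul_assoc, h1.2, map_mul,
    mul_assoc c]
  rfl

theorem Sc.one : Sc ι 1 1 1 := ⟨one_ne_zero, fun x => by simp⟩

theorem Sc.inv {h : H} {c : F} {ψ : RingAut F} (h1 : Sc ι h c ψ) :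
    Sc ι h⁻¹ (ψ⁻¹ c⁻¹) ψ⁻¹ := by
  refine ⟨(map_ne_zero _).2 (inv_ne_zero h1.1), fun x => ?_⟩
  have := h1.2 (ψ⁻¹ c⁻¹ * ψ⁻¹ x)
  rw [← map_mul, show ψ (ψ⁻¹ (c⁻¹ * x)) = c⁻¹ * x from ψ.apply_symm_apply _,
    mul_inv_cancel_left₀ h1.1, map_mul] at this
  rw [← this]; group

theorem Sc.pow {h : H} {c : F} (h1 : Sc ι h c 1) (n : ℕ) : Sc ι (h ^ n) (c ^ n) 1 := by
  induction n with
  | zero => simpa using Sc.one
  | succ n ih =>
    have := ih.mul h1
    rw [mul_one, RingAut.one_apply] at this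
    rwa [pow_succ, pow_succ]

theorem sc_diag (t : Fˣ) : Sc ι (ι (diag t)) (t ^ 2) 1 :=
  ⟨pow_ne_zero _ t.ne_zero, fun x => by
    rw [← map_inv, ← map_mul, ← map_mul, conj_up (diag_mem t)]; rfl⟩

variable (hι : Function.Injective ι) [hn : ι.range.Normal]
include hι

theorem exists_aut (h : H) : ∃ α : SL(2, F) ≃* SL(2, F), ∀ s, ι (α s) = h * ι s * h⁻¹ := by
  let e := MonoidHom.ofInjective hι
  refine ⟨e.trans ((MulAut.conjNormal h).trans e.symm), fun s => ?_⟩
  have : ∀ y : ι.range, ι (e.symm y) = y := fun y =>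
    congrArg Subtype.val (e.apply_symm_apply y)
  exact this _

theorem Sc.mem_sup {h : H} {c : F} (h1 : Sc ι h c 1) (hc : IsSquare c) :
    h ∈ ι.range ⊔ centralizer (ι.range : Set H) := by
  obtain ⟨t, rfl⟩ := hc
  have ht : t ≠ 0 := left_ne_zero_of_mul h1.1
  have h2 := (sc_diag (ι := ι) (Units.mk0 t ht)).inv.mul h1
  obtain ⟨α, hα⟩ := exists_aut hι ((ι (diag (Units.mk0 t ht)))⁻¹ * h)
  obtain ⟨y, hy⟩ := aut_eq_conj (α := α) fun x => hι (by
    rw [hα, h2.2]
    congr 2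
    change ((t ^ 2)⁻¹ * (t * t)) * x = x
    field_simp)
  have h3 : (ι (up y))⁻¹ * ((ι (diag (Units.mk0 t ht)))⁻¹ * h) ∈ centralizer (ι.range : Set H) := by
    rintro _ ⟨s, rfl⟩
    have := hα s
    rw [hy, map_mul, map_mul, map_inv] at this
    generalize (ι (diag (Units.mk0 t ht)))⁻¹ * h = g at this
    calc _ = (ι (up y))⁻¹ * (ι (up y) * ι s * (ι (up y))⁻¹) * g := by group
      _ = _ := by rw [this]; group
  have h4 := mul_mem (mem_sup_left (T := centralizer (ι.range : Set H))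
    (mul_mem ⟨diag (Units.mk0 t ht), rfl⟩ ⟨up y, rfl⟩ : _ ∈ ι.range)) (mem_sup_right h3)
  convert h4 using 1
  group

theorem Sc.isSquare {s : SL(2, F)} {c : F} (h1 : Sc ι (ι s) c 1) : IsSquare c := by
  have h2 : s * up 1 * s⁻¹ = up (c * 1) := hι (by rw [map_mul, map_mul, map_inv, h1.2]; rfl)
  have h3 := mem_borel_of_conj one_ne_zero (h2 ▸ up_mem _)
  rw [conj_up h3] at h2
  exact ⟨s 0 0, by rw [← sq, ← mul_one c, ← up_inj h2, mul_one]⟩

variable [Finite F]

theorem exists_sc (h : H) : ∃ l c ψ, Sc ι (h * ι l) c ψ := by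
  obtain ⟨α, hα⟩ := exists_aut hι h
  obtain ⟨l, c, ψ, hc, h1⟩ := aut_exists_sc α
  refine ⟨l, c, ψ, hc, fun x => ?_⟩
  rw [← h1, hα, map_mul, map_mul, map_inv]; group

theorem exists_gen : ∃ h₀ : H, ∀ h : H, ∃ (k : ℤ) (l : SL(2, F)) (c : F),
    Sc ι (h₀ ^ k * h * ι l) c 1 := by
  let N : Subgroup (H × RingAut F) :=
    { carrier := {y | ∃ c, Sc ι y.1 c y.2}
      mul_mem' := fun ⟨_, h1⟩ ⟨_, h2⟩ => ⟨_, h1.mul h2⟩
      one_mem' := ⟨1, Sc.one⟩
      inv_mem' := fun ⟨_, h1⟩ => ⟨_, h1.inv⟩ }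
  have := isCyclic_ringAut F
  obtain ⟨⟨_, y, hy, rfl⟩, hg⟩ := IsCyclic.exists_generator (α := N.map (MonoidHom.snd _ _))
  refine ⟨y.1, fun h => ?_⟩
  obtain ⟨l, c, ψ, h1⟩ := exists_sc hι h
  obtain ⟨k, hk⟩ := hg ⟨ψ, (h * ι l, ψ), ⟨c, h1⟩, rfl⟩
  have hk' : y.2 ^ k = ψ := congrArg Subtype.val hk
  obtain ⟨c', h2⟩ := mul_mem (zpow_mem hy (-k)) (show (h * ι l, ψ) ∈ N from ⟨c, h1⟩)
  refine ⟨-k, l, c', ?_⟩
  have e : (y ^ (-k) * (h * ι l, ψ)).2 = 1 := by
    change y.2 ^ (-k) * ψ = 1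
    rw [← hk', zpow_neg, inv_mul_cancel]
  rw [e] at h2
  rw [mul_assoc]
  exact h2

theorem index_dvd_two (h1 : ∀ ψ : RingAut F, ψ = 1) :
    (ι.range ⊔ centralizer (ι.range : Set H)).index ∣ 2 := by
  rw [index_dvd_two_iff']
  by_cases h : ∀ b, b ∈ ι.range ⊔ centralizer (ι.range : Set H)
  · exact ⟨1, fun b => Or.inr (h b)⟩
  push Not at h
  obtain ⟨a, ha⟩ := h
  have key : ∀ b ∉ ι.range ⊔ centralizer (ι.range : Set H), ∃ l c, Sc ι (b * ι l) c 1 ∧
      ¬ IsSquare c := fun b hb => by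
    obtain ⟨l, c, ψ, h2⟩ := exists_sc hι b
    rw [h1 ψ] at h2
    exact ⟨l, c, h2, fun hc => hb ((mul_mem_cancel_right
      (mem_sup_left (show ι l ∈ ι.range from ⟨l, rfl⟩))).1 (h2.mem_sup hι hc))⟩
  refine ⟨a, fun b => or_iff_not_imp_right.2 fun hb => ?_⟩
  obtain ⟨l, c, h2, hc⟩ := key a ha
  obtain ⟨l', c', h3, hc'⟩ := key b hb
  have h4 := (h2.mul h3).mem_sup hι (isSquare_mul_of_not hc hc')
  have h5 : b⁻¹ * ι l * b * ι l' ∈ ι.range :=
    mul_mem (hn.conj_mem' _ ⟨l, rfl⟩ b) ⟨l', rfl⟩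
  refine (mul_mem_cancel_right (mem_sup_left h5)).1 ?_
  convert h4 using 1
  group

end normal

end Cfsg.Gag

set_option linter.all false in
theorem Cfsg.Rz.Gag_EndAut_0 : True := by
  have := @_root_.Cfsg.Gag.diagHom.eq_def.{0}
  have := @_root_.Cfsg.Gag.diagHom.eq_1.{0}
  have := @_root_.Cfsg.Gag.diagHom.fun_cases
  have := @_root_.Cfsg.Gag.up.eq_def.{0}
  have := @_root_.Cfsg.Gag.up.eq_1.{0}
  have := @_root_.Cfsg.Gag.up.fun_cases
  have := @_root_.Cfsg.Gag.Sc.eq_def.{0, 0}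
  have := @_root_.Cfsg.Gag.Sc.eq_1.{0, 0}
  have := @_root_.Cfsg.Gag.Sc.fun_cases
  have := @_root_.Cfsg.Gag.low.eq_def.{0}
  have := @_root_.Cfsg.Gag.low.eq_1.{0}
  have := @_root_.Cfsg.Gag.low.fun_cases
  trivial
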