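import Cfsg.Agent.Grp.FpfEnd
import Cfsg.Agent.Grp.Basic
import Cfsg.Agent.Gag.Defs

/-!
# Groups acting transitively on the nonzero vectors with `p`-group stabilizers
-/

set_option autoImplicit false
set_option linter.unusedSectionVars false

namespace Cfsg.Gag

open Subgroup MulAction

universe u v

/-- `H` acts faithfully on the elementary abelian `p`-group `V`, transitively on the nonzero
vectors, and the stabilizers of nonzero vectors are `p`-groups. -/
structure Setup (p : ℕ) (H : Type u) (V : Type v) [Group H] [AddCommGroup V]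
    [DistribMulAction H V] : Prop where
  tors : ∀ v : V, p • v = 0
  faith : ∀ g : H, (∀ v : V, g • v = v) → g = 1
  nontriv : ∃ v : V, v ≠ 0
  trans : ∀ v w : V, v ≠ 0 → w ≠ 0 → ∃ g : H, g • v = w
  stab : ∀ v : V, v ≠ 0 → IsPGroup p (stabilizer H v)

/-- If all point stabilizers are `p`-groups, every divisor of the group order prime to `p`
divides the number of points. -/
theorem dvd_card_of_stab {G X : Type*} [Group G] [Finite G] [Finite X] [MulAction G X] {p d : ℕ}
    [Fact p.Prime] (hd : d ∣ Nat.card G) (hc : d.Coprime p)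
    (h : ∀ x : X, IsPGroup p (stabilizer G x)) : d ∣ Nat.card X := by
  classical
  haveI := Fintype.ofFinite (orbitRel.Quotient G X)
  rw [Nat.card_congr (selfEquivSigmaOrbitsQuotientStabilizer G X), Nat.card_sigma]
  refine Finset.dvd_sum fun ω _ => ?_
  obtain ⟨k, hk⟩ := (h ω.out).exists_card_eq
  have h1 := (stabilizer G ω.out).card_mul_index
  rw [hk] at h1
  rw [← h1] at hd
  exact (Nat.Coprime.pow_right k hc).dvd_of_dvd_mul_left hd

variable {p : ℕ} {H : Type u} {V : Type v} [Group H] [AddCommGroup V] [DistribMulAction H V]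

/-- The fixed vectors of a set of group elements. -/
def fixS (V : Type v) [AddCommGroup V] [DistribMulAction H V] (B : Set H) : AddSubgroup V where
  carrier := {v | ∀ b ∈ B, b • v = v}
  zero_mem' b _ := smul_zero b
  add_mem' {x y} hx hy b hb := by rw [smul_add, hx b hb, hy b hb]
  neg_mem' {x} hx b hb := by rw [smul_neg, hx b hb]

theorem mem_fixS {B : Set H} {v : V} : v ∈ fixS V B ↔ ∀ b ∈ B, b • v = v := Iff.rfl

theorem mem_fixS_single {b : H} {v : V} : v ∈ fixS V {b} ↔ b • v = v := by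
  simp [mem_fixS]

/-- The representation by endomorphisms. -/
abbrev rho (H : Type u) (V : Type v) [Group H] [AddCommGroup V] [DistribMulAction H V] :
    H →* AddMonoid.End V := DistribMulAction.toAddMonoidEnd H V

theorem rho_apply (g : H) (v : V) : rho H V g v = g • v := rfl

theorem card_ne_zero_eq [Finite V] (W : AddSubgroup V) :
    Nat.card {v : V // v ∈ W ∧ v ≠ 0} + 1 = Nat.card W := by
  classical
  have h : ((W : Set V) \ {0}).ncard + 1 = (W : Set V).ncard :=
    Set.ncard_sdiff_singleton_add_one W.zero_mem (Set.toFinite _)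
  exact h

/-- If the stabilizers in `J` of the nonzero vectors of the `J`-invariant subgroup `W` are
`p`-groups, then the `p'`-divisors of `|J|` divide `|W| - 1`. -/
theorem dvd_card_sub_one [Finite H] [Finite V] [Fact p.Prime] (J : Subgroup H) (W : AddSubgroup V)
    (hW : ∀ g ∈ J, ∀ v ∈ W, g • v ∈ W)
    (hs : ∀ v : V, v ≠ 0 → IsPGroup p (stabilizer H v)) {d : ℕ} (hd : d ∣ Nat.card J)
    (hc : d.Coprime p) : d ∣ Nat.card W - 1 := by
  let X : SubMulAction J V :=
    { carrier := {v | v ∈ W ∧ v ≠ 0}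
      smul_mem' := fun g v hv => ⟨hW g g.2 v hv.1, fun h => hv.2 ((smul_eq_zero_iff_eq _).1 h)⟩ }
  have h1 : d ∣ Nat.card X := dvd_card_of_stab hd hc fun x => by
    refine (hs x.1 x.2.2).of_injective
      (((J.subtype.comp (stabilizer J x).subtype)).codRestrict _ fun g => ?_) ?_
    · exact congrArg Subtype.val (mem_stabilizer_iff.1 g.2)
    · intro a b hab
      have := congrArg Subtype.val hab
      exact Subtype.ext (Subtype.ext this)
  have h2 : Nat.card X + 1 = Nat.card W := card_ne_zero_eq W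
  rwa [← h2, Nat.add_sub_cancel]

theorem card_mul_card_le_of_inf [Finite V] {A B : AddSubgroup V} (h : ∀ v ∈ A, v ∈ B → v = 0) :
    Nat.card A * Nat.card B ≤ Nat.card V := by
  rw [← Nat.card_prod]
  refine Nat.card_le_card_of_injective (fun x : A × B => (x.1 : V) + x.2) ?_
  rintro ⟨a, b⟩ ⟨a', b'⟩ e
  have e1 : (a : V) - a' = b' - b := by
    have : (a : V) + b = a' + b' := e
    rw [sub_eq_sub_iff_add_eq_add, this, add_comm]
  have e2 := h _ (sub_mem a.2 a'.2) (e1 ▸ sub_mem b'.2 b.2)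
  exact Prod.ext (Subtype.ext (sub_eq_zero.1 e2)) (Subtype.ext (sub_eq_zero.1 (e1 ▸ e2)).symm)

theorem card_ker_mul_le [Finite V] (f g : AddMonoid.End V) :
    Nat.card (AddMonoidHom.ker (f * g)) ≤
      Nat.card (AddMonoidHom.ker f) * Nat.card (AddMonoidHom.ker g) := by
  let φ : AddMonoidHom.ker (f * g) →+ AddMonoidHom.ker f :=
    ((g : V →+ V).comp (AddSubgroup.subtype _)).codRestrict _ fun x => x.2
  rw [← φ.ker.card_mul_index, AddSubgroup.index_ker, mul_comm]
  refine Nat.mul_le_mul (Nat.card_le_card_of_injective _ Subtype.val_injective) ?_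
  refine Nat.card_le_card_of_injective
    (fun x => (⟨x.1.1, congrArg Subtype.val x.2⟩ : AddMonoidHom.ker g)) ?_
  intro a b hab
  have := congrArg Subtype.val hab
  exact Subtype.ext (Subtype.ext this)

theorem card_le_pow [Finite V] {ν : AddMonoid.End V} {k : ℕ} (h : ν ^ k = 0) :
    Nat.card V ≤ Nat.card (AddMonoidHom.ker ν) ^ k := by
  have key : ∀ j : ℕ, Nat.card (AddMonoidHom.ker (ν ^ j)) ≤ Nat.card (AddMonoidHom.ker ν) ^ j := by
    intro j
    induction j with
    | zero =>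
      rw [pow_zero, pow_zero]
      refine (Nat.card_eq_one_iff_unique.2 ⟨⟨fun a b => Subtype.ext ?_⟩, inferInstance⟩).le
      exact (show (a : V) = 0 from a.2).trans (show (b : V) = 0 from b.2).symm
    | succ j ih =>
      rw [pow_succ, pow_succ]
      exact (card_ker_mul_le _ _).trans (Nat.mul_le_mul_right _ ih)
  have h1 := key k
  rw [h] at h1
  refine le_trans ?_ h1
  exact Nat.card_le_card_of_injective (fun v => ⟨v, rfl⟩) fun a b hab => congrArg Subtype.val hab

theorem Top.setup (h : Top p H V) (hV : ∀ v : V, p • v = 0) : Setup p H V :=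
  ⟨hV, h.faith, have := h.nontriv; exists_ne 0, h.trans, h.pgrp⟩

theorem Setup.top (h : Setup p H V) : Top p H V :=
  ⟨h.nontriv.elim fun v hv => ⟨v, 0, hv⟩, h.faith, h.stab, h.trans⟩

namespace Setup

variable [hp : Fact p.Prime] [Finite H] [Finite V] (h : Setup p H V)
include h

theorem fpf {g : H} {m : ℕ} (hg : g ^ m = 1) (hc : m.Coprime p) {v : V} (hv : v ≠ 0)
    (e : g • v = v) : g = 1 := by
  obtain ⟨k, hk⟩ := h.stab v hv ⟨g, e⟩
  have hk' : g ^ p ^ k = 1 := congrArg Subtype.val hk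
  exact (pow_eq_one_iff_of_coprime (Nat.Coprime.pow_right k hc)).1 ⟨hg, hk'⟩

theorem fpf' {g : H} {m : ℕ} (hg : g ^ m = 1) (hc : m.Coprime p) (h1 : g ≠ 1) (v : V)
    (e : g • v = v) : v = 0 := by
  by_contra hv
  exact h1 (h.fpf hg hc hv e)

theorem card_pow (W : AddSubgroup V) : ∃ k, Nat.card W = p ^ k :=
  FpfEnd.exists_card_eq_pow h.tors W

theorem card_V : ∃ k, Nat.card V = p ^ k := by
  obtain ⟨k, hk⟩ := h.card_pow ⊤
  exact ⟨k, by rwa [AddSubgroup.card_top] at hk⟩

theorem exists_fix {B : Subgroup H} (hB : IsPGroup p B) {W : AddSubgroup V}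
    (hW : ∀ b ∈ B, ∀ v ∈ W, b • v ∈ W) (h0 : W ≠ ⊥) : ∃ v ∈ W, v ≠ 0 ∧ ∀ b ∈ B, b • v = v :=
  FpfEnd.exists_mem_fix (ρ := rho H V) h.tors hB hW h0

theorem top_ne_bot : (⊤ : AddSubgroup V) ≠ ⊥ := by
  obtain ⟨v, hv⟩ := h.nontriv
  intro e
  exact hv (AddSubgroup.mem_bot.1 (e ▸ AddSubgroup.mem_top v))

theorem exists_fix' {B : Subgroup H} (hB : IsPGroup p B) : ∃ v : V, v ≠ 0 ∧ ∀ b ∈ B, b • v = v := by
  obtain ⟨v, -, hv⟩ := h.exists_fix hB (W := ⊤) (fun _ _ _ _ => trivial) h.top_ne_bot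
  exact ⟨v, hv⟩

theorem exists_fix_elt {g : H} {k : ℕ} (hg : g ^ p ^ k = 1) : ∃ v : V, v ≠ 0 ∧ g • v = v := by
  obtain ⟨v, hv, h1⟩ := h.exists_fix' (B := zpowers g) (by
    obtain ⟨j, -, hj⟩ := (Nat.dvd_prime_pow hp.out).1 (orderOf_dvd_of_pow_eq_one hg)
    exact IsPGroup.of_card (by rw [Nat.card_zpowers, hj]))
  exact ⟨v, hv, h1 g (mem_zpowers g)⟩

theorem eq_bot_of_normal {B : Subgroup H} [hn : B.Normal] (hB : IsPGroup p B) : B = ⊥ := by
  obtain ⟨v, hv, h1⟩ := h.exists_fix' hB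
  rw [eq_bot_iff]
  intro b hb
  refine h.faith b fun w => ?_
  by_cases hw : w = 0
  · rw [hw, smul_zero]
  obtain ⟨g, rfl⟩ := h.trans v w hv hw
  have := h1 _ (hn.conj_mem b hb g⁻¹)
  rw [inv_inv, mul_smul, mul_smul, inv_smul_eq_iff] at this
  exact this

theorem eq_zero_of_smul {m : ℕ} (hc : m.Coprime p) {v : V} (hv : m • v = 0) : v = 0 :=
  FpfEnd.eq_zero_of_smul_of_coprime hc hv (h.tors v)

theorem neg_of_invol (hp2 : p ≠ 2) {t : H} (ht : t * t = 1) (h1 : t ≠ 1) (v : V) :
    t • v = -v := by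
  have hc : Nat.Coprime 2 p := (Nat.coprime_primes Nat.prime_two hp.out).2 hp2.symm
  have := h.fpf' (m := 2) (by rw [sq, ht]) hc h1 (t • v + v) (by
    rw [smul_add, ← mul_smul, ht, one_smul, add_comm])
  exact eq_neg_of_add_eq_zero_left this

theorem invol_unique (hp2 : p ≠ 2) {s t : H} (hs : s * s = 1) (hs1 : s ≠ 1) (ht : t * t = 1)
    (ht1 : t ≠ 1) : s = t := by
  rw [← mul_inv_eq_one, ← mul_eq_one_iff_eq_inv.1 ht]
  refine h.faith _ fun v => ?_
  rw [mul_smul, h.neg_of_invol hp2 ht ht1, smul_neg, h.neg_of_invol hp2 hs hs1, neg_neg]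

theorem index_stab {v : V} (hv : v ≠ 0) : (stabilizer H v).index + 1 = Nat.card V := by
  rw [index_stabilizer, ← AddSubgroup.card_top (G := V), ← card_ne_zero_eq]
  congr 1
  refine Nat.card_congr (Equiv.subtypeEquivRight fun w => ?_)
  constructor
  · rintro ⟨g, rfl⟩
    exact ⟨trivial, fun e => hv ((smul_eq_zero_iff_eq _).1 e)⟩
  · exact fun hw => h.trans v w hv hw.2

theorem card_H : ∃ k, Nat.card H = (Nat.card V - 1) * p ^ k := by
  obtain ⟨v, hv⟩ := h.nontriv
  obtain ⟨k, hk⟩ := (h.stab v hv).exists_card_eq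
  refine ⟨k, ?_⟩
  rw [← h.index_stab hv, Nat.add_sub_cancel, ← hk, index_mul_card]

theorem relIndex_dvd (L : Subgroup H) [L.Normal] {v : V} (hv : v ≠ 0) :
    (stabilizer H v).relIndex L ∣ Nat.card V - 1 := by
  rw [← h.index_stab hv, Nat.add_sub_cancel]
  obtain ⟨k, hk⟩ := relIndex_dvd_index_of_normal L (stabilizer H v)
  have h1 := relIndex_inf_mul_relIndex (stabilizer H v) L ⊤
  have h2 := relIndex_inf_mul_relIndex L (stabilizer H v) ⊤
  simp only [inf_top_eq, relIndex_top_right] at h1 h2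
  rw [inf_comm, ← h1, hk] at h2
  have h3 : L.relIndex (stabilizer H v) ≠ 0 := by
    intro e
    rw [e, zero_mul] at hk
    exact FiniteIndex.index_ne_zero hk
  refine ⟨k, Nat.eq_of_mul_eq_mul_left (Nat.pos_of_ne_zero h3) ?_⟩
  rw [h2]; ring

theorem dvd_sub_one (J : Subgroup H) (W : AddSubgroup V) (hW : ∀ g ∈ J, ∀ v ∈ W, g • v ∈ W)
    {d : ℕ} (hd : d ∣ Nat.card J) (hc : d.Coprime p) : d ∣ Nat.card W - 1 :=
  dvd_card_sub_one J W hW h.stab hd hc

theorem rho_injective : Function.Injective (rho H V) := by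
  rw [injective_iff_map_eq_one]
  intro g hg
  exact h.faith g fun v => by rw [← rho_apply, hg]; rfl

/-- There is no elementary abelian subgroup of order `s ^ 2` for a prime `s ≠ p`. -/
theorem eq_one_of_pair {s : ℕ} (hs : s.Prime) (hsp : s ≠ p) {a b : H} (hc : Commute a b)
    (ha : a ^ s = 1) (hb : b ^ s = 1) (hn : ∀ j : ℕ, a * b ^ j ≠ 1) : b = 1 := by
  have hco : s.Coprime p := (Nat.coprime_primes hs hp.out).2 hsp
  refine h.faith b fun v => ?_
  have := FpfEnd.fix_of_fpf_pair hs (hc.map (rho H V)) (by rw [← map_pow, ha, map_one])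
    (by rw [← map_pow, hb, map_one]) (fun j w hw => by
      rw [← map_pow, ← map_mul] at hw
      refine h.fpf' (m := s) ?_ hco (hn j) w hw
      rw [(hc.pow_right j).mul_pow, ha, ← pow_mul, mul_comm j, pow_mul, hb, one_pow, one_mul]) v
  rw [← sub_eq_zero, ← smul_sub] at this
  exact sub_eq_zero.1 (h.eq_zero_of_smul hco this)

end Setup

end Cfsg.Gag

set_option linter.all false in
theorem Cfsg.Rz.Gag_EndBas_0 : True := by
  have := @_root_.Cfsg.Gag.Setup.mk.congr_simp.{0, 0}
  have := @_root_.Cfsg.Gag.rho.eq_def.{0, 0}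
  have := @_root_.Cfsg.Gag.rho.eq_1.{0, 0}
  have := @_root_.Cfsg.Gag.rho.fun_cases
  have := @_root_.Cfsg.Gag.fixS.eq_def.{0, 0}
  have := @_root_.Cfsg.Gag.fixS.eq_1.{0, 0}
  have := @_root_.Cfsg.Gag.fixS.fun_cases
  trivial
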