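import Cfsg.Agent.Gag.EndMain
import Cfsg.Agent.Gag.UInv
import Cfsg.Agent.Char.FourC
import Cfsg.Agent.Char.Burnside

/-!
# Double covers with a unique involution
-/

set_option autoImplicit false
set_option linter.unusedSectionVars false

namespace Cfsg.Gag

open Subgroup MulAction Cfsg.Four Cfsg.GW
open scoped MatrixGroups commutatorElement

universe u v w

/-- Two double covers of the same group, each with a unique involution, are isomorphic if one of
them is perfect. -/
theorem nonempty_equiv_of_uniq {X S T : Type*} [Group X] [Finite X] [Group S] [Finite S] [Group T]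
    {π : X →* T} {ρ : S →* T} (hπ : Function.Surjective π) (hρ : Function.Surjective ρ)
    {z : X} {w : S} (hz : z ≠ 1) (hw : w ≠ 1) (hk : ∀ x, π x = 1 ↔ x = 1 ∨ x = z)
    (hl : ∀ x, ρ x = 1 ↔ x = 1 ∨ x = w) (hX : ∀ x : X, x * x = 1 → x = 1 ∨ x = z)
    (hS : ∀ x : S, x * x = 1 → x = 1 ∨ x = w) (hp : commutator X = ⊤) :
    Nonempty (X ≃* S) := by
  let Y : Subgroup (X × S) := (π.comp (MonoidHom.fst X S)).eqLocus (ρ.comp (MonoidHom.snd X S))
  have hY : ∀ y : Y, π y.1.1 = ρ y.1.2 := fun y => y.2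
  have hz1 := (hk z).2 (Or.inr rfl)
  have hw1 := (hl w).2 (Or.inr rfl)
  let v : Y := ⟨(z, w), hz1.trans hw1.symm⟩
  let p1 : Y →* X := (MonoidHom.fst X S).comp Y.subtype
  let p2 : Y →* S := (MonoidHom.snd X S).comp Y.subtype
  have sq1 : ∀ y : Y, π (p1 y) = 1 → y * y = 1 := fun y h =>
    Subtype.ext (Prod.ext (comm_of_ker hz hk h).1 (comm_of_ker hw hl ((hY y).symm.trans h)).1)
  have cen : ∀ y : Y, π (p1 y) = 1 → ∀ a, a * y = y * a := fun y h a => Subtype.ext (Prod.ext
      ((comm_of_ker hz hk h).2 _) ((comm_of_ker hw hl ((hY y).symm.trans h)).2 _))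
  have sq2 : ∀ y : Y, π (p1 (y * y)) = 1 → y * y = 1 ∨ y * y = v := fun y h => by
    by_cases h1 : π (p1 y) = 1
    · exact Or.inl (sq1 y h1)
    · exact Or.inr (Subtype.ext (Prod.ext
        (((hk _).1 h).resolve_left fun e => h1 ((hk _).2 (hX _ e)))
        (((hl _).1 ((hY _).symm.trans h)).resolve_left fun e =>
          h1 ((hY y).trans ((hl _).2 (hS _ e))))))
  have hv : v * v = 1 := sq1 v hz1
  obtain ⟨R⟩ : Nonempty (Sylow 2 Y) := inferInstance
  obtain ⟨_, hx⟩ := exists_uinv (z := z) (R.isPGroup'.map p1) fun a _ => hX a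
  obtain ⟨γ, -, rfl⟩ := hx.mem
  let W : Subgroup Y :=
    { carrier := {y | ∃ i : ℤ, y = γ ^ i * γ ^ i ∨ y = γ ^ i * γ ^ i * v}
      mul_mem' := by
        have e : ∀ i j : ℤ, γ ^ (i + j) * γ ^ (i + j) = γ ^ i * γ ^ i * (γ ^ j * γ ^ j) :=
          fun i j => by group
        rintro a b ⟨i, rfl | rfl⟩ ⟨j, rfl | rfl⟩ <;> refine ⟨i + j, ?_⟩ <;> rw [e]
        · exact Or.inl rfl
        · exact Or.inr (mul_assoc _ _ _).symm
        · exact Or.inr (by rw [mul_assoc, ← cen v hz1, ← mul_assoc])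
        · exact Or.inl (by rw [mul_assoc, cen v hz1 (γ ^ j * γ ^ j), ← mul_assoc v, hv, one_mul])
      one_mem' := ⟨0, Or.inl (by simp)⟩
      inv_mem' := by
        rintro a ⟨i, rfl | rfl⟩
        · exact ⟨-i, Or.inl (by group)⟩
        · exact ⟨-i, Or.inr (by
            rw [mul_inv_rev, inv_eq_of_mul_eq_one_left hv, ← cen v hz1]; group)⟩ }
  have sqW : ∀ a ∈ (R : Subgroup Y), a * a ∈ W := fun a ha => by
    by_cases h : p1 a ∈ zpowers (p1 γ)
    · obtain ⟨i, hi⟩ := h
      have h1 : π (p1 (γ ^ (-i) * a)) = 1 := by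
        rw [map_mul, map_zpow, ← hi, zpow_neg, inv_mul_cancel, map_one]
      refine ⟨i, Or.inl ?_⟩
      calc a * a = γ ^ i * ((γ ^ (-i) * a) * γ ^ i) * (γ ^ (-i) * a) := by group
        _ = γ ^ i * γ ^ i * ((γ ^ (-i) * a) * (γ ^ (-i) * a)) := by rw [← cen _ h1]; group
        _ = _ := by rw [sq1 _ h1, mul_one]
    · have h1 : p1 (a * a) = z := by rw [map_mul, hx.sq ⟨a, ha, rfl⟩ h]
      exact ⟨0, (sq2 a (h1 ▸ hz1)).imp (by simp) (by simp)⟩
  have hRW : ⁅(R : Subgroup Y), (R : Subgroup Y)⁆ ≤ W := by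
    rw [commutator_le]
    intro a ha b hb
    have : ⁅a, b⁆ = a * a * (a⁻¹ * b * (a⁻¹ * b)) * (b * b)⁻¹ := by
      rw [commutatorElement_def]; group
    rw [this]
    exact mul_mem (mul_mem (sqW a ha) (sqW _ (mul_mem (inv_mem ha) hb))) (inv_mem (sqW b hb))
  have key : ∀ c ∈ _root_.commutator Y, π (p1 c) = 1 → c = 1 ∨ c = v := fun c hc h => by
    have h1 : c ∈ center Y := mem_center_iff.2 (cen c h)
    obtain ⟨x, hx⟩ := (isPElt_iff_pow_eq_one.2 ⟨1, by rw [pow_one, sq, sq1 c h]⟩ :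
      IsPElt 2 c).exists_conj_mem R
    rw [mem_center_iff.1 h1 x, mul_inv_cancel_right] at hx
    obtain ⟨i, rfl | rfl⟩ :=
      hRW (inf_commutator_inf_center_le (Sylow.coprime_card_index' R) ⟨⟨hx, hc⟩, h1⟩)
    · exact sq2 _ h
    · rw [map_mul, map_mul, show π (p1 v) = 1 from hz1, mul_one] at h
      rcases sq2 _ h with e | e <;> rw [e]
      · exact Or.inr (one_mul v)
      · exact Or.inl hv
  have h1 : Function.Bijective (p1.comp (_root_.commutator Y).subtype) := by
    constructor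
    · rw [injective_iff_map_eq_one]
      intro c hc
      have h : p1 c.1 = 1 := hc
      refine Subtype.ext ((key c.1 c.2 (by rw [h, map_one])).resolve_right fun e => hz ?_)
      rw [e] at h; exact h
    · have hp1 : p1.range = ⊤ := by
        rw [MonoidHom.range_eq_top]
        intro x
        obtain ⟨s, hs⟩ := hρ (π x)
        exact ⟨⟨(x, s), hs.symm⟩, rfl⟩
      rw [← MonoidHom.range_eq_top, MonoidHom.range_comp, range_subtype, map_commutator_eq, hp1]
      exact hp
  have h2 : Function.Bijective (p2.comp (_root_.commutator Y).subtype) := by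
    rw [Nat.bijective_iff_injective_and_card]
    constructor
    · rw [injective_iff_map_eq_one]
      intro c hc
      have h : c.1.1.2 = 1 := hc
      refine Subtype.ext ((key c.1 c.2 ((hY _).trans (by rw [h, map_one]))).resolve_right
        fun e => hw ?_)
      rw [e] at h; exact h
    · rw [Nat.card_eq_of_bijective _ h1, card_eq_two_mul hπ hz hk, card_eq_two_mul hρ hw hl]
  exact ⟨(MulEquiv.ofBijective _ h1).symm.trans (MulEquiv.ofBijective _ h2)⟩

section cov

variable {E : Type u} {X : Type w} [Group E] [Group X] {π : E →* X} {z : E} (hc : Cov π z)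
include hc

theorem Cov.z_ne_one : z ≠ 1 := fun e => by
  have := hc.ord
  rw [e, orderOf_one] at this
  omega

theorem Cov.eq_one_iff (x : E) : π x = 1 ↔ x = 1 ∨ x = z := by
  rw [← MonoidHom.mem_ker, hc.ker]
  constructor
  · rintro ⟨i, rfl⟩
    have h2 : z ^ (2 : ℤ) = 1 := by rw [zpow_ofNat, ← hc.ord, pow_orderOf_eq_one]
    rcases Int.even_or_odd' i with ⟨j, rfl | rfl⟩
    · left; simp only [zpow_mul, h2, one_zpow]
    · right; simp only [zpow_add, zpow_mul, h2, one_zpow, one_mul, zpow_one]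
  · rintro (rfl | rfl)
    exacts [one_mem _, mem_zpowers _]

theorem Cov.eq_of_sq (x : E) (h : x * x = 1) : x = 1 ∨ x = z :=
  or_iff_not_imp_left.2 fun h1 => hc.uniq x (orderOf_eq_prime (by rw [sq, h]) h1)

theorem Cov.nonempty_sl [Finite E] {F : Type*} [Field F] [Finite F] (h2 : (2 : F) ≠ 0)
    (e : X ≃* PSL(2, F)) : Nonempty (E ≃* SL(2, F)) :=
  nonempty_equiv_of_uniq (π := e.toMonoidHom.comp π) (ρ := QuotientGroup.mk' (center SL(2, F)))
    (e.surjective.comp hc.surj) (QuotientGroup.mk'_surjective _) hc.z_ne_one (neg_one_ne h2)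
    (fun x => e.map_eq_one_iff.trans (hc.eq_one_iff x))
    (fun s => (QuotientGroup.eq_one_iff s).trans ⟨fun h => eq_of_mem_center (mem_center_iff.1 h), by
      rintro (rfl | rfl)
      · exact one_mem _
      · exact mem_center_iff.2 fun g => by rw [mul_neg_one, neg_one_mul]⟩)
    hc.eq_of_sq (fun _ => eq_of_mul_self h2) hc.perf

theorem Cov.exists_lift_three {a : X} (ha : a ^ 3 = 1) : ∃ x : E, π x = a ∧ x ^ 3 = 1 := by
  obtain ⟨x, rfl⟩ := hc.surj a
  refine ⟨x ^ 4, by rw [map_pow, pow_succ, ha, one_mul], ?_⟩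
  rw [← pow_mul, mul_comm, pow_mul]
  rcases (hc.eq_one_iff _).1 ((map_pow π x 3).trans ha) with e | e <;> rw [e]
  · exact one_pow 4
  · rw [show 4 = 2 * 2 from rfl, pow_mul, ← hc.ord, pow_orderOf_eq_one, one_pow]

theorem Cov.commute_of_three {x y : E} (hy : y ^ 3 = 1) (h : Commute (π x) (π y)) :
    Commute x y := by
  have h1 : π (x * y * x⁻¹ * y⁻¹) = 1 := by
    rw [map_mul, map_mul, map_mul, map_inv, map_inv, h.eq]; group
  rcases (hc.eq_one_iff _).1 h1 with e | e
  · exact commutatorElement_eq_one_iff_commute.1 e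
  · obtain ⟨h2, h3⟩ := comm_of_ker hc.z_ne_one hc.eq_one_iff ((hc.eq_one_iff z).2 (Or.inr rfl))
    have h4 : (z * y) ^ 3 = 1 := by
      rw [← e, inv_mul_cancel_right, conj_pow, hy, mul_one, mul_inv_cancel]
    rw [(show Commute z y from (h3 y).symm).mul_pow, hy, mul_one, pow_succ, sq, h2, one_mul] at h4
    exact absurd h4 hc.z_ne_one

end cov

variable {p : ℕ} {H : Type u} {V : Type v} [Group H] [AddCommGroup V] [DistribMulAction H V]

namespace Setup

variable [hp : Fact p.Prime] [Finite H] [Finite V] (h : Setup p H V) (E : Subgroup H) [E.Normal]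
include h

theorem not_dvd_sub_one : ¬ p ∣ Nat.card V - 1 := by
  obtain ⟨v, hv⟩ := h.nontriv
  obtain ⟨n, hn⟩ := h.card_V
  have h1 : 1 < Nat.card V := Finite.one_lt_card_iff_nontrivial.2 ⟨v, 0, hv⟩
  intro hd
  exact hp.out.one_lt.ne' (Nat.dvd_one.1 ((Nat.dvd_sub_iff_right h1.le
    (hn ▸ dvd_pow_self p (by rintro rfl; rw [pow_zero] at hn; omega))).1 hd))

theorem exists_sylow {v : V} (hv : v ≠ 0) :
    ∃ P : Sylow p E, (P : Subgroup E) = (stabilizer H v).subgroupOf E :=
  ⟨((h.stab v hv).comap_subtype).toSylow fun hd =>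
    h.not_dvd_sub_one (hd.trans (h.relIndex_dvd E hv)), rfl⟩

theorem card_le_index_mul (P : Sylow p E) : Nat.card V - 1 ≤ (P : Subgroup E).index *
    (Nat.card (fixS V ((P : Subgroup E).map E.subtype : Set H)) - 1) := by
  rw [← AddSubgroup.card_top (G := V), ← card_ne_zero_eq, ← card_ne_zero_eq, Nat.add_sub_cancel,
    Nat.add_sub_cancel, index_eq_card, ← Nat.card_prod]
  refine Nat.card_le_card_of_surjective (fun y => ⟨(y.1.out : H) • y.2.1, trivial,
    by simpa only [ne_eq, smul_eq_zero_iff_eq] using y.2.2.2⟩) fun v => ?_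
  obtain ⟨Q, hQ⟩ := h.exists_sylow E v.2.2
  obtain ⟨g, rfl⟩ := exists_smul_eq E P Q
  have hw : (g : H)⁻¹ • v.1 ∈ fixS V ((P : Subgroup E).map E.subtype : Set H) := by
    rintro _ ⟨s, hs, rfl⟩
    have h1 : g * s * g⁻¹ ∈ (stabilizer H v.1).subgroupOf E :=
      hQ ▸ smul_mem_pointwise_smul s (MulAut.conj g) (P : Subgroup E) hs
    have h2 : ((g : H) * s * (g : H)⁻¹) • v.1 = v.1 := h1
    rw [mul_smul, mul_smul, smul_eq_iff_eq_inv_smul] at h2
    exact h2
  obtain ⟨s, hs⟩ := QuotientGroup.mk_out_eq_mul (P : Subgroup E) g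
  refine ⟨(QuotientGroup.mk g, ⟨_, hw, by simpa only [ne_eq, smul_eq_zero_iff_eq] using v.2.2⟩),
    Subtype.ext ?_⟩
  change ((QuotientGroup.mk g : E ⧸ (P : Subgroup E)).out : H) • (g : H)⁻¹ • v.1 = v.1
  rw [hs, coe_mul, mul_smul, hw s.1.1 ⟨s, s.2, rfl⟩, smul_inv_smul]

theorem card_fix_sq_le (P : Sylow p E) (hE : p ∣ Nat.card E) :
    Nat.card (fixS V ((P : Subgroup E).map E.subtype : Set H)) *
      Nat.card (fixS V ((P : Subgroup E).map E.subtype : Set H)) ≤ Nat.card V := by
  have hn : ¬ (P : Subgroup E).Normal := fun hn => by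
    have := Sylow.characteristic_of_normal P hn
    have h1 := h.eq_bot_of_normal (B := (P : Subgroup E).map E.subtype) (P.isPGroup'.map _)
    rw [map_eq_bot_iff_of_injective _ E.subtype_injective] at h1
    exact P.ne_bot_of_dvd_card hE h1
  obtain ⟨g, hg⟩ : ∃ g : E, g • P ≠ P := by
    by_contra hg
    push Not at hg
    exact hn (normalizer_eq_top_iff.1 (eq_top_iff.2 fun g _ =>
      Sylow.smul_eq_iff_mem_normalizer.1 (hg g)))
  have hinj : Function.Injective (rho H V g) := MulAction.injective (g : H)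
  have h1 := card_mul_card_le_of_inf (A := fixS V ((P : Subgroup E).map E.subtype : Set H))
    (B := (fixS V ((P : Subgroup E).map E.subtype : Set H)).map (rho H V g)) ?_
  · rwa [AddSubgroup.card_map_of_injective hinj] at h1
  rintro v hv ⟨w, hw, e⟩
  by_contra h0
  obtain ⟨Q, hQ⟩ := h.exists_sylow E h0
  have e1 : (Q : Subgroup E) = P := P.3 Q.2 fun s hs => hQ ▸ hv _ ⟨s, hs, rfl⟩
  have e2 : (Q : Subgroup E) = (g • P : Sylow p E) := (g • P).3 Q.2 (by
    rintro _ ⟨s, hs, rfl⟩
    rw [hQ]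
    change ((g : H) * s * (g : H)⁻¹) • v = v
    have e' : (g : H) • w = v := e
    rw [← e', mul_smul, mul_smul, inv_smul_smul, hw s.1 ⟨s, hs, rfl⟩])
  exact hg (Sylow.ext (e2.symm.trans e1))

end Setup

theorem Setup.card_ne [Finite H] [Finite V] (h : Setup 3 H V) (E : Subgroup H) [E.Normal] :
    Nat.card E ≠ 5040 := by
  intro hE
  obtain ⟨v, hv⟩ := h.nontriv
  obtain ⟨P, hP⟩ := h.exists_sylow E hv
  have h1 := h.card_le_index_mul E P
  have h2 := h.card_fix_sq_le E P (by rw [hE]; norm_num)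
  have h3 : (P : Subgroup E).index = 560 := by
    have := (P : Subgroup E).card_mul_index
    rw [P.card_eq_multiplicity, hE, show (5040 : ℕ).factorization 3 = 2 by decide +kernel] at this
    omega
  have h4 : 560 ∣ Nat.card V - 1 := h3 ▸ hP ▸ h.relIndex_dvd E hv
  have h5 := h.not_dvd_sub_one
  obtain ⟨n, hn⟩ := h.card_V
  have h6 : 3 ^ 12 ≤ Nat.card V := by
    rw [hn] at h4 h5 ⊢
    refine Nat.pow_le_pow_right (by norm_num) ?_
    by_contra h7
    push Not at h7
    interval_cases n <;> omega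
  rw [h3] at h1
  generalize Nat.card (fixS V ((P : Subgroup E).map E.subtype : Set H)) = u at *
  have : u ≤ 560 := by
    by_contra h7
    obtain ⟨u, rfl⟩ : ∃ u', u = u' + 561 := ⟨u - 561, by omega⟩
    have : Nat.card V ≤ 560 * (u + 560) + 1 := by omega
    nlinarith
  omega

theorem Setup.not_alt [hp : Fact p.Prime] [Finite H] [Finite V] (h : Setup p H V) {E : Subgroup H}
    [E.Normal] {X : Type w} [Group X] {π : E →* X} {z : E} (hc : Cov π z)
    (e : X ≃* alternatingGroup (Fin 7)) : False := by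
  by_cases hp3 : p = 3
  · subst hp3
    refine h.card_ne E ?_
    rw [card_eq_two_mul hc.surj hc.z_ne_one hc.eq_one_iff, Nat.card_congr e.toEquiv,
      nat_card_alternatingGroup, Nat.card_fin]
    rfl
  let a : alternatingGroup (Fin 7) := ⟨Equiv.swap 0 1 * Equiv.swap 1 2, by
    rw [Equiv.Perm.mem_alternatingGroup]; decide⟩
  let b : alternatingGroup (Fin 7) := ⟨Equiv.swap 3 4 * Equiv.swap 4 5, by
    rw [Equiv.Perm.mem_alternatingGroup]; decide⟩
  obtain ⟨x, hx, hx3⟩ := hc.exists_lift_three (a := e.symm a) (by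
    rw [← map_pow, show a ^ 3 = 1 from Subtype.ext (by decide), map_one])
  obtain ⟨y, hy, hy3⟩ := hc.exists_lift_three (a := e.symm b) (by
    rw [← map_pow, show b ^ 3 = 1 from Subtype.ext (by decide), map_one])
  have h1 : Commute x y := hc.commute_of_three hy3 (by
    rw [hx, hy]
    exact Commute.map (show a * b = b * a from Subtype.ext (by decide)) e.symm)
  have h2 := h.eq_one_of_pair Nat.prime_three (Ne.symm hp3) (h1.map E.subtype)
    (congrArg Subtype.val hx3) (congrArg Subtype.val hy3) fun j hj => by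
      have h3 : x * y ^ j = 1 := Subtype.ext hj
      have h4 := congrArg (fun g => (e (π g)).1 0) h3
      simp only [map_mul, map_pow, hx, hy, map_one, MulEquiv.apply_symm_apply, coe_mul,
        SubgroupClass.coe_pow, Equiv.Perm.mul_apply] at h4
      rw [Equiv.Perm.pow_apply_eq_self_of_apply_eq_self (by decide)] at h4
      revert h4
      decide
  have h3 : y = 1 := Subtype.ext h2
  rw [h3, map_one, eq_comm, e.symm.map_eq_one_iff] at hy
  exact absurd (congrArg Subtype.val hy) (by decide)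

theorem concl_of_cov [Fact p.Prime] [Finite H] [Finite V] (h : Top p H V)
    (hV : ∀ v : V, p • v = 0) (E : Subgroup H) [E.Normal] {X : Type w} [Group X] {π : E →* X}
    {z : E} (hc : Cov π z) (hk : Known X) : Concl p H := by
  rcases hk with ⟨⟨e⟩⟩ | ⟨F, _, _, ho, ⟨e⟩⟩
  · exact ((h.setup hV).not_alt hc e).elim
  have h2 : (2 : F) ≠ 0 := fun e => by
    have h3 := (FiniteField.even_card_iff_char_two (F := F)).1
      (CharP.ringChar_of_prime_eq_zero Nat.prime_two (by exact_mod_cast e))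
    rw [Nat.odd_iff] at ho
    omega
  obtain ⟨ε⟩ := hc.nonempty_sl h2 e
  refine concl_of_sl h hV E ε ?_
  have h3 : 1 < Nat.card F := Finite.one_lt_card
  rw [← Nat.card_eq_fintype_card, Nat.odd_iff] at ho
  by_contra h4
  have : Group.IsSolvable E := isSolvable_of_card_eq_pow_mul_pow (a := 3) (b := 1) Nat.prime_two
    Nat.prime_three (by rw [Nat.card_congr ε.toEquiv, card_sl, show Nat.card F = 3 by omega]; rfl)
  have : Nontrivial E := ⟨z, 1, hc.z_ne_one⟩
  exact (Group.IsSolvable.commutator_lt_top_of_nontrivial E).ne hc.perf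

end Cfsg.Gag
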