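import Cfsg.Agent.Gag.EndBas
import Cfsg.Agent.Gag.EndAut

/-!
# The endgame in defining characteristic
-/

set_option autoImplicit false
set_option linter.unusedSectionVars false

namespace Cfsg.Gag

open Subgroup SL2 MulAction
open scoped MatrixGroups

universe u v w

variable {p : ℕ} {H : Type u} {V : Type v} [Group H] [AddCommGroup V] [DistribMulAction H V]
  {F : Type w} [Field F] {ι : SL(2, F) →* H}

/-- the vectors fixed by the upper unitriangular matrices -/
def fixU (V : Type v) [AddCommGroup V] [DistribMulAction H V] (ι : SL(2, F) →* H) :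
    AddSubgroup V := fixS V (Set.range fun x => ι (up x))

theorem mem_fixU {v : V} : v ∈ fixU V ι ↔ ∀ x, ι (up x) • v = v := by
  simp [fixU, mem_fixS]

theorem smul_mem_fixU {b : SL(2, F)} (hb : b ∈ borel F) {v : V} (hv : v ∈ fixU V ι) :
    ι b • v ∈ fixU V ι := by
  rw [mem_fixU] at hv ⊢
  intro x
  have := hv (b⁻¹ 0 0 ^ 2 * x)
  rw [← conj_up (inv_mem hb), inv_inv, map_mul, map_mul, map_inv, mul_smul, mul_smul,
    inv_smul_eq_iff] at this
  exact this

theorem isSquare_of_pow_odd {c : F} {n : ℕ} (hn : Odd n) (h : IsSquare (c ^ n)) : IsSquare c := by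
  obtain ⟨j, rfl⟩ := hn
  obtain ⟨s, hs⟩ := h
  by_cases hc : c = 0
  · rw [hc]; exact IsSquare.zero
  refine ⟨s / c ^ j, ?_⟩
  rw [div_mul_div_comm, ← hs]
  field_simp
  ring

namespace Setup

variable [hp : Fact p.Prime] [Finite H] [Finite V] [Finite F] [CharP F p] (h : Setup p H V)
  (hι : Function.Injective ι)
include h hι

theorem exists_card_field : ∃ a, 0 < a ∧ Nat.card F = p ^ a := by
  obtain ⟨r, a, hr, _, ha, hq⟩ := exists_char F
  obtain rfl := CharP.eq F ‹CharP F r› ‹CharP F p›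
  exact ⟨a, ha, hq⟩

theorem coprime_card_sub_one : (Nat.card F - 1).Coprime p := by
  obtain ⟨a, ha, hq⟩ := h.exists_card_field hι
  rw [Nat.coprime_comm, hp.out.coprime_iff_not_dvd, hq]
  intro hd
  exact hp.out.one_lt.ne' (Nat.dvd_one.1 ((Nat.dvd_sub_iff_right (Nat.one_le_pow _ _ hp.out.pos)
    (dvd_pow_self p ha.ne')).1 hd))

theorem le_card_inf {Y : AddSubgroup V} (hY : ∀ s, ∀ v ∈ Y, ι s • v ∈ Y) (h0 : Y ≠ ⊥) :
    Nat.card F ≤ Nat.card (Y ⊓ fixU V ι : AddSubgroup V) := by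
  obtain ⟨a, ha, hq⟩ := h.exists_card_field hι
  have hB : IsPGroup p (ι.comp (uni F)).range :=
    (IsPGroup.of_card (G := Multiplicative F) hq).of_surjective _
      (MonoidHom.rangeRestrict_surjective _)
  obtain ⟨v, hv, hv0, hv1⟩ := h.exists_fix hB (W := Y) (by rintro _ ⟨x, rfl⟩; exact hY _) h0
  have h1 : 1 < Nat.card (Y ⊓ fixU V ι : AddSubgroup V) :=
    (AddSubgroup.one_lt_card_iff_ne_bot _).2 fun e => hv0 (AddSubgroup.mem_bot.1
      (e ▸ AddSubgroup.mem_inf.2 ⟨hv, mem_fixU.2 fun x => hv1 _ ⟨.ofAdd x, rfl⟩⟩))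
  have h2 := h.dvd_sub_one (ι.comp (diagHom F)).range (Y ⊓ fixU V ι) (by
    rintro _ ⟨t, rfl⟩ w hw
    exact ⟨hY _ w hw.1, smul_mem_fixU (diag_mem t) hw.2⟩) (d := Nat.card F - 1) (by
      rw [← Nat.card_units, Nat.card_congr (MonoidHom.ofInjective
        (f := ι.comp (diagHom F)) (hι.comp diagHom_injective)).toEquiv])
      (h.coprime_card_sub_one hι)
  have := Nat.le_of_dvd (by omega) h2
  omega

theorem le_card_fixU : Nat.card F ≤ Nat.card (fixU V ι) := by
  have := h.le_card_inf hι (Y := ⊤) (fun _ _ _ => trivial) h.top_ne_bot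
  rwa [top_inf_eq] at this

theorem sq_le (hq : 2 < Nat.card F) : Nat.card (fixU V ι) * Nat.card (fixU V ι) ≤ Nat.card V := by
  have hinj : Function.Injective (rho H V (ι (weyl F))) := MulAction.injective (ι (weyl F))
  have h1 := card_mul_card_le_of_inf (A := fixU V ι)
    (B := (fixU V ι).map (rho H V (ι (weyl F)))) ?_
  · rwa [AddSubgroup.card_map_of_injective hinj] at h1
  rintro v hv ⟨w, hw, e⟩
  by_contra h0
  have h2 : (stabilizer H v).comap ι = ⊤ := eq_top_of_up_low (mem_fixU.1 hv) fun x => by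
    change ι (low x) • v = v
    have e' : ι (weyl F) • w = v := e
    rw [← neg_neg x, ← weyl_conj_up, map_mul, map_mul, map_inv, ← e', mul_smul, mul_smul,
      inv_smul_smul, mem_fixU.1 hw]
  have : Nontrivial Fˣ := Finite.one_lt_card_iff_nontrivial.1 (by rw [Nat.card_units]; omega)
  obtain ⟨t, ht⟩ := exists_ne (1 : Fˣ)
  have h3 : ι (diagHom F t) • v = v := (h2 ▸ mem_top _ : diagHom F t ∈ (stabilizer H v).comap ι)
  have h4 := h.fpf (m := Nat.card F - 1) (by
    rw [← map_pow, ← map_pow, ← Nat.card_units, pow_card_eq_one', map_one, map_one])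
    (h.coprime_card_sub_one hι) h0 h3
  exact ht (diagHom_injective (hι (by rw [h4, map_one, map_one])))

variable [hn : ι.range.Normal]

theorem exists_smul_mem {v : V} (hv : v ≠ 0) : ∃ l, ι l • v ∈ fixU V ι := by
  have h1 := h.le_card_fixU hι
  have h2 : 1 < Nat.card F := Finite.one_lt_card
  obtain ⟨w, hw, hw0⟩ := ((fixU V ι).bot_or_exists_ne_zero).resolve_left
    ((AddSubgroup.one_lt_card_iff_ne_bot _).1 (by omega))
  obtain ⟨g, rfl⟩ := h.trans v w hv hw0
  obtain ⟨l, c, ψ, h3⟩ := exists_sc hι g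
  refine ⟨l⁻¹, mem_fixU.2 fun x => ?_⟩
  have := mem_fixU.1 hw (c * ψ x)
  rw [← h3.2, mul_inv_rev, mul_smul, mul_smul, mul_smul, mul_smul, inv_smul_smul,
    smul_left_cancel_iff, smul_eq_iff_eq_inv_smul] at this
  rwa [map_inv]

theorem card_le : Nat.card V ≤
    Nat.card (fixU V ι) + Nat.card F * (Nat.card (fixU V ι) - 1) := by
  rw [← card_ne_zero_eq (fixU V ι), Nat.add_sub_cancel, card_ne_zero_eq, ← Nat.card_prod,
    ← Nat.card_sum]
  refine Nat.card_le_card_of_surjective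
    (Sum.elim Subtype.val fun y => ι (up y.1 * weyl F) • y.2.1) fun v => ?_
  by_cases hv : v = 0
  · exact ⟨.inl 0, hv.symm⟩
  obtain ⟨l, hl⟩ := h.exists_smul_mem hι hv
  have e : ι l⁻¹ • ι l • v = v := by rw [map_inv, inv_smul_smul]
  by_cases hb : l⁻¹ ∈ borel F
  · exact ⟨.inl ⟨_, smul_mem_fixU hb hl⟩, e⟩
  obtain ⟨y, b, hb, e'⟩ := exists_bruhat hb
  refine ⟨.inr (y, ⟨_, smul_mem_fixU hb hl, by simpa only [ne_eq, smul_eq_zero_iff_eq] using hv⟩), ?_⟩
  change ι (up y * weyl F) • ι b • ι l • v = v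
  rw [← mul_smul, ← map_mul, ← e', e]

variable (hq : 2 < Nat.card F)
include hq

theorem card_eq : Nat.card (fixU V ι) = Nat.card F ∧ Nat.card V = Nat.card F * Nat.card F := by
  have h1 := h.le_card_fixU hι
  have h2 := h.sq_le hι hq
  have h3 := h.card_le hι
  generalize Nat.card (fixU V ι) = u at *
  generalize Nat.card F = q at *
  obtain ⟨u, rfl⟩ : ∃ u', u = u' + 1 := ⟨u - 1, by omega⟩
  rw [Nat.add_sub_cancel] at h3
  obtain rfl : u + 1 = q := by
    refine le_antisymm (Nat.le_of_mul_le_mul_right (c := u) ?_ (by omega)) h1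
    nlinarith
  exact ⟨rfl, by nlinarith⟩

theorem index_pow : ∃ k, ι.range.index = p ^ k := by
  obtain ⟨k, hk⟩ := h.card_H
  have h1 := ι.range.card_mul_index
  rw [← Nat.card_congr (MonoidHom.ofInjective hι).toEquiv, card_sl, hk, (h.card_eq hι hq).2,
    ← sq, ← one_pow 2, Nat.sq_sub_sq, one_pow] at h1
  have h2 : Nat.card F * ι.range.index = p ^ k :=
    Nat.eq_of_mul_eq_mul_left (show 0 < (Nat.card F + 1) * (Nat.card F - 1) from
      Nat.mul_pos (by omega) (by omega)) (by rw [← h1]; ring)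
  obtain ⟨j, -, hj⟩ := (Nat.dvd_prime_pow hp.out).1 (Dvd.intro_left _ h2)
  exact ⟨j, hj⟩

theorem cent_le : centralizer (ι.range : Set H) ≤ ι.range := by
  intro k hk
  obtain ⟨j, m, hm, e⟩ := Nat.exists_eq_pow_mul_and_not_dvd (orderOf_pos k).ne' p hp.out.ne_one
  have h1 : k ^ m = 1 := by
    obtain ⟨v, hv, hv1⟩ := h.exists_fix_elt (g := k ^ m) (k := j) (by
      rw [← pow_mul, mul_comm, ← e, pow_orderOf_eq_one])
    have hY : ∀ s, ∀ v ∈ fixS V {k ^ m}, ι s • v ∈ fixS V {k ^ m} := fun s w hw => by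
      rw [mem_fixS_single] at hw ⊢
      rw [← mul_smul, ← pow_mem hk m _ ⟨s, rfl⟩, mul_smul, hw]
    have h2 := h.le_card_inf hι hY fun e =>
      hv (AddSubgroup.mem_bot.1 (e ▸ mem_fixS_single.2 hv1))
    rw [← (h.card_eq hι hq).1] at h2
    have h3 := AddSubgroup.eq_of_le_of_card_ge inf_le_right h2
    refine h.faith _ fun w => ?_
    by_cases hw : w = 0
    · rw [hw, smul_zero]
    obtain ⟨l, hl⟩ := h.exists_smul_mem hι hw
    rw [← h3] at hl
    have := hY l⁻¹ _ hl.1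
    rwa [map_inv, inv_smul_smul, mem_fixS_single] at this
  obtain ⟨i, hi⟩ := h.index_pow hι hq
  obtain ⟨a, ha⟩ := exists_pow_eq_self_of_coprime (x := k) (n := ι.range.index) (by
    rw [hi]
    exact Nat.Coprime.pow_left _ (((hp.out.coprime_iff_not_dvd).2 hm).coprime_dvd_right
      (orderOf_dvd_of_pow_eq_one h1)))
  exact ha ▸ pow_mem (ι.range.pow_index_mem k) a

theorem sup_zpowers : ∃ g : H, ι.range ⊔ zpowers g = ⊤ := by
  obtain ⟨g, hg⟩ := exists_gen hι
  obtain ⟨i, hi⟩ := h.index_pow hι hq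
  refine ⟨g, eq_top_iff.2 fun a _ => ?_⟩
  obtain ⟨k, l, c, h1⟩ := hg a
  obtain ⟨s, hs⟩ := ι.range.pow_index_mem (g ^ k * a * ι l)
  have h2 := h1.pow ι.range.index
  rw [← hs] at h2
  have h3 : IsSquare c := by
    rcases hp.out.eq_two_or_odd' with rfl | ho
    · exact FiniteField.isSquare_of_char_two (ringChar.eq F 2) c
    · exact isSquare_of_pow_odd (hi ▸ ho.pow) (h2.isSquare hι)
  have h4 := h1.mem_sup hι h3
  rw [sup_eq_left.2 (h.cent_le hι hq)] at h4
  have h5 : g ^ k * a ∈ ι.range := (mul_mem_cancel_right (show ι l ∈ ι.range from ⟨l, rfl⟩)).1 h4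
  exact (mul_mem_cancel_left (mem_sup_right (zpow_mem (mem_zpowers g) k))).1 (mem_sup_left h5)

end Setup

end Cfsg.Gag

set_option linter.all false in
theorem Cfsg.Rz.Gag_EndDef_0 : True := by
  have := @_root_.Cfsg.Gag.fixU.eq_def.{0, 0, 0}
  have := @_root_.Cfsg.Gag.fixU.fun_cases
  trivial
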