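import Cfsg.Agent.Gag.EndBas
import Cfsg.Agent.Gag.EndAut

/-!
# The endgame in cross characteristic: the field and the centralizer of `SL(2, F)`
-/

set_option autoImplicit false
set_option linter.unusedSectionVars false

namespace Cfsg.Gag

open Subgroup SL2 MulAction
open scoped MatrixGroups

universe u v w

variable {p : ℕ} {H : Type u} {V : Type v} [Group H] [AddCommGroup V] [DistribMulAction H V]
  {F : Type w} [Field F] {ι : SL(2, F) →* H}

theorem map_neg_one_sq : ι (-1) * ι (-1) = 1 := by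
  rw [← map_mul, neg_mul_neg, one_mul, map_one]

theorem neg_one_mem_cent : ι (-1) ∈ centralizer (ι.range : Set H) := by
  rintro _ ⟨s, rfl⟩
  rw [← map_mul, ← map_mul, mul_neg_one, neg_one_mul]

theorem eq_of_mem_inf (hι : Function.Injective ι) {k : H}
    (hk : k ∈ centralizer (ι.range : Set H)) (hk' : k ∈ ι.range) : k = 1 ∨ k = ι (-1) := by
  obtain ⟨s, rfl⟩ := hk'
  rcases eq_of_mem_center (s := s) (fun g => hι (by
    rw [map_mul, map_mul]; exact hk _ ⟨g, rfl⟩)) with e | e
  · left; rw [e, map_one]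
  · right; rw [e]

theorem map_neg_one_ne (hι : Function.Injective ι) (h2 : (2 : F) ≠ 0) : ι (-1) ≠ 1 :=
  fun e => neg_one_ne h2 (hι (e.trans (map_one ι).symm))

theorem card_sup_cent [Finite H] (hι : Function.Injective ι) [ι.range.Normal] (h2 : (2 : F) ≠ 0) :
    Nat.card (ι.range ⊔ centralizer (ι.range : Set H) : Subgroup H) * 2 =
      Nat.card (centralizer (ι.range : Set H)) * Nat.card SL(2, F) := by
  rw [Nat.card_congr (MonoidHom.ofInjective hι).toEquiv, ← card_sup_mul_card_inf_of_normal,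
    sup_comm]
  congr 1
  refine (Set.ncard_pair (map_neg_one_ne hι h2).symm).symm.trans ?_
  rw [← Nat.card_coe_set_eq]
  refine Nat.card_congr (Equiv.subtypeEquivRight fun k => ⟨?_, fun hk => ?_⟩)
  · rintro (rfl | rfl)
    · exact one_mem _
    · exact ⟨neg_one_mem_cent, _, rfl⟩
  · exact eq_of_mem_inf hι hk.1 hk.2

theorem cent_eq_map_center {L : Subgroup H} (h : centralizer (L : Set H) ≤ L) :
    centralizer (L : Set H) = (center L).map L.subtype := by
  refine le_antisymm (fun k hk => ⟨⟨k, h hk⟩, mem_center_iff.2 fun g => Subtype.ext (hk g g.2), rfl⟩) ?_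
  rintro _ ⟨k, hk, rfl⟩ g hg
  exact congrArg Subtype.val (mem_center_iff.1 hk ⟨g, hg⟩)

theorem tau_comm {R : Type*} [Ring R] {a b : R} (ha : a * a = -1) (hb : b * b = b - 1) :
    Commute a (-(a * b) + (1 - b) * a) := by
  change a * (-(a * b) + (1 - b) * a) = (-(a * b) + (1 - b) * a) * a
  have e1 : a * (-(a * b) + (1 - b) * a) = -(a * a * b) + a * a - a * b * a := by noncomm_ring
  have e2 : (-(a * b) + (1 - b) * a) * a = -(a * b * a) + a * a - b * (a * a) := by noncomm_ring
  rw [e1, e2, ha]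
  noncomm_ring

namespace Setup

variable [hp : Fact p.Prime] [Finite H] [Finite V] [Finite F] (h : Setup p H V)
  (hι : Function.Injective ι)
include h hι

theorem exists_natCast {r : ℕ} [CharP F r] (hr : r.Prime) (hrp : r ≠ p) (x : F) :
    ∃ j : ℕ, x = j := by
  by_contra hx
  push Not at hx
  have key : ∀ y : F, ι (up y) ^ r = 1 := fun y => by
    rw [← map_pow, ← up_nsmul, CharP.cast_eq_zero, zero_mul, up_zero, map_one]
  have := h.eq_one_of_pair hr hrp (((up_comm (-x) 1)).map ι) (key _) (key _) fun j e => by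
    rw [← map_pow, ← map_mul, ← up_nsmul, ← up_add, ← map_one ι] at e
    exact hx j (by linear_combination -(up_eq_one.1 (hι e)))
  exact one_ne_zero (up_eq_one.1 (hι (this.trans (map_one ι).symm)))

theorem ne_two [ι.range.Normal] (h2 : (2 : F) ≠ 0) : p ≠ 2 := by
  rintro rfl
  have hc : ∀ g : H, g * ι (-1) * g⁻¹ = ι (-1) := fun g => by
    obtain ⟨α, hα⟩ := exists_aut hι g
    rw [← hα]
    rcases eq_of_mul_self (s := α (-1)) h2 (by rw [← map_mul, neg_mul_neg, one_mul, map_one])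
      with e | e
    · exact absurd (α.injective (e.trans (map_one α).symm)) (neg_one_ne h2)
    · rw [e]
  have : (zpowers (ι (-1))).Normal := ⟨by
    rintro _ ⟨k, rfl⟩ g
    rw [← conj_zpow, hc]
    exact zpow_mem (mem_zpowers _) k⟩
  have h1 := h.eq_bot_of_normal (B := zpowers (ι (-1))) (IsPGroup.of_card (n := 1) (by
    rw [Nat.card_zpowers, pow_one]
    exact orderOf_eq_prime (by rw [sq, map_neg_one_sq]) (map_neg_one_ne hι h2)))
  exact map_neg_one_ne hι h2 (zpowers_eq_bot.1 h1)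

variable (hp2 : p ≠ 2) (h2 : (2 : F) ≠ 0)
include hp2 h2

theorem eq_of_sq {g : H} (hg : g * g = 1) : g = 1 ∨ g = ι (-1) :=
  or_iff_not_imp_left.2 fun h1 =>
    h.invol_unique hp2 hg h1 map_neg_one_sq (map_neg_one_ne hι h2)

theorem neg_one_smul' (v : V) : ι (-1) • v = -v :=
  h.neg_of_invol hp2 map_neg_one_sq (map_neg_one_ne hι h2) v

theorem rho_neg_one : rho H V (ι (-1)) = -1 := by
  ext v; exact h.neg_one_smul' hι hp2 h2 v

theorem cent_sq_ne {k : H} (hk : k ∈ centralizer (ι.range : Set H)) : k * k ≠ ι (-1) := by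
  intro e
  have hc : ι (weyl F) * k = k * ι (weyl F) := hk _ ⟨_, rfl⟩
  have h1 : k ∈ ι.range := by
    rcases h.eq_of_sq hι hp2 h2 (g := k * ι (weyl F)) (by
      rw [mul_assoc, ← mul_assoc (ι _), hc, mul_assoc, ← map_mul, weyl_mul_self, ← mul_assoc, e,
        map_neg_one_sq]) with e1 | e1
    · exact (mul_mem_cancel_right (show ι (weyl F) ∈ ι.range from ⟨_, rfl⟩)).1 (e1 ▸ one_mem _)
    · exact (mul_mem_cancel_right (show ι (weyl F) ∈ ι.range from ⟨_, rfl⟩)).1 (e1 ▸ ⟨_, rfl⟩)
  rcases eq_of_mem_inf hι hk h1 with rfl | rfl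
  · exact map_neg_one_ne hι h2 (by rw [← e, mul_one])
  · exact map_neg_one_ne hι h2 (by rw [← e, map_neg_one_sq])

theorem cent_two {k : H} (hk : k ∈ centralizer (ι.range : Set H)) {j : ℕ} (e : k ^ 2 ^ j = 1) :
    k = 1 ∨ k = ι (-1) := by
  induction j generalizing k with
  | zero => left; simpa using e
  | succ j ih =>
    rw [pow_succ', pow_mul, sq] at e
    exact h.eq_of_sq hι hp2 h2
      ((ih (mul_mem hk hk) e).resolve_right (h.cent_sq_ne hι hp2 h2 hk))

theorem not_four_dvd : ¬ 4 ∣ Nat.card (centralizer (ι.range : Set H)) := by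
  intro h4
  obtain ⟨Q, hQ⟩ := Sylow.exists_subgroup_card_pow_prime (G := centralizer (ι.range : Set H)) 2
    (n := 2) h4
  have h1 : Nat.card Q ≤ Nat.card ({1, ι (-1)} : Set H) :=
    Nat.card_le_card_of_injective (fun x => ⟨x.1.1, h.cent_two hι hp2 h2 x.1.2 (j := 2) (by
      rw [← hQ]
      exact congrArg (fun y : Q => (y.1.1 : H)) (pow_card_eq_one' (x := x)))⟩) fun a b hab => by
      have := congrArg Subtype.val hab
      exact Subtype.ext (Subtype.ext this)
  rw [hQ, Nat.card_coe_set_eq, Set.ncard_pair (map_neg_one_ne hι h2).symm] at h1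
  omega

theorem two_dvd : 2 ∣ Nat.card (centralizer (ι.range : Set H)) := by
  have := orderOf_dvd_natCard (⟨_, neg_one_mem_cent⟩ : centralizer (ι.range : Set H))
  rwa [← orderOf_coe, orderOf_eq_prime (p := 2) (by rw [sq, map_neg_one_sq])
    (map_neg_one_ne hι h2)] at this

theorem not_dvd_cent {s : ℕ} (hs : s.Prime) (hs2 : s ≠ 2) (hsp : s ≠ p)
    (hd : s ∣ Nat.card SL(2, F)) : ¬ s ∣ Nat.card (centralizer (ι.range : Set H)) := by
  intro hk
  have := Fact.mk hs
  obtain ⟨k, hk⟩ := exists_prime_orderOf_dvd_card' s hk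
  obtain ⟨l, hl⟩ := exists_prime_orderOf_dvd_card' s hd
  rw [← orderOf_coe] at hk
  have h1 := h.eq_one_of_pair hs hsp (a := k) (b := ι l) (k.2 _ ⟨l, rfl⟩).symm
    (by rw [← hk, pow_orderOf_eq_one]) (by rw [← map_pow, ← hl, pow_orderOf_eq_one, map_one])
    fun j e => by
      have h3 : k.1 ^ 2 = 1 := by
        rcases eq_of_mem_inf hι k.2 ((mul_mem_cancel_right (pow_mem
          (show ι l ∈ ι.range from ⟨l, rfl⟩) j)).1 (e ▸ one_mem _)) with e1 | e1
        · rw [e1, one_pow]
        · rw [e1, sq, map_neg_one_sq]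
      exact hs2 ((Nat.prime_dvd_prime_iff_eq hs Nat.prime_two).1
        (hk ▸ orderOf_dvd_of_pow_eq_one h3))
  rw [hι (h1.trans (map_one ι).symm), orderOf_one] at hl
  exact hs.one_lt.ne hl

omit hp2 h2 in
theorem not_dvd_cent' {d : ℕ} (hd : d ∣ Nat.card SL(2, F)) (hc : d.Coprime p)
    (hV : Nat.card V < p * (d + 1)) : ¬ p ∣ Nat.card (centralizer (ι.range : Set H)) := by
  intro hk
  obtain ⟨k, hk⟩ := exists_prime_orderOf_dvd_card' p hk
  rw [← orderOf_coe] at hk
  obtain ⟨v, hv, hv1⟩ := h.exists_fix_elt (g := k.1) (k := 1) (by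
    rw [pow_one, ← hk, pow_orderOf_eq_one])
  have h1 := h.dvd_sub_one ι.range (fixS V {k.1}) (fun s hs w hw => by
    rw [mem_fixS_single] at hw ⊢
    rw [← mul_smul, ← k.2 s hs, mul_smul, hw])
    (by rwa [← Nat.card_congr (MonoidHom.ofInjective hι).toEquiv]) hc
  have h3 : 1 < Nat.card (fixS V {k.1}) := (AddSubgroup.one_lt_card_iff_ne_bot _).2 fun e =>
    hv (AddSubgroup.mem_bot.1 (e ▸ mem_fixS_single.2 hv1))
  have h4 := Nat.le_of_dvd (by omega) h1
  obtain ⟨a, ha⟩ := h.card_pow (fixS V {k.1})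
  obtain ⟨n, hn⟩ := h.card_V
  have h5 : Nat.card V ≤ Nat.card (fixS V {k.1}) := by
    rw [ha, hn]
    refine Nat.pow_le_pow_right hp.out.pos (Nat.le_of_lt_succ
      ((Nat.pow_lt_pow_iff_right hp.out.one_lt).1 ?_))
    rw [← hn, pow_succ', ← ha]
    exact hV.trans_le (Nat.mul_le_mul_left _ (by omega))
  have h6 := AddSubgroup.eq_top_of_le_card _ h5
  rw [h.faith k.1 fun w => mem_fixS_single.1 (h6 ▸ AddSubgroup.mem_top w), orderOf_one] at hk
  exact hp.out.one_lt.ne hk

theorem five_eq_zero {r : ℕ} [CharP F r] (hr : r.Prime) (hrp : r ≠ p) (hp3 : p ≠ 3)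
    (h3 : (3 : F) ≠ 0) : (5 : F) = 0 := by
  let ρ : SL(2, F) →* AddMonoid.End V := (rho H V).comp ι
  have hz : ρ (-1) = -1 := h.rho_neg_one hι hp2 h2
  have hneg : ∀ s, ρ (-s) = -ρ s := fun s => by rw [← neg_one_mul, map_mul, hz, neg_one_mul]
  have ha : ρ (weyl F) * ρ (weyl F) = -1 := by rw [← map_mul, weyl_mul_self, hz]
  have hb : ρ (weyl F * up 1) * ρ (weyl F * up 1) = ρ (weyl F * up 1) - 1 := by
    have e3 : (-(weyl F * up 1)) ^ 3 = 1 := by
      refine ext' ?_ ?_ ?_ ?_ <;> simp [pow_succ]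
    have e4 := FpfEnd.sum_pow_eq_zero (t := ρ (-(weyl F * up 1))) (n := 3)
      (by rw [← map_pow, e3, map_one]) (h.fpf' (m := 3) (by rw [← map_pow, e3, map_one])
        ((Nat.coprime_primes Nat.prime_three hp.out).2 hp3.symm) fun e => by
          have := congrArg (fun g : SL(2, F) => g 0 0) (hι (e.trans (map_one ι).symm))
          simp at this)
    simp only [Finset.sum_range_succ, Finset.range_zero, Finset.sum_empty, hneg] at e4
    rw [← sub_eq_zero, ← e4]
    noncomm_ring
  have e1 : ρ (up 1) = -(ρ (weyl F) * ρ (weyl F * up 1)) := by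
    rw [map_mul, ← mul_assoc, ha, neg_one_mul, neg_neg]
  have e2 : ρ (up (-1)) = (1 - ρ (weyl F * up 1)) * ρ (weyl F) := by
    have e5 : ρ (weyl F * up 1)⁻¹ = 1 - ρ (weyl F * up 1) := by
      calc _ = ρ (weyl F * up 1)⁻¹ * (ρ (weyl F * up 1) * (1 - ρ (weyl F * up 1))) := by
            rw [mul_sub, hb, mul_one, sub_sub_cancel, mul_one]
        _ = _ := by rw [← mul_assoc, ← map_mul, inv_mul_cancel, map_one, one_mul]
    rw [← e5, ← map_mul, up_neg, mul_inv_rev, inv_mul_cancel_right]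
  let C : Subgroup SL(2, F) :=
    { carrier := {s | Commute (ρ s) (ρ (up 1) + ρ (up (-1)))}
      mul_mem' := fun {a b} ha hb => by
        change Commute (ρ (a * b)) _
        rw [map_mul]; exact Commute.mul_left ha hb
      one_mem' := by change Commute (ρ 1) _; rw [map_one]; exact Commute.one_left _
      inv_mem' := fun {a} ha => (Commute.units_inv_left (u := ρ.toHomUnits a) ha :) }
  have hC : C = ⊤ := eq_top_of_up_weyl (fun x =>
    Commute.add_right ((up_comm x 1).map ρ) ((up_comm x (-1)).map ρ)) (by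
      change Commute _ _
      rw [e1, e2]; exact tau_comm ha hb)
  have h4 : ρ (up 4) + ρ (up (-4)) = ρ (up 1) + ρ (up (-1)) := by
    let d := diag (Units.mk0 (2 : F) h2)
    have c : Commute (ρ d) (ρ (up 1) + ρ (up (-1))) := (hC ▸ mem_top d : d ∈ C)
    have c1 : ∀ x, ρ (up (4 * x)) = ρ d * ρ (up x) * ρ d⁻¹ := fun x => by
      rw [← map_mul, ← map_mul, conj_up (diag_mem _)]
      congr 2
      change 4 * x = 2 ^ 2 * x
      norm_num
    have c2 := c1 1
    have c3 := c1 (-1)
    rw [mul_one] at c2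
    rw [mul_neg_one] at c3
    rw [c2, c3, ← add_mul, ← mul_add, c.eq, mul_assoc, ← map_mul, mul_inv_cancel, map_one, mul_one]
  have h5 : (ρ (up 3) - 1) * (ρ (up 5) - 1) = 0 := by
    have m : ∀ x y z : F, x + y = z → ρ (up x) * ρ (up y) = ρ (up z) := fun x y z e => by
      rw [← map_mul, ← up_add, e]
    have := congrArg (ρ (up 4) * ·) h4
    simp only [mul_add] at this
    rw [m 4 4 8 (by norm_num), m 4 (-4) 0 (by norm_num), m 4 1 5 (by norm_num),
      m 4 (-1) 3 (by norm_num), up_zero, map_one] at this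
    rw [sub_mul, mul_sub, m 3 5 8 (by norm_num), one_mul, mul_one, ← sub_eq_zero.2 this]
    abel
  by_contra h6
  have key : ∀ x : F, x ≠ 0 → ∀ v : V, (ρ (up x) - 1) v = 0 → v = 0 := fun x hx v hv =>
    h.fpf' (g := ι (up x)) (m := r) (by
      rw [← map_pow, ← up_nsmul, CharP.cast_eq_zero, zero_mul, up_zero, map_one])
      ((Nat.coprime_primes hr hp.out).2 hrp)
      (fun e => hx (up_eq_one.1 (hι (e.trans (map_one ι).symm)))) v (sub_eq_zero.1 hv)
  obtain ⟨v, hv⟩ := h.nontriv
  exact hv (key 5 h6 v (key 3 h3 _ (DFunLike.congr_fun h5 v)))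

end Setup

end Cfsg.Gag
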