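import Cfsg.Agent.Gag.EndThree
import Cfsg.Agent.Gag.EndDef

/-!
# The endgame: a normal subgroup `SL(2, F)` gives the conclusion of Gagola's theorem
-/

set_option autoImplicit false
set_option linter.unusedSectionVars false

namespace Cfsg.Gag

open Subgroup SL2 MulAction
open scoped MatrixGroups

universe u v w

variable {p : ℕ} {H : Type u} {V : Type v} [Group H] [AddCommGroup V] [DistribMulAction H V]
  {F : Type w} [Field F] {ι : SL(2, F) →* H}

theorem nonempty_sl_equiv [Finite F] {r : ℕ} (hr : r.Prime) (hF : Nat.card F = r) :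
    Nonempty (SL(2, F) ≃* SL(2, ZMod r)) := by
  have := Fintype.ofFinite F
  let e := ZMod.ringEquivOfPrime F hr (by rw [← Nat.card_eq_fintype_card, hF])
  exact ⟨MonoidHom.toMulEquiv (Matrix.SpecialLinearGroup.map (e.symm : F →+* ZMod r))
    (Matrix.SpecialLinearGroup.map (e : ZMod r →+* F))
    (by ext s i j; exact e.apply_symm_apply _) (by ext s i j; exact e.symm_apply_apply _)⟩

theorem quat_sq {R : Type*} [Ring R] {a b : R} (ha : a * a = -1) (hb : b * b = -1)
    (hab : b * a = -(a * b)) (x y : ℕ) :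
    (x • a + y • b + a * b) * (x • a + y • b + a * b) = -((x ^ 2 + y ^ 2 + 1) • (1 : R)) ∧
      (x • a + y • b + a * b) * (a * b) + (a * b) * (x • a + y • b + a * b) = -(2 • (1 : R)) := by
  have e1 : a * (a * b) = -b := by rw [← mul_assoc, ha, neg_one_mul]
  have e2 : a * b * a = b := by rw [mul_assoc, hab, mul_neg, e1, neg_neg]
  have e3 : a * b * b = -a := by rw [mul_assoc, hb, mul_neg_one]
  have e4 : b * (a * b) = a := by rw [← mul_assoc, hab, neg_mul, e3, neg_neg]
  have e5 : a * b * (a * b) = -1 := by rw [← mul_assoc, e2, hb]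
  constructor
  · simp only [add_mul, mul_add, smul_mul_assoc, mul_smul_comm, ha, hb, hab, e1, e2, e3, e4, e5]
    module
  · simp only [add_mul, mul_add, smul_mul_assoc, mul_smul_comm, e1, e2, e3, e4, e5]
    module

namespace Setup

variable [hp : Fact p.Prime] [Finite H] [Finite V] [Finite F] (h : Setup p H V)
  (hι : Function.Injective ι)
include h hι

theorem exists_small (hp2 : p ≠ 2) (h2 : (2 : F) ≠ 0) (h5 : (5 : F) = 0) :
    ∃ W : AddSubgroup V, W ≠ ⊥ ∧ Nat.card W * Nat.card W ≤ Nat.card V ∧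
      ∀ k ∈ centralizer (ι.range : Set H), ∀ v ∈ W, k • v ∈ W := by
  let ρ : SL(2, F) →* AddMonoid.End V := (rho H V).comp ι
  have hz : ρ (-1) = -1 := h.rho_neg_one hι hp2 h2
  let d := diag (Units.mk0 (2 : F) h2)
  have hi : (2 : F)⁻¹ = -2 := inv_eq_of_mul_eq_one_right (by linear_combination -h5)
  have ha : ρ (weyl F) * ρ (weyl F) = -1 := by rw [← map_mul, weyl_mul_self, hz]
  have hb : ρ d * ρ d = -1 := by
    rw [← map_mul, ← hz]
    congr 1
    refine ext' ?_ ?_ ?_ ?_ <;> simp [d, hi] <;> linear_combination h5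
  have hab : ρ d * ρ (weyl F) = -(ρ (weyl F) * ρ d) := by
    rw [← neg_one_mul, ← hz, ← map_mul, ← map_mul, ← map_mul]
    congr 1
    refine ext' ?_ ?_ ?_ ?_ <;> simp [d, hi]
  obtain ⟨x, y, hxy⟩ := ZMod.sq_add_sq p (-1)
  obtain ⟨c, hc⟩ : p ∣ x.val ^ 2 + y.val ^ 2 + 1 := by
    rw [← ZMod.natCast_eq_zero_iff]
    push_cast
    rw [ZMod.natCast_zmod_val, ZMod.natCast_zmod_val, hxy, neg_add_cancel]
  obtain ⟨e1, e2⟩ := quat_sq ha hb hab x.val y.val
  have e3 : ∀ k ∈ centralizer (ι.range : Set H),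
      Commute (rho H V k) (x.val • ρ (weyl F) + y.val • ρ d + ρ (weyl F) * ρ d) := fun k hk => by
    have : ∀ s, Commute (rho H V k) (ρ s) := fun s =>
      Commute.map (show Commute k (ι s) from (hk _ ⟨s, rfl⟩).symm) (rho H V)
    exact (((this _).smul_right _).add_right ((this _).smul_right _)).add_right
      ((this _).mul_right (this _))
  generalize x.val • ρ (weyl F) + y.val • ρ d + ρ (weyl F) * ρ d = ν at e1 e2 e3
  refine ⟨AddMonoidHom.range ν, fun e => ?_, ?_, ?_⟩
  · obtain rfl : ν = 0 := AddMonoidHom.range_eq_bot_iff.1 e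
    obtain ⟨v, hv⟩ := h.nontriv
    rw [zero_mul, mul_zero, add_zero, eq_comm, neg_eq_zero] at e2
    exact hv (h.eq_zero_of_smul ((Nat.coprime_primes Nat.prime_two hp.out).2 hp2.symm)
      (DFunLike.congr_fun e2 v))
  · rw [← (AddMonoidHom.ker ν).card_mul_index]
    refine Nat.mul_le_mul (AddSubgroup.card_le_of_le ?_) (AddSubgroup.index_ker _).ge
    rintro _ ⟨v, rfl⟩
    refine (DFunLike.congr_fun e1 v).trans ?_
    change -((x.val ^ 2 + y.val ^ 2 + 1) • v) = 0
    rw [hc, mul_smul, h.tors, neg_zero]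
  · rintro k hk _ ⟨v, rfl⟩
    exact ⟨k • v, (DFunLike.congr_fun (e3 k hk).eq v).symm⟩

variable [ι.range.Normal]

theorem five_case (hp7 : 7 ≤ p) (h2 : (2 : F) ≠ 0) (hF : Nat.card F = 5)
    (h1 : ∀ ψ : RingAut F, ψ = 1) :
    ∃ m, ((p = 11 ∧ m = 1) ∨ (p = 29 ∧ m = 7) ∨ (p = 59 ∧ m = 29)) ∧ Nat.card H = 120 * m ∧
      m ∣ Nat.card (centralizer (ι.range : Set H)) := by
  have hp2 : p ≠ 2 := by omega
  have h5 : (5 : F) = 0 := by
    have := Fintype.ofFinite F
    have e := FiniteField.cast_card_eq_zero F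
    rw [← Nat.card_eq_fintype_card, hF] at e
    exact_mod_cast e
  have hL : Nat.card SL(2, F) = 120 := by rw [card_sl, hF]
  have hc : ∀ s : ℕ, s.Prime → s < 7 → s.Coprime p := fun s hs h7 =>
    (Nat.coprime_primes hs hp.out).2 (by omega)
  have c120 : Nat.Coprime 120 p := by
    rw [show 120 = 2 ^ 3 * 3 * 5 by norm_num]
    exact (((hc 2 (by norm_num) (by norm_num)).pow_left 3).mul_left
      (hc 3 (by norm_num) (by norm_num))).mul_left (hc 5 (by norm_num) (by norm_num))
  obtain ⟨W, hW0, hW1, hW2⟩ := h.exists_small hι hp2 h2 h5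
  obtain ⟨j, m', hm', e⟩ := Nat.exists_eq_pow_mul_and_not_dvd
    (Nat.card_pos (α := centralizer (ι.range : Set H))).ne' p hp.out.ne_one
  have cm' : m'.Coprime p := ((Nat.Prime.coprime_iff_not_dvd hp.out).2 hm').symm
  have d1 := h.dvd_sub_one _ W hW2 (Dvd.intro_left _ e.symm) cm'
  obtain ⟨m, rfl⟩ : 2 ∣ m' := ((hc 2 (by norm_num) (by norm_num)).pow_right j).dvd_of_dvd_mul_left
    (e ▸ h.two_dvd hι hp2 h2)
  have hm : m ∣ Nat.card (centralizer (ι.range : Set H)) := ⟨p ^ j * 2, by rw [e]; ring⟩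
  have m2 : ¬ 2 ∣ m := fun ⟨c, hc⟩ => h.not_four_dvd hι hp2 h2 ⟨p ^ j * c, by rw [e, hc]; ring⟩
  have m3 : ¬ 3 ∣ m := fun hd => h.not_dvd_cent hι hp2 h2 Nat.prime_three (by norm_num)
    (by omega) (by rw [hL]; norm_num) (hd.trans hm)
  have m5 : ¬ 5 ∣ m := fun hd => h.not_dvd_cent hι hp2 h2 Nat.prime_five (by norm_num)
    (by omega) (by rw [hL]; norm_num) (hd.trans hm)
  have hε := index_dvd_two hι h1
  have h6 := (ι.range ⊔ centralizer (ι.range : Set H)).card_mul_index
  have h7 := card_sup_cent hι h2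
  obtain ⟨k, hk⟩ := h.card_H
  obtain ⟨n, hn⟩ := h.card_V
  obtain ⟨f, hf⟩ := h.card_pow W
  have hf0 : 0 < f := Nat.pos_of_ne_zero fun e => hW0 (AddSubgroup.eq_bot_of_card_eq _ (by
    rw [hf, e, pow_zero]))
  generalize (ι.range ⊔ centralizer (ι.range : Set H)).index = ε at *
  have h8 : Nat.card H = 120 * ε * m * p ^ j := by
    rw [e, hL] at h7
    refine Nat.eq_of_mul_eq_mul_right two_pos ?_
    rw [← h6, mul_right_comm, h7]; ring
  have c1 : (120 * ε * m).Coprime p :=
    (c120.mul_left ((hc 2 (by norm_num) (by norm_num)).coprime_dvd_left hε)).mul_left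
      (cm'.coprime_dvd_left (Dvd.intro_left _ rfl))
  rw [hf, hn] at hW1
  have c2 : (p ^ n - 1).Coprime p := by
    rw [Nat.coprime_comm, hp.out.coprime_iff_not_dvd]
    intro hd
    have hn0 : n ≠ 0 := by
      rintro rfl
      have := Nat.one_lt_pow hf0.ne' hp.out.one_lt
      nlinarith
    exact hp.out.one_lt.ne' (Nat.dvd_one.1 ((Nat.dvd_sub_iff_right
      (Nat.one_le_pow _ _ hp.out.pos) (dvd_pow_self p hn0)).1 hd))
  rw [hn, h8] at hk
  have h9 : p ^ n - 1 = 120 * ε * m := Nat.dvd_antisymm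
    ((c2.pow_right j).dvd_of_dvd_mul_right ⟨_, hk⟩)
    ((c1.pow_right k).dvd_of_dvd_mul_right ⟨_, hk.symm⟩)
  obtain ⟨rfl, rfl, h10⟩ := arith5 hp.out hp7 hf0 hW1 hε h9 (hf ▸ d1) m2 m3 m5
  refine ⟨m, h10, ?_, hm⟩
  obtain rfl : j = 0 := by
    by_contra hj
    refine h.not_dvd_cent' hι (d := 120) (by rw [hL]) c120 ?_
      (e ▸ (dvd_pow_self p hj).mul_right _)
    rw [hn, sq]
    exact Nat.mul_lt_mul_of_pos_left (by omega) hp.out.pos
  rw [h8]; ring

omit h in
theorem nonempty_prod (hF : Nat.card F = 5) {m : ℕ} [hm : Fact m.Prime] (hm2 : m ≠ 2)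
    (hH : Nat.card H = 120 * m) (hd : m ∣ Nat.card (centralizer (ι.range : Set H))) :
    Nonempty (H ≃* SL(2, ZMod 5) × Multiplicative (ZMod m)) := by
  obtain ⟨e⟩ := nonempty_sl_equiv Nat.prime_five hF
  obtain ⟨x, hx⟩ := exists_prime_orderOf_dvd_card' m hd
  rw [← orderOf_coe] at hx
  let ε : Multiplicative (ZMod m) ≃* zpowers x.1 := mulEquivOfPrimeCardEq (p := m)
    (Nat.card_zmod m) (by rw [Nat.card_zpowers, hx])
  have hε : ∀ j, (ε j).1 ∈ centralizer (ι.range : Set H) := fun j => zpowers_le.2 x.2 (ε j).2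
  let φ := MonoidHom.noncommCoprod ι ((zpowers x.1).subtype.comp ε.toMonoidHom)
    fun s j => hε j _ ⟨s, rfl⟩
  have h1 : Function.Bijective φ := by
    rw [Nat.bijective_iff_injective_and_card, injective_iff_map_eq_one]
    refine ⟨fun y hy => ?_, by
      rw [Nat.card_prod, card_sl, hF, hH,
        show Nat.card (Multiplicative (ZMod m)) = m from Nat.card_zmod m]⟩
    have h2 : ι y.1 * (ε y.2).1 = 1 := hy
    have h3 : (ε y.2).1 ^ 2 = 1 := by
      rcases eq_of_mem_inf hι (hε y.2) ((mul_mem_cancel_left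
        (show ι y.1 ∈ ι.range from ⟨_, rfl⟩)).1 (h2 ▸ one_mem _)) with e1 | e1
      · rw [e1, one_pow]
      · rw [e1, sq, map_neg_one_sq]
    have h4 : (ε y.2).1 ^ m = 1 := by
      have := congrArg Subtype.val (pow_card_eq_one' (x := ε y.2))
      rwa [Nat.card_zpowers, hx] at this
    have h5 := (pow_eq_one_iff_of_coprime ((Nat.coprime_primes Nat.prime_two hm.out).2
      hm2.symm)).1 ⟨h3, h4⟩
    rw [h5, mul_one] at h2
    exact Prod.ext (hι (h2.trans (map_one ι).symm))
      (ε.injective (Subtype.ext (h5.trans (by rw [Prod.snd_one, map_one]; rfl))))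
  exact ⟨(MulEquiv.ofBijective φ h1).symm.trans (e.prodCongr (MulEquiv.refl _))⟩

omit h in
theorem nonempty_equiv {r : ℕ} (hr : r.Prime) (hF : Nat.card F = r)
    (hH : Nat.card SL(2, F) = Nat.card H) : Nonempty (H ≃* SL(2, ZMod r)) := by
  obtain ⟨e⟩ := nonempty_sl_equiv hr hF
  exact ⟨(MulEquiv.ofBijective ι ((Nat.bijective_iff_injective_and_card _).2 ⟨hι, hH⟩)).symm.trans e⟩

end Setup

theorem Setup.three_cent_le [Finite H] [Finite V] [Finite F] (h : Setup 3 H V)
    (hι : Function.Injective ι) (h2 : (2 : F) ≠ 0)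
    (hc : (Nat.card F = 5 ∧ Nat.card V = 81) ∨ (Nat.card F = 13 ∧ Nat.card V = 729)) :
    centralizer (ι.range : Set H) ≤ ι.range := by
  intro k hk
  have h1 := Nat.eq_prime_pow_of_unique_prime_dvd (p := 2)
    (Nat.card_pos (α := centralizer (ι.range : Set H))).ne' fun {s} hs hd => by
      by_contra hs2
      have hs3 : s ≠ 3 := by
        rintro rfl
        rcases hc with ⟨e1, e2⟩ | ⟨e1, e2⟩
        · exact h.not_dvd_cent' hι (d := 40) (by rw [card_sl, e1]; norm_num) (by norm_num)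
            (by rw [e2]; norm_num) hd
        · exact h.not_dvd_cent' hι (d := 728) (by rw [card_sl, e1]; norm_num) (by norm_num)
            (by rw [e2]; norm_num) hd
      refine h.not_dvd_cent hι (by norm_num) h2 hs hs2 hs3 ?_ hd
      obtain ⟨j, hj⟩ := h.card_H
      have h3 := hd.trans (card_subgroup_dvd_card _)
      rw [hj] at h3
      have h4 := (((Nat.coprime_primes hs Nat.prime_three).2 hs3).pow_right j).dvd_of_dvd_mul_right h3
      rcases hc with ⟨e1, e2⟩ | ⟨e1, e2⟩
      · rw [e2] at h4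
        rw [card_sl, e1]
        exact (hs.dvd_of_dvd_pow (n := 2) (h4.trans (by norm_num)))
      · rw [e2] at h4
        rw [card_sl, e1]
        exact h4.trans (by norm_num)
  rcases h.cent_two hι (by norm_num) h2 hk (by
    rw [← h1]
    exact congrArg Subtype.val (pow_card_eq_one'
      (x := (⟨k, hk⟩ : centralizer (ι.range : Set H))))) with rfl | rfl
  · exact one_mem _
  · exact ⟨_, rfl⟩

theorem Setup.concl {F : Type} [Field F] [Finite F] {ι : SL(2, F) →* H} [hp : Fact p.Prime]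
    [Finite H] [Finite V] (h : Setup p H V) (hι : Function.Injective ι) [hn : ι.range.Normal]
    (hq : 3 < Nat.card F) : Concl p H := by
  have := Fintype.ofFinite F
  obtain ⟨r, a, hr, _, ha, hF⟩ := exists_char F
  have e0 : Nonempty (ι.range ≃* SL(2, F)) := ⟨(MonoidHom.ofInjective hι).symm⟩
  by_cases hrp : r = p
  · subst hrp
    exact Or.inl ⟨F, inferInstance, inferInstance, ⟨a, by rw [← Nat.card_eq_fintype_card, hF]⟩,
      by rw [← Nat.card_eq_fintype_card]; omega, ι.range, hn, e0, h.index_pow hι (by omega),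
      h.sup_zpowers hι (by omega), cent_eq_map_center (h.cent_le hι (by omega))⟩
  right
  have h0 := h.exists_natCast hι hr hrp
  have h1 : ∀ ψ : RingAut F, ψ = 1 := fun ψ => RingEquiv.ext fun x => by
    obtain ⟨j, rfl⟩ := h0 x
    rw [map_natCast, map_natCast]
  have hr3 : 3 < r := by
    have := Fact.mk hr
    refine hq.trans_le ((Nat.card_le_card_of_surjective (ZMod.castHom dvd_rfl F : ZMod r → F)
      fun x => ?_).trans (Nat.card_zmod r).le)
    obtain ⟨j, rfl⟩ := h0 x
    exact ⟨j, map_natCast _ j⟩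
  have h2 : (2 : F) ≠ 0 := fun e => by
    have := Nat.le_of_dvd two_pos ((CharP.cast_eq_zero_iff F r 2).1 (by exact_mod_cast e))
    omega
  have h3 : (3 : F) ≠ 0 := fun e => by
    have := Nat.le_of_dvd three_pos ((CharP.cast_eq_zero_iff F r 3).1 (by exact_mod_cast e))
    omega
  have hp2 := h.ne_two hι h2
  by_cases hp3 : p = 3
  · subst hp3
    have hc := h.three_case hι h3 h2 hq
    have hK := h.three_cent_le hι h2 hc
    have hi := index_dvd_two hι h1
    rw [sup_eq_left.2 hK] at hi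
    have h4 := ι.range.card_mul_index
    obtain ⟨k, hk⟩ := h.card_H
    rw [← Nat.card_congr (MonoidHom.ofInjective hι).toEquiv] at h4
    rcases hc with ⟨e1, e2⟩ | ⟨e1, e2⟩
    · have h5 : ι.range.index = 2 := ((Nat.dvd_prime Nat.prime_two).1 hi).resolve_left fun e => by
        rw [e, hk, card_sl, e1, e2] at h4
        omega
      obtain ⟨ε⟩ := nonempty_sl_equiv Nat.prime_five e1
      refine Or.inl ⟨rfl, ι.range, hn, h5, ⟨e0.some.trans ε⟩, cent_eq_map_center hK,
        fun K hK' => ?_⟩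
      obtain ⟨t, ht⟩ := exists_prime_orderOf_dvd_card' (G := K) 2 (by
        rw [← hK'.symm.index_eq_card, h5])
      have h6 : t.1 * t.1 = 1 := by
        rw [← sq, ← ht, ← orderOf_coe, pow_orderOf_eq_one]
      have h7 : t.1 ∈ ι.range := by
        rcases h.eq_of_sq hι hp2 h2 h6 with e | e <;> rw [e]
        exacts [one_mem _, ⟨_, rfl⟩]
      rw [← orderOf_coe, disjoint_def.1 hK'.disjoint h7 t.2, orderOf_one] at ht
      omega
    · refine Or.inr (Or.inl ⟨rfl, Setup.nonempty_equiv hι (by norm_num) e1 ?_⟩)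
      rcases (Nat.dvd_prime Nat.prime_two).1 hi with e | e
      · rw [← h4, e, mul_one]
      · rw [e, hk, card_sl, e1, e2] at h4
        have : Odd (3 ^ k) := Odd.pow (by decide)
        rw [show 3 ^ k = 6 by omega] at this
        exact absurd this (by decide)
  obtain rfl : r = 5 := ((Nat.prime_dvd_prime_iff_eq hr Nat.prime_five).1
    ((CharP.cast_eq_zero_iff F r 5).1 (by exact_mod_cast h.five_eq_zero hι hp2 h2 hr hrp hp3 h3)))
  have e1 : Nat.card F = 5 := by
    refine le_antisymm ((Nat.card_le_card_of_surjective (ZMod.castHom dvd_rfl F : ZMod 5 → F)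
      fun x => ?_).trans (Nat.card_zmod 5).le) (hF ▸ Nat.le_self_pow ha.ne' 5)
    obtain ⟨j, rfl⟩ := h0 x
    exact ⟨j, map_natCast _ j⟩
  have hp7 : 7 ≤ p := by
    have h4 := hp.out.two_le
    have h5 := hp.out
    by_contra h6
    push Not at h6
    interval_cases p <;> first | omega | norm_num at h5
  obtain ⟨m, hm, h4, h5⟩ := h.five_case hι hp7 h2 e1 h1
  refine Or.inr (Or.inr ?_)
  rcases hm with ⟨rfl, rfl⟩ | ⟨rfl, rfl⟩ | ⟨rfl, rfl⟩
  · exact Or.inl ⟨rfl, Setup.nonempty_equiv hι Nat.prime_five e1 (by rw [card_sl, e1, h4])⟩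
  · have : Fact (Nat.Prime 7) := ⟨by norm_num⟩
    exact Or.inr (Or.inl ⟨rfl, Setup.nonempty_prod hι e1 (by norm_num) h4 h5⟩)
  · have : Fact (Nat.Prime 29) := ⟨by norm_num⟩
    exact Or.inr (Or.inr ⟨rfl, Setup.nonempty_prod hι e1 (by norm_num) h4 h5⟩)

/-- **The endgame**. -/
theorem concl_of_sl {F : Type} [Field F] [Finite F] [Fact p.Prime] [Finite H] [Finite V]
    (h : Top p H V) (hV : ∀ v : V, p • v = 0) (L : Subgroup H) [hn : L.Normal]
    (e : L ≃* SL(2, F)) (hq : 3 < Nat.card F) : Concl p H := by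
  have : (L.subtype.comp e.symm.toMonoidHom).range.Normal := by
    rwa [MonoidHom.range_comp, MonoidHom.range_eq_top.2 e.symm.surjective, ← MonoidHom.range_eq_map,
      range_subtype]
  exact (h.setup hV).concl (ι := L.subtype.comp e.symm.toMonoidHom)
    (L.subtype_injective.comp e.symm.injective) hq

end Cfsg.Gag
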