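import Cfsg.Agent.Gag.EndK
import Cfsg.Agent.Gag.EndAri

/-!
# The endgame in cross characteristic for `p = 3`
-/

set_option autoImplicit false
set_option linter.unusedSectionVars false

namespace Cfsg.Gag

open Subgroup SL2 MulAction
open scoped MatrixGroups

universe u v w

variable {p : ℕ} {H : Type u} {V : Type v} [Group H] [AddCommGroup V] [DistribMulAction H V]
  {F : Type w} [Field F] {ι : SL(2, F) →* H}

theorem cube_iff (h3 : (3 : F) ≠ 0) {s : SL(2, F)} :
    s ≠ 1 ∧ s ^ 3 = 1 ↔ s 0 0 + s 1 1 = -1 := by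
  have hd := det' s
  constructor
  · rintro ⟨h1, h⟩
    have h00 := congrArg (fun g : SL(2, F) => g 0 0) h
    have h01 := congrArg (fun g : SL(2, F) => g 0 1) h
    have h10 := congrArg (fun g : SL(2, F) => g 1 0) h
    have h11 := congrArg (fun g : SL(2, F) => g 1 1) h
    simp only [pow_succ, pow_zero, one_mul, mul_apply', one00, one01, one10, one11]
      at h00 h01 h10 h11
    by_cases ht : (s 0 0 + s 1 1) ^ 2 - 1 = 0
    · linear_combination -h00 + s 0 0 * ht - (2 * s 0 0 + s 1 1) * hd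
    exfalso
    have e1 : s 0 1 = 0 := mul_right_cancel₀ ht (by linear_combination h01 + s 0 1 * hd)
    have e2 : s 1 0 = 0 := mul_right_cancel₀ ht (by linear_combination h10 + s 1 0 * hd)
    have e3 : s 1 1 = s 0 0 := mul_right_cancel₀ ht (by
      linear_combination h11 - h00 + (s 1 1 - s 0 0) * hd)
    rw [e1, e3] at hd h00
    have e4 : s 0 0 = 1 := by linear_combination h00 - s 0 0 * hd
    exact h1 (ext' e4 e1 e2 (e3.trans e4))
  · intro h
    refine ⟨fun e => h3 (by rw [e, one00, one11] at h; linear_combination h), ext' ?_ ?_ ?_ ?_⟩ <;>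
      simp only [pow_succ, pow_zero, one_mul, mul_apply', one00, one01, one10, one11]
    · linear_combination (s 0 0 * (s 0 0 + s 1 1 - 1) - 1) * h - (2 * s 0 0 + s 1 1) * hd
    · linear_combination (s 0 1 * (s 0 0 + s 1 1 - 1)) * h - s 0 1 * hd
    · linear_combination (s 1 0 * (s 0 0 + s 1 1 - 1)) * h - s 1 0 * hd
    · linear_combination (s 1 1 * (s 0 0 + s 1 1 - 1) - 1) * h - (2 * s 1 1 + s 0 0) * hd

theorem eq_or_eq_inv_of_cube (h3 : (3 : F) ≠ 0) {x y : SL(2, F)} (hx : x ≠ 1 ∧ x ^ 3 = 1)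
    (hy : y ≠ 1 ∧ y ^ 3 = 1) (hc : Commute x y) : y = x ∨ y = x⁻¹ := by
  by_contra hn
  push Not at hn
  have e1 := (cube_iff h3).1 (⟨fun e => hn.2 (eq_inv_of_mul_eq_one_right e),
    by rw [hc.mul_pow, hx.2, hy.2, one_mul]⟩ : x * y ≠ 1 ∧ _)
  have e2 := (cube_iff h3).1 (⟨fun e => hn.1 (mul_inv_eq_one.1 e).symm,
    by rw [hc.inv_right.mul_pow, hx.2, inv_pow, hy.2, inv_one, one_mul]⟩ : x * y⁻¹ ≠ 1 ∧ _)
  have e3 := (cube_iff h3).1 hx
  have e4 := (cube_iff h3).1 hy
  simp only [mul_apply', inv00, inv01, inv10, inv11] at e1 e2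
  exact h3 (by linear_combination e1 + e2 - (y 0 0 + y 1 1) * e3 + e4)

theorem card_mul_eq [Finite F] (d : F) [Decidable (d = 0)] :
    Nat.card {y : F × F // y.1 * y.2 = d} =
      (Nat.card F - 1) + if d = 0 then Nat.card F else 0 := by
  classical
  have := Fintype.ofFinite F
  rw [Nat.card_congr (Equiv.subtypeProdEquivSigmaSubtype fun b c : F => b * c = d), Nat.card_sigma,
    ← Finset.sum_erase_add _ _ (Finset.mem_univ 0), Finset.sum_const_nat (m := 1),
    Finset.card_erase_of_mem (Finset.mem_univ 0), mul_one, Finset.card_univ,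
    Nat.card_eq_fintype_card (α := F)]
  · congr 1
    split_ifs with h
    · rw [← Nat.card_eq_fintype_card]
      exact Nat.card_congr (Equiv.subtypeUnivEquiv fun c => by rw [zero_mul, h])
    · have : IsEmpty {c : F // 0 * c = d} := ⟨fun c => h (by rw [← c.2, zero_mul])⟩
      exact Nat.card_of_isEmpty
  · intro b hb
    have hb := Finset.ne_of_mem_erase hb
    exact Nat.card_eq_one_iff_unique.2 ⟨⟨fun c c' => Subtype.ext
      (mul_left_cancel₀ hb (c.2.trans c'.2.symm))⟩, ⟨⟨d / b, mul_div_cancel₀ d hb⟩⟩⟩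

theorem card_trace [Finite F] : Nat.card {s : SL(2, F) // s 0 0 + s 1 1 = -1} =
    Nat.card F * (Nat.card F - 1) + Nat.card F * Nat.card {a : F // a ^ 2 + a + 1 = 0} := by
  classical
  have := Fintype.ofFinite F
  let e : {s : SL(2, F) // s 0 0 + s 1 1 = -1} ≃
      Σ a : F, {y : F × F // y.1 * y.2 = -(a ^ 2 + a + 1)} :=
    { toFun := fun s => ⟨s.1 0 0, (s.1 0 1, s.1 1 0), by
        linear_combination -(det' s.1) + s.1 0 0 * s.2⟩
      invFun := fun y => ⟨SL2.mk y.1 y.2.1.1 y.2.1.2 (-1 - y.1) (by linear_combination -y.2.2),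
        by simp⟩
      left_inv := fun s => Subtype.ext (ext' rfl rfl rfl (by
        change -1 - s.1 0 0 = s.1 1 1
        linear_combination -s.2))
      right_inv := fun y => rfl }
  rw [Nat.card_congr e, Nat.card_sigma]
  simp only [card_mul_eq, neg_eq_zero]
  rw [Finset.sum_add_distrib, Finset.sum_const, Finset.card_univ, smul_eq_mul, ← Finset.sum_filter,
    Finset.sum_const, smul_eq_mul, Nat.card_eq_fintype_card (α := F),
    Nat.card_eq_fintype_card (α := {a : F // _}), Fintype.card_subtype, mul_comm _ (Fintype.card F)]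

theorem card_roots [Finite F] (h3 : (3 : F) ≠ 0) :
    (Nat.card {a : F // a ^ 2 + a + 1 = 0} = 2 ∧ Nat.card F % 3 = 1) ∨
      (Nat.card {a : F // a ^ 2 + a + 1 = 0} = 0 ∧ Nat.card F % 3 = 2) := by
  have h1 : 1 < Nat.card F := Finite.one_lt_card
  by_cases h : ∃ a : F, a ^ 2 + a + 1 = 0
  · obtain ⟨a, ha⟩ := h
    left
    constructor
    · refine Eq.trans ?_ (Set.ncard_pair (show a ≠ -1 - a from fun e => h3 (by
        linear_combination 4 * ha - (2 * a + 1) * e)))
      rw [← Nat.card_coe_set_eq]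
      refine Nat.card_congr (Equiv.subtypeEquivRight fun b => ⟨fun hb => ?_, ?_⟩)
      · have : (b - a) * (b - (-1 - a)) = 0 := by linear_combination hb - ha
        simpa only [mul_eq_zero, sub_eq_zero, Set.mem_insert_iff, Set.mem_singleton_iff] using this
      · rintro (rfl | rfl)
        · exact ha
        · linear_combination ha
    · have h0 : a ≠ 0 := fun e => by rw [e] at ha; simp at ha
      have := orderOf_dvd_natCard (Units.mk0 a h0)
      rw [orderOf_eq_prime (p := 3) (Units.ext (by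
        change a ^ 3 = 1
        linear_combination (a - 1) * ha)) (fun e => h3 (by
          have : a = 1 := congrArg Units.val e
          rw [this] at ha; linear_combination ha)), Nat.card_units] at this
      omega
  · right
    have : IsEmpty {a : F // a ^ 2 + a + 1 = 0} := ⟨fun a => h ⟨a.1, a.2⟩⟩
    refine ⟨Nat.card_of_isEmpty, ?_⟩
    have h4 : ¬ 3 ∣ Nat.card F := fun hd => by
      obtain ⟨r, a, hr, _, -, hq⟩ := exists_char F
      rw [hq] at hd
      obtain rfl := (Nat.prime_dvd_prime_iff_eq Nat.prime_three hr).1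
        (Nat.prime_three.dvd_of_dvd_pow hd)
      exact h3 (CharP.cast_eq_zero F 3)
    have h5 : ¬ 3 ∣ Nat.card Fˣ := fun hd => by
      obtain ⟨a, ha⟩ := exists_prime_orderOf_dvd_card' 3 hd
      have e1 : (a : F) ^ 3 = 1 := by
        rw [← Units.val_pow_eq_pow_val, ← ha, pow_orderOf_eq_one, Units.val_one]
      have e2 : (a : F) - 1 ≠ 0 := fun e => by
        rw [Units.ext (u := a) (v := 1) (sub_eq_zero.1 e), orderOf_one] at ha
        omega
      exact h ⟨a, mul_left_cancel₀ e2 (by linear_combination e1)⟩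
    rw [Nat.card_units] at h5
    omega

theorem card_fixS_conj (g a : H) :
    Nat.card (fixS V {g * a * g⁻¹}) = Nat.card (fixS V {a}) :=
  Nat.card_congr ((MulAction.toPerm g).subtypeEquiv fun v => by
    rw [mem_fixS_single, mem_fixS_single, MulAction.toPerm_apply, mul_smul, mul_smul,
      inv_smul_smul, smul_left_cancel_iff]).symm

theorem fixS_inv (a : H) : fixS V {a⁻¹} = fixS V {a} := by
  ext v
  rw [mem_fixS_single, mem_fixS_single, inv_smul_eq_iff, eq_comm]

theorem card_le_cube [Finite V] (hV : ∀ v : V, 3 • v = 0) {a : H} (ha : a ^ 3 = 1) :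
    Nat.card V ≤ Nat.card (fixS V {a}) ^ 3 := by
  have h1 : (rho H V a - 1) ^ 3 = 0 := by
    have e1 : (rho H V a - 1) ^ 3 = rho H V a ^ 3 - 1 + 3 • (rho H V a - rho H V a ^ 2) := by
      noncomm_ring
    rw [e1, ← map_pow, ha, map_one, sub_self, zero_add]
    ext v
    exact hV _
  have h2 : AddMonoidHom.ker (rho H V a - 1) = fixS V {a} := by
    ext v
    rw [mem_fixS_single, AddMonoidHom.mem_ker]
    exact sub_eq_zero
  exact h2 ▸ card_le_pow h1

namespace Setup

variable [Finite H] [Finite V] [Finite F] (h : Setup 3 H V)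
  (hι : Function.Injective ι) [ι.range.Normal] (h3 : (3 : F) ≠ 0)
include h hι h3

theorem index_dvd {v : V} (hv : v ≠ 0) :
    ((stabilizer H v).comap ι).index ∣ Nat.card V - 1 := by
  rw [index_comap]; exact h.relIndex_dvd _ hv

theorem exists_cube {v : V} (hv : v ≠ 0) : ∃ x : SL(2, F), (x ≠ 1 ∧ x ^ 3 = 1) ∧ x ≠ x⁻¹ ∧
    ∀ y, (y ≠ 1 ∧ y ^ 3 = 1) ∧ ι y • v = v ↔ y = x ∨ y = x⁻¹ := by
  have hP : IsPGroup 3 ((stabilizer H v).comap ι) := (h.stab v hv).comap_of_injective ι hι
  have hi := h.index_dvd hι h3 hv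
  have : Nontrivial ((stabilizer H v).comap ι) := by
    rw [nontrivial_iff_ne_bot]
    intro e
    obtain ⟨n, hn⟩ := h.card_V
    have h1 : 1 < Nat.card V := Finite.one_lt_card_iff_nontrivial.2 ⟨v, 0, hv⟩
    have h2 : 3 ∣ Nat.card V := hn ▸ dvd_pow_self 3 (by rintro rfl; omega)
    have h4 : 3 ∣ Nat.card SL(2, F) := by
      rw [card_sl]
      rcases card_roots h3 with h5 | h5
      · exact Dvd.dvd.mul_left (by omega) _
      · exact (Dvd.dvd.mul_right (by omega) _).mul_right _
    rw [e, index_bot] at hi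
    have := h4.trans hi
    omega
  have := hP.center_nontrivial
  obtain ⟨n, hn0, hn⟩ := (hP.to_subgroup (center _)).nontrivial_iff_card.1 this
  obtain ⟨x, hx⟩ := exists_prime_orderOf_dvd_card' (G := center ((stabilizer H v).comap ι)) 3
    (hn ▸ dvd_pow_self 3 hn0.ne')
  rw [← orderOf_coe, ← orderOf_coe] at hx
  have hx' : x.1.1 ≠ 1 ∧ x.1.1 ^ 3 = 1 :=
    ⟨fun e => by rw [e, orderOf_one] at hx; omega, hx ▸ pow_orderOf_eq_one _⟩
  refine ⟨x.1.1, hx', fun e => ?_, fun y => ⟨fun hy => ?_, ?_⟩⟩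
  · have := orderOf_dvd_of_pow_eq_one (x := x.1.1) (n := 2) (by rw [sq, ← eq_inv_iff_mul_eq_one, ← e])
    rw [hx] at this
    omega
  · exact eq_or_eq_inv_of_cube h3 hx' hy.1
      (congrArg Subtype.val (mem_center_iff.1 x.2 ⟨y, hy.2⟩)).symm
  · rintro (rfl | rfl)
    · exact ⟨hx', x.1.2⟩
    · exact ⟨⟨inv_ne_one.2 hx'.1, by rw [inv_pow, hx'.2, inv_one]⟩, (inv_mem x.1.2 :)⟩

theorem three_case (h2 : (2 : F) ≠ 0) (hq : 3 < Nat.card F) :
    (Nat.card F = 5 ∧ Nat.card V = 81) ∨ (Nat.card F = 13 ∧ Nat.card V = 729) := by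
  classical
  have := Fintype.ofFinite V
  have := Fintype.ofFinite SL(2, F)
  obtain ⟨v, hv⟩ := h.nontriv
  obtain ⟨x, hx, -, hx'⟩ := h.exists_cube hι h3 hv
  have hc : ∀ y : SL(2, F), y ^ 3 = 1 → ι y ^ 3 = 1 := fun y hy => by rw [← map_pow, hy, map_one]
  have hu : ∀ y : SL(2, F), y ≠ 1 ∧ y ^ 3 = 1 →
      Nat.card (fixS V {ι y}) = Nat.card (fixS V {ι x}) := fun y hy => by
    obtain ⟨w, hw, hw'⟩ := h.exists_fix_elt (g := ι y) (k := 1) (hc y hy.2)
    obtain ⟨g, rfl⟩ := h.trans w v hw hv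
    obtain ⟨α, hα⟩ := exists_aut hι g
    rw [← card_fixS_conj g, ← hα]
    rcases (hx' (α y)).1 ⟨⟨fun e => hy.1 (α.injective (e.trans (map_one α).symm)),
      by rw [← map_pow, hy.2, map_one]⟩, by
        rw [hα, mul_smul, mul_smul, inv_smul_smul, hw']⟩ with e | e
    · rw [e]
    · rw [e, map_inv, fixS_inv]
  have hcount := Finset.card_mul_eq_card_mul (s := Finset.univ.filter fun w : V => w ≠ 0)
    (t := Finset.univ.filter fun y : SL(2, F) => y ≠ 1 ∧ y ^ 3 = 1) (fun w y => ι y • w = w)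
    (m := 2) (n := Nat.card (fixS V {ι x}) - 1) (fun w hw => by
      obtain ⟨y, -, hy, hy'⟩ := h.exists_cube hι h3 (Finset.mem_filter.1 hw).2
      refine Eq.trans ?_ (Finset.card_pair hy)
      congr 1
      ext z
      simp only [Finset.mem_bipartiteAbove, Finset.mem_filter, Finset.mem_univ, true_and, hy',
        Finset.mem_insert, Finset.mem_singleton]) fun y hy => by
      rw [← hu y (Finset.mem_filter.1 hy).2, ← card_ne_zero_eq, Nat.add_sub_cancel,
        Nat.card_eq_fintype_card, Fintype.card_subtype]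
      congr 1
      ext w
      simp only [Finset.mem_bipartiteBelow, Finset.mem_filter, Finset.mem_univ, true_and,
        mem_fixS_single, and_comm]
  rw [Finset.filter_ne' , Finset.card_erase_of_mem (Finset.mem_univ _), Finset.card_univ,
    ← Fintype.card_subtype, ← Nat.card_eq_fintype_card, ← Nat.card_eq_fintype_card,
    Nat.card_congr (Equiv.subtypeEquivRight fun y => cube_iff h3), card_trace] at hcount
  obtain ⟨n, hn⟩ := h.card_V
  obtain ⟨w, hw⟩ := h.card_pow (fixS V {ι x})
  obtain ⟨b, hb⟩ := ((h.stab v hv).comap_of_injective ι hι).exists_card_eq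
  have h4 := ((stabilizer H v).comap ι).card_mul_index
  have h5 := h.index_dvd hι h3 hv
  have h6 := card_le_cube h.tors (hc x hx.2)
  have h7 : 1 < Nat.card (fixS V {ι x}) := (AddSubgroup.one_lt_card_iff_ne_bot _).2 fun e =>
    hv (AddSubgroup.mem_bot.1 (e ▸ mem_fixS_single.2 ((hx' x).2 (Or.inl rfl)).2))
  have h8 : Nat.card F % 2 = 1 := by
    have := Fintype.ofFinite F
    rw [Nat.card_eq_fintype_card]
    exact FiniteField.odd_card_of_char_ne_two fun e => h2 (by
      have := ringChar.Nat.cast_ringChar (R := F)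
      rwa [e] at this)
  rw [hb, card_sl] at h4
  rw [hw, hn, ← pow_mul, Nat.pow_le_pow_iff_right (by norm_num), mul_comm] at h6
  rw [hn] at h5 ⊢
  rw [hw, hn] at hcount
  have h9 := card_roots h3
  generalize ((stabilizer H v).comap ι).index = M at *
  generalize Nat.card {a : F // a ^ 2 + a + 1 = 0} = ρ at *
  generalize Nat.card F = q at *
  have p1 : 1 ≤ 3 ^ n := Nat.one_le_pow _ _ (by norm_num)
  have p2 : 1 ≤ 3 ^ w := Nat.one_le_pow _ _ (by norm_num)
  have p3 : 1 ≤ q := by omega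
  zify [p1, p2, p3] at h4 h5 hcount
  have hw0 : 0 < w := by
    rw [hw] at h7
    exact Nat.pos_of_ne_zero fun e => by rw [e] at h7; omega
  have key : ((q : ℤ) = 5 ∧ n = 4) ∨ ((q : ℤ) = 13 ∧ n = 6) := by
    rcases h9 with ⟨rfl, h9⟩ | ⟨rfl, h9⟩
    · exact arith3 (ε := 1) (b := b) (Or.inl rfl) (by omega) (by omega) (by omega) hw0 h6
        (by push_cast at hcount; linear_combination hcount) (by linear_combination -h4) h5
    · exact arith3 (ε := -1) (b := b) (Or.inr rfl) (by omega) (by omega) (by omega) hw0 h6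
        (by push_cast at hcount; linear_combination hcount) (by linear_combination -h4) h5
  rcases key with ⟨e, rfl⟩ | ⟨e, rfl⟩
  · left; omega
  · right; omega

end Setup

end Cfsg.Gag
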