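import Cfsg.Agent.GW.KillN

/-!
# Arithmetic for `Gag/Kill`
-/

set_option autoImplicit false

namespace Cfsg.Gag.Kl

open Finset Cfsg.GW

variable {ι : Type*} [Fintype ι]

theorem norm_two {v d c : ι → ℤ} (hd : ∀ i, 0 < d i) (h : ∑ i, v i * v i = 2)
    (h0 : ∑ i, v i * d i = 0) (h1 : ∑ i, v i * c i = 4)
    (h2 : ∑ i, (v i : ℚ) * (c i * c i / d i) = 0) :
    ∃ a b, a ≠ b ∧ v a = 1 ∧ v b = -1 ∧ c a = 2 ∧ c b = -2 ∧ ∀ i, i ≠ a → i ≠ b → v i = 0 := by
  classical
  obtain ⟨T, -, hT, h3, h4⟩ := Agent.S4481.supp univ v 2 (by norm_num) h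
  obtain ⟨a, b, hab, rfl⟩ := card_eq_two.1 hT
  have hs : ∀ {R : Type} [CommRing R] (F : ι → R),
      ∑ i, (v i : R) * F i = v a * F a + v b * F b := fun F => by
    rw [← sum_subset (subset_univ {a, b}) fun i hi hi' => by rw [h4 i hi hi']; simp, sum_pair hab]
  have g1 := hs (R := ℤ) d
  have g2 := hs (R := ℤ) c
  simp only [Int.cast_id] at g1 g2
  rw [g1] at h0
  rw [g2] at h1
  rw [hs] at h2
  have da := hd a
  have db := hd b
  have key : ∀ a b : ι, d a = d b → c a - c b = 4 →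
      (c a * c a / d a : ℚ) = c b * c b / d b → c a = 2 ∧ c b = -2 := fun a b e1 e2 e3 => by
    have := hd b
    rw [e1, div_left_inj' (by exact_mod_cast this.ne')] at e3
    have e4 : c a * c a = c b * c b := by exact_mod_cast e3
    have e5 : c a = c b + 4 := by omega
    rw [e5] at e4 ⊢
    constructor <;> nlinarith
  rcases h3 a (by simp) with e1 | e1 <;> rcases h3 b (by simp) with e2 | e2 <;>
    rw [e1, e2] at h0 h1 h2
  · omega
  · obtain ⟨f1, f2⟩ := key a b (by omega) (by omega) (by push_cast at h2; linarith)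
    exact ⟨a, b, hab, e1, e2, f1, f2, fun i c1 c2 => h4 i (mem_univ _) (by simp [c1, c2])⟩
  · obtain ⟨f1, f2⟩ := key b a (by omega) (by omega) (by push_cast at h2; linarith)
    exact ⟨b, a, hab.symm, e2, e1, f1, f2, fun i c1 c2 => h4 i (mem_univ _) (by simp [c1, c2])⟩
  · omega

theorem upper {m₀ m₁ : ℤ} (h0 : m₀ % 16 = 1) (h1 : m₁ % 16 = 1) (h0' : m₀ ≠ 1) (h1' : m₁ ≠ 1) :
    (1 : ℚ) / m₀ + 1 / m₁ + 4 * (1 / (-(m₀ + m₁) : ℤ)) < 1 / 2 := by
  have a1 := one_div_le_of (m := m₀) (k := 17) (by norm_num) (by omega)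
  have a2 := one_div_le_of (m := m₁) (k := 17) (by norm_num) (by omega)
  have a3 := one_div_le_of (m := -(m₀ + m₁)) (k := 14) (by norm_num) (by omega)
  norm_num at a1 a2 a3 ⊢
  linarith

theorem lower {m : ℤ} (h0 : m % 16 = 1) (h0' : m ≠ 1) :
    1 / 2 < (1 : ℚ) / (1 : ℤ) + 1 / m + 4 * (1 / (-(1 + m) : ℤ)) := by
  have a1 := le_one_div_of (m := m) (k := 15) (by norm_num) (by omega)
  have a3 := le_one_div_of (m := -(1 + m)) (k := 18) (by norm_num) (by omega)
  norm_num at a1 a3 ⊢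
  linarith

theorem star {q : ℕ} (hq : 3 ≤ q) {z : ℕ → ι → ℤ} {d c : ι → ℤ} {γ : ℚ} (hd : ∀ i, 0 < d i)
    (hG : ∀ j k, 0 < j → j ≤ q → 0 < k → k ≤ q → ∑ i, z j i * z k i =
      2 + (if j = q ∧ k = q then 1 else 0) + if j = k then 1 else 0)
    (hD : ∀ j, ∑ i, z j i * d i = 0) (hC : ∀ j, ∑ i, z j i * c i = 2 - 2 * (-1) ^ j)
    (hP : ∀ i, 2 ∣ c i - z q i)
    (hΓ : ∀ j, 0 < j → j < q → ∑ i, (z j i : ℚ) * (c i * c i / d i) = γ)
    (hM : ∀ i w, w = 1 ∨ w = -1 → (∀ j, 0 < j → j ≤ q → z j i = w) →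
      c i = w ∧ w * d i % 16 = 1) :
    ((∀ i, 1 < d i) → γ < 1 / 2) ∧
      ∀ o, d o = 1 → z 1 o = 1 → c o = 1 → (∀ i, d i = 1 → i = o) → 1 / 2 < γ := by
  classical
  have key : ∀ j k, 0 < j → j < q → 0 < k → k < q → Odd j → Even k →
      ∃ a b, a ≠ b ∧ z j a - z k a = 1 ∧ z j b - z k b = -1 ∧ c a = 2 ∧ c b = -2 ∧
        ∀ i, i ≠ a → i ≠ b → z j i - z k i = 0 := by
    intro j k h1 h2 h3 h4 h5 h6
    have hjk : j ≠ k := fun e => Nat.not_even_iff_odd.2 h5 (e ▸ h6)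
    refine norm_two (v := fun i => z j i - z k i) hd ?_ ?_ ?_ ?_
    · have e1 := hG j j h1 h2.le h1 h2.le
      have e2 := hG k k h3 h4.le h3 h4.le
      have e3 := hG j k h1 h2.le h3 h4.le
      simp only [h2.ne, h4.ne, hjk, false_and, if_false, if_true] at e1 e2 e3
      have : ∑ i, (z j i - z k i) * (z j i - z k i) =
          ∑ i, z j i * z j i + ∑ i, z k i * z k i - 2 * ∑ i, z j i * z k i := by
        rw [mul_sum, ← sum_add_distrib, ← sum_sub_distrib]
        exact sum_congr rfl fun i _ => by ring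
      omega
    · simp only [sub_mul, sum_sub_distrib, hD, sub_self]
    · simp only [sub_mul, sum_sub_distrib, hC, h5.neg_one_pow, h6.neg_one_pow]
      norm_num
    · simp only [Int.cast_sub, sub_mul, sum_sub_distrib, hΓ j h1 h2, hΓ k h3 h4, sub_self]
  have hodd : ∀ i, ¬ 2 ∣ c i → ∀ j, 0 < j → j < q → z j i = z 1 i := by
    intro i hi
    have h1 : ∀ j k, 0 < j → j < q → 0 < k → k < q → Odd j → Even k → z j i = z k i := by
      intro j k h1 h2 h3 h4 h5 h6
      obtain ⟨a, b, -, -, -, e1, e2, e3⟩ := key j k h1 h2 h3 h4 h5 h6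
      exact sub_eq_zero.1 (e3 i (fun e => hi (by rw [e, e1])) fun e => hi (by rw [e, e2]; norm_num))
    intro j h2 h3
    rcases Nat.even_or_odd j with h4 | h4
    · exact (h1 1 j one_pos (by omega) h2 h3 odd_one h4).symm
    · rw [h1 j 2 h2 h3 two_pos (by omega) h4 even_two,
        h1 1 2 one_pos (by omega) two_pos (by omega) odd_one even_two]
  have n1 : ∑ i, z 1 i * z 1 i = 3 := by
    rw [hG 1 1 one_pos (by omega) one_pos (by omega), if_neg (by omega)]; simp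
  have nq : ∑ i, z q i * z q i = 4 := by
    rw [hG q q (by omega) le_rfl (by omega) le_rfl]; simp
  have n1q : ∑ i, z 1 i * z q i = 2 := by
    rw [hG 1 q one_pos (by omega) (by omega) le_rfl, if_neg (by omega), if_neg (by omega)]; simp
  have n12 : ∑ i, z 1 i * z 2 i = 2 := by
    rw [hG 1 2 one_pos (by omega) two_pos (by omega), if_neg (by omega), if_neg (by omega)]; simp
  have hcase := cases_of_norm_four hd nq (hD q)
  obtain ⟨T, -, hT, h2, h3⟩ := Agent.S4481.supp univ (z 1) 3 le_rfl n1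
  obtain ⟨Y, hY, hY2⟩ : ∃ Y ∈ T, z 1 Y * c Y = 2 := by
    obtain ⟨a, b, hab, e1, e2, e3, e4, e5⟩ :=
      key 1 2 one_pos (by omega) two_pos (by omega) odd_one even_two
    have f1 : ∑ i, z 1 i * (z 1 i - z 2 i) = 1 := by
      simp only [mul_sub, sum_sub_distrib, n1, n12]; norm_num
    rw [← sum_subset (subset_univ {a, b}) fun i _ hi => by
      rw [e5 i (fun e => hi (by simp [e])) fun e => hi (by simp [e]), mul_zero],
      sum_pair hab, e1, e2] at f1
    by_cases ha : a ∈ T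
    · by_cases hb : b ∈ T
      · have := h2 a ha; have := h2 b hb; omega
      · have := h3 b (mem_univ _) hb
        exact ⟨a, ha, by rw [e3]; omega⟩
    · have f2 := h3 a (mem_univ _) ha
      refine ⟨b, by_contra fun hb => ?_, by rw [e4]; omega⟩
      have := h3 b (mem_univ _) hb
      omega
  obtain ⟨X₀, X₁, h01, he⟩ := card_eq_two.1 (show (T.erase Y).card = 2 by
    rw [card_erase_of_mem hY, hT])
  obtain ⟨n0, m0⟩ := mem_erase.1 (show X₀ ∈ T.erase Y from he ▸ by simp)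
  obtain ⟨n1', m1⟩ := mem_erase.1 (show X₁ ∈ T.erase Y from he ▸ by simp)
  have hs : ∀ {R : Type} [CommRing R] (F : ι → R), ∑ i, (z 1 i : R) * F i =
      z 1 Y * F Y + (z 1 X₀ * F X₀ + z 1 X₁ * F X₁) := fun F => by
    rw [← sum_subset (subset_univ T) fun i hi hi' => by rw [h3 i hi hi']; simp,
      ← add_sum_erase _ _ hY, he, sum_pair h01]
  have g1 := hs (R := ℤ) (z q)
  have g2 := hs (R := ℤ) d
  simp only [Int.cast_id] at g1 g2
  rw [n1q] at g1
  rw [hD] at g2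
  have hYq : z q Y = 0 := by
    have := hP Y; have := hcase Y
    rcases h2 Y hY with e | e <;> rw [e] at hY2 <;> omega
  have hX : z q X₀ = z 1 X₀ ∧ z q X₁ = z 1 X₁ := by
    have := hcase X₀; have := hcase X₁
    rw [hYq] at g1
    rcases h2 X₀ m0 with e | e <;> rcases h2 X₁ m1 with e' | e' <;> rw [e, e'] at g1 ⊢ <;> omega
  have hX' : ∀ X ∈ T, z q X = z 1 X → c X = z 1 X ∧ z 1 X * d X % 16 = 1 := fun X hX e =>
    hM X _ (h2 X hX) fun j h4 h5 => by
      rcases h5.lt_or_eq with h6 | rfl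
      · exact hodd X (by have := hP X; have := h2 X hX; omega) j h4 h6
      · exact e
  obtain ⟨c0, r0⟩ := hX' X₀ m0 hX.1
  obtain ⟨c1, r1⟩ := hX' X₁ m1 hX.2
  have e : γ = 1 / (z 1 X₀ * d X₀ : ℤ) + 1 / (z 1 X₁ * d X₁ : ℤ) +
      4 * (1 / (-(z 1 X₀ * d X₀ + z 1 X₁ * d X₁) : ℤ)) := by
    rw [← hΓ 1 one_pos (by omega), hs, c0, c1,
      show -(z 1 X₀ * d X₀ + z 1 X₁ * d X₁) = z 1 Y * d Y by omega]
    have e' : c Y = 2 * z 1 Y := by rcases h2 Y hY with e | e <;> rw [e] at hY2 ⊢ <;> omega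
    rw [e']
    rcases h2 Y hY with e | e <;> rw [e] <;>
      rcases h2 X₀ m0 with f | f <;> rcases h2 X₁ m1 with f' | f' <;> rw [f, f'] <;>
      push_cast <;> ring
  have one : ∀ X ∈ T, z 1 X * d X = 1 → d X = 1 := fun X hX e => by
    have := hd X
    rcases h2 X hX with f | f <;> rw [f] at e <;> omega
  refine ⟨fun h => e ▸ upper r0 r1 (fun f => (h _).ne' (one _ m0 f)) fun f => (h _).ne' (one _ m1 f),
    fun o h4 h5 h6 h7 => ?_⟩
  have ho : o ∈ T.erase Y := mem_erase.2 ⟨fun f => by rw [← f, h5, h6] at hY2; omega,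
    by_contra fun f => by have := h3 o (mem_univ _) f; omega⟩
  rw [he, mem_insert, mem_singleton] at ho
  rcases ho with rfl | rfl
  · rw [e, h4, h5, mul_one]
    exact lower r1 fun f => h01 (h7 _ (one _ m1 f)).symm
  · rw [e, h4, h5, mul_one, add_comm (1 / _ : ℚ), add_comm (_ * _)]
    exact lower r0 fun f => h01 (h7 _ (one _ m0 f))

end Cfsg.Gag.Kl
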