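import Cfsg.Agent.Gag.KillA
import Cfsg.Agent.Gag.KillN

/-!
# Killing `C_U(S)` for dihedral Sylow `2`-subgroups of order at least `16`

`H = C(t) = U ⋊ S`. For a linear character `λ` of `H` trivial on `2`-elements let `B` be the block of
`G` induced by the block of `λ`. Counting pairs of involutions with the columns of `B` gives a number
which does not depend on `λ`; it is `< 1/2` if `λ ≠ 1` and `> 1/2` if `λ = 1`.
-/

set_option autoImplicit false
set_option linter.unusedSectionVars false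
set_option linter.style.haveILetI false

namespace Cfsg.Gag.Kl

open Subgroup Finset Cfsg.Agent.FT Cfsg.GW Cfsg.Agent.S4481
open scoped commutatorElement ComplexConjugate

universe u

variable {G : Type u} [Group G] [Finite G] {S : Subgroup G} {x s t : G} {ζ : ℂ}

/-- the untwisted generalized column -/
noncomputable def Phi (x : G) (ζ : ℂ) (j : ℤ) (g : G) : ℂ :=
  (orderOf x : ℂ)⁻¹ * ∑ k ∈ range (orderOf x), (1 - ζ ^ (j * k)) *
    (2 ^ (Nat.card (𝓒[x ^ k] : Subgroup G)).factorization 2 * secOne 2 (x ^ k) g)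

theorem isClassFunction_Phi (j : ℤ) : IsClassFunction G (Phi x ζ j) := fun g k => by
  simp only [Phi, isClassFunction_secOne 2 _ g k]

theorem Phi_pPart (j : ℤ) (g : G) : Phi x ζ j g = Phi x ζ j (pPart 2 g) := by
  simp only [Phi, ← secOne_pPartK]

theorem Phi_odd (j : ℤ) {g : G} (hg : ¬ 2 ∣ orderOf g) : Phi x ζ j g = 0 := by
  refine mul_eq_zero_of_right _ (sum_eq_zero fun k hk => ?_)
  rcases Nat.eq_zero_or_pos k with rfl | hpos
  · simp
  · rw [secOne_apply_of_odd (pow_ne_one_of_lt_orderOf hpos.ne' (mem_range.1 hk)) hg]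
    simp

theorem Phi_pow (h : GDih ⊤ S x s t) (hζ : IsPrimitiveRoot ζ (orderOf x)) (j : ℤ) (m : ℕ) :
    Phi x ζ j (x ^ m) = 2 - ζ ^ (j * m) - ζ ^ (-j * m) := by
  classical
  obtain ⟨M, hM⟩ := exists_isPModular Nat.prime_two
  have hm := pow_mem (mem_zpowers x) m
  have e : ∀ k ∈ range (orderOf x), (1 - ζ ^ (j * k)) *
      (2 ^ (Nat.card (𝓒[x ^ k] : Subgroup G)).factorization 2 * secOne 2 (x ^ k) (x ^ m)) =
      orderOf x * ((1 - ζ ^ (j * k)) * (if x ^ k = x ^ (m : ℤ) then 1 else 0) +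
        (1 - ζ ^ (j * k)) * if x ^ k = x ^ (-m : ℤ) then 1 else 0) := by
    intro k hk
    rcases Nat.eq_zero_or_pos k with rfl | hpos
    · simp
    have hne : x ^ k ≠ 1 := pow_ne_one_of_lt_orderOf hpos.ne' (mem_range.1 hk)
    have hk' := pow_mem (mem_zpowers x) k
    have h2 := finsum_principal_mul_conj hM (h.pair.isPElt h.syl.pgroup hk')
      (h.pair.hasNormalPComplement_of_mem h.syl.pgroup (not_dvd_index h) h.mem h.ord hk' hne) (x ^ m)
    simp only [h.pair.conj_irr_apply _ hk'] at h2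
    rw [h.pair.finsum_mul hM h.syl.pgroup (not_dvd_index h) h.mem h.ord hm hk' hne] at h2
    push_cast at h2
    rw [← h2, zpow_neg, zpow_natCast]
    simp only [eq_comm (a := x ^ m), inv_eq_iff_eq_inv]
    ring
  rw [Phi, sum_congr rfl e, ← mul_sum, sum_add_distrib, sum_ite_pow hζ, sum_ite_pow hζ,
    inv_mul_cancel_left₀ (ord_ne_zero x), mul_neg, neg_mul]
  ring

theorem sum_V_mul {ι : Type*} [Fintype ι] (χ : ι → G → ℂ) (F : ι → ℂ) (j : ℤ) :
    ∑ i, V x ζ j (χ i) * F i = (orderOf x : ℂ)⁻¹ * ∑ k ∈ range (orderOf x), (1 - ζ ^ (j * k)) *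
      ∑ i, χ i (x ^ k) * F i := by
  simp only [V, mul_sum, sum_mul]
  rw [sum_comm]
  exact sum_congr rfl fun k _ => sum_congr rfl fun i _ => by ring

theorem val (h : IsDihPair S x s) {q : ℕ} (hq0 : 0 < q) (hxo : orderOf x = 2 * q)
    (hζ : IsPrimitiveRoot ζ (2 * q)) (χ : IrrCharacter G) {l : ℕ} (h1 : 0 < l) (h2 : l < 2 * q) :
    χ (x ^ l) = -(V x ζ q χ.1 * (-1) ^ l + ∑ i : Fin (q - 1), V x ζ ((i : ℕ) + 1 : ℕ) χ.1 *
        (ζ ^ (((i : ℕ) + 1) * l) + (ζ ^ (((i : ℕ) + 1) * l))⁻¹)) := by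
  have hζ' : IsPrimitiveRoot ζ (orderOf x) := hxo ▸ hζ
  have hz0 : ζ ≠ 0 := hζ.ne_zero (by omega)
  have hζq : ζ ^ q = -1 :=
    (hζ.pow (by omega) (mul_comm 2 q)).eq_neg_one_of_two_right
  have hpow : ∀ l : ℕ, ζ ^ (-(l : ℤ) * (q : ℕ)) = (-1) ^ l := fun l => by
    rw [neg_mul, zpow_neg, mul_comm, zpow_mul, zpow_natCast, zpow_natCast, hζq, ← inv_pow,
      inv_neg, inv_one]
  have hpow1 : ∀ l i : ℕ, ζ ^ (-(l : ℤ) * (i + 1 : ℕ)) = (ζ ^ ((i + 1) * l))⁻¹ := fun l i => by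
    rw [neg_mul, zpow_neg, ← zpow_natCast, Nat.cast_mul, mul_comm]
  have hpow2 : ∀ (l : ℕ) (i : Fin (q - 1)), ζ ^ (-(l : ℤ) * (2 * q - (i + 1) : ℕ)) =
      ζ ^ (((i : ℕ) + 1) * l) := fun l i => by
    have := i.2
    rw [Nat.cast_sub (by omega), mul_sub, zpow_sub₀ hz0, mul_comm, zpow_mul, zpow_natCast,
      hζ.pow_eq_one, one_zpow, hpow1, one_div, inv_inv]
  have h3 := V_inv hζ' χ.1 h1 (hxo ▸ h2)
  rw [hxo, split_sum hq0, Nat.cast_zero, V_zero, zero_mul, zero_add, hpow] at h3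
  refine h3.trans ?_
  congr 2
  refine sum_congr rfl fun i _ => ?_
  have := i.2
  have h4 := V_neg hζ' ((i : ℕ) + 1) χ fun l => h.conj_irr_apply χ (pow_mem (mem_zpowers x) l)
  rw [hxo] at h4
  rw [hpow1, hpow2, Nat.cast_sub (by omega)]
  push_cast at h4 ⊢
  rw [h4]; ring

theorem gram (hζ : IsPrimitiveRoot ζ (orderOf x)) {q : ℕ} (hxo : orderOf x = 2 * q) {j k : ℕ}
    (h1 : 0 < j) (h2 : j ≤ q) (h3 : 0 < k) (h4 : k ≤ q) :
    (orderOf x : ℂ)⁻¹ * ∑ m ∈ range (orderOf x), (1 - ζ ^ ((k : ℤ) * m)) *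
      (2 - ζ ^ ((j : ℤ) * m) - ζ ^ (-(j : ℤ) * m)) =
      (2 + (if j = q ∧ k = q then 1 else 0) + if j = k then 1 else 0 : ℤ) := by
  have hz : ζ ≠ 0 := hζ.ne_zero (orderOf_pos x).ne'
  have h0 := ord_ne_zero x
  have hndvd : ∀ j : ℤ, 0 < j → j < 2 * q → ¬ (orderOf x : ℤ) ∣ j := fun j h1 h2 hd => by
    have := Int.le_of_dvd h1 hd
    rw [hxo] at this
    push_cast at this
    omega
  have e1 : (orderOf x : ℤ) ∣ j + k ↔ j = q ∧ k = q := by
    constructor
    · intro hd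
      by_contra hc
      exact hndvd _ (by omega) (by omega) hd
    · rintro ⟨rfl, rfl⟩
      rw [hxo]; push_cast; exact ⟨1, by ring⟩
  have e2 : (orderOf x : ℤ) ∣ k - j ↔ j = k := by
    constructor
    · intro hd
      have := Int.eq_zero_of_abs_lt_dvd hd (by rw [abs_lt, hxo]; push_cast; omega)
      omega
    · rintro rfl; simp
  have e : ∀ m : ℕ, (1 - ζ ^ ((k : ℤ) * m)) * (2 - ζ ^ ((j : ℤ) * m) - ζ ^ (-(j : ℤ) * m)) =
      2 - ζ ^ ((j : ℤ) * m) - ζ ^ (-(j : ℤ) * m) - 2 * ζ ^ ((k : ℤ) * m) +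
        ζ ^ (((j : ℤ) + k) * m) + ζ ^ (((k : ℤ) - j) * m) := fun m => by
    rw [add_mul (j : ℤ), sub_mul (k : ℤ), zpow_add₀ hz, zpow_sub₀ hz, neg_mul, zpow_neg]
    ring
  simp only [e, sum_add_distrib, sum_sub_distrib, ← mul_sum, geomZ hζ, dvd_neg, e1, e2,
    if_neg (hndvd j (by omega) (by omega)), if_neg (hndvd k (by omega) (by omega))]
  simp only [sum_const, card_range, nsmul_eq_mul]
  push_cast
  split_ifs <;> field_simp <;> ring

variable {M : Ideal AlgInt} {B : Set (IrrCharacter G)} {l : (𝓒[t] : Subgroup G) →* ℂˣ}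

theorem psi (h : GDih ⊤ S x s t) (hM : IsPModular 2 M) (hx2 : x * x ≠ 1)
    (hx : 𝐎(𝓒[t]) ≤ 𝓒[x]) (hl : ∀ a, IsPElt 2 a → l a = 1)
    (hB : Induces M (𝓒[t] : Subgroup G).subtype (linB M l) B) [Fintype B] (j : ℤ) :
    (∀ g : G, ¬ 2 ∣ orderOf g → ∑ χ : B, V x ζ j χ.1.1 * χ.1 g = 0) ∧
      ∀ y : (𝓒[t] : Subgroup G), t ∈ zpowers (y : G) →
        ∑ χ : B, V x ζ j χ.1.1 * χ.1 y = l y * Phi x ζ j y := by
  have hc := fun k (hk : k ∈ range (orderOf x)) (hpos : 0 < k) =>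
    col h hM hx2 hx hl hB (pow_mem (mem_zpowers x) k)
      (pow_ne_one_of_lt_orderOf hpos.ne' (mem_range.1 hk))
  refine ⟨fun g hg => ?_, fun y hy => ?_⟩
  · rw [sum_V_mul]
    refine mul_eq_zero_of_right _ (sum_eq_zero fun k hk => ?_)
    rcases Nat.eq_zero_or_pos k with rfl | hpos
    · simp
    · exact mul_eq_zero_of_right _ ((hc k hk hpos).1 g hg)
  · rw [sum_V_mul, Phi, mul_left_comm, mul_sum (a := (l y : ℂ))]
    congr 1
    refine sum_congr rfl fun k hk => ?_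
    rcases Nat.eq_zero_or_pos k with rfl | hpos
    · simp
    · rw [mul_left_comm, ← (hc k hk hpos).2 y hy]

theorem psi_pow (h : GDih ⊤ S x s t) (hM : IsPModular 2 M) (hx2 : x * x ≠ 1)
    (hx : 𝐎(𝓒[t]) ≤ 𝓒[x]) (hl : ∀ a, IsPElt 2 a → l a = 1)
    (hB : Induces M (𝓒[t] : Subgroup G).subtype (linB M l) B) [Fintype B]
    (hζ : IsPrimitiveRoot ζ (orderOf x)) (j : ℤ) (m : ℕ) :
    ∑ χ : B, V x ζ j χ.1.1 * χ.1 (x ^ m) = 2 - ζ ^ (j * m) - ζ ^ (-j * m) := by
  have hm := pow_mem (mem_zpowers x) m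
  rw [← Phi_pow h hζ]
  by_cases h1 : x ^ m = 1
  · rw [h1, (psi h hM hx2 hx hl hB j).1 1 (by simp), Phi_odd j (by simp)]
  · have := (psi (ζ := ζ) h hM hx2 hx hl hB j).2 ⟨x ^ m, le_cent h (h.pair.zpowers_le hm)⟩
      (h.pair.mem_zpowers_of_ne_one h.syl.pgroup h.mem h.ord hm h1)
    rwa [hl _ (isPElt_coe_iff.1 (h.pair.isPElt h.syl.pgroup hm)), Units.val_one, one_mul] at this

theorem bound (h : Big S x s t) (hM : IsPModular 2 M) (hx : 𝐎(𝓒[t]) ≤ 𝓒[x])
    (hl : ∀ a, IsPElt 2 a → l a = 1)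
    (hB : Induces M (𝓒[t] : Subgroup G).subtype (linB M l) B) {γ : ℚ}
    (hγ : γ * (𝓒[t] : Subgroup G).index = 2 * ((centralizer ({t, s} : Set G)).relIndex 𝓒[t] +
      (centralizer ({t, x * s} : Set G)).relIndex 𝓒[t]) ^ 2) :
    ((∀ χ : B, 1 < (charDegree χ.1.1 : ℤ)) → γ < 1 / 2) ∧ (IrrCharacter.one G ∈ B → 1 / 2 < γ) := by
  classical
  haveI := Fintype.ofFinite G
  haveI := Fintype.ofFinite B
  haveI := Fintype.ofFinite S
  haveI := h.simple
  have hd := h.dih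
  obtain ⟨r, hr⟩ := h.big
  have hr0 : 0 < r := by have := orderOf_pos x; omega
  obtain ⟨q, hq⟩ : ∃ q, q = 4 * r := ⟨_, rfl⟩
  have hxo : orderOf x = 2 * q := by omega
  have hq0 : 0 < q := by omega
  have hx2 : x * x ≠ 1 := fun e => by
    have := Nat.le_of_dvd two_pos (orderOf_dvd_of_pow_eq_one ((pow_two x).trans e))
    omega
  obtain ⟨ζ, hζ⟩ : ∃ ζ : ℂ, IsPrimitiveRoot ζ (2 * q) :=
    ⟨_, Complex.isPrimitiveRoot_exp _ (by omega)⟩
  have hζ' : IsPrimitiveRoot ζ (orderOf x) := hxo ▸ hζ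
  have hz0 : ζ ≠ 0 := hζ.ne_zero (by omega)
  have hζq : ζ ^ q = -1 := (hζ.pow (by omega) (mul_comm 2 q)).eq_neg_one_of_two_right
  have hxt : x ^ q = t := eq_of_orderOf_eq_two_of_mem_zpowers (pow_mem (mem_zpowers x) q) hd.mem
    (by rw [orderOf_pow_of_dvd hq0.ne' (hxo ▸ Dvd.intro_left 2 rfl), hxo, Nat.mul_div_cancel _ hq0])
    hd.ord
  have hone := isConj_of_big h
  choose z hz using fun (j : ℕ) (χ : IrrCharacter G) => V_int hζ' j χ
  choose c hc using fun χ : IrrCharacter G => χ.isCharacter.exists_int_of_sq_eq_one (g := t)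
    (by rw [← hd.ord, pow_orderOf_eq_one])
  replace hc : ∀ χ : IrrCharacter G, χ t = c χ := fun χ => (hc χ).1
  have hp := psi_pow hd hM hx2 hx hl hB hζ'
  have hv := val hd.pair hq0 hxo hζ
  have hzo : ∀ j : ℕ, 0 < j → j < 2 * q → z j (IrrCharacter.one G) = 1 := fun j h1 h2 => by
    have := hz j (IrrCharacter.one G)
    rw [V_one hζ' fun e => by
      have := Nat.le_of_dvd h1 (Int.natCast_dvd_natCast.1 e); omega] at this
    exact_mod_cast this.symm
  have hid : ∀ l : ℕ, 0 < l → l < 2 * q → (-1 : ℂ) ^ l + ∑ i : Fin (q - 1),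
      (ζ ^ (((i : ℕ) + 1) * l) + (ζ ^ (((i : ℕ) + 1) * l))⁻¹) = -1 := by
    intro l h1 h2
    have h3 := hv (IrrCharacter.one G) h1 h2
    simp only [hz, hzo _ hq0 (by omega),
      fun i : Fin (q - 1) => hzo ((i : ℕ) + 1) (by omega) (by have := i.2; omega),
      Int.cast_one, one_mul] at h3
    rw [IrrCharacter.one_apply] at h3
    linear_combination h3
  have key := star (q := q) (by omega) (z := fun j (χ : B) => z j χ)
    (d := fun χ => charDegree χ.1.1) (c := fun χ => c χ) (γ := γ)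
    (fun χ => by exact_mod_cast χ.1.charDegree_pos) (fun j k h1 h2 h3 h4 => ?_) (fun j => ?_)
    (fun j => ?_) (fun χ => ?_) (fun j h1 h2 => ?_) (fun χ w hw h1 => ?_)
  · refine ⟨key.1, fun ho => key.2 ⟨_, ho⟩ (by simp) (hzo 1 one_pos (by omega)) ?_ fun χ h1 => ?_⟩
    · have := hc (IrrCharacter.one G)
      rw [IrrCharacter.one_apply] at this
      exact_mod_cast this.symm
    · by_contra hne
      have := IrrCharacter.one_lt_charDegree_of_isSimpleGroup h.nonab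
        (χ := χ.1) fun e => hne (Subtype.ext e)
      omega
  · apply Int.cast_injective (α := ℂ)
    rw [← gram hζ' hxo h1 h2 h3 h4]
    simp only [← hp, ← sum_V_mul, hz, mul_comm (z j _ : ℂ)]
    push_cast
    exact sum_congr rfl fun _ _ => mul_comm _ _
  · have := (psi (ζ := ζ) hd hM hx2 hx hl hB j).1 1 (by simp)
    simp only [hz, IrrCharacter.apply_one] at this
    exact_mod_cast this
  · have := hp j q
    rw [neg_mul, zpow_neg, mul_comm (j : ℤ), zpow_mul, zpow_natCast, zpow_natCast, hζq,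
      ← inv_pow, inv_neg, inv_one] at this
    simp only [hz, hxt, hc] at this
    apply Int.cast_injective (α := ℂ)
    push_cast
    linear_combination this
  · have := hv χ.1 hq0 (by omega)
    simp only [hz, hxt, hc, mul_comm _ q, pow_mul, hζq, ← inv_pow, inv_neg, inv_one] at this
    rw [(show Even q from ⟨2 * r, by omega⟩).neg_one_pow] at this
    refine ⟨-z q χ - ∑ i : Fin (q - 1), z (i + 1) χ * (-1) ^ ((i : ℕ) + 1), ?_⟩
    apply Int.cast_injective (α := ℂ)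
    push_cast
    rw [this]
    simp only [← two_mul, mul_left_comm _ (2 : ℂ), ← mul_sum]
    ring
  · have e1 := col_count (t := t) (θ := vch fun χ : B => (z j χ : ℂ)) (d := fun χ : B => z j χ)
      (blockPart_vch _) (ip_vch_irr _) fun χ => hc χ
    have e2 : ∀ g, vch (fun χ : B => (z j χ : ℂ)) g = ∑ χ : B, V x ζ j χ.1.1 * χ.1 g := fun g => by
      simp only [vch, hz, Finset.sum_apply, Pi.smul_apply, smul_eq_mul]
    rw [sum_twist hd.ord hone (isClassFunction_vch _) (isClassFunction_Phi j)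
      (fun g hg => by rw [e2, (psi hd hM hx2 hx hl hB j).1 g hg]) (fun g hg => Phi_odd j hg) hl
      (fun y hy => by rw [e2, (psi hd hM hx2 hx hl hB j).2 y hy]),
      hd.pair.sum_pairs hd.syl.pgroup (not_dvd_index hd) hd.mem hd.ord hone
        (isClassFunction_Phi (ζ := ζ) j) (Phi_odd j (by simp)) (Phi_pPart j) (Or.inr rfl) hq0.ne'
        (c := 2) ?_] at e1
    · have i0 : ((𝓒[t] : Subgroup G).index : ℚ) ≠ 0 := by exact_mod_cast (index_pos _).ne'
      have e3 : ((𝓒[t] : Subgroup G).index : ℚ) * 2 *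
          ((centralizer ({t, s} : Set G)).relIndex 𝓒[t] +
            (centralizer ({t, x * s} : Set G)).relIndex 𝓒[t]) ^ 2 =
          ((𝓒[t] : Subgroup G).index : ℚ) ^ 2 * ∑ χ : B, (z j χ : ℚ) *
            (c χ * c χ / (charDegree χ.1.1 : ℤ)) := by exact_mod_cast e1
      refine mul_left_cancel₀ (pow_ne_zero 2 i0) (e3.symm.trans ?_)
      linear_combination (-(𝓒[t] : Subgroup G).index : ℚ) * hγ
    · intro a ha
      obtain ⟨k, -, rfl⟩ := mem_image.1 (mem_zpowers_iff_mem_range_orderOf.1 ha)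
      have hζ2 : IsPrimitiveRoot (ζ ^ 2) q := hζ.pow (by omega) rfl
      have hn : ¬ (q : ℤ) ∣ j := fun e => by
        have := Nat.le_of_dvd h1 (Int.natCast_dvd_natCast.1 e); omega
      have g1 := geomZ hζ2 j
      have g2 := geomZ hζ2 (-j)
      rw [if_neg hn] at g1
      rw [if_neg (by rwa [dvd_neg])] at g2
      have e : ∀ (j : ℤ) (i : ℕ), ζ ^ (j * (2 * i + k : ℕ)) = ζ ^ (j * k) * (ζ ^ 2) ^ (j * i) :=
        fun j i => by
          rw [← zpow_natCast ζ 2, ← zpow_mul, ← zpow_add₀ hz0]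
          congr 1
          push_cast
          ring
      simp only [← pow_mul, ← pow_add, Phi_pow hd hζ', e, sum_sub_distrib, ← mul_sum, g1, g2]
      simp
  · have h2 : ∀ l, 0 < l → l < 2 * q → χ.1 (x ^ l) = w := fun l h3 h4 => by
      rw [hv χ.1 h3 h4]
      simp only [hz, h1 q hq0 le_rfl,
        fun i : Fin (q - 1) => h1 ((i : ℕ) + 1) (by omega) (by have := i.2; omega), ← mul_sum]
      linear_combination (-w : ℂ) * hid l h3 h4
    have h3 : χ.1 t = w := hxt ▸ h2 q hq0 (by omega)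
    refine ⟨by rw [hc] at h3; exact_mod_cast h3, ?_⟩
    obtain ⟨n, hn⟩ := exists_sum_eq χ.1 S
    have hp := hd.pair
    have h4 : ∀ k : ℕ, χ.1 (x ^ k * s) = w := fun k => by
      have h2 := hp.mul_τ_notMem (pow_mem (mem_zpowers x) k)
      rw [← χ.1.isClassFunction.eq_of_isConj (hone _ (orderOf_eq_two_of_mul_self
        (hp.mul_self_of_notMem (mul_mem (pow_mem hp.mem_σ k) hp.mem_τ) h2)
        fun e => h2 (e ▸ one_mem _))), h3]
    obtain ⟨N, hN⟩ : ∃ N, 2 * q = N + 1 := ⟨2 * q - 1, by omega⟩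
    rw [sum_dih hp χ.1, hp.card_eq, hxo, sum_add_distrib, hN, sum_range_succ',
      sum_congr rfl fun k hk => h2 (k + 1) (by omega) (by have := mem_range.1 hk; omega)] at hn
    simp only [h4, sum_const, card_range, nsmul_eq_mul, pow_zero, IrrCharacter.apply_one] at hn
    have h5 : (N : ℤ) * w + charDegree χ.1.1 + (N + 1 : ℕ) * w = (2 * (N + 1) : ℕ) * n := by
      exact_mod_cast hn
    obtain h6 : (N : ℤ) = 8 * r - 1 := by omega
    push_cast at h5
    rw [h6] at h5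
    have h7 : (charDegree χ.1.1 : ℤ) = 16 * (r * n - r * w) + w := by linear_combination h5
    rw [h7]
    generalize (r : ℤ) * n - r * w = a
    rcases hw with rfl | rfl <;> omega

end Kl

open Subgroup Cfsg.Agent.FT Cfsg.GW Kl
open scoped commutatorElement

universe u

variable {G : Type u} [Group G] [Finite G] {S : Subgroup G} {x s t : G}

theorem Big.kill (h : Big S x s t) (hx : 𝐎(𝓒[t]) ≤ 𝓒[x])
    (hK : ∀ y ∈ ⁅𝐎(𝓒[t]), zpowers s⁆, s * y * s⁻¹ = y⁻¹) : 𝐎(𝓒[t]) ⊓ 𝓒[s] = ⊥ := by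
  by_contra hne
  obtain ⟨π, hπ⟩ := exists_retr h.dih hx hK
  have ho := odd_cent_core t s
  obtain ⟨m, hm⟩ : ∃ m : (𝐎(𝓒[t]) ⊓ 𝓒[s] : Subgroup G) →* ℂˣ, m ≠ 1 := by
    haveI := sol_of_odd ho
    haveI := (nontrivial_iff_ne_bot _).2 hne
    exact exists_linear_ne_one_of_commutator_ne_top
      (IsSolvable.commutator_lt_top_of_nontrivial _).ne
  obtain ⟨y, hy⟩ : ∃ y, m y ≠ 1 := by
    by_contra hc
    push Not at hc
    exact hm (MonoidHom.ext hc)
  obtain ⟨M, hM⟩ := exists_isPModular Nat.prime_two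
  have i0 : ((𝓒[t] : Subgroup G).index : ℚ) ≠ 0 := by exact_mod_cast (index_pos _).ne'
  have st : IsSec 2 (𝓒[t] : Subgroup G).subtype t :=
    isSec_centralizer (isPElt_two_of_orderOf h.dih.ord)
  obtain ⟨B, hB⟩ := st.exists_induces hM (isPBlock_linB (m.comp π))
  have h1 := (bound h hM hx (l := m.comp π)
    (fun a ha => by rw [MonoidHom.comp_apply, map_eq_one_of_odd ho π ha, map_one]) hB
    (div_mul_cancel₀ _ i0)).1 (one_lt h hM hB
      (IsPRegular.map (fun e => ho.not_two_dvd_nat (e.trans (orderOf_dvd_natCard y))) _)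
      (by rwa [MonoidHom.comp_apply, hπ]))
  have h2 := (bound h hM hx (l := 1) (fun _ _ => rfl) (st.induces_linB hM 1)
    (div_mul_cancel₀ _ i0)).2 (IrrCharacter.ofLinear_one (G := G) ▸ hM.mem_linB 1)
  exact lt_asymm h1 h2

end Cfsg.Gag

set_option linter.all false in
theorem Cfsg.Rz.Gag_Kill_0 : True := by
  have := @_root_.Cfsg.Gag.Kl.Phi.eq_def.{0}
  have := @_root_.Cfsg.Gag.Kl.Phi.fun_cases
  trivial
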