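import Cfsg.Agent.Gag.CaseA
import Cfsg.Agent.Gag.Kill
import Cfsg.Agent.GW.BSW

/-!
# Identification for `|S| ≥ 16`

`H = C(t) = U ⋊ S`. Hypothesis `hO`: no proper overgroup of `H` has a normal `p`-subgroup `≠ 1`.
* `coatom`: `M ⊇ H` proper is `O(M) ⋊ S` (`caseA`), `F(O(M))` is cyclic (`Cp.cyc_fit`), `t ∈ S'`
  centralises it (abelian automorphism group), hence `O(M)` (`coprime_cent_fitting`), so `M = H`.
* `inv_fit`: let `y ∈ F = F(U)` have prime order `r`; `⟨y⟩` is the only subgroup of order `r` of `U`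
  (normal, Sylow `r` cyclic as `r ≠ p`), `N(⟨y⟩) = H`. If `s` centralises `y`, then `y` lies in
  `U ∩ C(s) = O(C(four t s))`, normalised by `ρ` (`exists_rho`), so `ρ ∈ N(⟨y⟩) = H`, absurd. So `s` has
  no fixed point on `F` and inverts it (`inv_of_cent_eq_bot`). The same for `x s` (`Big.swap`).
* hence `x` centralises `F`, so `U`; `[U,s] ≤ U ∩ C(F) ≤ F`; `Big.kill` gives `C_U(s) = 1`, `U = F`.
* `A = U × ⟨x⟩` satisfies `Gd A t` (TI: if `y, y^g ∈ A^#`, take powers of prime order: order `2` gives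
  `g ∈ C(t)`; odd order `r` gives `g ∈ N(⟨y⟩) = H`, `U` being cyclic).
-/

set_option autoImplicit false
set_option linter.unusedSectionVars false
set_option linter.unusedVariables false

namespace Cfsg.Gag

open Subgroup Cfsg.Agent.FT Cfsg.GW
open scoped commutatorElement

universe u v

variable {G : Type u} [Group G] [Finite G] {S : Subgroup G} {x s t : G} {p : ℕ} [Fact p.Prime]

/-- compare `BswHyp.exists_l2'` and `L2.psl'` -/
theorem known_of_gd [IsSimpleGroup G] {A : Subgroup G} (h : Gd A t) : Known G := by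
  cases nonempty_fintype G
  obtain ⟨n, q, ε, X, c⟩ := h.exists_ch
  have hq := c.isPrimePow h
  obtain ⟨r, f, hr, -, hrq⟩ := (isPrimePow_nat_iff q).1 hq
  haveI : Fact r.Prime := ⟨hr⟩
  obtain ⟨g, hg⟩ := c.exists_Q h
  have hQ := c.qtype h hrq (c.sylow h hrq hg)
  have h1 := c.hn
  have h2 := c.hq
  have h3 := c.card h
  have ho : Odd q := Nat.coprime_two_left.1
    ((c.coprime h).2.1.coprime_dvd_left (dvd_mul_right _ _))
  obtain ⟨F, _, _, hF, e⟩ : ∃ (F : Type) (_ : Field F) (_ : Fintype F), Fintype.card F = q ∧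
      Nonempty (G ≃* Matrix.ProjectiveSpecialLinearGroup (Fin 2) F) := by
    rcases c.eps with e | e <;> rw [e] at h1
    · have e1 : n = Nat.card A + 1 := by omega
      exact hQ.psl (e := Nat.card A) hq (by omega) (by rw [h3, h2, e1]; ring)
    · have e1 : Nat.card A = n + 1 := by omega
      exact hQ.psl (e := n) hq (by omega) (by rw [h3, h2, e1]; ring)
  exact Or.inr ⟨F, inferInstance, inferInstance, hF ▸ ho, e⟩

theorem mem_zpowers_of_cyclic {R : Subgroup G} (hR : IsCyclic R) {y y' : G} (hy : y ∈ R)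
    (hy' : y' ∈ R) (e : orderOf y' = orderOf y) : y' ∈ zpowers y := by
  have h := subgroup_eq_of_card_eq_of_isCyclic (H := zpowers (⟨y', hy'⟩ : R))
    (K := zpowers (⟨y, hy⟩ : R)) (by
      rw [Nat.card_zpowers, Nat.card_zpowers, ← Subgroup.orderOf_coe, ← Subgroup.orderOf_coe, e])
  obtain ⟨i, hi⟩ : (⟨y', hy'⟩ : R) ∈ zpowers (⟨y, hy⟩ : R) := h ▸ mem_zpowers _
  exact ⟨i, congrArg Subtype.val hi⟩

theorem mem_norm_zpowers {y g : G} (h : g * y * g⁻¹ ∈ zpowers y) : g ∈ 𝓝(zpowers y) := by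
  refine mem_normalizer_of_forall_conj_mem ?_
  rintro _ ⟨i, rfl⟩
  rw [← conj_zpow]
  exact zpow_mem h i

theorem Cp.cyc_fit (hC : Cp p G) {O : Subgroup G} (ho : Odd (Nat.card O))
    (h0 : piCoreOf {p} O = ⊥) : IsCyclic (fittingOf O) := by
  haveI := fittingOf_nil O
  haveI : IsZGroup (fittingOf O) := ⟨fun r hr P => by
    haveI := Fact.mk hr
    have hP : IsPGroup r ((P : Subgroup (fittingOf O)).map (fittingOf O).subtype) :=
      P.isPGroup'.map _
    have hle : (P : Subgroup (fittingOf O)).map (fittingOf O).subtype ≤ fittingOf O :=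
      map_subtype_le _
    refine (MulEquiv.isCyclic (equivMapOfInjective _ _ (fittingOf O).subtype_injective)).2 ?_
    by_cases h2 : r = 2
    · subst h2
      obtain ⟨k, hk⟩ := hP.exists_card_eq
      have h3 := Odd.of_dvd_nat ho (card_dvd_of_le (hle.trans (fittingOf_le O)))
      rw [hk] at h3
      have h4 : k = 0 := by
        by_contra h4
        exact (Nat.not_even_iff_odd.2 h3) (Nat.even_pow.2 ⟨even_two, h4⟩)
      rw [h4, pow_zero, card_eq_one] at hk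
      rw [hk]; infer_instance
    by_cases hp : r = p
    · subst hp
      have := le_pcore_of_le_fittingOf hP hle
      rw [h0, le_bot_iff] at this
      rw [this]; infer_instance
    exact hC.cyc r _ hr h2 hp hP⟩
  infer_instance

theorem GDih.coprime {M X : Subgroup G} (h : GDih M S x s t) (ho : Odd (Nat.card X)) {a : G}
    (ha : a ∈ S) : (Nat.card X).Coprime (Nat.card (zpowers a)) := by
  obtain ⟨k, hk⟩ := (h.syl.pgroup.to_le (zpowers_le.2 ha)).exists_card_eq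
  rw [hk]
  exact Nat.Coprime.pow_right _ ho.coprime_two_right

section
variable (h : Big S x s t) (hC : Cp p G)
  (hO : ∀ M : Subgroup G, M ≠ ⊤ → 𝓒[t] ≤ M → piCoreOf {p} M = ⊥)
include h hC hO

theorem Big.coatom : IsCoatom (𝓒[t] : Subgroup G) := by
  refine ⟨h.cent_ne_top, fun M hM => by_contra fun hM' => hM.not_ge ?_⟩
  have hd := h.dih.mono (h.dih.le_cent.trans hM.le) le_top
  have hsd := sdprod_of_npc (h.caseA hM' hM.le) hd.syl
  have hn := piCoreOf_normalOf ({2}ᶜ : Set ℕ) M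
  have hc := hC.cyc_fit (odd_core M)
    (eq_bot_iff.2 ((piCoreOf_le_of_normal hn).trans (hO M hM' hM.le).le))
  have h1 : t ∈ 𝓒(fittingOf 𝐎(M)) :=
    der1_cent_cyclic (hd.syl.le.trans hn.fittingOf.2) hc
      (zpowers_le.2 hd.sq_mem_der (hd.t_mem_sq h.four_dvd))
  have h2 := coprime_cent_fitting (A := zpowers t) (M := 𝐎(M))
    (zpowers_le.2 (hsd.norm hd.t_mem')) (hd.coprime (odd_core M) hd.t_mem')
    (sol_of_odd (odd_core M)) ⟨mem_zpowers t, h1⟩
  rw [← hsd.sup]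
  exact sup_le (fun y hy => mem_cent1.2 (h2 y hy)) hd.le_cent

theorem Big.cyc_fit : IsCyclic (fittingOf 𝐎(𝓒[t])) :=
  hC.cyc_fit (odd_core _) (eq_bot_iff.2 ((piCoreOf_le_of_normal (piCoreOf_normalOf _ _)).trans
    (hO _ h.cent_ne_top le_rfl).le))

theorem Big.norm_zpowers {y : G} (hy : y ∈ fittingOf 𝐎(𝓒[t])) (h1 : y ≠ 1) :
    𝓝(zpowers y) = 𝓒[t] :=
  haveI := h.simple
  norm_eq_of_coatom (h.coatom hC hO)
    ((piCoreOf_normalOf _ _).fittingOf.char_trans (zpowers_le.2 hy)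
      (norm_le_norm_of_cyclic (h.cyc_fit hC hO) (zpowers_le.2 hy)))
    (by simpa using h1)

theorem Big.inv_fit : ∀ y ∈ fittingOf 𝐎(𝓒[t]), s * y * s⁻¹ = y⁻¹ := by
  have hn := (piCoreOf_normalOf ({2}ᶜ : Set ℕ) (𝓒[t] : Subgroup G)).fittingOf
  have ho : Odd (Nat.card (fittingOf 𝐎(𝓒[t]))) :=
    Odd.of_dvd_nat (odd_core _) (card_dvd_of_le (fittingOf_le _))
  refine inv_of_cent_eq_bot ho h.dih.pair.mul_self (hn.2 (h.dih.le_cent h.dih.s_mem))
    (eq_bot_iff.2 fun y₀ hy₀ => by_contra fun h0 => ?_)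
  obtain ⟨r, hr, hd⟩ := exists_prime_dvd_orderOf (show y₀ ≠ 1 from h0)
  haveI := Fact.mk hr
  obtain ⟨y, hy, oy⟩ : ∃ y ∈ fittingOf 𝐎(𝓒[t]) ⊓ 𝓒[s], orderOf y = r :=
    ⟨_, pow_mem hy₀ _, orderOf_pow_orderOf_div (orderOf_pos y₀).ne' hd⟩
  have y1 : y ≠ 1 := fun e => hr.ne_one (by rw [← oy, e, orderOf_one])
  have hN := h.norm_zpowers hC hO hy.1 y1
  have hP : IsPGroup r (zpowers y) := IsPGroup.of_card (n := 1) (by
    rw [Nat.card_zpowers, oy, pow_one])
  have r2 : r ≠ 2 := by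
    rintro rfl
    have := odd_orderOf ho hy.1
    rw [oy] at this
    exact absurd this (by decide)
  have rp : r ≠ p := by
    rintro rfl
    have := IsNormalOf.le_pcore (N := zpowers y) (M := 𝓒[t])
      ⟨zpowers_le.2 (hn.1 hy.1), hN.ge⟩ hP (mem_zpowers y)
    rw [hO _ h.cent_ne_top le_rfl] at this
    exact y1 this
  obtain ⟨ρ, e1, e2⟩ := h.exists_rho
  have c1 : ρ * y * ρ⁻¹ ∈ 𝓒[s] := by
    rw [← e1, centralizer_singleton_conj, conj_mem_map_conj]
    exact hn.1 hy.1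
  have c2 : ρ * y * ρ⁻¹ ∈ 𝓒[t * s] := by
    rw [← e2, centralizer_singleton_conj, conj_mem_map_conj]
    exact hy.2
  have c3 : ρ * y * ρ⁻¹ ∈ 𝓒[t] := by
    rw [mem_cent1] at c1 c2 ⊢
    refine mul_right_cancel (b := s) ?_
    rw [mul_assoc _ t s, c2, mul_assoc t s, ← c1, mul_assoc t]
  have hP' : IsPGroup r (zpowers (ρ * y * ρ⁻¹)) := IsPGroup.of_card (n := 1) (by
    rw [Nat.card_zpowers, orderOf_conj_eq, oy, pow_one])
  have hR := hC.cyc r _ hr r2 rp (hP.to_sup_of_normal_left' hP' (hN ▸ zpowers_le.2 c3))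
  have h3 := mem_norm_zpowers (mem_zpowers_of_cyclic hR (mem_sup_left (mem_zpowers _))
    (mem_sup_right (mem_zpowers _)) (orderOf_conj_eq ρ y))
  rw [hN, mem_cent1] at h3
  exact h.dih.isFour.ne (by rw [← e1, h3, mul_inv_cancel_right])

theorem Big.core_le_cent : 𝐎(𝓒[t]) ≤ 𝓒[x] := by
  have h1 : x ∈ 𝓒(fittingOf 𝐎(𝓒[t])) := by
    intro y hy
    have e1 := h.inv_fit hC hO y hy
    have e2 := h.swap.inv_fit hC hO y hy
    rw [show x * s * y * (x * s)⁻¹ = x * (s * y * s⁻¹) * x⁻¹ by group, e1,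
      show x * y⁻¹ * x⁻¹ = (x * y * x⁻¹)⁻¹ by group, inv_inj] at e2
    exact (mul_inv_eq_iff_eq_mul.1 e2).symm
  have h2 := coprime_cent_fitting (A := zpowers x) (M := 𝐎(𝓒[t]))
    (zpowers_le.2 (h.dih.sdprod_top.norm h.dih.x_mem)) (h.dih.coprime (odd_core _) h.dih.x_mem)
    (sol_of_odd (odd_core _)) ⟨mem_zpowers x, h1⟩
  exact fun y hy => mem_cent1.2 (h2 y hy)

theorem Big.cyc_core : IsCyclic 𝐎(𝓒[t]) ∧ ∀ y ∈ 𝐎(𝓒[t]), s * y * s⁻¹ = y⁻¹ := by
  have hs : s ∈ 𝓝(𝐎(𝓒[t])) := h.dih.sdprod_top.norm h.dih.s_mem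
  have hF := cent_sub_fitting (sol_of_odd (odd_core (𝓒[t] : Subgroup G)))
  have h1 := h.kill (h.core_le_cent hC hO) fun y hy => h.inv_fit hC hO y
    (hF ⟨comm_le_left (zpowers_le.2 hs) hy,
      comm_le_cent_of_inv (h.inv_fit hC hO) (fittingOf_normal _).2 hy⟩)
  have h2 := inv_of_cent_eq_bot (odd_core _) h.dih.pair.mul_self hs h1
  exact ⟨cyclic_of_le (h.cyc_fit hC hO) fun y hy =>
    hF ⟨hy, fun z hz => comm_of_inverts h2 (fittingOf_le _ hz) hy⟩, h2⟩

theorem Big.gd : Gd (𝐎(𝓒[t]) ⊔ zpowers x) t := by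
  have hp := h.dih.pair
  have hS := h.dih.syl.pgroup
  have hi : ¬ 2 ∣ S.index := by simpa using h.dih.syl.not_dvd
  have ht := h.dih.ord
  have htx := h.dih.mem
  have hSC := h.dih.le_cent
  obtain ⟨hcyc, hKinv⟩ := h.cyc_core hC hO
  have hcent := h.core_le_cent hC hO
  have hsd := h.dih.sdprod_top
  have hodd : ∀ y ∈ 𝓒[t], Odd (orderOf y) → y ∈ 𝐎(𝓒[t]) := fun y hy ho => by
    have := h.dih.le_core (X := zpowers y) (zpowers_le.2 ⟨trivial, hy⟩)
      (by rwa [Nat.card_zpowers]) (mem_zpowers y)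
    rwa [top_inf_eq] at this
  have hKodd : ∀ y ∈ 𝐎(𝓒[t]), Odd (orderOf y) := fun y hy => odd_orderOf (odd_core _) hy
  have hfit : ∀ y ∈ 𝐎(𝓒[t]), y ∈ fittingOf 𝐎(𝓒[t]) := fun y hy =>
    cent_sub_fitting (sol_of_odd (odd_core _))
      ⟨hy, fun z hz => comm_of_inverts hKinv (fittingOf_le _ hz) hy⟩
  have hKn : 𝐎(𝓒[t]) ⊴ 𝓒[t] := piCoreOf_normalOf _ _
  rw [sup_comm]
  set K := 𝐎(𝓒[t]) with hK
  have hKS : ∀ y ∈ K, y ∈ S → y = 1 := fun y h1 h2 => mem_bot.1 (hsd.inf ▸ mem_inf.2 ⟨h1, h2⟩)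
  have hxK : ∀ a ∈ zpowers x, ∀ y ∈ K, a * y = y * a := by
    rintro _ ⟨i, rfl⟩ y hy
    exact ((show Commute x y from (mem_cent1.1 (hcent hy)).symm).zpow_left i).eq
  have hxn : zpowers x ≤ 𝓝(K) := (hp.zpowers_le.trans hSC).trans hKn.2
  have hmem : ∀ y, y ∈ zpowers x ⊔ K ↔ ∃ a ∈ zpowers x, ∃ k ∈ K, a * k = y := fun y =>
    mem_sup_of_le_normalizer hxn
  have hAC : zpowers x ⊔ K ≤ 𝓒[t] := sup_le (hp.zpowers_le.trans hSC) hKn.1
  have hcomm : ∀ y ∈ zpowers x ⊔ K, ∀ z ∈ zpowers x ⊔ K, y * z = z * y := by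
    intro y hy z hz
    obtain ⟨a, ha, k, hk, rfl⟩ := (hmem y).1 hy
    obtain ⟨b, hb, l, hl, rfl⟩ := (hmem z).1 hz
    exact (((show Commute a b from hp.comm ha hb).mul_right (hxK a ha l hl)).mul_left
      ((show Commute k b from (hxK b hb k hk).symm).mul_right (comm_of_inverts hKinv hk hl))).eq
  have hsinv : ∀ y ∈ zpowers x ⊔ K, s * y * s⁻¹ = y⁻¹ := by
    intro y hy
    obtain ⟨a, ha, k, hk, rfl⟩ := (hmem y).1 hy
    rw [show s * (a * k) * s⁻¹ = s * a * s⁻¹ * (s * k * s⁻¹) by group, hp.τ_conj ha, hKinv k hk,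
      hxK a ha k hk, mul_inv_rev]
  have hdec : ∀ u ∈ 𝓒[t], u ∉ zpowers x ⊔ K → ∃ y ∈ zpowers x ⊔ K, u = y * s := by
    intro u hu hn
    rw [← hsd.sup, mem_sup_of_le_normalizer' (hSC.trans hKn.2)] at hu
    obtain ⟨k, hk, σ, hσ, rfl⟩ := hu
    have : σ ∉ zpowers x := fun e => hn (mul_mem (mem_sup_right hk) (mem_sup_left e))
    obtain ⟨a, ha, rfl⟩ := hp.exists_eq_mul hσ this
    exact ⟨k * a, mul_mem (mem_sup_right hk) (mem_sup_left ha), (mul_assoc _ _ _).symm⟩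
  have huniq : ∀ y ∈ zpowers x ⊔ K, orderOf y = 2 → y = t := by
    intro y hy ho
    obtain ⟨a, ha, k, hk, rfl⟩ := (hmem y).1 hy
    have h1 := mul_self_of_orderOf_eq_two ho
    have h2 : k * k = (a * a)⁻¹ := by
      rw [eq_inv_iff_mul_eq_one, ← h1, mul_assoc a k, ← mul_assoc k a k, ← hxK a ha k hk,
        (show Commute (k * k) (a * a) from ((show Commute k a from (hxK a ha k hk).symm).mul_left
          (hxK a ha k hk).symm).mul_right ((show Commute k a from (hxK a ha k hk).symm).mul_left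
          (hxK a ha k hk).symm)).eq]
      group
    have h3 : k = 1 := eq_one_of_sq_of_odd (hKodd k hk)
      (hKS _ (mul_mem hk hk) (h2 ▸ inv_mem (hp.zpowers_le (mul_mem ha ha))))
    rw [h3, mul_one] at ho ⊢
    exact h.dih.eq_t ha ho
  have hinv : ∀ u ∈ 𝓒[t], u ∉ zpowers x ⊔ K → ∀ y ∈ zpowers x ⊔ K, u * y * u⁻¹ = y⁻¹ := by
    intro u hu hn y hy
    obtain ⟨z, hz, rfl⟩ := hdec u hu hn
    rw [show z * s * y * (z * s)⁻¹ = z * (s * y * s⁻¹) * z⁻¹ by group, hsinv y hy,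
      hcomm z hz _ (inv_mem hy), mul_inv_cancel_right]
  refine ⟨ht, mem_sup_left htx, hcomm, hinv, ?_, ?_, huniq, ?_, ?_, ?_⟩
  · intro u hu hn
    obtain ⟨z, hz, rfl⟩ := hdec u hu hn
    have := hsinv z hz
    rw [hp.inv_eq] at this
    rw [show z * s * (z * s) = z * (s * z * s) by group, this, mul_inv_cancel]
  · refine relIndex_eq_two_iff_exists_notMem_and.2 ⟨s, hSC hp.mem_τ, fun e => ?_, fun b hb => ?_⟩
    · obtain ⟨a, ha, k, hk, e⟩ := (hmem s).1 e
      have : k = 1 := hKS k hk (by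
        rw [show k = a⁻¹ * s by rw [← e]; group]
        exact mul_mem (inv_mem (hp.zpowers_le ha)) hp.mem_τ)
      rw [this, mul_one] at e
      exact hp.notMem (e ▸ ha)
    · by_cases hn : b ∈ zpowers x ⊔ K
      · exact Or.inr hn
      · obtain ⟨z, hz, rfl⟩ := hdec b hb hn
        exact Or.inl (by rwa [mul_assoc, hp.mul_self, mul_one])
  · intro y hy h1 g hg
    rcases Nat.even_or_odd (orderOf y) with he | ho
    · obtain ⟨j, hj, hj2⟩ := exists_mem_zpowers_orderOf_two (even_iff_two_dvd.1 he)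
      have e := huniq j (zpowers_le.2 hy hj) hj2
      obtain ⟨i, rfl⟩ := hj
      refine mem_cent1.2 (mul_inv_eq_iff_eq_mul.1 (huniq _ ?_ (by rw [orderOf_conj_eq, ht])))
      rw [← e, ← conj_zpow]
      exact zpow_mem hg i
    · have h2 := hodd y (hAC hy) ho
      rw [← h.norm_zpowers hC hO (hfit y h2) h1]
      exact mem_norm_zpowers (mem_zpowers_of_cyclic hcyc h2
        (hodd _ (hAC hg) (by rwa [orderOf_conj_eq])) (orderOf_conj_eq g y))
  · intro u hu
    obtain ⟨g, -, hg⟩ := h.one u trivial hu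
    exact isConj_iff.2 ⟨g, hg⟩
  · exact fun hd => hi (hd.trans (index_dvd_of_le hSC))

theorem Big.known : Known G :=
  haveI := h.simple
  known_of_gd (h.gd hC hO)

end

end Cfsg.Gag
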