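import Cfsg.Agent.Gag.ThreeB
import Cfsg.Agent.Gag.CaseA

/-!
# An element of order `3` normalising a quaternion group, characteristic `≥ 5`

It lies in the algebra spanned by the quaternion group.
-/

set_option autoImplicit false
set_option linter.unusedSectionVars false

namespace Cfsg.Gag

open Subgroup MulAction Cfsg.Agent.FT Cfsg.GW
open scoped commutatorElement

universe u v w

theorem quat_omega {R : Type*} [Ring R] {i j k w : R} (hi : i * i = -1) (hj : j * j = -1)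
    (hij : i * j = k) (hji : j * i = -k) (hw : w * w + w + 1 = 0) (h1 : w * i = j * w)
    (h2 : w * j = k * w) (h3 : w * k = i * w) :
    (8 • w : R) = -(4 • (1 + i + j + k) : R) := by
  have ik : i * k = -j := by rw [← hij, ← mul_assoc, hi, neg_one_mul]
  have kj : k * j = -i := by rw [← hij, mul_assoc, hj, mul_neg_one]
  have ki : k * i = j := by rw [← hij, mul_assoc, hji, mul_neg, ik, neg_neg]
  have jk : j * k = i := by rw [← hij, ← mul_assoc, hji, neg_mul, kj, neg_neg]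
  have kk : k * k = -1 := by nth_rw 2 [← hij]; rw [← mul_assoc, ki, hj]
  obtain ⟨d, hd⟩ : ∃ d, d = 2 * w + 1 + (i + j + k) := ⟨_, rfl⟩
  have d1 : d * j = k * d := by
    rw [hd]
    linear_combination (norm := noncomm_ring) h2 + h2 + hij + hj + kj - ki - kj - kk
  have d2 : d * (2 * w + 1 - (i + j + k)) = 0 := by
    rw [hd]
    linear_combination (norm := noncomm_ring) hw + hw + hw + hw - h1 - h1 - h2 - h2 - h3 - h3 -
      hi - hj - kk - hij - hji - ik - ki - jk - kj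
  have d3 : d * (w * i) = d * j * w := by rw [h1, mul_assoc]
  have d4 : d * (j - i) + d * (j - i) = 0 := by
    linear_combination (norm := noncomm_ring) d3 + d3 + d1 * w + d1 * w + k * d2 - d2 * i -
      d1 * (i + j + k - 1) - d * hi - d * hji - d * ki + d * hji + d * hj + d * jk
  have d5 : d + d + d + d = 0 := by
    linear_combination (norm := noncomm_ring) -(d4 * (j - i)) + (d + d) * (hi + hj - hij - hji)
  rw [hd] at d5
  linear_combination (norm := noncomm_ring) d5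

theorem cube_comm_eq_one {Q : Type*} [Group Q] {D : Subgroup Q} [D.Normal] {u r r₁ : Q}
    (hu : u ∈ 𝓒(D)) (h : r₁ = ⁅u, r⁆) (h1 : r₁ ^ 3 ∈ D) (h2 : u * r₁ * u⁻¹ * r₁ ∈ D) :
    ⁅u, r₁⁆ ^ 3 = 1 := by
  have h3 : r₁ ∈ 𝓒(D) := by
    rw [h, commutatorElement_def, mul_assoc, mul_assoc, ← mul_assoc r]
    exact mul_mem hu (Normal.conj_mem inferInstance _ (inv_mem hu) r)
  obtain ⟨b, hb⟩ : ∃ b, b = u * r₁ * u⁻¹ * r₁ := ⟨_, rfl⟩
  rw [← hb] at h2
  have c1 : Commute b r₁ := h3 b h2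
  have e1 : u * r₁ * u⁻¹ = b * r₁⁻¹ := by rw [hb]; group
  have e2 : r₁ ^ 3 = b ^ 3 * r₁⁻¹ ^ 3 := by
    rw [← c1.inv_right.mul_pow, ← e1, conj_pow, ← hu _ h1, mul_inv_cancel_right]
  rw [commutatorElement_def, e1, mul_assoc, (c1.inv_right.mul_right c1.inv_right).mul_pow,
    (Commute.refl _).mul_pow, ← mul_assoc, ← e2]
  group

theorem mem_pPrimeCore_of_cyc {G : Type u} [Group G] [Finite G] [Group.IsSolvable G] {r : ℕ}
    [Fact r.Prime] (h : ∀ R : Subgroup G, IsPGroup r R → IsCyclic R) {g : G}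
    (hg : g ∈ commutator G) (hr : IsPRegular r g) : g ∈ pPrimeCore r G := by
  obtain ⟨P⟩ := Sylow.nonempty (p := r) (G := G)
  haveI := h P P.isPGroup'
  have hs := QuotientGroup.mk'_surjective (pPrimeCore r G)
  haveI : IsCyclic ((P.mapSurjective hs : Sylow r (G ⧸ pPrimeCore r G)) :
      Subgroup (G ⧸ pPrimeCore r G)) :=
    isCyclic_of_surjective _
      ((QuotientGroup.mk' (pPrimeCore r G)).subgroupMap_surjective (P : Subgroup G))
  haveI := isCyclic_of_le (pCore_le_sylow (P.mapSurjective hs))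
  have h1 := (isPSolvable_of_isSolvable r _).centralizer_pCore_le
    (pPrimeCore_quotient_pPrimeCore r G) (commutator_le_centralizer_of_isCyclic _
      (show QuotientGroup.mk' (pPrimeCore r G) g ∈ commutator _ from
        ((map_commutator _ _ _).le.trans (commutator_mono le_top le_top)) (mem_map_of_mem _ hg)))
  exact (QuotientGroup.eq_one_iff g).1
    ((isPElt_of_mem (isPGroup_pCore r _) h1).eq_one_of_isPRegular (hr.map _))

theorem Big.exists_omega {X : Type u} [Group X] [Finite X] {S : Subgroup X} {x s t : X}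
    (hb : Big S x s t) (h3 : ∀ R : Subgroup X, IsPGroup 3 R → IsCyclic R) :
    ∃ w ∈ 𝓝(four t s), w ^ 3 = 1 ∧ w * t * w⁻¹ ≠ t := by
  have h4 := hb.dih.isFour
  obtain ⟨y, hy, hyy, hys, -⟩ := hb.dih.exists_x0 hb.four_dvd
  obtain ⟨ρ, hρt, hρs⟩ := hb.exists_rho
  have hyt : y * t * y⁻¹ = t := by rw [← hyy]; group
  have hts : s * t = t * s := h4.comm.eq.symm
  have hy1 : y ∈ piCoreOf ({3}ᶜ : Set ℕ) 𝓒[t] := by
    have hxC := hb.dih.le_cent hb.dih.x_mem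
    haveI : Group.IsSolvable (𝓒[t] : Subgroup X) :=
      sol_of_npc (top_inf_eq (𝓒[t] : Subgroup X) ▸ hb.dih.npc_cent)
    have h1 : y ∈ zpowers (x * x) := by
      refine mem_zpowers_of_orderOf_dvd_of_mem (mul_mem (mem_zpowers x) (mem_zpowers x)) hy ?_
      have h5 : orderOf y ∣ 4 := orderOf_dvd_of_pow_eq_one (by rw [pow_four_eq, hyy, h4.tt])
      refine h5.trans ?_
      obtain ⟨k, hk⟩ := hb.big
      rw [← sq, orderOf_pow, hk, Nat.gcd_eq_right ⟨4 * k, by ring⟩]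
      exact ⟨k, by omega⟩
    have h2 : zpowers (x * x) ≤ (commutator (𝓒[t] : Subgroup X)).map (𝓒[t] : Subgroup X).subtype := by
      rw [map_subtype_commutator, zpowers_le]
      exact commutator_mono hb.dih.le_cent hb.dih.le_cent hb.dih.sq_mem_der
    obtain ⟨y', hy', rfl⟩ := h2 h1
    refine ⟨y', ?_, rfl⟩
    rw [← pPrimeCore_eq_piCore]
    refine mem_pPrimeCore_of_cyc (fun R hR => ?_) hy' ?_
    · haveI := h3 _ (hR.map (𝓒[t] : Subgroup X).subtype)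
      exact isCyclic_of_surjective _ (equivMapOfInjective _ _ (subtype_injective _)).symm.surjective
    · rw [← isPRegular_coe_iff]
      exact (isPElt_of_mem hb.dih.syl.pgroup (hb.dih.pair.zpowers_le hy)).isPRegular_of_ne
        (by decide)
  have mul : ∀ g a b : X, g * (a * b) * g⁻¹ = g * a * g⁻¹ * (g * b * g⁻¹) := fun g a b => by group
  have inv : ∀ g a b : X, g * a * g⁻¹ = b → g⁻¹ * b * g = a := fun g a b e => by rw [← e]; group
  have hyts : y * (t * s) * y⁻¹ = s := by rw [mul, hyt, hys, ← mul_assoc, h4.tt, one_mul]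
  have third : ∀ ρ : X, ρ * t * ρ⁻¹ = s → ρ * s * ρ⁻¹ = t * s → ρ * (t * s) * ρ⁻¹ = t :=
    fun ρ e1 e2 => by rw [mul, e1, e2, ← mul_assoc, hts, mul_assoc, h4.ss, mul_one]
  have step : ∀ ρ : X, ρ * t * ρ⁻¹ = s → ρ * s * ρ⁻¹ = t * s →
      ⁅y, ρ⁆ * t * ⁅y, ρ⁆⁻¹ = s ∧ ⁅y, ρ⁆ * s * ⁅y, ρ⁆⁻¹ = t * s := fun ρ e1 e2 => by
    have e3 := third ρ e1 e2
    have e4 : ∀ a, ⁅y, ρ⁆ * a * ⁅y, ρ⁆⁻¹ = y * (ρ * (y⁻¹ * (ρ⁻¹ * a * ρ) * y) * ρ⁻¹) * y⁻¹ :=
      fun a => by rw [commutatorElement_def]; group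
    exact ⟨by rw [e4, inv _ _ _ e3, inv _ _ _ hys, e2, hyts],
      by rw [e4, inv _ _ _ e1, inv _ _ _ hyt, e1, hys]⟩
  have cen : ∀ g : X, g * t * g⁻¹ = t → g * s * g⁻¹ = s → g ∈ 𝓒(four t s) := fun g e1 e2 => by
    rw [cent_four]
    exact ⟨mem_centralizer_singleton_iff.2 (mul_inv_eq_iff_eq_mul.1 e1),
      mem_centralizer_singleton_iff.2 (mul_inv_eq_iff_eq_mul.1 e2)⟩
  obtain ⟨a1, a2⟩ := step ρ hρt hρs
  obtain ⟨b1, -⟩ := step _ a1 a2
  have a3 := third _ a1 a2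
  have hyN : y ∈ 𝓝(four t s) := h4.mem_norm (hyt.symm ▸ left_mem_four t s) (hys ▸ mul_mem_four t s)
  have hρN : ρ ∈ 𝓝(four t s) := h4.mem_norm (hρt ▸ right_mem_four t s) (hρs ▸ mul_mem_four t s)
  set N : Subgroup X := 𝓝(four t s) with hN
  set D : Subgroup X := 𝓒(four t s) with hD
  have hND : N ≤ 𝓝(D) := normalizer_le_normalizer_centralizer _
  haveI n1 : (D.subgroupOf N).Normal := (normal_subgroupOf_iff_le_normalizer_inf.2
    (by rwa [inf_eq_left.2 (centralizer_le_normalizer _)]))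
  haveI n2 : ((piCoreOf ({3}ᶜ : Set ℕ) D).subgroupOf N).Normal :=
    (normal_subgroupOf_iff_le_normalizer ((piCoreOf_le D).trans (centralizer_le_normalizer _))).2
      (le_norm_piCoreOf hND)
  let f := QuotientGroup.mk' ((piCoreOf ({3}ᶜ : Set ℕ) D).subgroupOf N)
  haveI n3 : ((D.subgroupOf N).map f).Normal := n1.map f (QuotientGroup.mk'_surjective _)
  have key := cube_comm_eq_one (D := (D.subgroupOf N).map f) (u := f ⟨y, hyN⟩) (r := f ⟨ρ, hρN⟩)
    (r₁ := f ⁅(⟨y, hyN⟩ : N), (⟨ρ, hρN⟩ : N)⁆) (by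
      rintro _ ⟨d, hd, rfl⟩
      rw [← commutatorElement_eq_one_iff_mul_comm, ← map_commutatorElement,
        QuotientGroup.mk'_apply, QuotientGroup.eq_one_iff]
      have hDC : D ≤ 𝓒[t] := by rw [hD, cent_four]; exact inf_le_left
      have hd' : (d : X) ∈ D := hd
      have e1 := mul_mem ((mem_normalizer_iff.1
        ((piCoreOf_normalOf _ _).2 (hDC hd')) y).1 hy1) (inv_mem hy1)
      have e2 := mul_mem hd' ((mem_normalizer_iff.1 (hND hyN) _).1 (inv_mem hd'))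
      rw [← mul_assoc, ← mul_assoc] at e2
      exact piCoreOf_inf_le hDC ⟨e1, e2⟩)
    (map_commutatorElement _ _ _)
    ⟨_, cen (⁅y, ρ⁆ ^ 3) (by
      rw [show ∀ g a : X, g ^ 3 * a * (g ^ 3)⁻¹ = g * (g * (g * a * g⁻¹) * g⁻¹) * g⁻¹ from
        fun g a => by rw [pow_succ, sq]; group, a1, a2, a3]) (by
      rw [show ∀ g a : X, g ^ 3 * a * (g ^ 3)⁻¹ = g * (g * (g * a * g⁻¹) * g⁻¹) * g⁻¹ from
        fun g a => by rw [pow_succ, sq]; group, a2, a3, a1]), map_pow _ _ _⟩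
    ⟨⟨y, hyN⟩ * ⁅(⟨y, hyN⟩ : N), (⟨ρ, hρN⟩ : N)⁆ * ⟨y, hyN⟩⁻¹ * ⁅(⟨y, hyN⟩ : N), (⟨ρ, hρN⟩ : N)⁆,
      cen (y * ⁅y, ρ⁆ * y⁻¹ * ⁅y, ρ⁆) (by
      rw [show ∀ g a : X, y * g * y⁻¹ * g * a * (y * g * y⁻¹ * g)⁻¹ =
        y * (g * (y⁻¹ * (g * a * g⁻¹) * y) * g⁻¹) * y⁻¹ from fun g a => by group,
        a1, inv _ _ _ hyts, a3, hyt]) (by
      rw [show ∀ g a : X, y * g * y⁻¹ * g * a * (y * g * y⁻¹ * g)⁻¹ =
        y * (g * (y⁻¹ * (g * a * g⁻¹) * y) * g⁻¹) * y⁻¹ from fun g a => by group,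
        a2, inv _ _ _ hys, a2, hyts]), by simp only [map_mul, map_inv]⟩
  rw [← map_commutatorElement, ← map_pow, QuotientGroup.mk'_apply, QuotientGroup.eq_one_iff] at key
  have k1 : ⁅y, ⁅y, ρ⁆⁆ ^ 3 ∈ piCoreOf ({3}ᶜ : Set ℕ) D := key
  have k2 : ⁅y, ⁅y, ρ⁆⁆ ∈ N := (⁅(⟨y, hyN⟩ : N), ⁅(⟨y, hyN⟩ : N), (⟨ρ, hρN⟩ : N)⁆⁆).2
  generalize ⁅y, ⁅y, ρ⁆⁆ = w at b1 k1 k2
  refine ⟨pPart 3 w, piPart_mem _ k2, ?_, fun e => h4.ne ?_⟩
  · rw [pPart, ← piPart_pow, piPart_eq_one_iff]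
    exact (isPiGroup_piCoreOf _ D).of_dvd (orderOf_dvd_natCard _ k1)
  · have h1 : pPrimePart 3 w ∈ D := by
      refine zpowers_le.2 ?_ (mem_zpowers_pow_iff.2
        (isPRegular_iff_coprime.1 (isPRegular_pPrimePart 3 w)).symm)
      rw [pPrimePart, ← piPart_pow]
      exact piPart_mem _ (piCoreOf_le D k1)
    have h2 := h1 t (left_mem_four t s)
    rw [← b1, ← piPart_mul_piPart_compl {3} w]
    calc t = pPart 3 w * (t * pPrimePart 3 w * (pPrimePart 3 w)⁻¹) * (pPart 3 w)⁻¹ := by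
          rw [mul_inv_cancel_right, e]
      _ = _ := by rw [h2, pPart, pPrimePart]; group

end Cfsg.Gag
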