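import Cfsg.Agent.Gag.Defs
import Cfsg.Agent.GW.KillD
import Cfsg.Agent.Grp.ThompsonTransfer

/-!
# `Gag/Kill`: groups and blocks
-/

set_option autoImplicit false
set_option linter.unusedSectionVars false
set_option linter.style.haveILetI false

namespace Cfsg.Gag.Kl

open Subgroup Finset GA Cfsg.Agent.FT Cfsg.GW
open scoped commutatorElement ComplexConjugate

universe u

variable {G : Type u} [Group G] [Finite G] {S : Subgroup G} {x s t : G}

theorem not_dvd_index (h : GDih ⊤ S x s t) : ¬ 2 ∣ S.index := by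
  simpa only [relIndex_top_right] using h.syl.not_dvd

theorem le_cent (h : GDih ⊤ S x s t) : S ≤ 𝓒[t] := h.pair.le_centralizer h.mem h.ord

theorem npc (h : GDih ⊤ S x s t) : HasNormalPComplement 2 (𝓒[t] : Subgroup G) :=
  h.pair.hasNormalPComplement h.syl.pgroup (not_dvd_index h) h.mem h.ord

theorem syl_cent (h : GDih ⊤ S x s t) : IsSylowOf 2 S 𝓒[t] :=
  h.syl.of_le (le_cent h) le_top

theorem sdprod_top (h : GDih ⊤ S x s t) : IsSdprod 𝐎(𝓒[t]) S 𝓒[t] :=
  sdprod_of_npc (npc h) (syl_cent h)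

theorem eq_sup (h : GDih ⊤ S x s t) : S = zpowers x ⊔ zpowers s := by
  refine le_antisymm (fun y hy => ?_) (sup_le h.pair.zpowers_le (zpowers_le.2 h.pair.mem_τ))
  by_cases hn : y ∈ zpowers x
  · exact mem_sup_left hn
  · obtain ⟨a, ha, rfl⟩ := h.pair.exists_eq_mul hy hn
    exact mul_mem_sup ha (mem_zpowers s)

theorem exists_retr (h : GDih ⊤ S x s t) (hx : 𝐎(𝓒[t]) ≤ 𝓒[x])
    (hK : ∀ y ∈ ⁅𝐎(𝓒[t]), zpowers s⁆, s * y * s⁻¹ = y⁻¹) :
    ∃ π : 𝓒[t] →* (𝐎(𝓒[t]) ⊓ 𝓒[s] : Subgroup G),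
      ∀ b, π (inclusion (inf_le_left.trans (sdprod_top h).le_left) b) = b := by
  have hs := sdprod_top h
  have ho := odd_core (𝓒[t] : Subgroup G)
  have hsn : s ∈ 𝓝(𝐎(𝓒[t])) := hs.norm h.pair.mem_τ
  have hKU : ⁅𝐎(𝓒[t]), zpowers s⁆ ≤ 𝐎(𝓒[t]) := comm_le_left (zpowers_le.2 hsn)
  have hSK : S ≤ 𝓝(⁅𝐎(𝓒[t]), zpowers s⁆) := by
    rw [eq_sup h]
    exact sup_le (zpowers_le.2 (cent_le_norm _ (le_cent1_iff.1 (hKU.trans hx))))
      (right_le_norm_comm _ _)
  have hp := isProd_cent_comm ho h.pair.mul_self hsn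
  have h1 : IsSdprod (⁅𝐎(𝓒[t]), zpowers s⁆ ⊔ S) (𝐎(𝓒[t]) ⊓ 𝓒[s]) 𝓒[t] := by
    refine ⟨by rw [sup_right_comm, hp.sup_eq, hs.sup], ?_, ?_⟩
    · refine (le_inf (inf_le_left.trans (left_le_norm_comm _ _)) (le_norm_of_le_cent ?_)).trans
        (normalizer_inf_normalizer_le_normalizer_sup _ _)
      rw [eq_sup h]
      exact le_cent_sup (le_cent_zpowers.2 (inf_le_left.trans hx)) (le_cent_zpowers.2 inf_le_right)
    · rw [eq_bot_iff]
      rintro g ⟨hg1, hg2, hg3⟩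
      obtain ⟨k, hk, σ, hσ, rfl⟩ := (isProd_of_le_norm hSK).2.2 g hg1
      have h2 : σ ∈ 𝐎(𝓒[t]) ⊓ S :=
        ⟨by simpa using mul_mem (inv_mem (hKU hk)) hg2, hσ⟩
      rw [hs.inf, mem_bot] at h2
      subst h2
      rw [← cent_eq_bot_of_inv (ho.of_dvd_nat (card_dvd_of_le hKU)) hK]
      exact ⟨by simpa using hk, hg3⟩
  exact exists_retr_of_isSdprod h1

theorem norm_zpowers_le (h : GDih ⊤ S x s t) : 𝓝(zpowers x) ≤ 𝓒[t] := fun n hn => by
  have h1 : n * t * n⁻¹ ∈ zpowers x := (mem_normalizer_iff.1 hn t).1 h.mem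
  have h2 := eq_of_orderOf_eq_two_of_mem_zpowers h1 h.mem (by rw [orderOf_conj_eq, h.ord]) h.ord
  exact mem_cent1.2 (mul_inv_eq_iff_eq_mul.1 h2)

theorem le_norm_zpowers (h : GDih ⊤ S x s t) (hx : 𝐎(𝓒[t]) ≤ 𝓒[x]) :
    𝓒[t] ≤ 𝓝(zpowers x) := by
  rw [← (sdprod_top h).sup]
  refine sup_le (hx.trans (cent1_le_norm_zpowers x)) fun g hg =>
    mem_normalizer_of_forall_conj_mem fun a ha => ?_
  rcases h.pair.conj_cases hg ha with e | e <;> rw [e]
  exacts [ha, inv_mem ha]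

theorem norm_le (h : GDih ⊤ S x s t) (hx2 : x * x ≠ 1) : 𝓝(S) ≤ 𝓒[t] := fun n hn => by
  refine norm_zpowers_le h (mem_normalizer_of_forall_conj_mem ?_)
  have h1 : n * x * n⁻¹ ∈ zpowers x := by
    by_contra hc
    have h2 := h.pair.mul_self_of_notMem ((mem_normalizer_iff.1 hn x).1 h.pair.mem_σ) hc
    rw [conj_mul, conj_eq_one_iff] at h2
    exact hx2 h2
  intro a ha
  obtain ⟨k, rfl⟩ := mem_zpowers_iff.1 ha
  rw [← conj_zpow]
  exact zpow_mem h1 k

theorem isConj_of_big (h : Big S x s t) (u : G) (hu : orderOf u = 2) : IsConj t u := by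
  haveI := h.simple
  obtain ⟨g, hg⟩ := exists_conj_mem_of_no_index_two (G := G) (fun L hL => by
    rcases (normal_of_index_eq_two hL).eq_bot_or_eq_top with rfl | rfl
    · rw [index_bot] at hL
      have h1 := orderOf_dvd_natCard x
      have h2 := h.big.trans h1
      rw [hL] at h2
      omega
    · simp at hL) (not_dvd_index h.dih) h.dih.pair.zpowers_le h.dih.pair.relIndex_eq
    (mul_self_of_orderOf_eq_two hu)
  have h2 := eq_of_orderOf_eq_two_of_mem_zpowers hg h.dih.mem (by rw [orderOf_conj_eq, hu])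
    h.dih.ord
  exact (isConj_iff.2 ⟨g, h2⟩).symm

variable {M : Ideal AlgInt} {B : Set (IrrCharacter G)}
  {b : Set (IrrCharacter (𝓒[t] : Subgroup G))} {l : (𝓒[t] : Subgroup G) →* ℂˣ}

theorem fact_eq (h : GDih ⊤ S x s t) :
    (Nat.card (𝓒[t] : Subgroup G)).factorization 2 = (Nat.card G).factorization 2 := by
  have h1 := h.syl.card_eq
  rw [(syl_cent h).card_eq, card_top] at h1
  exact Nat.pow_right_injective le_rfl h1

theorem isDefectGroup (h : GDih ⊤ S x s t) (hM : IsPModular 2 M)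
    (hB : Induces M (𝓒[t] : Subgroup G).subtype (linB M l) B) : IsDefectGroup 2 M B S := by
  have h1 := hB.blockDefect_le hM (subtype_injective _)
  rw [blockDefect_linB hM, fact_eq h] at h1
  exact (hB.right.isDefectGroup_iff_of_full hM (le_antisymm (blockDefect_le B) h1) S).2
    h.syl.exists_sylow_top

theorem isDefectGroup_sub (h : GDih ⊤ S x s t) (hM : IsPModular 2 M) (hb : IsPBlock M b)
    (hd : blockDefect 2 b = (Nat.card (𝓒[t] : Subgroup G)).factorization 2) :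
    IsDefectGroup 2 M b (S.subgroupOf 𝓒[t]) := by
  obtain ⟨R, hR⟩ := (syl_cent h).exists_sylow
  exact (hb.isDefectGroup_iff_of_full hM hd _).2 ⟨R, by rw [← hR, map_subtype_subgroupOf]⟩

theorem isDefectGroup_of_induces (h : GDih ⊤ S x s t) (hM : IsPModular 2 M)
    (hx : 𝐎(𝓒[t]) ≤ 𝓒[x]) (hB : IsDefectGroup 2 M B S)
    (hb : Induces M (𝓒[t] : Subgroup G).subtype b B) :
    IsDefectGroup 2 M b (S.subgroupOf 𝓒[t]) := by
  refine isDefectGroup_sub h hM hb.left ?_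
  by_contra hne
  have hlt := lt_of_le_of_ne (blockDefect_le (p := 2) b) hne
  obtain ⟨D, hD⟩ := hb.left.exists_isDefectGroup hM
  have hle : zpowers x ≤ 𝓒[t] := h.pair.zpowers_le.trans (le_cent h)
  haveI : ((zpowers x).subgroupOf 𝓒[t]).Normal :=
    IsNormalOf.normal ⟨hle, le_norm_zpowers h hx⟩
  have h1 : (zpowers x).subgroupOf 𝓒[t] ≤ D := hD.le_of_normal hb.left hM
    (isPGroup_subgroupOf (h.syl.pgroup.to_le h.pair.zpowers_le) _)
  have h2 := h.pair.card_eq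
  have h3 := hD.card_eq hb.left hM
  have h4 : 2 ^ (blockDefect 2 b + 1) ≤ Nat.card S := by
    rw [(syl_cent h).card_eq]; exact Nat.pow_le_pow_right two_pos hlt
  have h5 : (zpowers x).subgroupOf 𝓒[t] = D := by
    refine eq_of_le_of_card_le h1 ?_
    rw [card_subgroupOf_of_le hle, Nat.card_zpowers, h3]
    rw [pow_succ] at h4
    omega
  subst h5
  obtain ⟨B', h6, h7⟩ := hD.exists_induced hM hb.left (norm_zpowers_le h)
  obtain rfl := hb.unique hM h6
  have h8 := h7.card_eq hb.right hM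
  rw [← hB.card_eq hb.right hM, Nat.card_zpowers] at h8
  have := orderOf_pos x
  omega

theorem eq_linB (h : GDih ⊤ S x s t) (hM : IsPModular 2 M) (hx2 : x * x ≠ 1)
    (hx : 𝐎(𝓒[t]) ≤ 𝓒[x]) (hB : Induces M (𝓒[t] : Subgroup G).subtype (linB M l) B)
    (hb : Induces M (𝓒[t] : Subgroup G).subtype b B) : b = linB M l :=
  have h1 := isDefectGroup h hM hB
  hb.correspondent_unique hM hB (norm_le h hx2) h1 (isDefectGroup_of_induces h hM hx h1 hb)
    (isDefectGroup_of_induces h hM hx h1 hB)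

/-- the column of the block at `u` -/
theorem col (h : GDih ⊤ S x s t) (hM : IsPModular 2 M) (hx2 : x * x ≠ 1)
    (hx : 𝐎(𝓒[t]) ≤ 𝓒[x]) (hl : ∀ a, IsPElt 2 a → l a = 1)
    (hB : Induces M (𝓒[t] : Subgroup G).subtype (linB M l) B) [Fintype B] {u : G}
    (hu : u ∈ zpowers x) (h1 : u ≠ 1) :
    (∀ g : G, ¬ 2 ∣ orderOf g → ∑ χ : B, χ.1 u * χ.1 g = 0) ∧
      ∀ y : (𝓒[t] : Subgroup G), t ∈ zpowers (y : G) → ∑ χ : B, χ.1 u * χ.1 y =
        l y * (2 ^ (Nat.card (𝓒[u] : Subgroup G)).factorization 2 * secOne 2 u y) := by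
  classical
  haveI := Fintype.ofFinite G
  have hue : IsPElt 2 u := h.pair.isPElt h.syl.pgroup hu
  have hle : 𝓒[u] ≤ (𝓒[t] : Subgroup G) := h.pair.centralizer_le h.syl.pgroup h.mem h.ord hu h1
  have sx : IsSec 2 ((𝓒[t] : Subgroup G).subtype.comp (inclusion hle)) u := isSec_centralizer hue
  have sx' : IsSec 2 (inclusion hle) ⟨u, le_cent h (h.pair.zpowers_le hu)⟩ := by
    refine ⟨inclusion_injective _, isPElt_coe_iff.1 hue, ?_⟩
    ext g
    rw [inclusion_range, mem_subgroupOf, mem_cent1, mem_cent1, Subtype.ext_iff]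
    rfl
  have hB' := (sx'.induces_linB hM l).trans hM hB
  have nx := h.pair.hasNormalPComplement_of_mem h.syl.pgroup (not_dvd_index h) h.mem h.ord hu h1
  set φ := secInd 2 ((𝓒[t] : Subgroup G).subtype.comp (inclusion hle)) u
    (((2 ^ (Nat.card (𝓒[u] : Subgroup G)).factorization 2 : ℕ) : ℂ) •
      fun k => (l.comp (inclusion hle) k : ℂ)) with hφ
  have bφ : blockPart B φ = φ := sx.blockPart_secInd_of_induces hM hB' (blockPart_linB hM _ _)
  have cφ : ∀ χ : B, ip φ χ.1.1 = χ.1 u := fun χ => by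
    rw [hφ, ip_secInd_irr, ip_col nx rfl (a := χ.1 u), h.pair.conj_irr_apply _ hu]
    intro y hy
    rw [secFun_apply]
    refine sx.irr_apply_of_forall hM hB.right hy (fun b hb ξ hξ => ?_) χ.2
    obtain ⟨b', hb'⟩ := sx'.exists_induces hM hb.left
    obtain rfl := eq_linB h hM hx2 hx hB (hb'.of_trans hM hb)
    exact hb'.apply_of_linB hM (npc h) (inclusion_injective _) hξ hy
  have e : ∀ g, ∑ χ : B, χ.1 u * χ.1 g = φ g := fun g => by
    rw [← bφ, blockPart_eq_vch]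
    simp only [vch, cφ, Finset.sum_apply, Pi.smul_apply, smul_eq_mul]
  refine ⟨fun g hg => by rw [e, hφ, secInd_apply_of_odd sx h1 _ hg], fun y hy => ?_⟩
  rw [e, hφ, secInd_linear_apply h.ord (h.pair.mem_zpowers_of_ne_one h.syl.pgroup h.mem h.ord hu h1)
    sx hl _ y hy]
  push_cast
  rfl

open Classical in
theorem sum_twist [Fintype G] (ht : orderOf t = 2) (hone : ∀ u, orderOf u = 2 → IsConj t u)
    {θ θ₁ : G → ℂ} (hθ : IsClassFunction G θ)
    (hθ₁ : IsClassFunction G θ₁) (hv : ∀ g, ¬ 2 ∣ orderOf g → θ g = 0)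
    (hv₁ : ∀ g, ¬ 2 ∣ orderOf g → θ₁ g = 0) (hl : ∀ a, IsPElt 2 a → l a = 1)
    (e : ∀ y : (𝓒[t] : Subgroup G), t ∈ zpowers (y : G) → θ y = l y * θ₁ y) :
    ∑ a ∈ univ.filter (IsConj t), ∑ b ∈ univ.filter (IsConj t), θ (a * b) =
      ∑ a ∈ univ.filter (IsConj t), ∑ b ∈ univ.filter (IsConj t), θ₁ (a * b) := by
  rw [sum_invol_pairs hθ hv ht hone, sum_invol_pairs hθ₁ hv₁ ht hone]
  congr 1
  refine sum_congr rfl fun a ha => sum_congr rfl fun b hb => ?_
  split_ifs with hab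
  · have o : ∀ a ∈ univ.filter (IsConj t), orderOf a = 2 := fun a ha => by
      obtain ⟨c, rfl⟩ := isConj_iff.1 (mem_filter.1 ha).2
      rw [orderOf_conj_eq, ht]
    obtain ⟨h1, h2⟩ := mem_centralizer_of_mem_zpowers_mul (mul_self_of_orderOf_eq_two (o a ha))
      (mul_self_of_orderOf_eq_two (o b hb)) ht hab
    have := e (⟨a, h1⟩ * ⟨b, h2⟩) hab
    rw [map_mul, hl _ (isPElt_coe_iff.1 (isPElt_two_of_orderOf (o a ha))),
      hl _ (isPElt_coe_iff.1 (isPElt_two_of_orderOf (o b hb)))] at this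
    simpa using this
  · rfl

theorem one_lt (h : Big S x s t) (hM : IsPModular 2 M)
    (hB : Induces M (𝓒[t] : Subgroup G).subtype (linB M l) B) {y : (𝓒[t] : Subgroup G)}
    (hy : IsPRegular 2 y) (hl : l y ≠ 1) (χ : B) : 1 < (charDegree χ.1.1 : ℤ) := by
  haveI := h.simple
  have h1 : χ.1 ≠ IrrCharacter.one G := fun e => hl (linB_eq_principal_iff hM (npc h.dih)
    ((hB.eq_principal_iff hM (subtype_injective _)).1 (hB.right.eq_of_mem isPBlock_principalBlock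
      hM χ.2 (e ▸ hM.one_mem_principalBlock))) hy)
  exact_mod_cast IrrCharacter.one_lt_charDegree_of_isSimpleGroup h.nonab h1

end Cfsg.Gag.Kl
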