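import Cfsg.Agent.Gag.Defs
import Cfsg.Agent.Gag.UInv
import Cfsg.Agent.Char.Codeg
import Cfsg.Agent.Char.RelTaketa

/-!
# Solvable groups whose `p'`-elements act freely

If `O_p = 1` and there is an element of order `16`, a maximal abelian normal subgroup is cyclic and
self-centralizing.
-/

set_option autoImplicit false
set_option linter.unusedSectionVars false

namespace Cfsg.Gag

open Subgroup MulAction
open scoped commutatorElement

universe u v

variable {p : ℕ} [hp : Fact p.Prime] {Γ : Type u} {V : Type v} [Group Γ] [Finite Γ]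
  [AddCommGroup V] [DistribMulAction Γ V]

theorem Fpf.isPElt (hf : Fpf p Γ V) {g : Γ} {v : V} (hv : v ≠ 0) (h : g • v = v) : IsPElt p g := by
  have h1 : pPrimePart p g = 1 := by
    by_contra h1
    refine hv (hf _ (isPRegular_iff_coprime.1 (isPRegular_pPrimePart p g)) h1 v ?_)
    exact (zpowers_le.2 (show g ∈ stabilizer Γ v from h)) (piPart_mem_zpowers _ g)
  rw [isPElt_iff_isPiNumber]
  simpa using piPart_eq_one_iff.1 h1

theorem Fpf.isPGroup_stabilizer (hf : Fpf p Γ V) {v : V} (hv : v ≠ 0) :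
    IsPGroup p (stabilizer Γ v) :=
  isPGroup_iff_forall_isPElt.2 fun _ hg => hf.isPElt hv hg

theorem fpf_of_stabilizer (h : ∀ v : V, v ≠ 0 → IsPGroup p (stabilizer Γ v)) : Fpf p Γ V :=
  fun g hg h1 v hv => by
    by_contra h0
    exact h1 ((isPElt_of_mem (h v h0) hv).eq_one_of_isPRegular (isPRegular_iff_coprime.2 hg))

theorem Top.fpf' (h : Top p Γ V) : Fpf p Γ V := fpf_of_stabilizer h.pgrp

theorem Fpf.faith [Nontrivial V] (hf : Fpf p Γ V) (hO : pCore p Γ = ⊥) (g : Γ)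
    (h : ∀ v : V, g • v = v) : g = 1 := by
  obtain ⟨v, hv⟩ := exists_ne (0 : V)
  have h1 : IsPGroup p (toPermHom Γ V).ker :=
    (hf.isPGroup_stabilizer hv).to_le fun a ha => DFunLike.congr_fun (MonoidHom.mem_ker.1 ha) v
  exact (hO ▸ le_pCore h1 :) (show g ∈ (toPermHom Γ V).ker from Equiv.ext h)

theorem Fpf.smul_invol (hf : Fpf p Γ V) (h2 : p ≠ 2) {z : Γ} (hz : z * z = 1) (h1 : z ≠ 1)
    (v : V) : z • v = -v := by
  rw [eq_neg_iff_add_eq_zero]
  refine hf z ?_ h1 _ (by rw [smul_add, smul_smul, hz, one_smul, add_comm])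
  rw [orderOf_eq_two_of_mul_self hz h1]
  exact (Nat.coprime_primes Nat.prime_two hp.out).2 h2.symm

theorem Fpf.uniq_invol (hf : Fpf p Γ V) (h2 : p ≠ 2) (hfa : ∀ g : Γ, (∀ v : V, g • v = v) → g = 1)
    {z : Γ} (hz : z * z = 1) (h1 : z ≠ 1) (u : Γ) (hu : u * u = 1) : u = 1 ∨ u = z := by
  refine or_iff_not_imp_left.2 fun hu1 => ?_
  rw [← inv_eq_of_mul_eq_one_right hz, eq_inv_iff_mul_eq_one]
  exact hfa _ fun v => by rw [mul_smul, hf.smul_invol h2 hz h1, hf.smul_invol h2 hu hu1, neg_neg]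

theorem Fpf.cyc [Finite V] [Nontrivial V] (hf : Fpf p Γ V) {R : Subgroup Γ}
    (hR : ∀ g ∈ R, IsPRegular p g)
    (h : IsMulCommutative R ∨ ∃ r : ℕ, r.Prime ∧ r ≠ 2 ∧ IsPGroup r R) : IsCyclic R := by
  let φ : Γ →* MulAut (Multiplicative V) :=
    { toFun := fun g => AddEquiv.toMultiplicative (DistribMulAction.toAddEquiv V g)
      map_one' := MulEquiv.ext fun v => one_smul Γ v.toAdd
      map_mul' := fun a b => MulEquiv.ext fun v => mul_smul a b v.toAdd }
  exact FreeCyc.isCyclic_of_free (φ.comp R.subtype) (fun x hx v hv =>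
    hf x (isPRegular_iff_coprime.1 (hR x x.2)) (fun e => hx (Subtype.ext e)) v.toAdd hv) h

theorem isPRegular_of_comm (hO : pCore p Γ = ⊥) (Z : Subgroup Γ) [Z.Normal] [IsMulCommutative Z]
    {g : Γ} (hg : g ∈ Z) : IsPRegular p g := fun h =>
  powKer_ne_bot Z (h.trans (Z.orderOf_dvd_natCard hg))
    (pCore_eq_bot_iff.1 hO _ inferInstance (isElementaryAbelian_powKer Z p).isPGroup)

theorem exists_max_comm (Γ : Type u) [Group Γ] [Finite Γ] :
    ∃ Z : Subgroup Γ, Z.Normal ∧ IsMulCommutative Z ∧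
      ∀ E : Subgroup Γ, E.Normal → IsMulCommutative E → Z ≤ E → E = Z := by
  obtain ⟨Z, hZ⟩ := Set.Finite.exists_maximal
    (s := {Z : Subgroup Γ | Z.Normal ∧ IsMulCommutative Z}) (Set.toFinite _)
    ⟨⊥, inferInstance, inferInstance⟩
  exact ⟨Z, hZ.1.1, hZ.1.2, fun E h1 h2 h3 => le_antisymm (hZ.2 ⟨h1, h2⟩ h3) h3⟩

theorem Fpf.exists_selfCent [Finite V] [Nontrivial V] [Group.IsSolvable Γ] (hf : Fpf p Γ V)
    (h2 : p ≠ 2) (hO : pCore p Γ = ⊥) {x : Γ} (hx : IsPElt 2 x) (h8 : x ^ 8 ≠ 1) :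
    ∃ Z : Subgroup Γ, Z.Normal ∧ IsCyclic Z ∧ (∀ g ∈ Z, IsPRegular p g) ∧
      centralizer (Z : Set Γ) = Z ∧ commutator Γ ≤ Z := by
  obtain ⟨Z, hn, hc, hm⟩ := exists_max_comm Γ
  have hr : ∀ g ∈ Z, IsPRegular p g := fun g hg => isPRegular_of_comm hO Z hg
  have hcy := hf.cyc hr (.inl hc)
  suffices h : centralizer (Z : Set Γ) = Z from
    ⟨Z, hn, hcy, hr, h, h ▸ commutator_le_centralizer_of_isCyclic Z⟩
  by_contra hne
  obtain ⟨E, hE, hZE, hEC, hmin⟩ := exists_chief_above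
    (lt_of_le_of_ne (le_centralizer Z) (Ne.symm hne))
  obtain ⟨r, hr', hel⟩ := hmin.exists_isElementaryAbelian
  haveI := Fact.mk hr'
  have hpow : ∀ a ∈ E, a ^ r ∈ Z := fun a ha => by
    rw [← QuotientGroup.eq_one_iff, QuotientGroup.mk_pow]
    exact hel.2 _ (mem_map_of_mem _ ha)
  have hcom : ∀ a ∈ E, ∀ b ∈ E, ⁅a, b⁆ ∈ Z := fun a ha b hb => by
    rw [← QuotientGroup.eq_one_iff, ← QuotientGroup.mk'_apply, map_commutatorElement,
      commutatorElement_eq_one_iff_mul_comm]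
    exact congrArg Subtype.val (hel.1.is_comm.comm
      (⟨_, mem_map_of_mem _ ha⟩ : E.map (QuotientGroup.mk' Z)) ⟨_, mem_map_of_mem _ hb⟩)
  haveI : Group.IsNilpotent E := isNilpotent_of_commutator_commutator
    (commutator_eq_bot_iff_le_centralizer.2 ((commutator_le.2 hcom).trans
      (le_centralizer_iff.1 hEC)))
  have hdec : ∀ a ∈ E, ∃ a' ∈ E ⊓ pCore r Γ, ∃ c ∈ Z, a = a' * c := fun a ha =>
    ⟨pPart r a, ⟨piPart_mem _ ha, mem_pCore_of_mem_isNilpotent hE.isSubnormal (piPart_mem _ ha)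
      (isPElt_pPart r a)⟩, pPrimePart r a, by
        have h1 : pPrimePart r a ∈ zpowers (pPrimePart r a ^ r) :=
          mem_zpowers_pow_iff.2 (isPRegular_iff_coprime.1 (isPRegular_pPrimePart r a)).symm
        refine zpowers_le.2 ?_ h1
        rw [pPrimePart, ← piPart_pow]
        exact piPart_mem _ (hpow a ha), (piPart_mul_piPart_compl _ a).symm⟩
  obtain ⟨a, ha, b, hb, hab⟩ : ∃ a ∈ E ⊓ pCore r Γ, ∃ b ∈ E ⊓ pCore r Γ, a * b ≠ b * a := by
    by_contra hall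
    push Not at hall
    refine hZE.ne' (hm E hE ⟨⟨fun a b => Subtype.ext ?_⟩⟩ hZE.le)
    obtain ⟨a', ha', c, hc', e1⟩ := hdec a a.2
    obtain ⟨b', hb', d, hd', e2⟩ := hdec b b.2
    have e3 := hEC ha'.1 d hd'
    have e4 := hEC hb'.1 c hc'
    have e5 := hEC (hZE.le hc') d hd'
    change (a : Γ) * b = b * a
    rw [e1, e2]
    calc a' * c * (b' * d) = a' * (c * b') * d := by group
      _ = b' * (a' * d) * c := by
          simp only [e4, ← mul_assoc, hall a' ha' b' hb']; rw [mul_assoc, ← e5, ← mul_assoc]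
      _ = b' * d * (a' * c) := by rw [← e3]; group
  have hrp : r ≠ p := by
    rintro rfl
    rw [hO] at ha
    exact hab (by rw [mem_bot.1 ha.2, one_mul, mul_one])
  by_cases hr2 : r = 2
  swap
  · haveI := hf.cyc (R := pCore r Γ) (fun g hg =>
      (isPElt_of_mem (isPGroup_pCore r Γ) hg).isPRegular_of_ne hrp)
      (.inr ⟨r, hr', hr2, isPGroup_pCore r Γ⟩)
    exact hab (congrArg Subtype.val (mul_comm' (⟨a, ha.2⟩ : pCore r Γ) ⟨b, hb.2⟩))
  subst hr2
  obtain ⟨P, hP⟩ := hx.exists_mem_sylow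
  obtain ⟨z, -, hz⟩ := exists_mem_zpowers_orderOf_two (g := x)
    (not_not.1 fun e => h8 (by rw [hx.eq_one_of_isPRegular e, one_pow]))
  obtain ⟨c, hc⟩ := exists_uinv (z := z) P.isPGroup' fun v _ hv => hf.uniq_invol h2 (hf.faith hO)
    (mul_self_of_orderOf_eq_two hz) (BrSuz.ne_one_of_two hz) v hv
  have hxc : x ∈ zpowers c := by
    by_contra h
    exact h8 (by rw [show 8 = 4 * 2 from rfl, pow_mul, hc.pow_four hP h, one_pow])
  obtain ⟨d, hd, hd'⟩ : ∃ d ∈ E ⊓ pCore 2 Γ, d ∉ zpowers c := by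
    by_contra hall
    push Not at hall
    exact hab (comm_zpowers (hall a ha) (hall b hb))
  have hdP := pCore_le_sylow P hd.2
  have e1 : x ^ 2 ∈ E := by
    have := E.mul_mem (hE.conj_mem d hd.1 x) (E.inv_mem hd.1)
    rwa [show x * d * x⁻¹ * d⁻¹ = x * (d * x⁻¹ * d⁻¹) by group,
      hc.inv' hdP hd' (inv_mem hxc), inv_inv, ← sq] at this
  have e2 := hEC hd.1 _ (hpow _ e1)
  have e3 := hc.inv' hdP hd' (pow_mem (pow_mem hxc 2) 2)
  rw [← e2, mul_inv_cancel_right, eq_inv_iff_mul_eq_one] at e3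
  exact h8 (by rw [← e3]; group)

end Cfsg.Gag
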