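import Cfsg.Agent.Gag.EigE

/-!
# Solvable groups in characteristic `3` with a large quaternion subgroup

Such a group, with free `3'`-elements, is not transitive on the nonzero vectors, and not every
vector is fixed by an element outside `O₃`.
-/

set_option autoImplicit false
set_option linter.unusedSectionVars false

namespace Cfsg.Gag

open Subgroup MulAction
open scoped commutatorElement

universe u v

theorem card_comap_le_mul {Γ U : Type*} [Group Γ] [Finite Γ] [Group U] [Finite U] (κ : Γ →* U)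
    (D : Subgroup U) : Nat.card (D.comap κ) ≤ Nat.card κ.ker * Nat.card D := by
  let f : D.comap κ →* D := (κ.comp (D.comap κ).subtype).codRestrict D fun g => g.2
  rw [← f.ker.card_mul_index, index_ker]
  refine Nat.mul_le_mul ?_ (card_le_card_group _)
  exact Nat.card_le_card_of_injective (fun g : f.ker => (⟨g.1.1, congrArg Subtype.val g.2⟩ : κ.ker))
    fun a b e => Subtype.ext (Subtype.ext (congrArg (fun g : κ.ker => g.1) e))

theorem exists_kappa {Γ : Type u} [Group Γ] [Finite Γ] (ζ : Γ) [hn : (zpowers ζ).Normal] :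
    ∃ κ : Γ →* (ZMod (orderOf ζ))ˣ, ∀ g, g * ζ * g⁻¹ = ζ ^ (κ g : ZMod (orderOf ζ)).val := by
  haveI : NeZero (orderOf ζ) := ⟨(orderOf_pos ζ).ne'⟩
  have h1 : ∀ g : Γ, ∃ c : ZMod (orderOf ζ), g * ζ * g⁻¹ = ζ ^ c.val := fun g => by
    obtain ⟨k, hk⟩ := (Submonoid.mem_powers_iff _ _).1
      (mem_powers_iff_mem_zpowers.2 (hn.conj_mem ζ (mem_zpowers ζ) g))
    exact ⟨k, by rw [ZMod.val_natCast, pow_mod_orderOf, hk]⟩
  choose c hc using h1
  have h2 : ∀ a b : ZMod (orderOf ζ), ζ ^ a.val = ζ ^ b.val → a = b := fun a b e =>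
    ZMod.val_injective _ (pow_injOn_Iio_orderOf (ZMod.val_lt _) (ZMod.val_lt _) e)
  let c' : Γ →* ZMod (orderOf ζ) :=
    { toFun := c
      map_one' := h2 _ _ (by
        rw [← hc, ← Nat.cast_one, ZMod.val_natCast, pow_mod_orderOf]; group)
      map_mul' := fun a b => h2 _ _ (by
        rw [← hc, ZMod.val_mul, pow_mod_orderOf, pow_mul, ← hc, conj_pow, ← hc]; group) }
  exact ⟨c'.toHomUnits, hc⟩

variable {Γ : Type u} {V : Type v} [Group Γ] [Finite Γ] [Group.IsSolvable Γ]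
  [AddCommGroup V] [DistribMulAction Γ V] [Finite V] [Nontrivial V]

theorem three_bound (hV : ∀ v : V, 3 • v = 0) (hf : Fpf 3 Γ V) (hO : pCore 3 Γ = ⊥) {x s : Γ}
    (hx : IsPElt 2 x) (h8 : x ^ 8 ≠ 1) (hs : s * x * s⁻¹ = x⁻¹) :
    ∃ d m : ℕ, 9 ^ d * 9 ^ d ≤ Nat.card V ∧ m < 9 ^ d ∧ 0 < d ∧ Nat.card Γ ≤ m * (4 * d) ∧
      {g : Γ | g ^ 3 = 1}.ncard ≤ m * d ∧
      ∀ g : Γ, g ^ 3 = 1 → g ≠ 1 → Nat.card (fixV Γ V (zpowers g)) ^ 3 ≤ Nat.card V := by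
  obtain ⟨Z, hn, hcy, hr, hC, hD⟩ := hf.exists_selfCent (by decide) hO hx h8
  obtain ⟨ζ, rfl⟩ : ∃ ζ : Γ, zpowers ζ = Z := (Subgroup.isCyclic_iff_exists_zpowers_eq_top Z).1 hcy
  haveI : NeZero (orderOf ζ) := ⟨(orderOf_pos ζ).ne'⟩
  have hfZ : ∀ g ∈ zpowers ζ, g ≠ 1 → ∀ v : V, g • v = v → v = 0 := fun g hg =>
    hf g (isPRegular_iff_coprime.1 (hr g hg))
  obtain ⟨Δ, hΔ, hmem⟩ := exists_delta hV hfZ
  obtain ⟨κ, hκ⟩ := exists_kappa ζ
  have hker : κ.ker = zpowers ζ := by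
    refine le_antisymm (fun g hg => hC.le ?_) fun g hg => ?_
    · have := hκ g
      rw [MonoidHom.mem_ker.1 hg, Units.val_one, ← Nat.cast_one, ZMod.val_natCast,
        pow_mod_orderOf, pow_one] at this
      exact mem_cent_zpowers.2 (mul_inv_eq_iff_eq_mul.1 this)
    · refine Units.ext (ZMod.val_injective _ (pow_injOn_Iio_orderOf (x := ζ) (ZMod.val_lt _)
        (ZMod.val_lt _) ?_))
      beta_reduce
      rw [← hκ, Units.val_one, ← Nat.cast_one, ZMod.val_natCast, pow_mod_orderOf, pow_one,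
        comm_zpowers hg (mem_zpowers ζ), mul_inv_cancel_right]
  obtain ⟨y, hy, hy8, hsy⟩ : ∃ y ∈ zpowers ζ, orderOf y = 8 ∧ s * y * s⁻¹ = y⁻¹ := by
    have h1 : x ^ 2 ∈ zpowers ζ := by
      have := hD (commutator_mem_commutator (mem_top x) (mem_top s))
      rwa [commutatorElement_def, show x * s * x⁻¹ * s⁻¹ = x * (s * x * s⁻¹)⁻¹ by group, hs,
        inv_inv, ← sq] at this
    obtain ⟨j, hj⟩ := hx.pow 2
    have h2 : 8 ∣ orderOf (x ^ 2) := by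
      rw [hj]
      refine pow_dvd_pow 2 (show 3 ≤ j from not_lt.1 fun hlt => h8 ?_)
      rw [show 8 = 2 * 4 from rfl, pow_mul, ← orderOf_dvd_iff_pow_eq_one, hj]
      exact pow_dvd_pow 2 (show j ≤ 2 by omega)
    exact ⟨_, pow_mem h1 _, orderOf_pow_orderOf_div (orderOf_pos _).ne' h2,
      conj_eq_inv_of_mem_zpowers hs (pow_mem (npow_mem_zpowers x 2) _)⟩
  have h8m : 8 ∣ orderOf ζ := hy8 ▸ orderOf_dvd_of_mem_zpowers hy
  let u3 : (ZMod (orderOf ζ))ˣ :=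
    ZMod.unitOfCoprime 3 (isPRegular_iff_coprime.1 (hr ζ (mem_zpowers ζ))).symm
  have hu3 : u3 ∈ Δ := hmem _ (.inl (ZMod.coe_unitOfCoprime _ _))
  have hκΔ : ∀ g, κ g ∈ Δ := fun g => hmem _ (.inr ⟨g, hκ g⟩)
  let φ : Δ →* (ZMod 8)ˣ := (ZMod.unitsMap h8m).comp Δ.subtype
  have hφ : ∀ u : Δ, (φ u : ZMod 8) = ((u.1 : ZMod (orderOf ζ)).val : ZMod 8) := fun u => by
    simp [φ, ZMod.unitsMap_val]
  have e3 : (φ ⟨u3, hu3⟩ : ZMod 8) = 3 := by
    rw [hφ, ZMod.coe_unitOfCoprime, ZMod.val_natCast,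
      Nat.mod_eq_of_lt (lt_of_lt_of_le (by decide) (Nat.le_of_dvd (orderOf_pos ζ) h8m))]
    rfl
  have e7 : (φ ⟨κ s, hκΔ s⟩ : ZMod 8) = 7 := by
    obtain ⟨i, rfl⟩ := hy
    beta_reduce at hy8 hsy
    rw [← conj_zpow, hκ, ← zpow_natCast, ← zpow_mul, mul_comm, zpow_mul, zpow_natCast,
      eq_inv_iff_mul_eq_one, ← pow_succ, ← orderOf_dvd_iff_pow_eq_one, hy8,
      ← ZMod.natCast_eq_zero_iff, Nat.cast_succ, ← eq_neg_iff_add_eq_zero] at hsy
    rw [hφ, hsy]; rfl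
  have hsurj : φ.range = ⊤ := by
    refine eq_top_iff.2 fun u _ => ?_
    have : ∀ u : (ZMod 8)ˣ, (u : ZMod 8) = 1 ∨ (u : ZMod 8) = 3 ∨ (u : ZMod 8) = 7 ∨
        (u : ZMod 8) = 3 * 7 := by decide
    rcases this u with h | h | h | h
    · exact ⟨1, Units.ext (by rw [h, map_one, Units.val_one])⟩
    · exact ⟨_, Units.ext (e3.trans h.symm)⟩
    · exact ⟨_, Units.ext (e7.trans h.symm)⟩
    · exact ⟨⟨u3, hu3⟩ * ⟨κ s, hκΔ s⟩, Units.ext (by rw [map_mul, Units.val_mul, e3, e7, h])⟩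
  have hcard : Nat.card Δ = 4 * Nat.card φ.ker := by
    rw [← φ.ker.card_mul_index, index_ker, hsurj, card_top, mul_comm, Nat.card_eq_fintype_card]
    rfl
  have hd := Nat.card_pos (α := φ.ker)
  refine ⟨Nat.card φ.ker, orderOf ζ, ?_, ?_, hd, ?_, ?_, fun g hg h1 => ?_⟩
  · rwa [hcard, pow_mul, show 3 ^ 4 = 9 * 9 from rfl, mul_pow] at hΔ
  · have h1 : (⟨u3, hu3⟩ : Δ) ^ 2 ∈ φ.ker :=
      Units.ext (by rw [map_pow, Units.val_pow_eq_pow_val, e3]; rfl)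
    have h2 := congrArg (fun u : φ.ker => (u.1.1 : ZMod (orderOf ζ)))
      (pow_card_eq_one' (x := (⟨_, h1⟩ : φ.ker)))
    simp only [SubmonoidClass.coe_pow, Units.val_pow_eq_pow_val, OneMemClass.coe_one,
      Units.val_one, u3, ZMod.coe_unitOfCoprime] at h2
    have h3 : 1 < 9 ^ Nat.card φ.ker := Nat.one_lt_pow hd.ne' (by decide)
    have h4 : orderOf ζ ∣ 9 ^ Nat.card φ.ker - 1 := by
      rw [← ZMod.natCast_eq_zero_iff, Nat.cast_sub h3.le, sub_eq_zero, Nat.cast_one, ← h2]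
      norm_num
    have := Nat.le_of_dvd (by omega) h4
    omega
  · have := card_comap_le_mul κ Δ
    rwa [show Δ.comap κ = ⊤ from eq_top_iff.2 fun g _ => hκΔ g, card_top, hker, Nat.card_zpowers,
      hcard] at this
  · have h1 := card_comap_le_mul κ (φ.ker.map Δ.subtype)
    rw [hker, Nat.card_zpowers, card_map_of_injective Δ.subtype_injective] at h1
    refine (Set.ncard_le_ncard (t := ((φ.ker.map Δ.subtype).comap κ : Set Γ)) fun g hg => ?_).trans h1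
    have h2 : ∀ u : (ZMod 8)ˣ, u ^ 3 = 1 → u = 1 := by decide
    refine ⟨⟨κ g, hκΔ g⟩, h2 _ ?_, rfl⟩
    rw [← map_pow, show (⟨κ g, hκΔ g⟩ : Δ) ^ 3 = 1 from Subtype.ext (by
      rw [SubmonoidClass.coe_pow, ← map_pow, (hg : g ^ 3 = 1), map_one]; rfl), map_one]
  · refine card_fix_cube_le hg hfZ (mem_zpowers ζ) fun e => h1 ?_
    have h2 := hr g (hC.le (mem_cent_zpowers.2 e))
    exact (isPElt_iff_pow_eq_one.2 ⟨1, hg⟩).eq_one_of_isPRegular h2

theorem not_trans_three (hV : ∀ v : V, 3 • v = 0) (hf : Fpf 3 Γ V) (hO : pCore 3 Γ = ⊥) {x s : Γ}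
    (hx : IsPElt 2 x) (h8 : x ^ 8 ≠ 1) (hs : s * x * s⁻¹ = x⁻¹) :
    ¬ ∀ v w : V, v ≠ 0 → w ≠ 0 → ∃ g : Γ, g • v = w := fun ht => by
  obtain ⟨d, m, h1, h2, h3, h4, -⟩ := three_bound hV hf hO hx h8 hs
  obtain ⟨v, hv⟩ := exists_ne (0 : V)
  have h5 : ({0}ᶜ : Set V).ncard ≤ Nat.card Γ := by
    rw [← Set.ncard_univ]
    refine (Set.ncard_le_ncard (t := (fun g : Γ => g • v) '' Set.univ) fun w hw => ?_).trans
      (Set.ncard_image_le)
    obtain ⟨g, hg⟩ := ht v w hv hw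
    exact ⟨g, trivial, hg⟩
  have h6 := Set.ncard_add_ncard_compl ({0} : Set V)
  rw [Set.ncard_singleton] at h6
  have h7 : 4 * d ≤ 9 ^ d := by
    have := Nat.lt_two_pow_self (n := d)
    calc 4 * d ≤ 4 ^ d * 2 ^ d := Nat.mul_le_mul (Nat.le_self_pow h3.ne' 4) this.le
      _ ≤ 9 ^ d := by rw [← mul_pow]; exact Nat.pow_le_pow_left (by decide) d
  have h9 : 1 < 9 ^ d := Nat.one_lt_pow h3.ne' (by decide)
  have := Nat.mul_le_mul_left m h7
  nlinarith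

theorem not_cover_three (hV : ∀ v : V, 3 • v = 0) (hf : Fpf 3 Γ V) (hO : pCore 3 Γ = ⊥) {x s : Γ}
    (hx : IsPElt 2 x) (h8 : x ^ 8 ≠ 1) (hs : s * x * s⁻¹ = x⁻¹) :
    ¬ ∀ v : V, v ≠ 0 → ∃ g : Γ, g ≠ 1 ∧ g • v = v := fun hc => by
  classical
  obtain ⟨d, m, h1, h2, h3, -, h4, h5⟩ := three_bound hV hf hO hx h8 hs
  have h6 : ∀ v : V, v ≠ 0 → ∃ g : Γ, (g ^ 3 = 1 ∧ g ≠ 1) ∧ g • v = v := fun v hv => by
    obtain ⟨g, hg, e⟩ := hc v hv
    have h := not_not.1 fun h => hg ((hf.isPElt hv e).eq_one_of_isPRegular h)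
    have h' := orderOf_pow_orderOf_div (orderOf_pos g).ne' h
    refine ⟨_, ⟨h' ▸ pow_orderOf_eq_one _, fun e' => ?_⟩, pow_mem (show g ∈ stabilizer Γ v from e) _⟩
    rw [e', orderOf_one] at h'
    exact absurd h' (by decide)
  have h7 : ∀ v : V, ∃ g : Γ, (g ^ 3 = 1 ∧ g ≠ 1) ∧ g • v = v := fun v => by
    by_cases hv : v = 0
    · obtain ⟨w, hw⟩ := exists_ne (0 : V)
      obtain ⟨g, hg, -⟩ := h6 w hw
      exact ⟨g, hg, by rw [hv, smul_zero]⟩
    · exact h6 v hv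
  choose γ hγ hγ' using h7
  obtain ⟨g, hg, hmax⟩ := Set.exists_max_image {g : Γ | g ^ 3 = 1 ∧ g ≠ 1}
    (fun g => Nat.card (fixV Γ V (zpowers g))) (Set.toFinite _) ⟨γ 0, hγ 0⟩
  cases nonempty_fintype V
  have h9 := Finset.card_le_mul_card_image_of_maps_to (s := Finset.univ) (f := γ)
    (t := {g : Γ | g ^ 3 = 1 ∧ g ≠ 1}.toFinite.toFinset) (fun v _ => by simpa using hγ v)
    (Nat.card (fixV Γ V (zpowers g))) fun b hb => by
      refine le_trans ?_ (hmax b (by simpa using hb))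
      rw [← Set.ncard_coe_finset]
      refine Set.ncard_le_ncard (t := (fixV Γ V (zpowers b) : Set V)) fun v hv => ?_
      have e : γ v = b := by simpa using hv
      exact fun k hk => zpowers_le.2 (show b ∈ stabilizer Γ v from e ▸ hγ' v) hk
  rw [Finset.card_univ, ← Nat.card_eq_fintype_card, ← Set.ncard_eq_toFinset_card] at h9
  have h10 := (h9.trans (Nat.mul_le_mul_left _ ((Set.ncard_le_ncard
    (fun a ha => ha.1)).trans (h4.trans (Nat.mul_le_mul_right d h2.le)))))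
  have h11 := h5 g hg.1 hg.2
  have h12 : d ^ 3 < 9 ^ d := by
    calc d ^ 3 < (2 ^ d) ^ 3 := Nat.pow_lt_pow_left Nat.lt_two_pow_self (by decide)
      _ = 8 ^ d := by rw [← pow_mul, mul_comm, pow_mul]; rfl
      _ ≤ 9 ^ d := Nat.pow_le_pow_left (by decide) d
  generalize Nat.card (fixV Γ V (zpowers g)) = c at h10 h11
  have hpos : 0 < Nat.card V := Nat.card_pos
  generalize Nat.card V = n at *
  generalize 9 ^ d = a at *
  have h13 : n * (n * n) ≤ n * (a ^ 3 * d ^ 3) :=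
    calc n * (n * n) = n ^ 3 := by ring
      _ ≤ (c * (a * d)) ^ 3 := Nat.pow_le_pow_left h10 3
      _ = c ^ 3 * (a ^ 3 * d ^ 3) := by ring
      _ ≤ _ := Nat.mul_le_mul_right _ h11
  have h14 := (Nat.mul_le_mul h1 h1).trans (Nat.le_of_mul_le_mul_left h13 hpos)
  have h15 : a ^ 3 * d ^ 3 < a ^ 3 * a := Nat.mul_lt_mul_of_pos_left h12 (pow_pos (by omega) 3)
  nlinarith

end Cfsg.Gag
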