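import Cfsg.Agent.Gag.ThreeA
import Cfsg.Agent.Gag.EndBas

/-!
# Radical `3`-subgroups with solvable normalizers
-/

set_option autoImplicit false
set_option linter.unusedSectionVars false

namespace Cfsg.Gag

open Subgroup MulAction Cfsg.Agent.FT

universe u v

variable {H : Type u} {V : Type v} [Group H] [Finite H] [AddCommGroup V] [DistribMulAction H V]

theorem exists_act (N : Subgroup H) (W : AddSubgroup V) (h : ∀ g ∈ N, ∀ v ∈ W, g • v ∈ W) :
    ∃ _ : DistribMulAction N W, ∀ (g : N) (v : W), ((g • v : W) : V) = (g : H) • (v : V) :=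
  ⟨{ smul := fun g v => ⟨(g : H) • (v : V), h g g.2 v v.2⟩
     one_smul := fun v => Subtype.ext (one_smul H (v : V))
     mul_smul := fun a b v => Subtype.ext (mul_smul (a : H) (b : H) (v : V))
     smul_zero := fun g => Subtype.ext (smul_zero (g : H))
     smul_add := fun g v w => Subtype.ext (smul_add (g : H) (v : V) (w : V)) }, fun _ _ => rfl⟩

theorem exists_act_quot (K : Subgroup H) [K.Normal] (h : ∀ g ∈ K, ∀ v : V, g • v = v) :
    ∃ _ : DistribMulAction (H ⧸ K) V, ∀ (g : H) (v : V), (g : H ⧸ K) • v = g • v :=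
  ⟨DistribMulAction.compHom V (QuotientGroup.lift K (rho H V).toHomUnits
    fun g hg => Units.ext (AddMonoidHom.ext (h g hg))), fun _ _ => rfl⟩

theorem smul_mem_fixV {B : Subgroup H} {g : H} (hg : g ∈ 𝓝(B)) {v : V} (hv : v ∈ fixV H V B) :
    g • v ∈ fixV H V B := fun k hk => by
  have := hv _ ((mem_normalizer_iff''.1 hg k).1 hk)
  rw [smul_smul, show k * g = g * (g⁻¹ * k * g) by group, mul_smul, this]

variable [Finite V]

theorem three_of_kernel [Nontrivial V] [Group.IsSolvable H] (hV : ∀ v : V, 3 • v = 0)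
    (hf : Fpf 3 H V) (hO : ∀ g ∈ pCore 3 H, ∀ v : V, g • v = v) {x s : H} (hx : IsPElt 2 x)
    (h8 : x ^ 8 ≠ 1) (hs : s * x * s⁻¹ = x⁻¹) :
    (¬ ∀ v w : V, v ≠ 0 → w ≠ 0 → ∃ g : H, g • v = w) ∧
      ¬ ∀ v : V, v ≠ 0 → ∃ g : H, g ∉ pCore 3 H ∧ g • v = v := by
  obtain ⟨_, ha⟩ := exists_act_quot (pCore 3 H) hO
  have hf' : Fpf 3 (H ⧸ pCore 3 H) V := fpf_of_stabilizer fun v hv =>
    isPGroup_iff_forall_isPElt.2 fun g hg => by
      obtain ⟨g, rfl⟩ := QuotientGroup.mk_surjective g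
      exact (hf.isPElt hv ((ha g v).symm.trans hg)).map (QuotientGroup.mk' _)
  have hx' := hx.map (QuotientGroup.mk' (pCore 3 H))
  have h8' : QuotientGroup.mk' (pCore 3 H) x ^ 8 ≠ 1 := fun e => h8 (by
    rw [← map_pow, QuotientGroup.mk'_apply, QuotientGroup.eq_one_iff] at e
    exact (isPElt_of_mem (isPGroup_pCore 3 H) e).eq_one_of_isPRegular
      ((hx.pow 8).isPRegular_of_ne (by decide)))
  have hs' := congrArg (QuotientGroup.mk' (pCore 3 H)) hs
  rw [map_mul, map_mul, map_inv, map_inv] at hs'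
  refine ⟨fun h => not_trans_three hV hf' (pCore_quotient_pCore 3 H) hx' h8' hs' fun v w hv hw => ?_,
    fun h => not_cover_three hV hf' (pCore_quotient_pCore 3 H) hx' h8' hs' fun v hv => ?_⟩
  · obtain ⟨g, hg⟩ := h v w hv hw
    exact ⟨g, (ha g v).trans hg⟩
  · obtain ⟨g, hg, e⟩ := h v hv
    exact ⟨g, fun e' => hg ((QuotientGroup.eq_one_iff g).1 e'), (ha g v).trans e⟩

theorem Top.three (h : Top 3 H V) (hV : ∀ v : V, 3 • v = 0) {N : Subgroup H} [Group.IsSolvable N]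
    (hN : 𝓝(piCoreOf {3} N) ≤ N) {x s : H} (hxN : x ∈ N) (hsN : s ∈ N) (hx : IsPElt 2 x)
    (h8 : x ^ 8 ≠ 1) (hs : s * x * s⁻¹ = x⁻¹) : False := by
  set B := piCoreOf {3} N with hB
  have hBp : IsPGroup 3 B := pgroup_piCoreOf 3 N
  have hmem : ∀ g : N, g ∈ pCore 3 N ↔ (g : H) ∈ B := fun g => by
    rw [pCore_eq_piCore]; exact (mem_map_iff_mem N.subtype_injective).symm
  obtain ⟨_, ha⟩ := exists_act N (fixV H V B) fun g hg v hv =>
    smul_mem_fixV ((piCoreOf_normalOf {3} N).2 hg) hv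
  obtain ⟨v₀, hv₀, hv₀'⟩ := (h.setup hV).exists_fix' hBp
  haveI : Nontrivial (fixV H V B) := ⟨⟨⟨v₀, hv₀'⟩, 0, fun e => hv₀ (congrArg Subtype.val e)⟩⟩
  have hne : ∀ v : fixV H V B, v ≠ 0 → (v : V) ≠ 0 := fun v hv e => hv (Subtype.ext e)
  obtain ⟨h1, h2⟩ := three_of_kernel (H := N) (V := fixV H V B) (fun v => Subtype.ext (hV v))
    (fun g hg h1 v hv => Subtype.ext (h.fpf' g (by rwa [orderOf_coe])
      (fun e => h1 (Subtype.ext e)) v (by rw [← ha, hv])))
    (fun g hg v => Subtype.ext ((ha g v).trans (v.2 _ ((hmem g).1 hg))))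
    (x := ⟨x, hxN⟩) (s := ⟨s, hsN⟩) (by rwa [← isPElt_coe_iff])
    (fun e => h8 (congrArg Subtype.val e)) (Subtype.ext hs)
  have hcard : ∀ v w : V, v ≠ 0 → w ≠ 0 →
      Nat.card (stabilizer H v) = Nat.card (stabilizer H w) := fun v w hv hw => by
    obtain ⟨g, rfl⟩ := h.trans v w hv hw
    rw [stabilizer_smul_eq_stabilizer_map_conj, card_map_of_injective (MulAut.conj g).injective]
  have hle : ∀ v : fixV H V B, B ≤ stabilizer H (v : V) := fun v k hk => v.2 k hk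
  by_cases h0 : B = stabilizer H v₀
  · have hall : ∀ v : fixV H V B, v ≠ 0 → B = stabilizer H (v : V) := fun v hv =>
      eq_of_le_of_card_ge (hle v) (by rw [hcard _ _ (hne v hv) hv₀, ← h0])
    refine h1 fun v w hv hw => ?_
    obtain ⟨g, hg⟩ := h.trans v w (hne v hv) (hne w hw)
    refine ⟨⟨g, hN (mem_normalizer_of_forall_conj_mem fun b hb => ?_)⟩,
      Subtype.ext ((ha _ v).trans hg)⟩
    rw [hall w hw, ← hg, mem_stabilizer_iff, smul_smul, inv_mul_cancel_right, mul_smul, v.2 b hb]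
  · refine h2 fun v hv => ?_
    have hlt : B < stabilizer H (v : V) := lt_of_le_of_ne (hle v) fun e =>
      h0 (eq_of_le_of_card_ge (hle ⟨v₀, hv₀'⟩) (by rw [hcard _ _ hv₀ (hne v hv), ← e]))
    obtain ⟨g, hg, hg'⟩ := SetLike.exists_of_lt
      (lt_inf_normalizer_of_isPGroup (h.pgrp _ (hne v hv)) hlt)
    exact ⟨⟨g, hN hg.2⟩, fun e => hg' ((hmem _).1 e), Subtype.ext ((ha _ v).trans hg.1)⟩

end Cfsg.Gag
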